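import Cfsg.Agent.H22.TriA
import Cfsg.Agent.S0033

/-! Local balance: the abstract part. -/

set_option autoImplicit false

namespace H22

open Subgroup Cfsg

variable {K : Type*} [Group K]

/-- the fixed points of an automorphism -/
abbrev FixA (x : MulAut K) : Subgroup K := MonoidHom.eqLocus x.toMonoidHom (MonoidHom.id K)

theorem mem_FixA {x : MulAut K} {k : K} : k ∈ FixA x ↔ x k = k := Iff.rfl

theorem conj_commute_iff (hZ : center K = ⊥) {x : MulAut K} {k : K} :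
    Commute (MulAut.conj k) x ↔ x k = k := by
  have h1 : x * MulAut.conj k * x⁻¹ = MulAut.conj (x k) := by
    ext g; simp
  rw [Commute, SemiconjBy, eq_comm, ← mul_inv_eq_iff_eq_mul, h1]
  exact (conj_injective_of_center hZ).eq_iff

theorem dvd_card_FixA_iff [Finite K] {p : ℕ} [Fact p.Prime] {x : MulAut K} (hx : orderOf x = p) :
    p ∣ Nat.card (FixA x) ↔ p ∣ Nat.card K := by
  have h1 : IsPGroup p (zpowers x) := IsPGroup.of_card (n := 1) (by simp [hx])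
  have h2 := h1.card_modEq_card_fixedPoints K
  have h3 : Nat.card (MulAction.fixedPoints (zpowers x) K) = Nat.card (FixA x) := by
    refine Nat.card_congr (Equiv.subtypeEquivRight fun k => ⟨fun h => h ⟨x, mem_zpowers x⟩, ?_⟩)
    rintro h ⟨_, n, rfl⟩
    exact MulAction.fixedBy_subset_fixedBy_zpow K x n h
  rw [← h3]
  exact (h2.dvd_iff dvd_rfl).symm

/-- no non-trivial subgroup of order prime to `p` is normal in `L` -/
def NPL (p : ℕ) (L : Subgroup K) : Prop :=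
  ∀ N : Subgroup K, N ≤ L → (∀ l ∈ L, ∀ n ∈ N, l * n * l⁻¹ ∈ N) → (Nat.card N).Coprime p → N = ⊥

/-- the data which force `O_{p'}(C(x)) = 1` -/
def Bal (p : ℕ) (x : MulAut K) : Prop :=
  ∃ S : Set (Subgroup K), (∀ L ∈ S, NPL p L ∧ (∀ l ∈ L, x l = l) ∧
    ∀ k, x k = k → (orderOf k).Coprime p → ∀ l ∈ L, k * l * k⁻¹ ∈ L) ∧
    ∀ y, Commute y x → (orderOf y).Coprime p → (∀ L ∈ S, ∀ l ∈ L, y l = l) → y = 1

variable [Finite K] {p : ℕ} (hZ : center K = ⊥) {A : Subgroup (MulAut K)}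
  (hA : ∀ k, MulAut.conj k ∈ A) {x : MulAut K}
include hZ hA

theorem core_ne_bot (hc : p.Coprime (Nat.card (FixA x))) (hne : FixA x ≠ ⊥) :
    pPrimeCore p ↥(A ⊓ centralizer {x}) ≠ ⊥ := by
  have hm : ∀ k, x k = k → MulAut.conj k ∈ A ⊓ centralizer {x} := fun k hk =>
    ⟨hA k, mem_centralizer_singleton_iff.mpr ((conj_commute_iff hZ).mpr hk)⟩
  let N := (MulAut.conj : K →* _).range.subgroupOf (A ⊓ centralizer {x})
  have h1 : N.Normal := by
    have : (MulAut.conj : K →* _).range.Normal := ⟨by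
      rintro _ ⟨k, rfl⟩ g
      exact ⟨g k, by ext; simp⟩⟩
    infer_instance
  let f : FixA x →* N := (((MulAut.conj : K →* _).comp (FixA x).subtype).codRestrict _
    fun k => hm k k.2).codRestrict N fun k => ⟨k, rfl⟩
  have h2 : Function.Surjective f := by
    rintro ⟨⟨y, h⟩, k, hk⟩
    obtain rfl : MulAut.conj k = y := hk
    exact ⟨⟨k, (conj_commute_iff hZ).mp (mem_centralizer_singleton_iff.mp h.2)⟩, rfl⟩
  have h3 : N ≤ pPrimeCore p _ :=
    le_sSup ⟨h1, (hc.symm.coprime_dvd_left (card_dvd_of_surjective f h2))⟩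
  intro h
  refine hne (eq_bot_iff.mpr fun k hk => ?_)
  have := h3 (f ⟨k, hk⟩).2
  rw [h, mem_bot, Subtype.ext_iff] at this
  exact conj_injective_of_center hZ (this.trans (map_one _).symm)

theorem Bal.core_eq_bot (h : Bal p x) : pPrimeCore p ↥(A ⊓ centralizer {x}) = ⊥ := by
  obtain ⟨S, hS, hc⟩ := h
  have hi := conj_injective_of_center hZ
  have hm : ∀ k, x k = k → MulAut.conj k ∈ A ⊓ centralizer {x} := fun k hk =>
    ⟨hA k, mem_centralizer_singleton_iff.mpr ((conj_commute_iff hZ).mpr hk)⟩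
  refine sSup_eq_bot.mpr ?_
  rintro N ⟨hN, hp⟩
  set N₁ := N.map (A ⊓ centralizer {x}).subtype
  have a1 : (Nat.card N₁).Coprime p := by rwa [card_map_of_injective (subtype_injective _)]
  have a2 : ∀ y ∈ N₁, Commute y x := by
    rintro _ ⟨y, -, rfl⟩
    exact mem_centralizer_singleton_iff.mp y.2.2
  have a3 : ∀ y ∈ N₁, ∀ l, x l = l → MulAut.conj l * y * (MulAut.conj l)⁻¹ ∈ N₁ := by
    rintro _ ⟨y, hy, rfl⟩ l hl
    exact ⟨_, hN.conj_mem y hy ⟨_, hm l hl⟩, rfl⟩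
  have a4 : ∀ y ∈ N₁, (orderOf y).Coprime p := fun y hy =>
    a1.coprime_dvd_left (orderOf_dvd_natCard _ hy)
  have a5 : ∀ y ∈ N₁, ∀ l, x l = l → MulAut.conj (y l * l⁻¹) ∈ N₁ := fun y hy l hl => by
    have := mul_mem hy (a3 _ (inv_mem hy) l hl)
    convert this using 1
    ext; simp [mul_assoc]
  have a6 : ∀ k, MulAut.conj k ∈ N₁ → k = 1 := fun k hk => by
    refine hi ((hc _ (a2 _ hk) (a4 _ hk) fun L hL l hl => ?_).trans (map_one _).symm)
    obtain ⟨b1, b2, b3⟩ := hS L hL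
    have b4 := b1 (N₁.comap MulAut.conj ⊓ L) inf_le_right (fun l hl n hn =>
      ⟨by simpa using a3 _ hn.1 l (b2 l hl), L.mul_mem (L.mul_mem hl hn.2) (L.inv_mem hl)⟩)
      (a1.coprime_dvd_left ((card_dvd_of_le inf_le_left).trans (card_comap_dvd_of_injective _ _ hi)))
    have b5 : MulAut.conj k l * l⁻¹ ∈ N₁.comap MulAut.conj ⊓ L := ⟨a5 _ hk l (b2 l hl),
      L.mul_mem (b3 k ((conj_commute_iff hZ).mp (a2 _ hk))
        (by simpa [orderOf_injective _ hi] using a4 _ hk) l hl) (L.inv_mem hl)⟩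
    rwa [b4, mem_bot, mul_inv_eq_one] at b5
  refine eq_bot_iff.mpr fun y hy => Subtype.ext ?_
  have b1 : y.1 ∈ N₁ := ⟨y, hy, rfl⟩
  exact hc _ (a2 _ b1) (a4 _ b1) fun L hL l hl =>
    mul_inv_eq_one.mp (a6 _ (a5 _ b1 l ((hS L hL).2.1 l hl)))

theorem balance_iff [Nontrivial K] [Fact p.Prime] (hx : orderOf x = p) {P : Prop}
    (h1 : ¬ p ∣ Nat.card K → P) (h2 : p ∣ Nat.card K → Bal p x) :
    pPrimeCore p ↥(A ⊓ centralizer {x}) ≠ ⊥ ↔ P ∧ p.Coprime (Nat.card (FixA x)) := by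
  have hp : p.Prime := Fact.out
  refine ⟨fun h => ?_, fun h => core_ne_bot hZ hA h.2 fun h0 => ?_⟩
  · have h3 : ¬ p ∣ Nat.card K := fun h3 => h ((h2 h3).core_eq_bot hZ hA)
    exact ⟨h1 h3, hp.coprime_iff_not_dvd.mpr (mt (dvd_card_FixA_iff hx).mp h3)⟩
  · have := Cfsg.Agent.S0033.result x (fun k hk => by
      have : k ∈ FixA x := hk
      rwa [h0] at this) p hp hx
    exact (Group.IsNilpotent.center_ne_bot K) hZ

omit hZ hA [Finite K]

/-- `O_{p'}(G) = 1` -/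
def NP (p : ℕ) (G : Type*) [Group G] : Prop :=
  ∀ N : Subgroup G, N.Normal → (Nat.card N).Coprime p → N = ⊥

variable {G K₀ : Type*} [Group G] [Group K₀]

theorem NP.npl (h : NP p K₀) {φ : K₀ →* K} (hφ : Function.Injective φ) : NPL p φ.range := by
  intro N h1 h2 h3
  have := h (N.comap φ) ⟨fun n hn g => by simpa using h2 _ ⟨g, rfl⟩ _ hn⟩
    (h3.coprime_dvd_left (card_comap_dvd_of_injective _ _ hφ))
  rw [← map_comap_eq_self h1, this, Subgroup.map_bot]

theorem NP.congr (h : NP p K₀) (e : K₀ ≃* G) : NP p G := fun N hN hc =>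
  h.npl (φ := (e : K₀ →* G)) e.injective N (fun n _ => e.surjective n)
    (fun l _ n hn => hN.conj_mem n hn l) hc

theorem np_of_simple [IsSimpleGroup G] (hp : p.Prime) (h : p ∣ Nat.card G) : NP p G :=
  fun N hN hc => (hN.eq_bot_or_eq_top).resolve_right fun h1 => by
    rw [h1, card_top] at hc
    exact hp.coprime_iff_not_dvd.mp hc.symm h

theorem np_of_quasi {X : Type*} [MulAction G X] [MulAction.IsQuasiPreprimitive G X] [Finite G]
    {ℓ : ℕ} [Fact ℓ.Prime] (T : X → Subgroup G) (hT : ∀ x, IsPGroup ℓ (T x))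
    (hc : ∀ g x, ∀ a ∈ T x, g * a * g⁻¹ ∈ T (g • x)) (hg : ⨆ x, T x = ⊤)
    (hker : ∀ g : G, (∀ x : X, g • x = x) → g ∈ center G) (hp : p.Prime) (hpl : p ≠ ℓ)
    (hd : p ∣ Nat.card (G ⧸ center G)) : NP p (G ⧸ center G) := by
  intro N' hN' hcop
  by_contra h0
  obtain ⟨⟨n, hn⟩, hn1⟩ := ne_bot_iff_exists_ne_one.mp h0
  obtain ⟨n, rfl⟩ := QuotientGroup.mk_surjective n
  set N := N'.comap (QuotientGroup.mk' (center G))
  obtain ⟨x₀, hx⟩ : ∃ x : X, n • x ≠ x := by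
    by_contra! h
    exact hn1 (Subtype.ext ((QuotientGroup.eq_one_iff _).mpr (hker n h)))
  have h1 : MulAction.IsPretransitive N X :=
    MulAction.IsQuasiPreprimitive.isPretransitive_of_normal fun h =>
      hx ((h ▸ Set.mem_univ x₀ : x₀ ∈ MulAction.fixedPoints N X) ⟨n, hn⟩)
  have h2 : Function.Surjective ((QuotientGroup.mk' N).comp (T x₀).subtype) := by
    rw [← MonoidHom.range_eq_top, MonoidHom.range_comp, range_subtype, eq_top_iff,
      ← map_top_of_surjective _ (QuotientGroup.mk'_surjective N), ← hg, map_le_iff_le_comap]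
    refine iSup_le fun x a ha => ?_
    obtain ⟨k, rfl⟩ := h1.exists_smul_eq x x₀
    refine ⟨_, hc k.1 x a ha, ?_⟩
    simp [(QuotientGroup.eq_one_iff k.1).mpr k.2]
  obtain ⟨a, ha⟩ := IsPGroup.iff_card.mp ((hT x₀).of_surjective _ h2)
  have h3 : N'.index = ℓ ^ a := by
    rw [← ha, ← index_comap_of_surjective _ (QuotientGroup.mk'_surjective _)]; rfl
  rw [← N'.card_mul_index, h3, hp.dvd_mul] at hd
  exact hd.elim (hp.coprime_iff_not_dvd.mp hcop.symm) fun h =>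
    hpl ((Nat.prime_dvd_prime_iff_eq hp Fact.out).mp (hp.dvd_of_dvd_pow h))

/-- the elements of `R` which commute with `x` restrict to elements of `R₀` -/
def Desc (R : Subgroup (MulAut K)) (x : MulAut K) (φ : K₀ →* K) (R₀ : Subgroup (MulAut K₀)) :
    Prop :=
  Function.Injective φ ∧ (∀ s, x (φ s) = φ s) ∧ ∀ y ∈ R, Commute y x →
    ∃ y₀ ∈ R₀, (∀ s, y (φ s) = φ (y₀ s)) ∧ (y₀ = 1 → y ∈ zpowers x)

variable {R : Subgroup (MulAut K)} {φ : K₀ →* K} {R₀ : Subgroup (MulAut K₀)}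

theorem Desc.bal [Finite K] (h : Desc R x φ R₀) (hZ : center K = ⊥) (hx : orderOf x = p)
    (hR : ∀ k, MulAut.conj k ∈ R) (h1 : NP p K₀)
    (h2 : ∀ y, Commute y x → (orderOf y).Coprime p → (∀ s, y (φ s) = φ s) → y ∈ R) :
    Bal p x := by
  refine ⟨{φ.range}, ?_, fun y hy hc h3 => ?_⟩
  · rintro _ rfl
    refine ⟨h1.npl h.1, by rintro _ ⟨s, rfl⟩; exact h.2.1 s, ?_⟩
    rintro k hk - _ ⟨s, rfl⟩
    obtain ⟨y₀, -, h3, -⟩ := h.2.2 _ (hR k) ((conj_commute_iff hZ).mpr hk)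
    exact ⟨_, (h3 s).symm⟩
  · have h4 : ∀ s, y (φ s) = φ s := fun s => h3 _ rfl _ ⟨s, rfl⟩
    obtain ⟨y₀, -, h5, h6⟩ := h.2.2 y (h2 y hy hc h4) hy
    have h7 := orderOf_dvd_of_mem_zpowers (h6 (by ext s; exact h.1 ((h5 s).symm.trans (h4 s))))
    rw [hx] at h7
    exact orderOf_eq_one_iff.mp (hc.eq_one_of_dvd h7)

theorem Desc.not_fix (h : Desc R x φ R₀) {τ : MulAut K} {τ₀ : MulAut K₀} (h1 : Commute τ x)
    (h2 : ∀ s, τ (φ s) = φ (τ₀ s)) (h3 : τ₀ ∉ R₀) {y : MulAut K} (hy : Commute y x)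
    (h4 : τ * y ∈ R) : ¬ ∀ s, y (φ s) = φ s := fun h5 => by
  obtain ⟨y₀, a1, a2, -⟩ := h.2.2 _ h4 (h1.mul_left hy)
  refine h3 ((?_ : y₀ = τ₀) ▸ a1)
  ext s
  exact h.1 (by rw [← a2, ← h2, MulAut.mul_apply, h5])

theorem mem_of_odd_index_two {y : G} {H : Subgroup G} [Finite G] (h : ∀ g, g * g ∈ H)
    (hy : (orderOf y).Coprime 2) : y ∈ H := by
  obtain ⟨n, hn⟩ := exists_pow_eq_self_of_coprime hy.symm
  rw [← hn, sq]
  exact pow_mem (h y) n

theorem Bal.of_conj [Finite K] (α : MulAut K) (h : Bal p (α * x * α⁻¹)) : Bal p x := by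
  obtain ⟨S, h1, h2⟩ := h
  refine ⟨{L | L.map α.toMonoidHom ∈ S}, fun L hL => ?_, fun y hy hc h3 => ?_⟩
  · obtain ⟨a1, a2, a3⟩ := h1 _ hL
    refine ⟨fun N b1 b2 b3 => ?_, fun l hl => by simpa using a2 _ ⟨l, hl, rfl⟩,
      fun k hk hc l hl => ?_⟩
    · refine (map_eq_bot_iff_of_injective N α.injective).mp (a1 _ (map_mono b1) ?_
        (by rwa [card_map_of_injective α.injective]))
      rintro _ ⟨l, hl, rfl⟩ _ ⟨n, hn, rfl⟩
      exact ⟨_, b2 l hl n hn, by simp⟩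
    · obtain ⟨l', b1, b2⟩ := a3 (α k) (by simp [hk]) (by simpa using hc) _ ⟨l, hl, rfl⟩
      exact (α.injective (by simpa using b2) : l' = k * l * k⁻¹) ▸ b1
  · have := h2 (α * y * α⁻¹) (by
      simp only [Commute, SemiconjBy, mul_assoc, inv_mul_cancel_left, mul_right_inj]
      rw [← mul_assoc, hy.eq, mul_assoc]) (by rwa [orderOf_conj']) fun L hL l hl => by
        have := h3 (L.comap α.toMonoidHom) (by
          rwa [Set.mem_ofPred_eq, map_comap_eq_self_of_surjective α.surjective])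
          (α⁻¹ l) (by simpa using hl)
        rw [MulAut.mul_apply, MulAut.mul_apply, this, MulAut.apply_inv_self]
    simpa using this

end H22
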