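import Cfsg.Agent.H22.BalA
import Cfsg.Agent.H22.IsoF

/-! Local balance: descent to the fixed field. -/

set_option autoImplicit false

namespace H22

open Module H23 H23.Form Matrix Cfsg Subgroup

variable {F₀ F V : Type*} [Field F₀] [Field F] [AddCommGroup V] [Module F V]

theorem mem_zpowers_of_fix [Finite F] {θ θ' : F ≃+* F} (h : ∀ c, θ c = c → θ' c = c) :
    θ' ∈ zpowers θ := by
  have : Finite (F ≃+* F) := Finite.of_injective _ DFunLike.coe_injective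
  obtain ⟨g, hg⟩ := FixedPoints.toAlgAut_surjective (zpowers θ) F
    (AlgEquiv.ofRingEquiv (f := θ') fun c => h c.1 (c.2 ⟨θ, mem_zpowers θ⟩))
  exact (RingEquiv.ext fun c => DFunLike.congr_fun hg c : g.1 = θ') ▸ g.2

variable {ι : Type} [Fintype ι] [DecidableEq ι] {j : F₀ →+* F} {e : (ι → F) ≃ₗ[F] V}

variable (j e) in
/-- base change of linear maps -/
noncomputable def bcL : ((ι → F₀) ≃ₗ[F₀] (ι → F₀)) →* (V ≃ₗ[F] V) :=
  (ratLin j e).comp glEquiv.symm.toMonoidHom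

theorem bcL_rat (g : (ι → F₀) ≃ₗ[F₀] (ι → F₀)) (x : ι → F₀) :
    bcL j e g (e (j ∘ x)) = e (j ∘ g x) := ratLin_symm e g x

theorem bcL_scal_iff [Nonempty ι] (g : (ι → F₀) ≃ₗ[F₀] (ι → F₀)) :
    (∃ c : F, ∀ v, bcL j e g v = c • v) ↔ ∃ c : F₀, ∀ v, g v = c • v := by
  refine ⟨fun ⟨c, hc⟩ => ?_, fun ⟨c, hc⟩ => ⟨j c, fun v => ?_⟩⟩
  · have h1 : ∀ x i, j (g x i) = c * j (x i) := fun x i => by
      have := hc (e (j ∘ x))
      rw [bcL_rat, ← map_smul, e.injective.eq_iff] at this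
      exact congrFun this i
    obtain ⟨i⟩ := ‹Nonempty ι›
    refine ⟨g (Pi.single i 1) i, fun x => funext fun k => j.injective ?_⟩
    simp [h1]
  · obtain ⟨i⟩ := ‹Nonempty ι›
    have h0 : c ≠ 0 := by
      rintro rfl
      simpa using congrFun (g.map_eq_zero_iff.mp ((hc (Pi.single i 1)).trans (zero_smul _ _))) i
    have : bcL j e g = DistribMulAction.toModuleAut F V (Units.mk0 (j c) (by simpa using h0)) :=
      ext_rat (e := e) (j := j) fun x => by simp [bcL_rat, hc, comp_smul', Units.smul_def]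
    simp [this, Units.smul_def]

/-- `a` restricts to `a₀` on the rational vectors -/
def Cpt (j : F₀ →+* F) (e : (ι → F) ≃ₗ[F] V) (a : GamL F V) (a₀ : GamL F₀ (ι → F₀)) : Prop :=
  (∀ c, j (a₀.θ c) = a.θ (j c)) ∧ ∀ v, a.ψ (e (j ∘ v)) = e (j ∘ a₀.ψ v)

omit [DecidableEq ι] in
theorem Std.exists_cpt [Finite F] {x a : GamL F V} (h : Std x e)
    (hj : ∀ c, c ∈ j.range ↔ x.θ c = c) (hc : Commute a x) : ∃ a₀, Cpt j e a a₀ := by
  have := Finite.of_injective j j.injective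
  have hi : ∀ {v w : ι → F₀}, e (j ∘ v) = e (j ∘ w) → v = w := fun h =>
    funext fun i => j.injective (congrFun (e.injective h) i)
  choose t ht using fun c => (hj (a.θ (j c))).mpr (by
    have := DFunLike.congr_fun (congrArg GamL.θ hc.eq) (j c)
    simp only [GamL.mul_θ, RingAut.mul_apply, (hj _).mp ⟨c, rfl⟩] at this
    exact this.symm)
  choose f hf using fun v => h.exists_rat hj (v := a.ψ (e (j ∘ v))) (by
    rw [← GamL.mul_ψ, ← hc.eq, GamL.mul_ψ, h.fix hj])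
  let θ₀ : F₀ →+* F₀ := ⟨⟨⟨t, j.injective (by simp [ht])⟩, fun a b => j.injective (by simp [ht])⟩,
    j.injective (by simp [ht]), fun a b => j.injective (by simp [ht])⟩
  let ψ₀ : (ι → F₀) →+ (ι → F₀) := AddMonoidHom.mk' f fun v w => hi (by
    rw [← hf, comp_add', comp_add', map_add, map_add, map_add, ← hf, ← hf])
  refine ⟨⟨AddEquiv.ofBijective ψ₀ (Finite.injective_iff_bijective.mp fun v w h => hi
    (a.ψ.injective ((hf v).trans ((congrArg (fun u => e (j ∘ u)) h).trans (hf w).symm)))),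
    toRingEquiv θ₀, fun c v => hi ?_⟩, ht, hf⟩
  change e (j ∘ f _) = e (j ∘ (t c • f v))
  rw [← hf, comp_smul', comp_smul', e.map_smul, e.map_smul, a.map_smul, ← hf, ht]

theorem Cpt.slAut_bcL {a : GamL F V} {a₀ : GamL F₀ (ι → F₀)} (h : Cpt j e a a₀)
    (g : (ι → F₀) ≃ₗ[F₀] (ι → F₀)) : slAut a (bcL j e g) = bcL j e (slAut a₀ g) :=
  ext_rat (e := e) (j := j) fun x => by
    obtain ⟨y, rfl⟩ := a₀.ψ.surjective x
    rw [bcL_rat, ← h.2, slAut_apply', slAut_apply', bcL_rat, h.2]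

theorem Cpt.eq_of_scal [Finite F] [Nonempty ι] {x a : GamL F V} {a₀ : GamL F₀ (ι → F₀)}
    (h : Cpt j e a a₀) (he : Std x e) (hj : ∀ c, c ∈ j.range ↔ x.θ c = c)
    (h0 : a₀ ∈ (scalHom _ : F₀ˣ →* _).range) : ∃ (c : Fˣ) (i : ℤ), a = scalHom V c * x ^ i := by
  obtain ⟨c, rfl⟩ := h0
  obtain ⟨i, hi⟩ := mem_zpowers_of_fix (θ := x.θ) (θ' := a.θ) fun c hc => by
    obtain ⟨c, rfl⟩ := (hj c).mpr hc
    exact (h.1 c).symm
  obtain ⟨g, hg⟩ := (mem_range_linHom (a := a * (x ^ i)⁻¹)).mpr (by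
    have : (x ^ i).θ = a.θ := (map_zpow (thetaHom F V) x i).trans hi
    simp [this])
  have h1 : ∀ v, (x ^ i).ψ (e (j ∘ v)) = e (j ∘ v) := fun v =>
    Subgroup.zpow_mem (⟨⟨⟨{y : GamL F V | y.ψ (e (j ∘ v)) = e (j ∘ v)}, fun {a b} ha hb => by
      simp only [Set.mem_ofPred_eq, GamL.mul_ψ] at *; rw [hb, ha]⟩, rfl⟩, fun {a} ha => by
      simp only [Set.mem_ofPred_eq] at *; nth_rw 1 [← ha, GamL.inv_ψ_ψ]⟩) (he.fix hj v) i
  refine ⟨Units.map (j : F₀ →* F) c, i, ?_⟩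
  have h2 : g = DistribMulAction.toModuleAut F V (Units.map (j : F₀ →* F) c) :=
    ext_rat (e := e) (j := j) fun v => by
      rw [← linHom_ψ, hg, GamL.mul_ψ, ← h1 v, GamL.inv_ψ_ψ, h.2, h1]
      simp [Units.smul_def, comp_smul']
  rw [← mul_inv_eq_iff_eq_mul, ← hg, h2]; rfl

theorem Cpt.mem_GamO {τ₀ : F₀ →+* F₀} {τ : F →+* F} {Φ : Form τ V} {Ψ₀ : Form τ₀ (ι → F₀)}
    [Nonempty ι] (h₀ : Ψ₀.Nondeg) {l : F} (hl : l ≠ 0)
    (hB : ∀ v w, Φ.B (e (j ∘ v)) (e (j ∘ w)) = l * j (Ψ₀.B v w))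
    (hQ : (∀ v, Φ.Q (e (j ∘ v)) = l * j (Ψ₀.Q v)) ∨ ∃ c, (∀ θ : F₀ ≃+* F₀, θ c = c) ∧
      ∀ v, Ψ₀.Q v = c * Ψ₀.B v v) {a : GamL F V} {a₀ : GamL F₀ (ι → F₀)}
    (h : Cpt j e a a₀) (ha : a ∈ GamO Φ) : a₀ ∈ GamO Ψ₀ := by
  obtain ⟨k, hk⟩ := ha
  have h1 : ∀ v w, j (Ψ₀.B (a₀.ψ v) (a₀.ψ w)) = k * a.θ l / l * j (a₀.θ (Ψ₀.B v w)) := by
    intro v w
    have := hk.B (e (j ∘ v)) (e (j ∘ w))
    rw [h.2, h.2, hB, hB, map_mul, ← h.1] at this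
    field_simp
    linear_combination this
  obtain ⟨v, hv⟩ := exists_ne (0 : ι → F₀)
  obtain ⟨w, hw⟩ := not_forall.mp (mt (h₀ v) hv)
  have h2 : j (Ψ₀.B (a₀.ψ v) (a₀.ψ w) / a₀.θ (Ψ₀.B v w)) = k * a.θ l / l := by
    rw [map_div₀, h1, mul_div_cancel_right₀ _ (by simpa using hw)]
  generalize Ψ₀.B (a₀.ψ v) (a₀.ψ w) / a₀.θ (Ψ₀.B v w) = k₀ at h2
  have h3 : ∀ v w, Ψ₀.B (a₀.ψ v) (a₀.ψ w) = k₀ * a₀.θ (Ψ₀.B v w) := fun v w =>
    j.injective (by rw [h1, map_mul, h2])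
  refine ⟨k₀, ?_, a₀.sl, h3, fun v => ?_⟩
  · rintro rfl
    exact div_ne_zero (mul_ne_zero hk.ne (by simpa using hl)) hl (by simpa using h2.symm)
  · rcases hQ with hQ | ⟨c, hc, hQ⟩
    · have := hk.Q (e (j ∘ v))
      rw [h.2, hQ, hQ, map_mul, ← h.1] at this
      refine j.injective ?_
      rw [map_mul, h2]
      field_simp
      linear_combination this
    · rw [hQ, hQ, h3, map_mul, hc]; ring

variable {M M₀ : Type*} [Group M] [Group M₀]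

theorem Norms.mem_center_iff [Nontrivial V] {r : M →* (V ≃ₗ[F] V)} {Δ : Subgroup (GamL F V)}
    (h : Norms r Δ) (hM : ∀ s, linHom (r s) ∈ Δ)
    (hker : ∀ a, h.ind a = 1 → a.1 ∈ (scalHom V : Fˣ →* _).range) {s : M} :
    s ∈ center M ↔ ∃ c : F, ∀ v, r s v = c • v := by
  refine ⟨fun hs => H22.mem_range_scalHom.mp (hker ⟨_, hM s⟩ (by
    rw [h.ind_linHom, (QuotientGroup.eq_one_iff _).mpr hs, map_one])), fun ⟨c, hc⟩ =>
      Subgroup.mem_center_iff.mpr fun t => h.inj (LinearEquiv.ext fun v => by simp [hc])⟩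

theorem exists_lift_range {G H : Type*} [Group G] [Group H] {r : G →* H}
    (hr : Function.Injective r) (f : M₀ →* H) (hf : ∀ s, f s ∈ r.range) :
    ∃ i : M₀ →* G, ∀ s, r (i s) = f s :=
  ⟨(MonoidHom.ofInjective hr).symm.toMonoidHom.comp (f.codRestrict _ hf), fun s =>
    MonoidHom.apply_ofInjective_symm hr ⟨_, hf s⟩⟩

theorem exists_quot_hom (i : M₀ →* M) (h : ∀ s, i s ∈ center M ↔ s ∈ center M₀) :
    ∃ φ : M₀ ⧸ center M₀ →* M ⧸ center M, Function.Injective φ ∧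
      ∀ s, φ (QuotientGroup.mk s) = QuotientGroup.mk (i s) := by
  refine ⟨QuotientGroup.map _ _ i fun s hs => (h s).mpr hs,
    (injective_iff_map_eq_one _).mpr fun s hs => ?_, fun _ => rfl⟩
  obtain ⟨s, rfl⟩ := QuotientGroup.mk_surjective s
  exact (QuotientGroup.eq_one_iff _).mpr ((h s).mp ((QuotientGroup.eq_one_iff _).mp hs))

theorem Norms.desc [Finite F] [Nonempty ι] {r : M →* (V ≃ₗ[F] V)} {Δ : Subgroup (GamL F V)}
    (h : Norms r Δ) (hM : ∀ s, linHom (r s) ∈ Δ)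
    (hker : ∀ a, h.ind a = 1 → a.1 ∈ (scalHom V : Fˣ →* _).range) (hs : ∀ c, scalHom V c ∈ Δ)
    {r₀ : M₀ →* ((ι → F₀) ≃ₗ[F₀] (ι → F₀))} {Δ₀ : Subgroup (GamL F₀ (ι → F₀))}
    (h₀ : Norms r₀ Δ₀) (hM₀ : ∀ s, linHom (r₀ s) ∈ Δ₀)
    (hker₀ : ∀ a, h₀.ind a = 1 → a.1 ∈ (scalHom _ : F₀ˣ →* _).range) {x : Δ} {n : ℕ} (hn : 0 < n)
    (hx : x.1 ^ n = 1) (hθ : orderOf x.1.θ = n) (he : Std x.1 e)
    (hj : ∀ c, c ∈ j.range ↔ x.1.θ c = c) (hr : ∀ s, bcL j e (r₀ s) ∈ r.range)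
    (hΔ : ∀ a ∈ Δ, ∀ a₀, Cpt j e a a₀ → a₀ ∈ Δ₀) :
    ∃ φ : M₀ ⧸ center M₀ →* M ⧸ center M, Desc h.ind.range (h.ind x) φ h₀.ind.range ∧
      ∀ s s', r s' = bcL j e (r₀ s) → φ (QuotientGroup.mk s) = QuotientGroup.mk s' := by
  have : Nontrivial V := e.symm.toEquiv.nontrivial
  obtain ⟨i, hi⟩ := exists_lift_range h.inj ((bcL j e).comp r₀) hr
  obtain ⟨φ, h1, h2⟩ := exists_quot_hom i fun s => by
    rw [h.mem_center_iff hM hker, h₀.mem_center_iff hM₀ hker₀, hi]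
    exact bcL_scal_iff _
  refine ⟨φ, ⟨h1, fun s => ?_, ?_⟩, fun s s' hs => by rw [h2, h.inj (hs.trans (hi s).symm)]⟩
  · obtain ⟨s, rfl⟩ := QuotientGroup.mk_surjective s
    rw [h2]
    refine h.ind_mk x (linHom_injective ?_)
    rw [linHom_slAut, hi, eq_mul_inv_iff_mul_eq]
    exact ((he.mem_range_ratLin hj).mp ⟨_, rfl⟩).eq
  · rintro _ ⟨a, rfl⟩ hc
    obtain ⟨c, h3⟩ := (h.ind_eq_iff hker hs (a := a * x * a⁻¹) (b := x)).mp (by
      rw [map_mul, map_mul, hc.eq, map_inv, mul_inv_cancel_right])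
    obtain ⟨μ, h4⟩ := exists_scal_commute hn hθ hx h3
    obtain ⟨a₀, h5⟩ := he.exists_cpt hj h4
    have h6 : h.ind a = h.ind ⟨_, mul_mem (hs μ) a.2⟩ := ((h.ind_eq_iff hker hs).mpr ⟨μ, rfl⟩).symm
    rw [h6]
    refine ⟨_, ⟨⟨a₀, hΔ _ (mul_mem (hs μ) a.2) _ h5⟩, rfl⟩, fun s => ?_, fun h7 => ?_⟩
    · obtain ⟨s, rfl⟩ := QuotientGroup.mk_surjective s
      rw [h₀.ind_mk _ (h₀.r_mAut _ s), h2, h2]
      exact h.ind_mk _ (by rw [hi, hi, MonoidHom.comp_apply, MonoidHom.comp_apply, h5.slAut_bcL,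
        h₀.r_mAut])
    · obtain ⟨d, k, h8⟩ := h5.eq_of_scal he hj (hker₀ _ h7)
      exact ⟨k, (map_zpow _ _ _).symm.trans ((h.ind_eq_iff hker hs).mpr ⟨d, h8⟩).symm⟩

section Np

variable [FiniteDimensional F V] [Finite F] {σ : F →+* F} {Φ : Form σ V} {hΦ : Φ.Nondeg}
  {ℓ p : ℕ} [Fact ℓ.Prime] [CharP F ℓ]

theorem np_O (hΦ : Φ.Nondeg) (hR : Rich Φ) (hex : ∃ e, Sing Φ e ∧ e ≠ 0) (G : Subgroup Φ.O)
    (hG : ∀ g ∈ eichSet hΦ, g ∈ G) {S : Set Φ.O} (h1 : G = closure S)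
    (h2 : ∀ g ∈ S, ∃ P, g ∈ radT P) (hp : p.Prime) (hpl : p ≠ ℓ)
    (hd : p ∣ Nat.card (G ⧸ center G)) : NP p (G ⧸ center G) := by
  have := quasiPreprimitive_pt hΦ hR hex G hG
  have : Finite V := Module.finite_of_finite F
  have := finite_linearEquiv (F := F) (V := V)
  refine np_of_quasi (X := Pt Φ) (ℓ := ℓ) (fun P => (radT P).subgroupOf G)
    (fun P => (isPGroup_radX ℓ P.1).comap_subtype) (fun g P a ha => radT_conj g.1 P a.1 ha) ?_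
    (fun g hg => ?_) hp hpl hd
  · subst h1
    rw [eq_top_iff, ← closure_closure_coe_preimage, closure_le]
    intro g hg
    obtain ⟨P, hP⟩ := h2 g hg
    exact le_iSup (fun P => (radT P).subgroupOf (closure S)) P hP
  · obtain ⟨e, he, he0⟩ := hex
    obtain ⟨f, hf⟩ := exists_hyp hΦ he he0
    obtain ⟨a, ha⟩ := scalar_of_fix_points hf (hR.exists_sing hf) g.1 (fun u hu => by
      by_cases h0 : u = 0
      · exact ⟨0, by simp [h0]⟩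
      · have := hg (pt hu h0)
        rwa [Subgroup.smul_def, smul_pt, pt_eq_iff] at this)
    exact mem_center_of_scalar G g ha

omit [Finite F] in
theorem eich_mem_radT' (hex : ∃ e, Sing Φ e ∧ e ≠ 0) : ∀ g ∈ eichSet hΦ, ∃ P, g ∈ radT P := by
  rintro _ ⟨u, e, s, h, rfl⟩
  by_cases h0 : u = 0
  · obtain ⟨e, he, he0⟩ := hex
    exact ⟨pt he he0, by simp [radT, eich_apply, h0]⟩
  · exact ⟨_, eich_mem_radT hΦ h h0⟩

theorem Model.np {r : M →* Φ.O} (m : Model hΦ r) {S : Set Φ.O} (h1 : r.range = closure S)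
    (h2 : ∀ g ∈ S, ∃ P, g ∈ radT P) (hp : p.Prime) (hpl : p ≠ ℓ)
    (hd : p ∣ Nat.card (M ⧸ center M)) : NP p (M ⧸ center M) :=
  have e := quotCenterCongr (MonoidHom.ofInjective m.inj)
  (np_O hΦ m.pol.rich m.pol.hex _ m.eich h1 h2 hp hpl
    (Nat.card_congr e.toEquiv ▸ hd)).congr e.symm

theorem Model.center_quot {r : M →* Φ.O} (m : Model hΦ r) : center (M ⧸ center M) = ⊥ := by
  refine eq_bot_iff.mpr fun s hs => ?_
  obtain ⟨s, rfl⟩ := QuotientGroup.mk_surjective s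
  have := m.pol.nontrivial
  refine (QuotientGroup.eq_one_iff _).mpr (m.mem_center.mpr (H22.mem_range_scalHom.mp
    (m.ker_ind ⟨_, linHom_mem_GamO (r s)⟩ ((m.norms.ind_linHom s _).trans ?_))))
  ext t
  simp [← Subgroup.mem_center_iff.mp hs t]

end Np

theorem Model.desc [FiniteDimensional F V] [Finite F] [Nonempty ι] {τ₀ : F₀ →+* F₀} {τ : F →+* F}
    {Φ : Form τ V} {Ψ₀ : Form τ₀ (ι → F₀)} {hΦ : Φ.Nondeg} {h₀ : Ψ₀.Nondeg} {r : M →* Φ.O}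
    (m : Model hΦ r) {r₀ : M₀ →* Ψ₀.O} (m₀ : Model h₀ r₀) {l : F} (hl : l ≠ 0)
    (hB : ∀ v w, Φ.B (e (j ∘ v)) (e (j ∘ w)) = l * j (Ψ₀.B v w))
    (hQ : (∀ v, Φ.Q (e (j ∘ v)) = l * j (Ψ₀.Q v)) ∨ ∃ c, (∀ θ : F₀ ≃+* F₀, θ c = c) ∧
      ∀ v, Ψ₀.Q v = c * Ψ₀.B v v) {x : GamO Φ} {n : ℕ} (hn : 0 < n)
    (hx : x.1 ^ n = 1) (hθ : orderOf x.1.θ = n) (he : Std x.1 e)
    (hj : ∀ c, c ∈ j.range ↔ x.1.θ c = c)
    (hr : ∀ s, ∃ s', (r s').1 = bcL j e (r₀ s).1) :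
    ∃ φ : M₀ ⧸ center M₀ →* M ⧸ center M,
      Desc m.norms.ind.range (m.norms.ind x) φ m₀.norms.ind.range ∧
      ∀ s s', (r s').1 = bcL j e (r₀ s).1 → φ (QuotientGroup.mk s) = QuotientGroup.mk s' :=
  have := Finite.of_injective j j.injective
  m.norms.desc (fun s => linHom_mem_GamO (r s)) m.ker_ind scalHom_mem_GamO m₀.norms
    (fun s => linHom_mem_GamO (r₀ s)) m₀.ker_ind hn hx hθ he hj hr
    fun _ ha _ h => h.mem_GamO h₀ hl hB hQ ha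

end H22
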