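import Cfsg.Agent.H22.BalB

/-! Local balance: field automorphisms of orthogonal and symplectic groups. -/

set_option autoImplicit false

namespace H22

open Module H23 H23.Form Matrix Cfsg Subgroup

universe u

variable {F₀ F V : Type*} [Field F₀] [Field F] [AddCommGroup V] [Module F V]

theorem cast_pow_sub_one {R : Type*} [Ring R] {q : ℕ} (hq : 0 < q) (k : ℕ) :
    ((q ^ k - 1 : ℕ) : R) = (q : R) ^ k - 1 := by
  rw [Nat.cast_sub (Nat.one_le_pow _ _ hq)]; simp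

theorem exists_fixed [Fintype F] (θ : F ≃+* F) : ∃ (F₀ : Type) (_ : Field F₀) (_ : Fintype F₀)
    (j : F₀ →+* F), (∀ c, c ∈ j.range ↔ θ c = c) ∧
      Fintype.card F = Fintype.card F₀ ^ orderOf θ := by
  obtain ⟨ℓ, _, f, hℓ, hF⟩ := FiniteField.card' F
  have := Fact.mk hℓ
  have h1 := orderOf_dvd_of_card hF θ
  have := Fintype.ofFinite (GaloisField ℓ (f / orderOf θ))
  have h2 : Fintype.card (GaloisField ℓ (f / orderOf θ)) = ℓ ^ (f / orderOf θ) := by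
    rw [← Nat.card_eq_fintype_card, GaloisField.card]
    exact (Nat.div_pos (Nat.le_of_dvd f.2 h1) (Nat.pos_of_dvd_of_pos h1 f.2)).ne'
  obtain ⟨j, hj⟩ := exists_fixed_embedding hF θ _ h2
  exact ⟨_, _, _, j, hj, by rw [h2, ← pow_mul, Nat.div_mul_cancel h1, hF]⟩

theorem cast_card_of_pow [Fintype F₀] [Fintype F] {p : ℕ} (hp : p.Prime)
    (h : Fintype.card F = Fintype.card F₀ ^ p) :
    (Fintype.card F : ZMod p) = Fintype.card F₀ := by
  have := Fact.mk hp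
  rw [h, Nat.cast_pow, ZMod.pow_card]

theorem dvd_of_mul_eq {p d k N : ℕ} (hp : p.Prime) (h : d * k = N) (h1 : p ∣ N)
    (h2 : p ∣ d → d * p ∣ N) (h0 : 0 < d) : p ∣ k := by
  subst h
  exact (hp.dvd_mul.mp h1).elim (fun h => (Nat.mul_dvd_mul_iff_left h0).mp (h2 h)) id

theorem eight_dvd_prod {q m : ℕ} (hq : Odd q) (hm : 1 ≤ m) :
    8 ∣ ∏ i ∈ Finset.range m, (q ^ (2 * (i + 1)) - 1) :=
  (Nat.eight_dvd_sq_sub_one_of_odd hq).trans
    (Finset.dvd_prod_of_mem (fun i => q ^ (2 * (i + 1)) - 1) (Finset.mem_range.mpr hm))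

theorem IsSS.card_O {W : Type*} [AddCommGroup W] [Module F W] {σ : F →+* F} {Φ : Form σ V}
    {Ψ : Form σ W} {θ : F ≃+* F} {k : F} {ψ : W ≃+ V} (h : IsSS Ψ Φ θ k ψ) :
    Nat.card Φ.O = Nat.card Ψ.O := Nat.card_congr h.conj.toEquiv.symm

variable [FiniteDimensional F V] {ℓ p : ℕ} [Fact ℓ.Prime] [CharP F ℓ]

section Quad

variable {Φ : Form (RingHom.id F) V} (hΦ : Φ.Nondeg) (hκ : Φ.κ = 1)
include hΦ hκ

theorem two_ne_zero_of_odd_rank (h : Odd (finrank F V)) : (2 : F) ≠ 0 := fun h2 =>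
  Nat.not_even_iff_odd.mpr h (even_finrank_of_alt (B := Φ.B)
    (fun x => by simp [B_self_quad hκ, h2]) hΦ)

theorem sixteen_dvd_card_O [Finite F] (h2 : (2 : F) ≠ 0) (h3 : 3 ≤ finrank F V) :
    16 ∣ Nat.card Φ.O := by
  have := Fintype.ofFinite F
  have hq := H22.odd_card_of_two_ne_zero h2
  obtain ⟨Q, rfl⟩ := exists_eq_ofQuad Φ hκ
  obtain ⟨m, hm | hm⟩ := Nat.even_or_odd' (finrank F V)
  · obtain ⟨m, rfl⟩ : ∃ k, m = k + 1 := ⟨m - 1, by omega⟩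
    have h8 := eight_dvd_prod hq (show 1 ≤ m by omega)
    obtain ⟨e, he⟩ | ⟨ζ, hζ, e, he⟩ := exists_equiv_even hΦ hm
    · rw [(isSS_quad_iff (k := 1) (θ := RingEquiv.refl F) (ψ := e.toAddEquiv).2
        ⟨one_ne_zero, e.map_smul, by simpa using he⟩).card_O, card_O_qPlus _ (by omega)]
      exact mul_dvd_mul (dvd_mul_of_dvd_left (dvd_mul_right 2 _) _) h8
    · rw [(isSS_quad_iff (k := 1) (θ := RingEquiv.refl F) (ψ := e.toAddEquiv).2
        ⟨one_ne_zero, e.map_smul, by simpa using he⟩).card_O,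
        card_O_qMinus _ (aniso_of_no_root hζ)]
      exact mul_dvd_mul (dvd_mul_of_dvd_left (dvd_mul_right 2 _) _) h8
  · rw [(nsing_card_O_quad_odd m Q hΦ hm).2]
    exact mul_dvd_mul (dvd_mul_right 2 _) (eight_dvd_prod hq (show 1 ≤ m by omega))

theorem dvd_card_POmega [Finite F] (hg : GenHyp Φ) (h3 : 3 ≤ finrank F V) (hp : p.Prime)
    (hpl : p ≠ ℓ) (h : p = 2 ∨ p ∣ Nat.card Φ.O) :
    p ∣ Nat.card (commutator Φ.O ⧸ center (commutator Φ.O)) := by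
  have := Fintype.ofFinite F
  have hex := exists_sing_of_three_le hΦ hκ h3
  have a1 : ∀ a, p ∣ 2 ^ a → p = 2 := fun a h =>
    (Nat.prime_dvd_prime_iff_eq hp Nat.prime_two).mp (hp.dvd_of_dvd_pow h)
  by_cases h2 : (2 : F) = 0
  · have h4 : p ≠ 2 := fun h => hpl (h.trans ((Nat.prime_dvd_prime_iff_eq Fact.out
      Nat.prime_two).mp ((CharP.cast_eq_zero_iff F ℓ 2).mp (by simpa using h2))).symm)
    exact dvd_of_mul_eq hp (card_POmega_of_even hΦ hκ hex h3 hg h2) (h.resolve_left h4)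
      (fun h => absurd (a1 1 h) h4) two_pos
  have h4 := sixteen_dvd_card_O hΦ hκ h2 h3
  have h5 : p ∣ Nat.card Φ.O := h.elim (fun h => h ▸ (by omega)) id
  by_cases h6 : scal Φ (-1) (by simp) ∈ commutator Φ.O
  · exact dvd_of_mul_eq hp (card_POmega_of_mem hΦ hκ hex h3 h2 h6) h5
      (fun h => a1 3 h ▸ h4) (by norm_num)
  · exact dvd_of_mul_eq hp (card_POmega_of_not_mem hΦ hκ hex h3 h2 h6) h5
      (fun h => a1 2 h ▸ (by omega)) (by norm_num)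

end Quad

variable {M M₀ : Type*} [Group M] [Group M₀]

omit [CharP F ℓ] in
theorem Model.card_quot_eq {σ : F →+* F} {Φ : Form σ V} {hΦ : Φ.Nondeg} {r : M →* Φ.O}
    (m : Model hΦ r) {G : Subgroup Φ.O} (hr : r.range = G) :
    Nat.card (M ⧸ center M) = Nat.card (G ⧸ center G) :=
  hr ▸ Nat.card_congr (quotCenterCongr (MonoidHom.ofInjective m.inj)).toEquiv

omit [CharP F ℓ] in
theorem Model.card_quot_dvd {σ : F →+* F} {Φ : Form σ V} {hΦ : Φ.Nondeg} {r : M →* Φ.O}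
    (m : Model hΦ r) : Nat.card (M ⧸ center M) ∣ Nat.card Φ.O :=
  (card_quotient_dvd_card _).trans (card_dvd_of_injective r m.inj)

theorem Model.np_quad [Finite F] {Φ : Form (RingHom.id F) V} {hΦ : Φ.Nondeg} {r : M →* Φ.O}
    (m : Model hΦ r) (hκ : Φ.κ = 1) (hg : GenHyp Φ) (hr : r.range = commutator Φ.O) (hp : p.Prime)
    (hpl : p ≠ ℓ) (h : p = 2 ∨ p ∣ Nat.card Φ.O) : NP p (M ⧸ center M) :=
  m.np (hr.trans (commutator_eq_eichGrp hΦ hκ hg m.pol.hex m.pol.three))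
    (eich_mem_radT' m.pol.hex) hp hpl
    (m.card_quot_eq hr ▸ dvd_card_POmega hΦ hκ hg m.pol.three hp hpl h)

variable [Finite F] {Φ : Form (RingHom.id F) V} {hΦ : Φ.Nondeg} {r : M →* Φ.O} (m : Model hΦ r)
  (hκ : Φ.κ = 1) (hr : r.range = commutator Φ.O)
include m hκ hr

omit [CharP F ℓ] in
theorem Model.desc_quad {ι : Type} [Fintype ι] [DecidableEq ι] [Nonempty ι] {j : F₀ →+* F}
    {Q₀ : QuadraticForm F₀ (ι → F₀)} {Q : QuadraticForm F (ι → F)}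
    (hR : Rat j (ofQuad Q₀) (ofQuad Q)) {h₀ : (ofQuad Q₀).Nondeg} {r₀ : M₀ →* (ofQuad Q₀).O}
    (m₀ : Model h₀ r₀) (hr₀ : r₀.range = commutator _) {x : GamO Φ} {n : ℕ} (hn : 0 < n)
    (hx : x.1 ^ n = 1) (hθ : orderOf x.1.θ = n) (hj : ∀ c, c ∈ j.range ↔ x.1.θ c = c)
    {e : (ι → F) ≃ₗ[F] V} {l : F} (he : Std x.1 e)
    (hl : IsSS (ofQuad Q) Φ (RingEquiv.refl F) l e.toAddEquiv) :
    ∃ φ : M₀ ⧸ center M₀ →* M ⧸ center M,
      Desc m.norms.ind.range (m.norms.ind x) φ m₀.norms.ind.range ∧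
      ∀ s s', (r s').1 = bcL j e (r₀ s).1 → φ (QuotientGroup.mk s) = QuotientGroup.mk s' := by
  refine m.desc m₀ hl.ne (fun v w => by simpa [hR.B] using hl.B (j ∘ v) (j ∘ w))
    (.inl fun v => (hl.Q (j ∘ v)).trans (congrArg (l * ·) (hR.Q v))) hn hx hθ he hj fun s => ?_
  have h1 : hR.o hκ hl (r₀ s) ∈ r.range := by
    rw [hr]
    refine (?_ : (commutator _).map (hR.o hκ hl) ≤ _) ⟨_, hr₀.le ⟨s, rfl⟩, rfl⟩
    rw [commutator_def, map_commutator]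
    exact commutator_mono le_top le_top
  exact h1.imp fun s' h => congrArg Subtype.val h

theorem Model.bal_quad (h5 : 5 ≤ finrank F V) (hT : m.norms.ind.range = ⊤) (hp : p.Prime)
    (hpl : p ≠ ℓ) (a : GamO Φ) (h0 : a.1.θ ≠ 1) (ha : orderOf (m.norms.ind a) = p)
    (hd : p ∣ Nat.card (M ⧸ center M)) : Bal p (m.norms.ind a) := by
  have := Fintype.ofFinite F
  have := m.pol.nontrivial
  have := m.finite
  obtain ⟨h1, x, h2, h3, h4⟩ := m.exists_norm a hp h0 (ha ▸ pow_orderOf_eq_one _)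
  rw [h4] at ha ⊢
  rw [← h2] at h1
  obtain ⟨F₀, _, _, j, hj, hF⟩ := exists_fixed x.1.θ
  have := j.charP_iff_charP ℓ |>.mpr inferInstance
  have hq := cast_card_of_pow hp (h1 ▸ hF)
  have key : ∀ {ι : Type} [Fintype ι] [DecidableEq ι] {Q₀ : QuadraticForm F₀ (ι → F₀)}
      {Q : QuadraticForm F (ι → F)}, Rat j (ofQuad Q₀) (ofQuad Q) → (ofQuad Q₀).Nondeg →
      StdTo (ofQuad Q) Φ x.1 → (p ≠ 2 → (Nat.card (ofQuad Q).O : ZMod p) = Nat.card (ofQuad Q₀).O) →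
      Bal p (m.norms.ind x) := by
    intro ι _ _ Q₀ Q hR h₀ ⟨e, l, he, hl⟩ hc
    have h6 : 5 ≤ Fintype.card ι := by simpa [← e.finrank_eq] using h5
    have : Nonempty ι := Fintype.card_pos_iff.mp (by omega)
    obtain ⟨φ, hφ, -⟩ := m.desc_quad hκ hr hR (omegaModel Q₀ h₀ h6) (range_omegaRep _) hp.pos h3 h1
      hj he hl
    refine hφ.bal m.center_quot ha (fun k => hT ▸ mem_top _) ((omegaModel Q₀ h₀ h6).np_quad rfl
      (genHyp_five h₀ h6) (range_omegaRep _) hp hpl (or_iff_not_imp_left.mpr fun h => ?_))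
      fun y _ _ _ => hT ▸ mem_top _
    rw [← ZMod.natCast_eq_zero_iff, ← hc h, ZMod.natCast_eq_zero_iff, ← hl.card_O]
    exact hd.trans m.card_quot_dvd
  have b1 := Fintype.card_pos (α := F)
  have b2 := Fintype.card_pos (α := F₀)
  obtain ⟨k, hk | hk⟩ := Nat.even_or_odd' (finrank F V)
  · obtain ⟨k, rfl⟩ : ∃ n, k = n + 1 := ⟨k - 1, by omega⟩
    obtain ⟨a₀, b₀, hab⟩ := exists_aniso F₀
    obtain h | h := exists_std_even hΦ hκ x.2 hp.pos h3 h1 hj hk hab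
    · refine key (rat_qPlus j _) (qPlus_nondeg _) h fun _ => ?_
      simp only [card_O_qPlus _ (Nat.le_add_left 1 k), Nat.cast_mul, Nat.cast_pow, Nat.cast_prod,
        cast_pow_sub_one b1, cast_pow_sub_one b2, hq]
    · refine key (rat_qMinus j _ _ _) (qMinus_nondeg _ hab) h fun h => ?_
      simp only [card_O_qMinus _ hab, card_O_qMinus _ (aniso_of_odd hj (hp.odd_of_ne_two h)
        (h1 ▸ pow_orderOf_eq_one _) hab), Nat.cast_mul, Nat.cast_pow, Nat.cast_prod,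
        cast_pow_sub_one b1, cast_pow_sub_one b2, hq, Nat.cast_add]
  · have h := exists_std_odd hΦ hκ x.2 hp.pos h3 h1 hj hk
    have b3 := two_ne_zero_of_odd_rank hΦ hκ ⟨k, hk⟩
    have b4 : (2 : F₀) ≠ 0 := fun h => b3 (by simpa [map_ofNat] using congrArg j h)
    refine key (rat_qOdd j _) (qOdd_nondeg b4 _) h fun _ => ?_
    simp only [(nsing_card_O_quad_odd k _ (qOdd_nondeg b4 _) (by simp; ring)).2,
      (nsing_card_O_quad_odd k _ (qOdd_nondeg b3 _) (by simp; ring)).2, Nat.cast_mul, Nat.cast_pow,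
      Nat.cast_prod, cast_pow_sub_one b1, cast_pow_sub_one b2, hq]

omit m hκ hr [CharP F ℓ] [Finite F] in
theorem Model.exists_conj {σ : F →+* F} {Φ : Form σ V} {hΦ : Φ.Nondeg} {r : M →* Φ.O}
    (m : Model hΦ r) {a b k : GamL F V} (ha : a ∈ GamO Φ) (hb : b ∈ GamO Φ) (hk : k ∈ GamO Φ)
    (h : a = k * b * k⁻¹) : ∃ α, α * m.norms.ind ⟨a, ha⟩ * α⁻¹ = m.norms.ind ⟨b, hb⟩ :=
  ⟨m.norms.ind ⟨k, hk⟩⁻¹, by
    rw [← map_inv, ← map_mul, ← map_mul]; congr 1; ext1; simp [h, mul_assoc]⟩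

omit m hκ hr [CharP F ℓ] [Finite F] in
theorem Model.exists_sim {σ : F →+* F} {Φ : Form σ V} {hΦ : Φ.Nondeg} {r : M →* Φ.O}
    (m : Model hΦ r) (a : GamO Φ) (h : a.1.θ = 1) : ∃ g, m.norms.ind a = m.sim g := by
  obtain ⟨a, ha⟩ := a
  obtain ⟨g, rfl⟩ := mem_range_linHom.mpr h
  exact ⟨⟨g, ha⟩, rfl⟩

theorem Model.dvd_two (h5 : 5 ≤ finrank F V) (hp : p.Prime) (hpl : p ≠ ℓ)
    (hd : ¬ p ∣ Nat.card (M ⧸ center M)) : p ≠ 2 := fun h => hd (m.card_quot_eq hr ▸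
  dvd_card_POmega hΦ hκ (genHyp_of hΦ hκ (.inr (by omega))) (by omega) hp hpl (.inl h))

end H22
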