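import Cfsg.Agent.H22.FldK
import Cfsg.Agent.H22.OutD

/-! The exceptional automorphism of `Sp₄(2^f)`. -/

set_option autoImplicit false

namespace H22

open Module H23 H23.Form Matrix Cfsg Subgroup

variable {F : Type*} [Field F]

/-- first index of a pair -/
def spA : Fin 2 ⊕ Fin 2 → Fin 2 ⊕ Fin 2 := Sum.elim ![.inl 0, .inl 0] ![.inr 0, .inr 0]

/-- second index of a pair -/
def spB : Fin 2 ⊕ Fin 2 → Fin 2 ⊕ Fin 2 := Sum.elim ![.inl 1, .inr 1] ![.inr 1, .inl 1]

/-- four of the Plücker coordinates -/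
def spW (x y : Fin 2 ⊕ Fin 2 → F) : Fin 2 ⊕ Fin 2 → F :=
  fun i => x (spA i) * y (spB i) - x (spB i) * y (spA i)

/-- the exceptional map on matrices -/
def spG (A : Matrix (Fin 2 ⊕ Fin 2) (Fin 2 ⊕ Fin 2) F) : Matrix (Fin 2 ⊕ Fin 2) (Fin 2 ⊕ Fin 2) F :=
  of fun i j => spW (A *ᵥ Pi.single (spA j) 1) (A *ᵥ Pi.single (spB j) 1) i

theorem spG_single (A : Matrix (Fin 2 ⊕ Fin 2) (Fin 2 ⊕ Fin 2) F) (j) : spG A *ᵥ Pi.single j 1 =
    spW (A *ᵥ Pi.single (spA j) 1) (A *ᵥ Pi.single (spB j) 1) := by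
  rw [mulVec_single_one]; rfl

theorem symp_AB (j) : sympForm 2 F (Pi.single (spA j) 1) (Pi.single (spB j) 1) = 0 := by
  rcases j with j | j <;> fin_cases j <;> simp [sympForm_eq, spA, spB]

variable [CharP F 2]

theorem spW_mulVec (A : symplecticGroup (Fin 2) F) {x y} (h : sympForm 2 F x y = 0) :
    spW (A.1 *ᵥ x) (A.1 *ᵥ y) = spG A.1 *ᵥ spW x y := by
  have h1 := fun i j => congrFun (congrFun (SymplecticGroup.mem_iff.1 A.2) i) j
  ext i
  have h2 := h1 (spA i) (spB i)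
  rw [show J (Fin 2) F (spA i) (spB i) = 0 by
    rcases i with i | i <;> fin_cases i <;> simp [J, spA, spB]] at h2
  simp [mul_apply, J, one_apply] at h2
  simp [sympForm_eq] at h
  simp only [spW, spG, mulVec_single_one, col_apply, mulVec, dotProduct, of_apply,
    Fintype.sum_sum_type, Fin.sum_univ_two]
  generalize spA i = a at *
  generalize spB i = b at *
  simp [spA, spB]
  grind

theorem symp_spW {x y z t} (h : sympForm 2 F x y = 0) (h' : sympForm 2 F z t = 0) :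
    sympForm 2 F (spW x y) (spW z t) =
      sympForm 2 F x z * sympForm 2 F y t + sympForm 2 F x t * sympForm 2 F y z := by
  simp [sympForm_eq, spW, spA, spB] at *
  grind

theorem spW_spW {x y z} (h : sympForm 2 F x y = 0) (h' : sympForm 2 F x z = 0) :
    spW (spW x y) (spW x z) = fun i => sympForm 2 F y z * x i ^ 2 := by
  ext (i | i) <;> fin_cases i <;> simp [sympForm_eq, spW, spA, spB] at * <;> grind

theorem spW_comm (x y : Fin 2 ⊕ Fin 2 → F) : spW x y = spW y x := by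
  ext i; simp only [spW]; grind

theorem contr_of_spW {x y x' y'} {c : F} (h : sympForm 2 F x y = 0) (h' : sympForm 2 F x' y' = 0)
    (hc : spW x' y' = c • spW x y) (z) : sympForm 2 F x' z • y' - sympForm 2 F y' z • x' =
      c • (sympForm 2 F x z • y - sympForm 2 F y z • x) := by
  have h1 := congrFun hc (.inl 0)
  have h2 := congrFun hc (.inl 1)
  have h3 := congrFun hc (.inr 0)
  have h4 := congrFun hc (.inr 1)
  simp [sympForm_eq, spW, spA, spB] at h h' h1 h2 h3 h4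
  have h5 : x' (.inl 0) * y' (.inr 0) - x' (.inr 0) * y' (.inl 0) -
      c * (x (.inl 0) * y (.inr 0) - x (.inr 0) * y (.inl 0)) = 0 :=
    pow_eq_zero_iff two_ne_zero |>.1 (by grind)
  ext (i | i) <;> fin_cases i <;> simp [sympForm_eq] <;> grind

theorem symp_single (A : symplecticGroup (Fin 2) F) (i j) :
    sympForm 2 F (A.1 *ᵥ Pi.single i 1) (A.1 *ᵥ Pi.single j 1) =
      sympForm 2 F (Pi.single i 1) (Pi.single j 1) := mem_symplecticGroup_iff.1 A.2 _ _

theorem spG_mem (A : symplecticGroup (Fin 2) F) : spG A.1 ∈ symplecticGroup (Fin 2) F := by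
  rw [SymplecticGroup.mem_iff']
  ext i j
  have h : ∀ B : Matrix (Fin 2 ⊕ Fin 2) (Fin 2 ⊕ Fin 2) F, (Bᵀ * J (Fin 2) F * B) i j =
      sympForm 2 F (B *ᵥ Pi.single i 1) (B *ᵥ Pi.single j 1) := fun B => by
    rw [mulVec_single_one, mulVec_single_one, Matrix.mul_assoc]; rfl
  rw [h, spG_single, spG_single, symp_spW ((symp_single ..).trans (symp_AB _))
    ((symp_single ..).trans (symp_AB _))]
  simp only [symp_single]
  rcases i with i | i <;> rcases j with j | j <;> fin_cases i <;> fin_cases j <;>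
    simp [sympForm_eq, spA, spB, J, CharTwo.neg_eq]

variable (F) in
/-- the exceptional endomorphism -/
def spGH : symplecticGroup (Fin 2) F →* symplecticGroup (Fin 2) F :=
  MonoidHom.mk' (fun A => ⟨_, spG_mem A⟩) fun A B => Subtype.ext (ext_col fun j => by
    change _ = (spG A.1 * spG B.1).col j
    rw [← mulVec_single_one, ← mulVec_single_one, ← mulVec_mulVec, spG_single, spG_single,
      ← spW_mulVec A ((symp_single ..).trans (symp_AB _)), mulVec_mulVec, mulVec_mulVec]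
    rfl)

theorem spGH_spGH (A : symplecticGroup (Fin 2) F) (i j) : (spGH F (spGH F A)).1 i j = A.1 i j ^ 2 := by
  have h : ∀ k a b, sympForm 2 F (Pi.single k 1) (Pi.single a 1) = 0 →
      sympForm 2 F (Pi.single k 1) (Pi.single b 1) = 0 →
      sympForm 2 F (Pi.single a 1) (Pi.single b 1) = 1 →
      spW (spW (A.1 *ᵥ Pi.single k 1) (A.1 *ᵥ Pi.single a 1))
        (spW (A.1 *ᵥ Pi.single k 1) (A.1 *ᵥ Pi.single b 1)) i = A.1 i k ^ 2 := fun k a b h1 h2 h3 => by
    rw [spW_spW ((symp_single ..).trans h1) ((symp_single ..).trans h2), symp_single, h3]; simp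
  change spW (spG A.1 *ᵥ _) (spG A.1 *ᵥ _) i = _
  rw [spG_single, spG_single]
  rcases j with j | j <;> fin_cases j
  · exact h _ _ _ (symp_AB (.inl 0)) (symp_AB (.inl 1)) (by simp [sympForm_eq, spA, spB, CharTwo.neg_eq])
  · rw [spW_comm (A.1 *ᵥ _), spW_comm (A.1 *ᵥ Pi.single (spA (spB _)) 1)]
    exact h _ _ _ (by simp [sympForm_eq, spA, spB]) (by simp [sympForm_eq, spA, spB])
      (by simp [sympForm_eq, spA, spB, CharTwo.neg_eq])
  · exact h _ _ _ (symp_AB (.inr 0)) (symp_AB (.inr 1)) (by simp [sympForm_eq, spA, spB])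
  · rw [spW_comm (A.1 *ᵥ _), spW_comm (A.1 *ᵥ Pi.single (spA (spB _)) 1)]
    exact h _ _ _ (by simp [sympForm_eq, spA, spB]) (by simp [sympForm_eq, spA, spB])
      (by simp [sympForm_eq, spA, spB])

theorem spW_stab {x y : Fin 2 ⊕ Fin 2 → F} (hi : LinearIndependent F ![x, y])
    (h : (spForm 2 F).perp (Submodule.span F {x, y}) = Submodule.span F {x, y}) :
    spW x y ≠ 0 ∧ ∀ A : symplecticGroup (Fin 2) F, (∀ v ∈ Submodule.span F {x, y},
      A.1 *ᵥ v ∈ Submodule.span F {x, y}) ↔ ∃ c : F, spG A.1 *ᵥ spW x y = c • spW x y := by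
  have hx : x ∈ Submodule.span F {x, y} := Submodule.subset_span (by simp)
  have hy : y ∈ Submodule.span F {x, y} := Submodule.subset_span (by simp)
  have h1 : ∀ v, v ∈ Submodule.span F {x, y} ↔ sympForm 2 F x v = 0 ∧ sympForm 2 F y v = 0 :=
    fun v => by rw [← h, mem_perp_pair, spForm_B, spForm_B]
  have h2 := ((h1 y).1 hy).1
  have h3 : ∀ A : symplecticGroup (Fin 2) F, sympForm 2 F (A.1 *ᵥ x) (A.1 *ᵥ y) = 0 := fun A =>
    (mem_symplecticGroup_iff.1 A.2 _ _).trans h2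
  have h4 : ∀ (A : symplecticGroup (Fin 2) F) (s t : F), s • A.1 *ᵥ y - t • A.1 *ᵥ x = 0 →
      t = 0 ∧ s = 0 := fun A s t h => by
    simpa using LinearIndependent.pair_iff.1 hi (-t) s ((spEquiv 2 F A).1.injective (by
      rw [map_add, map_smul, map_smul, map_zero, neg_smul, neg_add_eq_sub]; exact h))
  refine ⟨fun h0 => hi.ne_zero 0 (spForm_nondeg 2 x fun z => (spForm_B ..).trans
    (h4 1 _ (sympForm 2 F y z) ?_).2), fun A => ⟨fun h5 => ?_, fun ⟨c, hc⟩ v hv => ?_⟩⟩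
  · simpa using contr_of_spW h2 h2 (c := 0) (by simpa using h0) z
  · obtain ⟨a, b, h6⟩ := Submodule.mem_span_pair.1 (h5 x hx)
    obtain ⟨c, d, h7⟩ := Submodule.mem_span_pair.1 (h5 y hy)
    exact ⟨a * d - b * c, by rw [← spW_mulVec A h2, ← h6, ← h7]; ext i; simp [spW]; ring⟩
  · rw [← spW_mulVec A h2] at hc
    have h5 : ∀ z ∈ Submodule.span F {x, y}, _ := fun z hz => h4 A _ _ (by
      rw [contr_of_spW h2 (h3 A) hc z, ((h1 z).1 hz).1, ((h1 z).1 hz).2]; simp)
    have h6 : ∀ u, (∀ z ∈ Submodule.span F {x, y}, sympForm 2 F u z = 0) →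
        u ∈ Submodule.span F {x, y} := fun u hu => h.le fun z hz =>
      (spForm 2 F).B_eq_zero_symm ((spForm_B ..).trans (hu z hz))
    obtain ⟨a, b, rfl⟩ := Submodule.mem_span_pair.1 hv
    rw [mulVec_add, mulVec_smul, mulVec_smul]
    exact add_mem (Submodule.smul_mem _ _ (h6 _ fun z hz => (h5 z hz).2))
      (Submodule.smul_mem _ _ (h6 _ fun z hz => (h5 z hz).1))

variable [Fintype F]

variable (F) in
/-- the exceptional automorphism -/
noncomputable def spTau : MulAut (PSp 2 F) :=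
  quotAut _ (MulEquiv.ofBijective (spGH F) (Finite.injective_iff_bijective.1 fun A B h =>
    Subtype.ext (Matrix.ext fun i j => frobenius_inj F 2 (by
      simp only [frobenius_def, ← spGH_spGH, h]))))

theorem spTau_mk (A : symplecticGroup (Fin 2) F) :
    spTau F (QuotientGroup.mk A) = QuotientGroup.mk (spGH F A) := rfl

theorem spTau_sq : spTau F * spTau F =
    (spModel 2 le_rfl).norms.ind ⟨stdSL _ (frobeniusEquiv F 2), 1, stdSL_sp 2 _⟩ :=
  (spModel 2 le_rfl).norms.eq_ind _ fun s s' h => by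
    refine congrArg QuotientGroup.mk (Subtype.ext (Matrix.ext fun i j => ?_))
    have := congrFun ((LinearEquiv.congr_fun h _).trans (slAut_apply' _ _ (Pi.single j 1))) i
    rw [show (stdSL _ (frobeniusEquiv F 2)).ψ (Pi.single j 1) = Pi.single j 1 from funext fun k => by
      simp [Pi.single_apply]] at this
    simpa [spGH_spGH, frobenius_def] using this.symm

theorem spTau_not_mem : spTau F ∉ (spModel 2 le_rfl).norms.ind.range := by
  rintro ⟨a, ha⟩
  let A : symplecticGroup (Fin 2) F := ⟨1 + single (.inl 0) (.inr 0) 1, mem_symplecticGroup_iff.2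
    fun u v => by simp [sympForm_eq, add_mulVec, single_mulVec]; ring⟩
  obtain ⟨c, hc⟩ := (spModel 2 le_rfl).mem_center.1 (QuotientGroup.eq.1
    ((spTau_mk A).symm.trans (DFunLike.congr_fun ha (QuotientGroup.mk A)).symm))
  have h1 : ∀ v, ∃ l : F, c • spG A.1 *ᵥ v = v + l • a.1.ψ (Pi.single (.inl 0) 1) := fun v => by
    obtain ⟨v, rfl⟩ := a.1.ψ.surjective v
    have h2 := congrArg ((spEquiv 2 F).toMonoidHom (spGH F A)).1 (hc (a.1.ψ v))
    rw [map_mul, map_inv, O_mul_apply, O_apply_inv_apply, map_smul] at h2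
    refine ⟨a.1.θ (v (.inr 0)), h2.symm.trans (((LinearEquiv.congr_fun
      ((spModel 2 le_rfl).norms.r_mAut a A) _).trans (slAut_apply' _ _ _)).trans ?_)⟩
    rw [← GamL.map_smul, ← map_add]
    refine congrArg _ (funext ?_)
    rintro (i | i) <;> fin_cases i <;> simp [A, add_mulVec, single_mulVec]
  have h0 : c ≠ 0 := by
    rintro rfl
    exact one_ne_zero ((LinearEquiv.map_eq_zero_iff _).1 ((hc 1).trans (zero_smul _ _)))
  obtain ⟨l, h2⟩ := h1 (Pi.single (.inr 0) 1)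
  obtain ⟨k, h3⟩ := h1 (Pi.single (.inr 1) 1)
  have h4 := congrFun h2 (.inl 0)
  have h5 := congrFun h2 (.inl 1)
  have h6 := congrFun h3 (.inl 0)
  simp [spG, spW, spA, spB, A, one_apply] at h4 h5 h6
  grind

theorem sp_dichotomy (α : MulAut (PSp 2 F)) : α ∈ (spModel 2 le_rfl).norms.ind.range ∨
    spTau F * α ∈ (spModel 2 le_rfl).norms.ind.range := by
  set m := spModel (F := F) 2 le_rfl
  rcases geom_alt_or m m rfl rfl rfl rfl rfl α with h | ⟨-, -, e, X, a1, a2, a3⟩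
  · exact .inl ((m.geom_iff _).1 h)
  have h1 := finrank_of_perp_eq (spForm_nondeg 2) a2
  have h2 := Submodule.exists_fun_fin_finrank_span_eq F (X : Set (Fin 2 ⊕ Fin 2 → F))
  rw [Submodule.span_eq, show finrank F X = 2 by simp at h1; omega] at h2
  obtain ⟨b, -, h2, h3⟩ := h2
  rw [show b = ![b 0, b 1] from funext fun i => by fin_cases i <;> rfl] at h2 h3
  rw [range_cons_cons_empty] at h2
  subst h2
  obtain ⟨h4, h5⟩ := spW_stab h3 a2
  refine .inr ((m.geom_iff _).1 (m.geom_of_rel _ m ⟨e, _, sing_alt rfl rfl e, a1, sing_alt rfl rfl _,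
    h4, fun γ => ?_⟩ (rank2_alt (spForm_nondeg 2) rfl rfl (by simp))
    (rank2_alt (spForm_nondeg 2) rfl rfl (by simp)) (by simp) (by simp)))
  obtain ⟨s, hs⟩ := QuotientGroup.mk_surjective (α (QuotientGroup.mk (pb₁ _ γ)))
  refine (a3 _ s hs.symm).trans ((h5 s).trans ?_)
  obtain ⟨c, hc⟩ := m.mem_center.1 (QuotientGroup.eq.1
    (((spTau_mk s).symm.trans (congrArg (spTau F) hs)).trans (pb_spec _ γ)))
  have h0 : c ≠ 0 := by
    rintro rfl
    exact one_ne_zero ((LinearEquiv.map_eq_zero_iff _).1 ((hc 1).trans (zero_smul _ _)))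
  have h6 := congrArg ((spEquiv 2 F).toMonoidHom (spGH F s)).1 (hc (spW (b 0) (b 1)))
  rw [map_mul, map_inv, O_mul_apply, O_apply_inv_apply, map_smul] at h6
  exact ⟨fun ⟨d, hd⟩ => ⟨c * d, h6.trans (by rw [mul_smul, ← hd]; rfl)⟩,
    fun ⟨d, hd⟩ => ⟨c⁻¹ * d, by rw [mul_smul, eq_inv_smul_iff₀ h0]; exact h6.symm.trans hd⟩⟩

theorem index_ind_sp_two : (spModel (F := F) 2 le_rfl).norms.ind.range.index = 2 :=
  index_eq_two_iff'.2 ⟨spTau F, fun α => (sp_dichotomy α).elim
    (fun h => .inr ⟨h, fun h' => spTau_not_mem ((mul_mem_cancel_right h).1 h')⟩)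
    fun h => .inl ⟨h, fun h' => spTau_not_mem ((mul_mem_cancel_right h').1 h)⟩⟩

theorem isCyclic_out_sp_two {f : ℕ} (hF : Fintype.card F = 2 ^ f) : IsCyclic (Out (PSp 2 F)) := by
  set π := QuotientGroup.mk' (Inn (PSp 2 F))
  have key : ∀ a, π ((spModel 2 le_rfl).norms.ind a) ∈ zpowers (π (spTau F)) := fun a => by
    obtain ⟨n, hn⟩ := (zpowers_frob hF).ge (mem_top a.1.θ)
    let φ : GamO (spForm 2 F) := ⟨stdSL _ (frobeniusEquiv F 2), 1, stdSL_sp 2 _⟩
    have h1 : (a * (φ ^ n)⁻¹).1.θ = 1 := by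
      change thetaHom F _ (a.1 * (φ.1 ^ n)⁻¹) = 1
      rw [map_mul, map_inv, map_zpow, mul_inv_eq_one]; exact hn.symm
    obtain ⟨k, hk⟩ := (a * (φ ^ n)⁻¹).2
    obtain ⟨c, rfl⟩ := isSquare_of_two_eq_zero (CharTwo.two_eq_zero (R := F)) k
    obtain ⟨g, hg⟩ := IsSS.exists_eq_scal_mul (c := Units.mk0 c (left_ne_zero_of_mul hk.ne)) h1 hk
    obtain ⟨g, rfl⟩ := (spEquiv 2 F).surjective g
    have h2 := (QuotientGroup.eq_one_iff _).2 (((spModel 2 le_rfl).inn_iff _).2 ⟨_, g, hg⟩)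
    refine ⟨2 * n, ?_⟩
    change π _ = 1 at h2
    rw [map_mul, map_mul, map_inv, map_inv, mul_inv_eq_one, map_zpow, map_zpow, ← spTau_sq] at h2
    rw [h2, map_mul, ← sq, ← zpow_natCast, ← _root_.zpow_mul]; rfl
  refine ⟨⟨π (spTau F), fun x => ?_⟩⟩
  obtain ⟨α, rfl⟩ := QuotientGroup.mk'_surjective _ x
  rcases sp_dichotomy α with ⟨a, h⟩ | ⟨a, h⟩
  · exact h ▸ key a
  · exact (mul_mem_cancel_left (mem_zpowers _)).1 (map_mul π _ _ ▸ h ▸ key a)

omit [CharP F 2] in
theorem card_aut_sp {p f : ℕ} [Fact p.Prime] (hF : Fintype.card F = p ^ f) {m : ℕ} (hm : 2 ≤ m) :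
    Nat.card (MulAut (PSp m F)) = (if m = 2 ∧ p = 2 then 2 else 1) * Nat.gcd 2 (p ^ f - 1) * f *
      Nat.card (PSp m F) := by
  have h : (spModel (F := F) m hm).norms.ind.range.index = if m = 2 ∧ p = 2 then 2 else 1 := by
    split_ifs with h
    · obtain ⟨rfl, rfl⟩ := h
      have := charP_of_card hF
      exact index_ind_sp_two
    · rw [range_ind_sp hm fun h1 h2 => h ⟨h1, (two_eq_zero_iff hF).1 h2⟩, index_top]
  refine (spModel (F := F) m hm).norms.ind.range.index_mul_card.symm.trans ?_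
  rw [h, card_range_ind_sp hm, card_ringAut hF, hF]
  ring

end H22
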