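import Cfsg.Agent.H22.BalC
import Cfsg.Agent.H22.SpG

/-! Local balance: symplectic groups. -/

set_option autoImplicit false

namespace H22

open Module H23 H23.Form Matrix Cfsg Subgroup

variable {F₀ F V M : Type*} [Field F₀] [Field F] [AddCommGroup V] [Module F V] [Group M]
  [FiniteDimensional F V] {ℓ p : ℕ} [Fact ℓ.Prime] [CharP F ℓ]

theorem Model.np_alt [Finite F] {Φ : Form (RingHom.id F) V} {hΦ : Φ.Nondeg} {r : M →* Φ.O}
    (m : Model hΦ r) (hε : Φ.ε = -1) (hκ : Φ.κ = 0) (hr : r.range = ⊤) (hp : p.Prime)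
    (hpl : p ≠ ℓ) (h : p = 2 ∨ p ∣ Nat.card Φ.O) : NP p (M ⧸ center M) := by
  have := Fintype.ofFinite F
  have := m.pol.nontrivial
  refine m.np (hr.trans (closure_spTv hΦ hε hκ).symm) (fun g ⟨v, c, h⟩ =>
    eich_mem_radT' (hΦ := hΦ) m.pol.hex g ⟨_, _, _, _, h⟩) (ℓ := ℓ) hp hpl ?_
  have e := MulEquiv.ofBijective r ⟨m.inj, MonoidHom.range_eq_top.mp hr⟩
  obtain ⟨k, hk⟩ := even_finrank_of_alt (B := Φ.B) (fun x => (sing_alt hε hκ x).1) hΦ
  have h1 := card_center_mul_card_quotient Φ.O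
  rw [card_center_alt hΦ hε hκ] at h1
  have h2 : p = 2 → 8 ∣ Nat.card Φ.O := fun h => by
    rw [card_O_alt k Φ hΦ hε hκ (by omega)]
    refine (eight_dvd_prod (H22.odd_card_of_two_ne_zero fun h2 => hpl ?_) ?_).mul_left _
    · exact h.trans ((Nat.prime_dvd_prime_iff_eq Fact.out Nat.prime_two).mp
        ((CharP.cast_eq_zero_iff F ℓ 2).mp (by simpa using h2))).symm
    · have := m.pol.three; omega
  rw [Nat.card_congr (quotCenterCongr e).toEquiv]
  refine dvd_of_mul_eq hp h1 (h.elim (fun h => (h ▸ by norm_num : p ∣ 8).trans (h2 h)) id)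
    (fun h => ?_) (Nat.gcd_pos_of_pos_left _ two_pos)
  have h3 := (Nat.prime_dvd_prime_iff_eq hp Nat.prime_two).mp (h.trans (Nat.gcd_dvd_left _ _))
  exact ((mul_dvd_mul (Nat.gcd_dvd_left _ _) h3.dvd).trans (by norm_num)).trans (h2 h3)

theorem spG_map (f : F₀ →+* F) (A : Matrix (Fin 2 ⊕ Fin 2) (Fin 2 ⊕ Fin 2) F₀) :
    spG (A.map f) = (spG A).map f := by
  ext i k
  simp [spG, spW]

omit [FiniteDimensional F V] in
theorem bcL_refl {ι : Type} [Fintype ι] [DecidableEq ι] (j : F₀ →+* F)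
    {g : (ι → F₀) ≃ₗ[F₀] (ι → F₀)} {A : Matrix ι ι F₀} (h : ∀ v, g v = A *ᵥ v) (v : ι → F) :
    bcL j (LinearEquiv.refl F _) g v = A.map j *ᵥ v := by
  have : (glEquiv.symm g).1 = A := ext_of_mulVec_single fun i => by rw [glEquiv_symm_mulVec, h]
  exact this ▸ ratLin_apply j (LinearEquiv.refl F _) (glEquiv.symm g) v

theorem bal_sp [Fintype F] {m : ℕ} (hm : 2 ≤ m) (hp : p.Prime) (hpl : p ≠ ℓ) {θ : F ≃+* F}
    (hθ : orderOf θ = p) {x : MulAut (PSp m F)}
    (hx : x = (spModel m hm).norms.ind ⟨stdSL _ θ, 1, stdSL_sp m θ⟩) (ho : orderOf x = p)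
    (hd : p ∣ Nat.card (PSp m F)) : Bal p x := by
  have : Nonempty (Fin m) := ⟨⟨0, by omega⟩⟩
  obtain ⟨F₀, _, _, j, hj, hF⟩ := exists_fixed θ
  have := j.charP_iff_charP ℓ |>.mpr inferInstance
  have hq := cast_card_of_pow hp (hθ ▸ hF)
  have h1 : ∀ s : symplecticGroup (Fin m) F₀,
      (spEquiv m F ⟨_, SymplecticGroup.map_mem s.2 j⟩).1 =
        bcL j (LinearEquiv.refl F _) (spEquiv m F₀ s).1 := fun s =>
    LinearEquiv.ext fun v => (bcL_refl j (fun _ => rfl) v).symm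
  obtain ⟨φ, hφ, h2⟩ := (spModel m hm).desc (spModel m hm) (x := ⟨stdSL _ θ, 1, stdSL_sp m θ⟩)
    one_ne_zero (fun v w => by simpa using (rat_sp j m).B v w) (.inl fun v => by simp) hp.pos
    (stdSL_pow_eq_one hθ) hθ (std_stdSL θ) hj fun s => ⟨_, h1 s⟩
  rw [← hx] at hφ
  refine hφ.bal (spModel m hm).center_quot ho ((spModel m hm).norms.inn_le
    (fun s => linHom_mem_GamO _) ⟨·, rfl⟩) ((spModel m hm).np_alt rfl rfl
      (MonoidHom.range_eq_top.mpr (spEquiv m F₀).surjective) hp hpl (.inr ?_)) fun y hy _ h3 => ?_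
  · have := hd.trans (spModel m hm).card_quot_dvd
    rw [← ZMod.natCast_eq_zero_iff, card_O_alt m _ (spForm_nondeg m) rfl rfl (finrank_plus m)]
      at this ⊢
    simpa only [Nat.cast_mul, Nat.cast_pow, Nat.cast_prod, cast_pow_sub_one Fintype.card_pos,
      hq] using this
  by_cases h4 : m = 2 → (2 : F) ≠ 0
  · exact range_ind_sp hm h4 ▸ mem_top _
  obtain ⟨rfl, h5⟩ := Classical.not_imp.mp h4
  have : CharP F 2 := CharTwo.of_one_ne_zero_of_two_eq_zero one_ne_zero (not_not.mp h5)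
  have : CharP F₀ 2 := j.charP_iff_charP 2 |>.mpr inferInstance
  refine (sp_dichotomy y).resolve_right fun h5 => hφ.not_fix ?_ (fun s => ?_) spTau_not_mem hy h5 h3
  · ext s
    obtain ⟨s, rfl⟩ := QuotientGroup.mk_surjective s
    have h6 := (stdField_sp_iff hm).2 hx
    rw [MulAut.mul_apply, MulAut.mul_apply, h6 s ⟨_, SymplecticGroup.map_mem s.2 θ⟩ rfl, spTau_mk,
      spTau_mk]
    exact (h6 _ _ (spG_map (θ : F →+* F) _)).symm
  · obtain ⟨s, rfl⟩ := QuotientGroup.mk_surjective s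
    rw [h2 _ _ (h1 s), spTau_mk, spTau_mk, h2 _ _ (h1 _)]
    exact congrArg _ (Subtype.ext (spG_map j _))

end H22
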