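import Cfsg.Agent.H22.GrC

/-! Involutory graph automorphisms of linear groups. -/

set_option autoImplicit false

namespace H22

open Module H23 H23.Form Matrix Cfsg Subgroup

variable {F : Type*} [Field F] [Fintype F] {n : ℕ}

/-- the form attached to a graph automorphism -/
def RepL (γ : MulAut (ProjectiveSpecialLinearGroup (Fin n) F)) (b : BF (Fin n) F) : Prop :=
  ∃ g : GL (Fin n) F, γ = glInd g * itBar F _ ∧ b = toBilin' (g⁻¹).1

theorem glInd_eq_iff' (hn : 2 ≤ n) {g k : GL (Fin n) F} : glInd g = glInd k ↔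
    ∃ c : Fˣ, ∀ x y, toBilin' (k⁻¹).1 x y = c * toBilin' (g⁻¹).1 x y := by
  rw [glInd_eq_iff (by simpa)]
  refine exists_congr fun c => ⟨fun h x y => ?_, fun h v => ?_⟩
  · obtain ⟨y, rfl⟩ := (glEquiv g).surjective y
    rw [toBilin'_apply', toBilin'_apply', glEquiv_apply, mulVec_mulVec, mulVec_mulVec,
      ← mulVec_mulVec, h]
    simp [mulVec_smul]
  · have h1 : (k⁻¹).1 *ᵥ (g.1 *ᵥ v) = (c : F) • v := by
      ext i
      simpa [toBilin'_apply'] using h (Pi.single i 1) (g.1 *ᵥ v)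
    rw [← mulVec_smul, ← h1, mulVec_mulVec]; simp

theorem conj_gr_iff (hn : 2 ≤ n) {h g g' : GL (Fin n) F} :
    glInd g' * itBar F _ = glInd h * (glInd g * itBar F _) * (glInd h)⁻¹ ↔ ∃ c : Fˣ, ∀ x y,
      toBilin' (g⁻¹).1 ((h⁻¹).1 *ᵥ x) ((h⁻¹).1 *ᵥ y) = c * toBilin' (g'⁻¹).1 x y := by
  rw [show glInd h * (glInd g * itBar F _) * (glInd h)⁻¹ = glInd (h * g * itGL h⁻¹) * itBar F _ by
    rw [map_mul, map_mul, ← itBar_glInd, map_inv]; group, mul_left_inj, glInd_eq_iff' hn]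
  refine exists_congr fun c => forall₂_congr fun x y => Eq.congr_left ?_
  rw [toBilin'_apply', toBilin'_apply', _root_.mul_inv_rev, _root_.mul_inv_rev, Units.val_mul,
    Units.val_mul, ← mulVec_mulVec, ← mulVec_mulVec, dotProduct_mulVec, ← mulVec_transpose]
  rfl

theorem range_simL (hn : 2 ≤ n) (g : GL (Fin n) F) :
    (glInd.comp (sim (toBilin' (g⁻¹).1)).subtype).range =
      (slInd F (Fin n)).range ⊓ centralizer {glInd g * itBar F _} := by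
  have key : ∀ k, glInd k ∈ centralizer {glInd g * itBar F _} ↔ k ∈ sim (toBilin' (g⁻¹).1) :=
    fun k => by rw [mem_centralizer_singleton', eq_comm, conj_gr_iff hn, ← inv_mem_iff]; rfl
  rw [← range_glInd]
  ext β
  constructor
  · rintro ⟨k, rfl⟩
    exact ⟨⟨k, rfl⟩, (key _).2 k.2⟩
  · rintro ⟨⟨k, rfl⟩, h⟩
    exact ⟨⟨k, (key _).1 h⟩, rfl⟩

theorem gr_sq_iff (hn : 2 ≤ n) {g : GL (Fin n) F} : (glInd g * itBar F _) ^ 2 = 1 ↔
    ∃ c : Fˣ, ∀ x y, toBilin' (g⁻¹).1 y x = c * toBilin' (g⁻¹).1 x y := by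
  rw [show (glInd g * itBar F _) ^ 2 = glInd g * glInd (itGL g) by
    rw [← itBar_glInd, itBar_inv, _root_.sq]; group, mul_eq_one_iff_eq_inv, ← map_inv,
    glInd_eq_iff' hn]
  refine exists_congr fun c => forall₂_congr fun x y => Eq.congr_left ?_
  rw [toBilin'_apply', toBilin'_apply', dotProduct_mulVec, ← mulVec_transpose, dotProduct_comm]
  rfl

omit [Fintype F] in
theorem nd_inv (g : GL (Fin n) F) (x : Fin n → F) (h : ∀ y, toBilin' g.1 x y = 0) : x = 0 :=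
  dotProduct_eq_zero x fun y => by
    obtain ⟨y, rfl⟩ := (glEquiv g).surjective y
    rw [← h y, toBilin'_apply', glEquiv_apply]

theorem grIf_sl (hn : 3 ≤ n) : GrIf (inndiagPSL n F) (Inn _) IsGraphAutClassPSL RepL
    fun (x : Fˣ) D _ => (x : F) = D := by
  have hn' : 2 ≤ n := by omega
  have : Nonempty (Fin n) := ⟨⟨0, by omega⟩⟩
  have hP : ∀ γ : MulAut (ProjectiveSpecialLinearGroup (Fin n) F),
      IsGraphAutClassPSL γ ↔ ∃ g, γ = glInd g * itBar F _ := fun γ =>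
    ⟨fun ⟨_, δ, ι, h1, h2, h3⟩ => (innerDiag_sl_iff.1 h1).imp fun g hg => by
      rw [h3, hg, it_iff.1 h2]; rfl,
      fun ⟨g, hg⟩ => ⟨hn, _, _, innerDiag_sl_iff.2 ⟨g, rfl⟩, it_iff.2 rfl, hg⟩⟩
  rw [inndiagPSL_eq]
  refine ⟨fun b hb => ?_, fun γ h1 h2 => ?_, ?_, ?_, ?_, fun m _ x => ?_, fun h2 => ?_, fun x => ?_⟩
  · have h1 : (LinearMap.BilinForm.toMatrix' b).det ≠ 0 :=
      gram_det_ne_zero ⟨hb.nd, fun x hx => hb.nd x fun y => by
        rcases hb.sy with h | h <;> simp [h y, hx]⟩ (Pi.basisFun F _)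
    have h2 : b = toBilin' ((GeneralLinearGroup.mkOfDetNeZero _ h1)⁻¹⁻¹).1 := by simp
    refine ⟨_, (hP _).2 ⟨_, rfl⟩, orderOf_eq_prime ((gr_sq_iff hn').2 ?_) fun h => ?_, _, rfl, h2⟩
    · rw [← h2]
      exact hb.sy.elim (fun h => ⟨1, by simpa using h⟩) fun h => ⟨-1, by simpa using h⟩
    · exact itBar_not_mem (ι := Fin n) (F := F) (by simpa) (eq_inv_of_mul_eq_one_right h ▸
        inv_mem ⟨_, rfl⟩)
  · obtain ⟨g, rfl⟩ := (hP γ).1 h1
    obtain ⟨c, hc⟩ := (gr_sq_iff hn').1 (h2 ▸ pow_orderOf_eq_one _)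
    refine ⟨_, ⟨nd_inv _, ?_⟩, g, rfl, rfl⟩
    obtain ⟨u, hu⟩ := exists_ne (0 : Fin n → F)
    obtain ⟨v, hv⟩ := not_forall.1 (mt (nd_inv g⁻¹ u) hu)
    have h3 : (c : F) * c = 1 := mul_right_cancel₀ hv (by rw [mul_assoc, ← hc, ← hc, one_mul])
    exact (mul_self_eq_one_iff.1 h3).imp (fun h => by simpa [h] using hc) fun h => by
      simpa [h] using hc
  · rintro _ _ _ _ - - ⟨g, rfl, rfl⟩ ⟨g', rfl, rfl⟩
    rw [← range_glInd]
    constructor
    · rintro ⟨_, ⟨h, rfl⟩, h1⟩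
      obtain ⟨c, hc⟩ := (conj_gr_iff hn').1 h1
      exact ⟨glEquiv h⁻¹, c, c.ne_zero, hc⟩
    · rintro ⟨P, c, hc, h⟩
      obtain ⟨k, rfl⟩ := glEquiv.surjective P
      exact ⟨_, ⟨k⁻¹, rfl⟩, (conj_gr_iff hn').2 ⟨Units.mk0 c hc, h⟩⟩
  · rintro _ _ - ⟨g, rfl, rfl⟩
    exact ⟨(MulEquiv.subgroupCongr (range_simL hn' g).symm).trans
      ((slNorms F _).nonempty_range_rind (L := ⊤) (fun _ _ => trivial) (ker_ind_sl (by simpa))
        (RingHom.id F) (LinearEquiv.refl F _) (fun _ _ => trivial)).some⟩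
  · rintro _ _ - ⟨g, rfl, rfl⟩ R hR
    refine (count_sl (by simpa) ((glEquiv.toMonoidHom.codRestrict ⊤ fun _ => mem_top _).comp
      (sim (toBilin' (g⁻¹).1)).subtype) (range_simL hn' g)).trans ?_
    rw [Fintype.card_fin]
    congr 2
    ext x
    rw [hR]
    constructor
    · rintro ⟨⟨k, c, hc⟩, rfl⟩
      exact ⟨_, c, ⟨c.ne_zero, k, hc, rfl⟩, (LinearEquiv.coe_det _).trans (det_glEquiv k)⟩
    · rintro ⟨_, c, ⟨h0, k, hc, rfl⟩, h⟩
      exact ⟨⟨k, mem_sim.2 ⟨c, h0, hc⟩⟩, Units.ext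
        (((LinearEquiv.coe_det _).trans (det_glEquiv k)).trans h.symm)⟩
  · exact ⟨fun ⟨k, hk, h⟩ => ⟨Units.mk0 k hk, Units.ext h.symm⟩,
      fun ⟨k, h⟩ => ⟨k, k.ne_zero, h ▸ rfl⟩⟩
  · exact ⟨-1, orderOf_eq_prime (by simp) fun h => h2 (by
      have := congrArg Units.val h
      simp only [Units.val_neg, Units.val_one] at this
      linear_combination -this), fun x D k => by simp [neg_eq_iff_eq_neg]⟩
  · exact ⟨fun ⟨k, hk, h⟩ => ⟨Units.mk0 k hk, Units.ext h.symm⟩,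
      fun ⟨k, h⟩ => ⟨k, k.ne_zero, h ▸ rfl⟩⟩

theorem repL_it : RepL (itBar F (Fin n)) (dotB n F) := ⟨1, by simp, by simp [dotB]⟩

end H22
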