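import Cfsg.Agent.H22.GrC

/-! Involutory graph automorphisms of unitary groups. -/

set_option autoImplicit false

namespace H22

open Module H23 H23.Form Matrix Cfsg Subgroup

attribute [-simp] conj_apply

variable {F F₀ : Type*} [Field F] [Fintype F] [Field F₀] {q n : ℕ} (hF : Fintype.card F = q ^ 2)

/-- the conjugation as an automorphism -/
def cjE : F ≃+* F :=
  { conj hF with invFun := conj hF, left_inv := conj_conj hF, right_inv := conj_conj hF }

@[simp] theorem cjE_apply (x : F) : cjE hF x = conj hF x := rfl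

theorem orderOf_cjE : orderOf (cjE hF) = 2 :=
  orderOf_eq_prime (RingEquiv.ext (conj_conj hF)) fun h =>
    conj_ne_id hF (RingHom.ext fun x => RingEquiv.congr_fun h x)

theorem eq_cjE {θ : F ≃+* F} (h : orderOf θ = 2) : θ = cjE hF := by
  obtain ⟨q', h3, h4⟩ := exists_card_eq_sq_of_invol (σ := (θ : F →+* F))
    (fun h1 => by
      rw [show θ = 1 from RingEquiv.ext fun x => RingHom.congr_fun h1 x] at h; simp at h)
    fun a => by
      have := pow_orderOf_eq_one θ
      rw [h, sq] at this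
      exact RingEquiv.congr_fun this a
  obtain rfl := Nat.pow_left_injective two_ne_zero (h3.symm.trans hF)
  exact RingEquiv.ext h4

theorem exists_conj_embedding [Fintype F₀] (hF₀ : Fintype.card F₀ = q) :
    ∃ j : F₀ →+* F, ∀ x, x ∈ j.range ↔ cjE hF x = x := by
  obtain ⟨p, k, hp, -, -, rfl⟩ := exists_pow_of_card_eq_sq hF
  have := Fact.mk hp
  exact exists_fixed_embedding (p := p) (f := k * 2) (by rw [hF, pow_mul]) _ F₀
    (by rw [orderOf_cjE, hF₀]; simp)

theorem mem_mu {c : Fˣ} : c ∈ (powMonoidHom (q + 1) : Fˣ →* Fˣ).ker ↔ conj hF c * c = 1 := by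
  rw [conj_apply, ← pow_succ, MonoidHom.mem_ker, Units.ext_iff]; simp

omit [Fintype F] in
theorem exists_mult_of {ι : Type} [Nonempty ι] {b : BF ι F₀} (hb : ∀ x, (∀ y, b x y = 0) → x = 0)
    (j : F₀ →+* F) {f : (ι → F₀) → (ι → F₀) → F₀} {c : F} (h : ∀ x y, j (f x y) = c * j (b x y)) :
    ∃ k, j k = c ∧ ∀ x y, f x y = k * b x y := by
  obtain ⟨u, hu⟩ := exists_ne (0 : ι → F₀)
  obtain ⟨v, hv⟩ := not_forall.1 (mt (hb u) hu)
  have h1 : j (f u v / b u v) = c := by
    rw [map_div₀, h, mul_div_cancel_right₀ _ ((map_ne_zero j).2 hv)]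
  exact ⟨_, h1, fun x y => j.injective (by rw [map_mul, h1, h])⟩

theorem ss_of_rat (j : F₀ →+* F) {e e' : (Fin n → F) ≃ₗ[F] (Fin n → F)} {c : F} (hc : c ≠ 0)
    (h : ∀ x y, (hForm hF n).B (e (j ∘ x)) (e (j ∘ y)) = c * (hForm hF n).B (e' (j ∘ x)) (e' (j ∘ y))) :
    IsSS (hForm hF n) (hForm hF n) (RingEquiv.refl F) c (e'.symm.trans e).toAddEquiv :=
  isSS_of_basis ((Pi.basisFun F _).map e') hc (fun i k => by
    simpa [comp_single] using h (Pi.single i 1) (Pi.single k 1)) fun i => by simp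

variable (hn : 3 ≤ n) (j : F₀ →+* F)

/-- the form attached to a graph automorphism -/
def RepU (γ : MulAut (PSU n F q)) (b : BF (Fin n) F₀) : Prop :=
  ∃ (a : GamO (hForm hF n)) (e : (Fin n → F) ≃ₗ[F] (Fin n → F)) (l : F), l ≠ 0 ∧
    γ = (suModel hF n hn).norms.ind a ∧ a.1.θ = cjE hF ∧ Std a.1 e ∧
    ∀ x y, (hForm hF n).B (e (j ∘ x)) (e (j ∘ y)) = l * j (b x y)

theorem Std.sq {V : Type*} [AddCommGroup V] [Module F V] {a : GamL F V} {ι : Type*}
    {e : (ι → F) ≃ₗ[F] V} (h : Std a e) (h1 : a.θ = cjE hF) : a ^ 2 = 1 := by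
  refine GamL.ext (AddEquiv.ext fun v => ?_) (by
    rw [GamL.pow_θ, h1, ← orderOf_cjE hF, pow_orderOf_eq_one]; rfl)
  obtain ⟨v, rfl⟩ := e.surjective v
  simp [_root_.sq, h _, h1, conj_conj]

theorem graph_su_iff {γ : MulAut (PSU n F q)} : IsGraphAutClassPSU γ ↔
    ∃ a : GamO (hForm hF n), γ = (suModel hF n hn).norms.ind a ∧ Even (orderOf a.1.θ) := by
  constructor
  · rintro ⟨-, δ, φ, σ, h1, ⟨g, h2, h3⟩, h4, rfl⟩
    rw [(induced_su_iff hF hn (semi_mem_herm hF h2 (RingEquiv.refl F))).1 h3,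
      (field_su_iff hF hn).1 h4, ← map_mul]
    exact ⟨_, rfl, h1⟩
  · rintro ⟨a, rfl, h⟩
    obtain ⟨g, hg, h1⟩ := exists_ind_su hF hn a
    refine ⟨hn, _, _, a.1.θ, h, ⟨g, hg,
      (induced_su_iff hF hn (semi_mem_herm hF hg (RingEquiv.refl F))).2 rfl⟩,
      (field_su_iff hF hn).2 rfl, ?_⟩
    rw [h1, ← map_mul]; rfl

variable {j} (hj : ∀ x, x ∈ j.range ↔ cjE hF x = x)
include hj

theorem conj_j (x : F₀) : conj hF (j x) = j x := (hj _).1 ⟨x, rfl⟩

theorem repU_ex {b : BF (Fin n) F₀} (hb : Good b) :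
    ∃ γ, IsGraphAutClassPSU γ ∧ orderOf γ = 2 ∧ RepU hF hn j γ b := by
  obtain ⟨l, h0, hl⟩ : ∃ l : F, l ≠ 0 ∧ ∀ x y, conj hF l * j (b x y) = l * j (b y x) := by
    rcases hb.sy with h | h
    · exact ⟨1, one_ne_zero, fun x y => by simp [h x y]⟩
    · obtain ⟨z, hz⟩ := exists_conj_ne hF
      exact ⟨conj hF z - z, sub_ne_zero.2 hz, fun x y => by
        rw [h x y, map_sub, conj_conj, map_neg]; ring⟩
  let M : Matrix (Fin n) (Fin n) F := of fun i k => l * j (b (Pi.single i 1) (Pi.single k 1))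
  let B := toLinearMapₛₗ₂' F (conj hF) (RingHom.id F) M
  have h1 : ∀ x y, B x y = ∑ i, ∑ k, conj hF (x i) * (y k * M i k) := fun x y => by
    simp [B, toLinearMapₛₗ₂'_apply]
  have h2 : ∀ x y, B (j ∘ x) (j ∘ y) = l * j (b x y) := fun x y => by
    rw [← toBilin'_toMatrix' b, toBilin'_apply]
    simp only [h1, map_sum, Finset.mul_sum, Function.comp_apply, conj_j hF hj, map_mul, M, of_apply,
      LinearMap.BilinForm.toMatrix'_apply]
    exact Finset.sum_congr rfl fun i _ => Finset.sum_congr rfl fun k _ => by ring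
  have h3 : B.IsSymm := ⟨fun x y => by
    simp only [h1, map_sum, map_mul, conj_conj, M, of_apply, conj_j hF hj, hl]
    rw [Finset.sum_comm]
    exact Finset.sum_congr rfl fun i _ => Finset.sum_congr rfl fun k _ => by ring⟩
  have h4 : (ofHerm (conj_ne_id hF) (conj_conj hF) B h3).Nondeg := fun x hx => by
    have h5 : M.det ≠ 0 := by
      rw [show M = l • (LinearMap.BilinForm.toMatrix' b).map j by ext; simp [M], det_smul,
        ← RingHom.mapMatrix_apply, ← RingHom.map_det]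
      exact mul_ne_zero (pow_ne_zero _ h0) ((map_ne_zero j).2 (gram_det_ne_zero ⟨hb.nd,
        fun x hx => hb.nd x fun y => by rcases hb.sy with h | h <;> simp [h y, hx]⟩
        (Pi.basisFun F₀ _)))
    have h6 := eq_zero_of_vecMul_eq_zero h5 (v := conj hF ∘ x) (funext fun k => by
      simpa [h1, Pi.single_apply, vecMul, dotProduct] using hx (Pi.single k 1))
    exact funext fun i => by simpa using congrFun h6 i
  obtain ⟨e₁, h5, -⟩ := exists_equiv_huForm hF h4 rfl (n := n) (by simp)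
  have h6 : ∀ x y, (hForm hF n).B (e₁.symm x) (e₁.symm y) = B x y := fun x y => by
    rw [hForm_B, ← huForm_B hF, ← h5]; simp
  let a := linHom e₁.symm * stdSL (Fin n) (cjE hF) * (linHom e₁.symm)⁻¹
  have h7 : Std a e₁.symm := fun v =>
    congrArg (fun x => e₁.symm ((stdSL (Fin n) (cjE hF)).ψ x)) (e₁.apply_symm_apply v)
  have h8 : a ∈ GamO (hForm hF n) := ⟨l / conj hF l, by simpa using h0, a.sl, fun x y => by
    obtain ⟨x, rfl⟩ := e₁.symm.surjective x
    obtain ⟨y, rfl⟩ := e₁.symm.surjective y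
    have : conj hF l ≠ 0 := by simpa using h0
    rw [h7, h7, h6, h6, show a.θ = cjE hF from rfl]
    simp only [h1, cjE_apply, map_sum, map_mul, Finset.mul_sum, M, of_apply, conj_j hF hj]
    exact Finset.sum_congr rfl fun i _ => Finset.sum_congr rfl fun k _ => by field_simp,
    fun x => by simp⟩
  refine ⟨_, (graph_su_iff hF hn).2 ⟨⟨a, h8⟩, rfl, (orderOf_cjE hF).symm ▸ even_two⟩,
    orderOf_eq_prime ?_ fun h => ?_, ⟨a, h8⟩, _, l, h0, rfl, rfl, h7, fun x y => by rw [h6, h2]⟩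
  · rw [← map_pow, show (⟨a, h8⟩ : GamO _) ^ 2 = 1 from Subtype.ext (h7.sq hF rfl), map_one]
  · have h9 : cjE hF = 1 := (suModel hF n hn).norms.theta_eq_one (suModel hF n hn).ker_ind h
    simpa [h9] using orderOf_cjE hF

theorem repU_all {γ : MulAut (PSU n F q)} (h1 : IsGraphAutClassPSU γ) (h2 : orderOf γ = 2) :
    ∃ b, Good b ∧ RepU hF hn j γ b := by
  have : Nonempty (Fin n) := ⟨⟨0, by omega⟩⟩
  obtain ⟨a₀, rfl, h3⟩ := (graph_su_iff hF hn).1 h1
  have h4 : (suModel hF n hn).norms.ind a₀ ^ 2 = 1 := h2 ▸ pow_orderOf_eq_one _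
  have h5 := (suModel hF n hn).norms.orderOf_theta (suModel hF n hn).ker_ind Nat.prime_two h4
    fun h => by simp [h] at h3
  obtain ⟨c, hc⟩ := exists_scal_mul_pow_eq_one two_pos h5
    ((suModel hF n hn).ker_ind (a₀ ^ 2) (by rw [map_pow, h4]))
  let a : GamO (hForm hF n) := ⟨_, mul_mem (scalHom_mem_GamO c) a₀.2⟩
  have h6 : a.1.θ = cjE hF := eq_cjE hF h5
  obtain ⟨e, he⟩ : ∃ e : (Fin n → F) ≃ₗ[F] _, Std a.1 e := exists_fix_basis two_pos hc h5 (by simp)
  obtain ⟨k, hk⟩ := a.2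
  obtain ⟨l, h0, hl⟩ := hk.exists_fix (hForm_nondeg hF n) two_pos hc h5
  have h7 : ∀ x y, (hForm hF n).B (e (j ∘ x)) (e (j ∘ y)) / l ∈ j.range := fun x y => (hj _).2 (by
    have h8 := hk.B (e (j ∘ x)) (e (j ∘ y))
    rw [he.fix (h6 ▸ hj), he.fix (h6 ▸ hj)] at h8
    rw [← h6, map_div₀, ← mul_div_mul_left _ _ hk.ne, ← h8, hl])
  choose f hf using h7
  let b : BF (Fin n) F₀ := LinearMap.mk₂ F₀ f
    (fun x x' y => j.injective (by simp [hf, comp_add', add_div]))
    (fun c x y => j.injective (by simp [hf, comp_smul', conj_j hF hj, mul_div_assoc]))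
    (fun x y y' => j.injective (by simp [hf, comp_add', add_div]))
    (fun c x y => j.injective (by simp [hf, comp_smul', mul_div_assoc]))
  have h8 : ∀ x y, (hForm hF n).B (e (j ∘ x)) (e (j ∘ y)) = l * j (b x y) := fun x y => by
    rw [LinearMap.mk₂_apply, hf, mul_div_cancel₀ _ h0]
  have h9 : ∀ x, (∀ y, b x y = 0) → x = 0 := fun x hx => by
    have h10 : (hForm hF n).B (e (j ∘ x)) = 0 := ((Pi.basisFun F _).map e).ext fun i => by
      simpa [comp_single, hx] using h8 x (Pi.single i 1)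
    have h11 := e.map_eq_zero_iff.1 (hForm_nondeg hF n _ fun y => LinearMap.congr_fun h10 y)
    exact funext fun i => by simpa using congrFun h11 i
  obtain ⟨d, -, hd⟩ := exists_mult_of h9 j (f := fun x y => b y x) (c := conj hF l / l) fun x y => by
    rw [div_mul_eq_mul_div, eq_div_iff h0, mul_comm, ← h8, (hForm hF n).symm, h8]
    simp [conj_j hF hj]
  refine ⟨b, ⟨h9, ?_⟩, a, e, l, h0, (((suModel hF n hn).norms.ind_eq_iff (suModel hF n hn).ker_ind
    scalHom_mem_GamO).2 ⟨c, rfl⟩).symm, h6, he, h8⟩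
  obtain ⟨u, hu⟩ := exists_ne (0 : Fin n → F₀)
  obtain ⟨v, hv⟩ := not_forall.1 (mt (h9 u) hu)
  have h3 : d * d = 1 := mul_right_cancel₀ hv (by rw [mul_assoc, ← hd, ← hd, one_mul])
  exact (mul_self_eq_one_iff.1 h3).imp (fun h => by simpa [h] using hd) fun h => by
    simpa [h] using hd

theorem repU_conj {γ γ' : MulAut (PSU n F q)} {b b' : BF (Fin n) F₀} (hb : Good b)
    (h : RepU hF hn j γ b) (h' : RepU hF hn j γ' b') :
    IsConjUnder ((suModel hF n hn).gind le_rfl).range γ γ' ↔ Simil b b' := by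
  have : Nonempty (Fin n) := ⟨⟨0, by omega⟩⟩
  obtain ⟨a, e, l, h0, rfl, h1, h2, h3⟩ := h
  obtain ⟨a', e', l', h0', rfl, h1', h2', h3'⟩ := h'
  constructor
  · rintro ⟨_, ⟨g, rfl⟩, h4⟩
    change _ = (suModel hF n hn).norms.ind ⟨linHom g.1, g.2⟩ * _ *
      ((suModel hF n hn).norms.ind ⟨linHom g.1, g.2⟩)⁻¹ at h4
    rw [← map_inv, ← map_mul, ← map_mul, (suModel hF n hn).norms.ind_eq_iff
      (suModel hF n hn).ker_ind scalHom_mem_GamO] at h4
    obtain ⟨c, hc⟩ := h4
    replace hc : a'.1 = scalHom _ c * (linHom g.1 * a.1 * (linHom g.1)⁻¹) := hc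
    have h5 := h2'.sq hF h1'
    rw [hc, scalHom_mul_pow, conj_pow, h2.sq hF h1, mul_one, mul_inv_cancel, mul_one] at h5
    obtain ⟨μ, hμ, h6⟩ := hilbert90 two_pos (h1 ▸ orderOf_cjE hF)
      (scalHom_injective (h5.trans (map_one _).symm))
    let g' : GO (hForm hF n) := sGO _ (Units.mk0 μ hμ) * g
    have h7 : ∀ v, g'.1 v = μ • g.1 v := fun v => rfl
    obtain ⟨P, hP⟩ := (h2'.mem_range_ratLin (h1' ▸ hj) (b := e'.symm.trans (e.trans g'.1))).2
      (GamL.ext (AddEquiv.ext fun v => by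
        obtain ⟨v, rfl⟩ := e'.surjective v
        simp only [GamL.mul_ψ, linHom_ψ, h2' v, LinearEquiv.trans_apply,
          LinearEquiv.symm_apply_apply, h7]
        rw [h1', ← h1, ← h2 v, hc]
        have h8 : ∀ w, (linHom g.1)⁻¹.ψ (g.1 w) = w := g.1.symm_apply_apply
        have h9 : (c : F) * a.1.θ μ = μ := h6
        simp [GamL.map_smul, smul_smul, mul_comm _ (c : F), h9, h8]) (by simp))
    obtain ⟨k, hk⟩ := g'.2
    obtain ⟨d, h8, hd⟩ := exists_mult_of hb.nd j (f := fun x y => b' (P.1 *ᵥ x) (P.1 *ᵥ y))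
      (c := k * l / l') fun x y => by
        rw [div_mul_eq_mul_div, eq_div_iff h0', mul_comm, ← h3', ← ratLin_rat, ← ratLin_rat, hP,
          mul_assoc, ← h3]
        simpa using hk.B (e (j ∘ x)) (e (j ∘ y))
    exact Simil.symm ⟨glEquiv P, d, fun h => by simp [h, eq_comm, hk.ne, h0, h0'] at h8, hd⟩
  · rintro ⟨P, c, hc, h4⟩
    have h5 := h2'.eq_conj (h2.bc (h1 ▸ hj) P) (h1'.trans h1.symm)
    have h6 : j c ≠ 0 := by simpa using hc
    have h7 : ((bc j P).trans e).symm.trans e' ∈ GO (hForm hF n) :=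
      ⟨_, ss_of_rat hF j (c := l' / (l * j c)) (by simp [h0, h0', hc]) fun x y => by
        simp only [LinearEquiv.trans_apply, bc_rat, h3, h3', h4, map_mul]; field_simp⟩
    refine ⟨_, ⟨⟨_, h7⟩, rfl⟩, (congrArg _
      (Subtype.ext h5 : a' = ⟨linHom _, h7⟩ * a * ⟨linHom _, h7⟩⁻¹)).trans ?_⟩
    rw [map_mul, map_mul, map_inv]; rfl

omit hj in
theorem isSS_ratLin_iff {b : BF (Fin n) F₀} [Nonempty (Fin n)] (hb : Good b)
    {e : (Fin n → F) ≃ₗ[F] (Fin n → F)} {l : F} (h0 : l ≠ 0)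
    (h : ∀ x y, (hForm hF n).B (e (j ∘ x)) (e (j ∘ y)) = l * j (b x y)) {g : GL (Fin n) F₀} {k : F} :
    IsSS (hForm hF n) (hForm hF n) (RingEquiv.refl F) k (ratLin j e g).toAddEquiv ↔
      ∃ d, d ≠ 0 ∧ j d = k ∧ IsSim b g d := by
  constructor
  · intro hk
    obtain ⟨d, h1, hd⟩ := exists_mult_of hb.nd j (f := fun x y => b (g.1 *ᵥ x) (g.1 *ᵥ y))
      (c := k) fun x y => mul_left_cancel₀ h0 (by
        rw [← h, ← ratLin_rat, ← ratLin_rat, mul_left_comm, ← h]
        simpa using hk.B (e (j ∘ x)) (e (j ∘ y)))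
    exact ⟨d, fun h2 => hk.ne (by rw [← h1, h2, map_zero]), h1, hd⟩
  · rintro ⟨d, h1, rfl, hd⟩
    have := ss_of_rat hF j (e := e.trans (ratLin j e g)) (e' := e) (c := j d) (by simpa)
      fun x y => by simp only [LinearEquiv.trans_apply, ratLin_rat, h, hd _, map_mul]; ring
    rwa [show e.symm.trans (e.trans (ratLin j e g)) = ratLin j e g by ext; simp] at this

theorem grIf_su : GrIf (inndiagPSU n F q) (Inn _) IsGraphAutClassPSU (RepU hF hn j)
    fun (x : (powMonoidHom (q + 1) : Fˣ →* Fˣ).ker) D k =>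
      ∃ c : F, conj hF c * c = j k ∧ j D = c ^ n * (x.1 : F) := by
  have : Nonempty (Fin n) := ⟨⟨0, by omega⟩⟩
  have key : ∀ {γ b}, Good b → RepU hF hn j γ b → ∃ (e : (Fin n → F) ≃ₗ[F] _) (l : F)
      (h1 : ∀ g ∈ sim b, ratLin j e g ∈ GO (hForm hF n)), l ≠ 0 ∧
      (∀ x y, (hForm hF n).B (e (j ∘ x)) (e (j ∘ y)) = l * j (b x y)) ∧
      ((suModel hF n hn).norms.rind (fun _ h => h) j e h1).range =
        ((suModel hF n hn).gind le_rfl).range ⊓ centralizer {γ} := by
    rintro _ b hb ⟨a, e, l, h0, rfl, h1, h2, h3⟩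
    refine ⟨e, l, fun g hg => ?_, h0, h3, (suModel hF n hn).norms.range_rind _
      (suModel hF n hn).ker_ind scal_mem_GO two_pos (h1 ▸ orderOf_cjE hF) j e _ (h2.sq hF h1) h2
      (h1 ▸ hj) fun g ⟨k, hk⟩ => ?_⟩
    · obtain ⟨k, hk, h⟩ := mem_sim.1 hg
      exact ⟨_, (isSS_ratLin_iff hF hb h0 h3).2 ⟨k, hk, rfl, h⟩⟩
    · obtain ⟨d, h4, -, h5⟩ := (isSS_ratLin_iff hF hb h0 h3).1 hk
      exact ⟨g, mem_sim.2 ⟨d, h4, h5⟩, 1, by simp⟩
  rw [inndiagPSU_eq hF hn]
  refine ⟨fun b => repU_ex hF hn hj, fun γ => repU_all hF hn hj, fun hb _ => repU_conj hF hn hj hb,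
    fun hb h => ?_, fun {γ b} hb h R hR => ?_, fun m hm x => ?_, fun h2 => ?_, fun x => ?_⟩
  · obtain ⟨e, l, h1, -, -, h2⟩ := key hb h
    exact ⟨(MulEquiv.subgroupCongr h2.symm).trans ((suModel hF n hn).norms.nonempty_range_rind _
      (suModel hF n hn).ker_ind j _ _).some⟩
  · obtain ⟨e, l, h1, h0, h3, h2⟩ := key hb h
    have hd : ∀ (c : Fˣ) (s : (hForm hF n).O) (g : GL (Fin n) F₀),
        linHom (ratLin j e g) = scalHom _ c * linHom s.1 → j g.1.det = c ^ n * (uDet hF n s).1 := by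
      intro c s g h
      rw [← det_ratLin j e, show ratLin j e g = (sGO _ c * oGO _ s).1 from linHom_injective h,
        det_sGO_mul, finrank_fin_fun]
      exact congrArg _ (coe_oDet s).symm
    let X := (((suModel hF n hn).gind le_rfl).range ⊓ centralizer {γ}).comap
      ((suModel hF n hn).gind O_le_GO)
    have h4 : (((suModel hF n hn).gind O_le_GO).comp X.subtype).range =
        ((suModel hF n hn).gind le_rfl).range ⊓ centralizer {γ} := by
      rw [MonoidHom.range_comp, range_subtype, map_comap_eq, range_gind_su hF hn, ← inf_assoc, inf_idem]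
    rw [splitClassCount_eq (inn_le_su hF hn), ← h4, ← range_gind_su hF hn,
      relIndex_sup_eq _ _ (gind_su_mem_Inn_iff hF hn), MonoidHom.range_eq_top.2 (uDet_surjective hF n),
      relIndex_top_right, cyc_index_sup, IsCyclic.index_powMonoidHom_range, Nat.gcd_comm _ n,
      Nat.gcd_assoc, Nat.gcd_eq_right (index_dvd_card _)]
    congr 2
    ext x
    rw [hR]
    constructor
    · rintro ⟨⟨s, hs⟩, rfl⟩
      obtain ⟨g, hg⟩ := h2.ge hs
      obtain ⟨c, hc⟩ := ((suModel hF n hn).norms.ind_eq_iff (suModel hF n hn).ker_ind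
        scalHom_mem_GamO).1 hg
      have h8 := isSS_scal_mul c s
      rw [← show ratLin j e g = _ from
        linHom_injective (a₂ := DistribMulAction.toModuleAut F _ c * s.1) (by exact hc)] at h8
      obtain ⟨d, h5, h6, h7⟩ := (isSS_ratLin_iff hF hb h0 h3).1 h8
      exact ⟨_, d, ⟨h5, g, h7, rfl⟩, c, h6.symm, hd c s g hc⟩
    · rintro ⟨_, d, ⟨h5, g, h6, rfl⟩, c, h7, h8⟩
      have h9 : c ≠ 0 := by rintro rfl; exact h5 (by simpa using h7.symm)
      have h10 := (isSS_ratLin_iff hF hb h0 h3).2 ⟨d, h5, rfl, h6⟩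
      obtain ⟨s, hs⟩ := (mult_eq_iff (hForm_nondeg hF n) (g := ⟨_, _, h10⟩) (c := Units.mk0 c h9)).1
        ((mult_eq _ h10).trans h7.symm)
      refine ⟨⟨s, h2.le ⟨⟨g, mem_sim.2 ⟨d, h5, h6⟩⟩, ((suModel hF n hn).norms.ind_eq_iff
        (suModel hF n hn).ker_ind scalHom_mem_GamO).2 ⟨_, hs⟩⟩⟩, Subtype.ext (Units.ext ?_)⟩
      exact mul_left_cancel₀ (pow_ne_zero n h9) ((hd _ s g hs).symm.trans h8)
  · constructor
    · rintro ⟨k, hk, c, h1, h2⟩
      have h3 : c ≠ 0 := by rintro rfl; exact hk (by simpa using h1.symm)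
      have h4 : conj hF c ≠ 0 := by simpa using h3
      refine ⟨⟨Units.mk0 (conj hF c / c) (div_ne_zero h4 h3), (mem_mu hF).2 ?_⟩,
        Subtype.ext (Units.ext (mul_left_cancel₀ (pow_ne_zero n h3) ?_))⟩
      · simp [conj_conj, h3, h4]
      · rw [← h2, map_pow j k m, ← h1, hm]
        simp only [powMonoidHom_apply, SubmonoidClass.coe_pow, Units.val_pow_eq_pow_val,
          Units.val_mk0, pow_mul, ← mul_pow]
        congr 1; field_simp
    · rintro ⟨y, rfl⟩
      obtain ⟨c, h1, h2⟩ := hilbert90 two_pos (orderOf_cjE hF) (k := y.1⁻¹) (Units.ext (by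
        rw [coe_nrm, show 2 = 1 + 1 from rfl, _root_.Finset.prod_range_succ, Finset.prod_range_one,
          pow_zero, pow_one, Units.val_inv_eq_inv_val, cjE_apply, map_inv₀, map_inv₀, ← mul_inv,
          mul_comm]
        exact (congrArg _ ((mem_mu hF).1 y.2)).trans inv_one))
      obtain ⟨k, hk⟩ := (hj (conj hF c * c)).2 (by simp [conj_conj, mul_comm])
      refine ⟨k, fun h => h1 (by simpa [h] using hk.symm), c, hk.symm, ?_⟩
      rw [map_pow, hk, hm, show conj hF c = y.1 * c by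
        rw [eq_comm, ← eq_inv_mul_iff_mul_eq₀ y.1.ne_zero]; simpa using h2.symm]
      simp only [powMonoidHom_apply, SubmonoidClass.coe_pow, Units.val_pow_eq_pow_val, pow_mul,
        ← mul_pow]
      congr 1; ring
  · refine ⟨⟨-1, (mem_mu hF).2 (by simp)⟩, orderOf_eq_prime (Subtype.ext (by simp)) fun h => h2 ?_,
      fun x D k => exists_congr fun c => by simp [neg_eq_iff_eq_neg]⟩
    have := congrArg (fun x => (x.1 : F)) h
    simp only [Units.val_neg, Units.val_one, OneMemClass.coe_one] at this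
    exact j.injective (by rw [map_ofNat, map_zero]; linear_combination -this)
  · constructor
    · rintro ⟨d, hd, c, h1, h2⟩
      have h3 : c ≠ 0 := by rintro rfl; exact hd (by simpa using h1.symm)
      have h4 : conj hF c ≠ 0 := by simpa using h3
      refine ⟨⟨Units.mk0 (j d / c) (div_ne_zero (by simpa) h3), (mem_mu hF).2 ?_⟩,
        Subtype.ext (Units.ext (mul_left_cancel₀ (pow_ne_zero n h3) ?_))⟩
      · simp only [Units.val_mk0, map_div₀, conj_j hF hj]
        field_simp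
        rw [← map_pow, ← h1]
      · rw [← h2, map_pow j d n]
        simp only [powMonoidHom_apply, SubmonoidClass.coe_pow, Units.val_pow_eq_pow_val,
          Units.val_mk0, ← mul_pow]
        congr 1; field_simp
    · rintro ⟨y, rfl⟩
      exact ⟨1, one_ne_zero, y.1⁻¹, by
        rw [map_inv₀, ← mul_inv, (mem_mu hF).1 y.2]; simp, by simp⟩

theorem repU_std : RepU hF hn j ((suModel hF n hn).norms.ind ⟨stdSL _ (cjE hF), 1,
    stdSL_herm hF n _⟩) (dotB n F₀) :=
  ⟨_, LinearEquiv.refl F _, 1, one_ne_zero, rfl, rfl, std_stdSL _, fun x y => by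
    simp [hForm_B, hermForm, dotB_apply, dotProduct, ← conj_apply hF, conj_j hF hj, mul_comm]⟩

end H22
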