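import Cfsg.Agent.H22.BalD
import Cfsg.Agent.H22.GrD
import Cfsg.Agent.H22.GrE

/-! Local balance: small dimensions, linear groups. -/

set_option autoImplicit false

namespace H22

open Module H23 H23.Form Matrix Cfsg Subgroup
open scoped MatrixGroups LinearAlgebra.Projectivization

variable {F₀ F V M M₀ : Type*} [Field F₀] [Field F] [AddCommGroup V] [Module F V] [Group M]
  [Group M₀] [FiniteDimensional F V] {ℓ p : ℕ} [Fact ℓ.Prime]

theorem NP.prod {G H : Type*} [Group G] [Group H] (hG : NP p G) (hH : NP p H) : NP p (G × H) := by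
  intro N hN hc
  have h1 := hG _ (hN.map (MonoidHom.fst G H) Prod.fst_surjective)
    (hc.coprime_dvd_left (card_map_dvd _ _))
  have h2 := hH _ (hN.map (MonoidHom.snd G H) Prod.snd_surjective)
    (hc.coprime_dvd_left (card_map_dvd _ _))
  exact eq_bot_iff.mpr fun n hn => Prod.ext (h1.le ⟨n, hn, rfl⟩) (h2.le ⟨n, hn, rfl⟩)

section WM

variable {σ : F →+* F} {Φ : Form σ V}

/-- a weak form of `Model` which also covers the four-dimensional orthogonal groups -/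
structure WM (hΦ : Φ.Nondeg) (G : Subgroup Φ.O) : Prop where
  three : 3 ≤ finrank F V
  hex : ∃ e, Sing Φ e ∧ e ≠ 0
  sing : ∀ e f, Hyp Φ e f → ∃ x, Sing Φ x ∧ Φ.B e x ≠ 0 ∧ Φ.B f x ≠ 0
  eich : ∀ g ∈ eichSet hΦ, g ∈ G
  norm : ∀ θ k ψ (h : IsSS Φ Φ θ k ψ), ∀ s ∈ G, h.conj s ∈ G

variable {hΦ : Φ.Nondeg} {G : Subgroup Φ.O}

theorem WM.norms (h : WM hΦ G) : Norms (Φ.O.subtype.comp G.subtype) (GamO Φ) :=
  ⟨Subtype.val_injective.comp Subtype.val_injective, fun _ ⟨k, hk⟩ s =>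
    ⟨⟨_, h.norm _ k _ hk s.1 s.2⟩, rfl⟩⟩

theorem WM.mem_range_scalHom (h : WM hΦ G) {a : GamL F V} (ha : a ∈ GamO Φ)
    (hc : ∀ g ∈ eichSet hΦ, slAut a g.1 = g.1) : a ∈ (scalHom V : Fˣ →* _).range := by
  have : Nontrivial V := Module.nontrivial_of_finrank_pos (R := F) (by have := h.three; omega)
  obtain ⟨k, hk⟩ := ha
  have h1 : ∀ {e u s} (hs : EichData Φ e u s) v,
      (H22.eich hΦ hs).1 (a.ψ v) = a.ψ ((H22.eich hΦ hs).1 v) := fun hs v => by
    rw [← slAut_apply', hc _ (eich_mem_eichSet hΦ hs)]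
  have h2 : ∀ u, Sing Φ u → ∃ c : F, a.ψ u = c • u := fun u hu => by
    by_cases h0 : u = 0
    · exact ⟨0, by simp [h0]⟩
    obtain ⟨c, hc⟩ := Submodule.mem_span_singleton.mp (mem_span_of_fix_eich hΦ h.three
      (v := a.ψ u) hu h0 fun w s hs => by rw [h1, eich_apply_self])
    exact ⟨c, hc.symm⟩
  obtain ⟨e, he, he0⟩ := h.hex
  obtain ⟨f, hf⟩ := exists_hyp hΦ he he0
  have h3 : a.θ = RingEquiv.refl F := by
    obtain ⟨c, hc⟩ := h2 e he
    have hc0 : c ≠ 0 := by rintro rfl; exact he0 (by simpa using hc)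
    have h4 : ∀ u v, Φ.B e u = 0 → Φ.B e v = 0 → Φ.B u (a.ψ v) = a.θ (Φ.B u v) * c := by
      intro u v hu hv
      obtain ⟨s, hs⟩ := exists_eichData he hu
      have h5 : Φ.B e (a.ψ v) = 0 := by
        simpa [hc, B_smul_left, hc0] using hk.B_eq_zero.mpr hv
      have := h1 hs v
      rw [eich_apply_of_perp hΦ hs hv, eich_apply_of_perp hΦ hs h5, map_add, a.map_smul, hc,
        smul_smul, add_right_inj] at this
      exact smul_left_injective F he0 this
    obtain ⟨w, hw, hw'⟩ := exists_perp_not_mem hΦ h.three e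
    obtain ⟨u, hu, v, hv, huv⟩ := exists_B_ne_of_not_le hΦ (X := F ∙ e)
      fun h => hw' (h (Φ.mem_perp_span_singleton.mpr hw))
    rw [mem_perp_span_singleton] at hu hv
    ext x
    have e1 := h4 (σ x • u) v (by simp [hu]) hv
    rw [B_smul_left, B_smul_left, h4 u v hu hv, Φ.invol, map_mul, mul_assoc] at e1
    exact (mul_right_cancel₀ (mul_ne_zero (by simpa using huv) hc0) e1).symm
  exact H22.mem_range_scalHom.mpr ((h3 ▸ hk).scalar_of_fix_points hf (h.sing _ _ hf) h2)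

theorem WM.of_scal [Finite F] (h : WM hΦ G) {a : GamL F V} (ha : a ∈ GamO Φ)
    (hc : ∀ g ∈ G, ∃ c : F, ∀ v, slAut a g.1 v = c • g.1 v) :
    a ∈ (scalHom V : Fˣ →* _).range := by
  have := Fintype.ofFinite F
  obtain ⟨p, _, n, hp, hn⟩ := FiniteField.card' F
  have := Fact.mk hp
  refine h.mem_range_scalHom ha fun g hg => ?_
  obtain ⟨c, hc⟩ := hc g (h.eich g hg)
  have h2 : PE p g.1 := by
    obtain ⟨u, e, c, hd, rfl⟩ := hg
    exact pe_O.mp (pe_eich hΦ p hd)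
  have h1 : LScal ((g.1)⁻¹ * slAut a g.1) := ⟨c, fun v => by simp [hc]⟩
  have h4 := h1.eq_one_of_pe (h2.inv.mul_of_commute (h2.map (slAut a).toMonoidHom) (by
    have := (h1.commute g.1).symm.inv_left
    simpa using (Commute.refl g.1).inv_left.mul_right this))
  exact (inv_mul_eq_one.mp h4).symm

theorem WM.ker_ind [Finite F] (h : WM hΦ G) (a : GamO Φ) (h0 : h.norms.ind a = 1) :
    a.1 ∈ (scalHom V : Fˣ →* _).range := by
  have : Nontrivial V := Module.nontrivial_of_finrank_pos (R := F) (by have := h.three; omega)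
  refine h.of_scal a.2 fun g hg => ?_
  have h1 := h.norms.ind_mk a (h.norms.r_mAut a ⟨g, hg⟩)
  rw [h0, MulAut.one_apply, QuotientGroup.eq] at h1
  obtain ⟨c, hc⟩ := H22.mem_range_scalHom.mp (h.mem_range_scalHom
    (linHom_mem_GamO (_ : G).1) fun k hk => by
      have := congrArg (fun s : G => s.1.1) (Subgroup.mem_center_iff.mp h1 ⟨k, h.eich k hk⟩)
      rw [slAut_linHom, mul_inv_eq_iff_eq_mul]
      exact this.symm)
  refine ⟨c, fun v => ?_⟩
  have h2 := congrArg g.1 (hc v)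
  rw [map_smul] at h2
  rw [← h2]
  exact (LinearEquiv.congr_fun (h.norms.r_mAut a ⟨g, hg⟩) v).symm.trans
    (g.1.apply_symm_apply _).symm

theorem Model.wm {r : M →* Φ.O} (m : Model hΦ r) : WM hΦ r.range :=
  ⟨m.pol.three, m.pol.hex, fun _ _ h => m.pol.rich.exists_sing h, m.eich, by
    rintro θ k ψ h _ ⟨s, rfl⟩; exact m.norm θ k ψ h s⟩

end WM

theorem wm_quad [Finite F] {Φ : Form (RingHom.id F) V} (hΦ : Φ.Nondeg) (hκ : Φ.κ = 1)
    (hg : GenHyp Φ) (h3 : 3 ≤ finrank F V) : WM hΦ (commutator Φ.O) := by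
  refine ⟨h3, exists_sing_of_three_le hΦ hκ h3, fun e f h => ?_, eichSet_le_commutator hΦ hκ hg,
    fun θ k ψ h s hs => (mem_commutator_equiv _).mpr hs⟩
  obtain ⟨z, h1, h2, h4⟩ := h.exists_Q_ne_zero hκ hΦ h3
  refine ⟨(-Φ.Q z) • e + (1 : F) • f + z, ?_, by simp [h.left.1, h.one, h1], ?_⟩
  · rw [h.sing_coord _ _ (mem_perp_pair.mpr ⟨h1, h2⟩)]
    simp [eps_quad hκ, hκ, B_self_quad hκ, two_mul]
  · simp [h.right.1, h.B_symm, h2, h4, Φ.eps_ne_zero]

section SL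

variable [CharP F ℓ] [Fintype F] {n : ℕ}

omit [CharP F ℓ] in
theorem pow_dvd_card_SL (hn : 1 ≤ n) :
    (Fintype.card F - 1) ^ (n - 1) ∣ Nat.card (SpecialLinearGroup (Fin n) F) := by
  have hq := Fintype.one_lt_card (α := F)
  refine Nat.dvd_of_mul_dvd_mul_left (k := Fintype.card F - 1) (by omega) ?_
  rw [card_SL n (by omega), ← pow_succ', Nat.sub_add_cancel (by omega)]
  simpa using Finset.prod_dvd_prod_of_dvd (s := Finset.univ) (fun _ : Fin n => Fintype.card F - 1)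
    (fun i => Fintype.card F ^ n - Fintype.card F ^ (i : ℕ)) fun i _ =>
    (Nat.modEq_iff_dvd' (Nat.pow_le_pow_right hq.le i.2.le)).mp (by
      have := (Nat.modEq_iff_dvd' hq.le).mpr dvd_rfl
      exact (this.pow i).symm.trans (by simpa using this.pow n))

theorem dvd_card_PSL (hn : 2 ≤ n) (hp : p.Prime) (hpl : p ≠ ℓ)
    (h : p = 2 ∨ p ∣ Nat.card (SpecialLinearGroup (Fin n) F)) :
    p ∣ Nat.card (ProjectiveSpecialLinearGroup (Fin n) F) := by
  have hq := Fintype.one_lt_card (α := F)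
  have h1 := pow_dvd_card_SL (F := F) (show 1 ≤ n by omega)
  have h2 : p = 2 → Odd (Fintype.card F) := fun h => H22.odd_card_of_two_ne_zero fun h2 =>
    hpl (h.trans ((Nat.prime_dvd_prime_iff_eq Fact.out Nat.prime_two).mp
      ((CharP.cast_eq_zero_iff F ℓ 2).mp (by simpa using h2))).symm)
  refine dvd_of_mul_eq hp (gcd_mul_card_PSL n (by omega)) (h.elim (fun h => ?_) id) (fun h => ?_)
    (Nat.gcd_pos_of_pos_left _ (by omega))
  · exact ((h ▸ (Nat.Odd.sub_odd (h2 h) odd_one).two_dvd).trans (dvd_pow_self _ (by omega))).trans h1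
  obtain rfl | h3 := hn.eq_or_lt
  · have h3 := (Nat.prime_dvd_prime_iff_eq hp Nat.prime_two).mp (h.trans (Nat.gcd_dvd_left _ _))
    rw [card_SL_two]
    exact (((mul_dvd_mul (Nat.gcd_dvd_left _ _) h3.dvd).trans (by norm_num)).trans
      (Nat.eight_dvd_sq_sub_one_of_odd (h2 h3))).mul_left _
  · refine (mul_dvd_mul (Nat.gcd_dvd_right _ _) (h.trans (Nat.gcd_dvd_right _ _))).trans ?_
    rw [← sq]
    exact (pow_dvd_pow _ (by omega)).trans h1

theorem np_sl (hn : 2 ≤ n) (hp : p.Prime) (hpl : p ≠ ℓ)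
    (h : p = 2 ∨ p ∣ Nat.card (SpecialLinearGroup (Fin n) F)) :
    NP p (ProjectiveSpecialLinearGroup (Fin n) F) := by
  refine np_of_quasi (X := ℙ F (Fin n → F)) (ℓ := ℓ) slIwasawa.T (fun P => ?_) (fun g P a ha => ?_)
    slIwasawa.is_generator (fun g hg => ?_) hp hpl (dvd_card_PSL hn hp hpl h)
  · induction P using Projectivization.ind with | _ v hv => ?_
    refine ((isPGroup_radL ℓ (F ∙ v)).comap_of_injective _ (slNorms F (Fin n)).inj).to_le
      fun s hs => ⟨hs, fun w hw => ?_⟩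
    obtain ⟨c, rfl⟩ := Submodule.mem_span_singleton.mp hw
    rw [map_smul]
    exact congrArg _ (SpecialLinearGroup.lineStab_fix_of_span v hv s hs)
  · rw [slIwasawa.is_conj]
    exact smul_mem_pointwise_smul _ _ _ ha
  · rw [← Projectivization.SL_mulAction_ker, MonoidHom.mem_ker]
    exact Equiv.ext hg

end SL

theorem np_quad_two [Finite F] {Φ : Form (RingHom.id F) V} (hΦ : Φ.Nondeg) (hκ : Φ.κ = 1)
    (h2 : (2 : F) ≠ 0) (h3 : 3 ≤ finrank F V) :
    NP 2 (commutator Φ.O ⧸ center (commutator Φ.O)) := by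
  have := Fintype.ofFinite F
  obtain ⟨ℓ, _, n, hℓ, hn⟩ := FiniteField.card' F
  have := Fact.mk hℓ
  have hl : 2 ≠ ℓ := fun h => h2 (by simpa [← h] using CharP.cast_eq_zero F ℓ)
  have hg := genHyp_of_two_ne_zero hΦ hκ h2
  have hex := exists_sing_of_three_le hΦ hκ h3
  by_cases hR : Rich Φ
  · exact np_O hΦ hR hex _ (eichSet_le_commutator hΦ hκ hg) (commutator_eq_eichGrp hΦ hκ hg hex h3)
      (eich_mem_radT' hex) Nat.prime_two hl (dvd_card_POmega hΦ hκ hg h3 Nat.prime_two hl (.inl rfl))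
  simp only [Rich, not_forall] at hR
  obtain ⟨u, v, w, hu, hvw, h4, h5, h6⟩ := hR
  have h7 : u ≠ 0 := by
    rintro rfl
    obtain ⟨z, a1, a2, a3⟩ := hvw.exists_Q_ne_zero hκ hΦ h3
    exact h6 ⟨z, Φ.Q z, a3, by simp [eps_quad hκ, B_self_quad hκ, two_mul], by simp [hκ], by simp,
      a1, a2⟩
  have h8 : ¬ 5 ≤ finrank F V := fun h => h6 (rich_quad hΦ hκ h u v w hu hvw h4 h5)
  obtain ⟨Q, rfl⟩ := exists_eq_ofQuad Φ hκ
  have h9 : LinearIndependent F ![u, v] := LinearIndependent.pair_iff.mpr fun s t h => by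
    have a1 := congrArg (fun x => (ofQuad Q).B x w) h
    simp only [map_add, LinearMap.add_apply, B_smul_left, h5, hvw.one, map_zero, mul_zero, mul_one,
      LinearMap.zero_apply, zero_add, RingHom.id_apply] at a1
    simpa [a1, h7] using h
  have a1 : ∀ x ∈ Submodule.span F (Set.range ![u, v]), Q x = 0 := fun x hx => by
    obtain ⟨s, t, rfl⟩ := Submodule.mem_span_pair.mp (by simpa using hx)
    have b1 : Q u = 0 := hu.2
    have b2 : Q v = 0 := hvw.left.2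
    have b3 : QuadraticMap.polar Q v u = 0 := (QuadraticMap.polar_comm _ _ _).trans h4
    simp [QuadraticMap.map_add Q, QuadraticMap.map_smul, b1, b2, b3]
  have a2 : finrank F (Submodule.span F (Set.range ![u, v])) = 2 := by
    simpa using finrank_span_eq_card h9
  have a3 := hΦ.two_mul_finrank_le (totSing_ofQuad.2 a1)
  obtain ⟨e, he⟩ := exists_equiv_plus hΦ (m := 2) (by omega) a1 a2
  obtain ⟨φ⟩ := pomega_plus_four (F := F) (by
    have := H22.odd_card_of_two_ne_zero h2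
    have := Fintype.one_lt_card (α := F)
    grind)
  have a4 := np_sl (F := F) le_rfl Nat.prime_two hl (.inl rfl)
  exact (((a4.prod a4).congr φ.symm).congr (pOmegaEquiv (qPlus 2 F))).congr (quotCenterCongr
    (commutatorCongr (isSS_quad_iff (k := 1) (θ := RingEquiv.refl F) (ψ := e.toAddEquiv).2
      ⟨one_ne_zero, e.map_smul, by simpa using he⟩).conj))

theorem Good.exists_wm [Finite F] {ι : Type} [Fintype ι] [DecidableEq ι] {b : BF ι F} (hb : Good b)
    (h2 : (2 : F) ≠ 0) (h3 : 3 ≤ Fintype.card ι) : ∃ (Ψ : Form (RingHom.id F) (ι → F))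
      (hΨ : Ψ.Nondeg) (G : Subgroup Ψ.O) (c d : F), WM hΨ G ∧ NP 2 (G ⧸ center G) ∧ G ≤ SO Ψ ∧
      c ≠ 0 ∧ (∀ x y, Ψ.B x y = c * b x y) ∧ (∀ θ : F ≃+* F, θ c = c) ∧
      (∀ θ : F ≃+* F, θ d = d) ∧ ∀ v, Ψ.Q v = d * Ψ.B v v := by
  have := Fintype.ofFinite F
  obtain ⟨ℓ, _, n, hℓ, hn⟩ := FiniteField.card' F
  have := Fact.mk hℓ
  have hl : 2 ≠ ℓ := fun h => h2 (by simpa [← h] using CharP.cast_eq_zero F ℓ)
  obtain h | h := hb.alt_or h2
  · have hΨ : (ofAlt b h).Nondeg := hb.nd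
    have m : Model hΨ (⊤ : Subgroup _).subtype := ⟨pol_alt hΨ rfl rfl (by simpa),
      subtype_injective _, by simp, by simp⟩
    refine ⟨_, hΨ, ⊤, 1, 0, by simpa using m.wm, m.np_alt rfl rfl (by simp) Nat.prime_two hl
      (.inl rfl), ?_, one_ne_zero, fun _ _ => (one_mul _).symm, by simp, by simp,
      fun _ => (zero_mul _).symm⟩
    rw [← closure_spTv hΨ rfl rfl, closure_le]
    exact fun g ⟨v, c, h⟩ => eichSet_le_SO hΨ g ⟨_, _, _, _, h⟩
  · obtain ⟨Q, hQ, -, h1⟩ := hb.exists_quad h2 h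
    refine ⟨_, hQ, _, 2, 2⁻¹, wm_quad hQ rfl (genHyp_of_two_ne_zero hQ rfl h2) (by simpa),
      np_quad_two hQ rfl h2 (by simpa), commutator_le_SO _, h2, fun x y => ?_,
      fun θ => map_ofNat θ 2, fun θ => by simp [map_ofNat], fun v => ?_⟩
    · simp [QuadraticMap.polar, h1, h x y]; ring
    · rw [B_self_quad rfl, inv_mul_cancel_left₀ h2]

omit [FiniteDimensional F V] in
theorem Norms.desc_same [Nontrivial V] {r : M →* (V ≃ₗ[F] V)} {Δ : Subgroup (GamL F V)}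
    (h : Norms r Δ) (hM : ∀ s, linHom (r s) ∈ Δ)
    (hker : ∀ a, h.ind a = 1 → a.1 ∈ (scalHom V : Fˣ →* _).range)
    {r₀ : M₀ →* (V ≃ₗ[F] V)} {Δ₀ : Subgroup (GamL F V)} (h₀ : Norms r₀ Δ₀)
    (hM₀ : ∀ s, linHom (r₀ s) ∈ Δ₀) (hker₀ : ∀ a, h₀.ind a = 1 → a.1 ∈ (scalHom V : Fˣ →* _).range)
    (hZ : center (M ⧸ center M) = ⊥) (hr : ∀ s, r₀ s ∈ r.range) {x : MulAut (M ⧸ center M)}
    (h1 : ∀ a : Δ, a.1 ∈ (linHom.comp r₀).range → Commute (h.ind a) x)
    (h2 : ∀ a : Δ, Commute (h.ind a) x → ∃ b : Δ, b.1 ∈ Δ₀ ∧ h.ind a = h.ind b) :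
    ∃ φ : M₀ ⧸ center M₀ →* M ⧸ center M, Desc h.ind.range x φ h₀.ind.range := by
  obtain ⟨i, hi⟩ := exists_lift_range h.inj r₀ hr
  obtain ⟨φ, h3, h4⟩ := exists_quot_hom i fun s => by
    rw [h.mem_center_iff hM hker, h₀.mem_center_iff hM₀ hker₀, hi]
  refine ⟨φ, h3, fun s => ?_, ?_⟩
  · obtain ⟨s, rfl⟩ := QuotientGroup.mk_surjective s
    rw [h4, ← conj_commute_iff hZ, ← h.ind_linHom _ (hM _)]
    exact h1 _ ⟨s, by simp [hi]⟩
  · rintro _ ⟨a, rfl⟩ hc
    obtain ⟨b, h5, h6⟩ := h2 a hc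
    rw [h6]
    refine ⟨_, ⟨⟨b, h5⟩, rfl⟩, fun s => ?_, fun h7 => ?_⟩
    · obtain ⟨s, rfl⟩ := QuotientGroup.mk_surjective s
      rw [h₀.ind_mk _ (h₀.r_mAut _ s), h4, h4]
      exact h.ind_mk _ (by rw [hi, hi, h₀.r_mAut])
    · obtain ⟨c, hc⟩ := hker₀ _ h7
      obtain ⟨b, hb⟩ := b
      obtain rfl : scalHom V c = b := hc
      rw [h.ind_scalHom]
      exact one_mem _

end H22
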