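import Cfsg.Agent.H22.BalE

/-! Local balance: unitary and linear groups. -/

set_option autoImplicit false

namespace H22

open Module H23 H23.Form Matrix Cfsg Subgroup

attribute [-simp] conj_apply

variable {F₀ F : Type*} [Field F₀] [Field F] {ℓ p : ℕ} [Fact ℓ.Prime]

theorem np_of_quasi' {G X : Type*} [Group G] [MulAction G X] [MulAction.IsQuasiPreprimitive G X]
    (hker : ∀ g : G, (∀ x : X, g • x = x) ↔ g ∈ center G) (hp : p.Prime)
    (hd : p ∣ Nat.card X) : NP p (G ⧸ center G) := by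
  intro N' hN' hcop
  by_contra h0
  obtain ⟨⟨n, hn⟩, hn1⟩ := ne_bot_iff_exists_ne_one.mp h0
  obtain ⟨n, rfl⟩ := QuotientGroup.mk_surjective n
  set N := N'.comap (QuotientGroup.mk' (center G))
  obtain ⟨x₀, hx⟩ : ∃ x : X, n • x ≠ x := by
    by_contra! h
    exact hn1 (Subtype.ext ((QuotientGroup.eq_one_iff _).mpr ((hker n).mp h)))
  have h1 : MulAction.IsPretransitive N X :=
    MulAction.IsQuasiPreprimitive.isPretransitive_of_normal fun h =>
      hx ((h ▸ Set.mem_univ x₀ : x₀ ∈ MulAction.fixedPoints N X) ⟨n, hn⟩)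
  have h2 : ((QuotientGroup.mk' (center G)).comp N.subtype).ker ≤ MulAction.stabilizer N x₀ :=
    fun k hk => (hker k.1).mpr ((QuotientGroup.eq_one_iff _).mp hk) x₀
  have h3 := index_dvd_of_le h2
  rw [index_ker, MonoidHom.range_comp, range_subtype, map_comap_eq_self_of_surjective
    (QuotientGroup.mk'_surjective _), MulAction.index_stabilizer_of_transitive] at h3
  exact hp.coprime_iff_not_dvd.mp hcop.symm (hd.trans h3)

theorem Norms.exists_norm {V M : Type*} [AddCommGroup V] [Module F V] [Group M] [Finite F]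
    [Nontrivial V] {r : M →* (V ≃ₗ[F] V)} {Δ : Subgroup (GamL F V)} (h : Norms r Δ)
    (hker : ∀ a, h.ind a = 1 → a.1 ∈ (scalHom V : Fˣ →* _).range) (hs : ∀ c, scalHom V c ∈ Δ)
    (a : Δ) {n : ℕ} (hn : n.Prime) (h0 : a.1.θ ≠ 1) (h1 : h.ind a ^ n = 1) :
    ∃ b : Δ, orderOf b.1.θ = n ∧ b.1 ^ n = 1 ∧ h.ind a = h.ind b := by
  have h2 := h.orderOf_theta hker hn h1 h0
  obtain ⟨c, hc⟩ := exists_scal_mul_pow_eq_one hn.pos h2 (hker (a ^ n) (by rwa [map_pow]))
  exact ⟨⟨_, mul_mem (hs c) a.2⟩, by simpa using h2, hc, ((h.ind_eq_iff hker hs).2 ⟨c, rfl⟩).symm⟩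

theorem odd_card_of_ne [Fintype F] [CharP F ℓ] (h : 2 ≠ ℓ) : (2 : F) ≠ 0 := fun h2 =>
  h ((Nat.prime_dvd_prime_iff_eq Fact.out Nat.prime_two).mp
    ((CharP.cast_eq_zero_iff F ℓ 2).mp (by simpa using h2))).symm

section SU

variable [Fintype F] [CharP F ℓ] {q n : ℕ} (hF : Fintype.card F = q ^ 2) (hn : 3 ≤ n)
include hF hn

theorem np_su (hp : p.Prime) (hpl : p ≠ ℓ) (h : p = 2 ∨ p ∣ Nat.card (hForm hF n).O) :
    NP p (PSU n F q) := by
  have hq : 0 < q := Nat.pos_of_ne_zero fun h => Fintype.card_ne_zero (α := F) (by simp [hF, h])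
  have : Nonempty (Fin n) := ⟨⟨0, by omega⟩⟩
  have h1 := card_O_herm hF n _ (hForm_nondeg hF n) rfl rfl (by simp)
  have h2 : p = 2 → Odd q := fun h => by
    have := H22.odd_card_of_two_ne_zero (odd_card_of_ne (F := F) (h ▸ hpl))
    rw [hF] at this
    exact (Nat.odd_pow_iff two_ne_zero).mp this
  by_cases hs : n = 3 ∧ q = 2
  · obtain ⟨rfl, rfl⟩ := hs
    have m := suModel hF 3 hn
    have := quasiPreprimitive_pt _ m.pol.rich m.pol.hex _ m.eich
    have h3 := card_pt (hForm hF 3)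
    rw [nsing_herm hF _ (hForm_nondeg hF 3) rfl rfl (n := 3) (by simp), hF] at h3
    have h4 : p = 3 := by
      have h5 : p ≠ 2 := fun h => absurd (h2 h) (by decide)
      have h6 : p ∣ 2 ^ 3 * 3 ^ 4 := by simpa [h1, Finset.prod_range_succ] using h.resolve_left h5
      exact (hp.dvd_mul.mp h6).elim (fun h => absurd ((Nat.prime_dvd_prime_iff_eq hp
        Nat.prime_two).mp (hp.dvd_of_dvd_pow h)) h5) fun h =>
        (Nat.prime_dvd_prime_iff_eq hp Nat.prime_three).mp (hp.dvd_of_dvd_pow h)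
    refine (np_of_quasi' (X := Pt (hForm hF 3)) (fun g => ⟨fun hg => ?_, fun hg P => ?_⟩) hp
      (h4.dvd.trans ⟨3, by rw [if_neg (by decide)] at h3; omega⟩)).congr (quotCenterCongr (MonoidHom.ofInjective m.inj)).symm
    · obtain ⟨e, he, he0⟩ := m.pol.hex
      obtain ⟨f, hf⟩ := exists_hyp (hForm_nondeg hF 3) he he0
      obtain ⟨a, ha⟩ := scalar_of_fix_points hf (m.pol.rich.exists_sing hf) g.1 (fun u hu => by
        by_cases h0 : u = 0
        · exact ⟨0, by simp [h0]⟩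
        · have := hg (pt hu h0)
          rwa [Subgroup.smul_def, smul_pt, pt_eq_iff] at this)
      exact mem_center_of_scalar _ g ha
    · induction P using Pt.ind with | _ u hu hu0 =>
      obtain ⟨c, hc⟩ := m.pol.scal_of_commute (g := g.1) fun k hk =>
        congrArg Subtype.val (Subgroup.mem_center_iff.mp hg ⟨k, m.eich k hk⟩)
      rw [Subgroup.smul_def, smul_pt, pt_eq_iff]
      exact ⟨c, hc u⟩
  have := PSU_isSimpleGroup hF n hn hs
  refine np_of_simple hp ?_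
  have h3 := card_SU hF n (by omega)
  have h4 : (q + 1) ^ 2 ∣ Nat.card (SU n F q) := by
    refine (pow_dvd_pow _ (show 2 ≤ n - 1 by omega)).trans
      (Nat.dvd_of_mul_dvd_mul_left (k := q + 1) (by omega) ?_)
    rw [h3, ← pow_succ', Nat.sub_add_cancel (by omega)]
    refine Dvd.dvd.mul_left ?_ _
    simpa using Finset.prod_dvd_prod_of_dvd (s := Finset.range n) (fun _ => q + 1)
      (fun i => if Even i then q ^ (i + 1) + 1 else q ^ (i + 1) - 1) fun i _ => by
      have h5 : (q : ZMod (q + 1)) = -1 := eq_neg_of_add_eq_zero_left (by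
        simpa using ZMod.natCast_self (q + 1))
      rw [← ZMod.natCast_eq_zero_iff]
      split_ifs with h
      · simp [h5, h.add_one.neg_one_pow]
      · simp [cast_pow_sub_one hq, h5, (Nat.not_even_iff_odd.mp h).add_one.neg_one_pow]
  have h5 : p ∣ q + 1 → p ∣ Nat.card (SU n F q) := fun h =>
    h.trans ((dvd_pow_self _ two_ne_zero).trans h4)
  have h6 := card_center_mul_card_quotient (SU n F q)
  rw [card_center_SU hF n (by omega)] at h6
  refine dvd_of_mul_eq hp h6 (h.elim (fun h => h5 (h ▸ (h2 h).add_one.two_dvd)) fun h => ?_)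
    (fun h => (mul_dvd_mul (Nat.gcd_dvd_right _ _) (h.trans (Nat.gcd_dvd_right _ _))).trans
      (sq (q + 1) ▸ h4)) (Nat.gcd_pos_of_pos_left _ (by omega))
  rw [h1, ← h3] at h
  exact (hp.dvd_mul.mp h).elim h5 id

theorem bal_su (hs : ¬ (n = 3 ∧ q = 2)) (hp : p.Prime) (hpl : p ≠ ℓ) (a : GamO (hForm hF n))
    (h0 : a.1.θ ≠ 1) (ha : orderOf ((suModel hF n hn).norms.ind a) = p)
    (hd : p ∣ Nat.card (PSU n F q)) : Bal p ((suModel hF n hn).norms.ind a) := by
  have : Nonempty (Fin n) := ⟨⟨0, by omega⟩⟩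
  have m := suModel hF n hn
  have := m.finite
  have hT := range_ind_su hF hn hs
  have hq : 0 < q := Nat.pos_of_ne_zero fun h => Fintype.card_ne_zero (α := F) (by simp [hF, h])
  obtain ⟨x, h1, h3, h4⟩ := m.norms.exists_norm m.ker_ind scalHom_mem_GamO a hp h0
    (ha ▸ pow_orderOf_eq_one _)
  rw [h4] at ha ⊢
  obtain ⟨F₀, _, _, j, hj, hF'⟩ := exists_fixed x.1.θ
  have := j.charP_iff_charP ℓ |>.mpr inferInstance
  rw [h1, hF] at hF'
  obtain rfl | h2 := eq_or_ne p 2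
  · have h5 := eq_cjE hF h1
    obtain ⟨b, hb, y, e, l, hl, h6, h7, h8, h9⟩ := repU_all hF hn (h5 ▸ hj)
      ((graph_su_iff hF hn).mpr ⟨x, rfl, h1 ▸ even_two⟩) ha
    obtain ⟨Ψ, hΨ, G, c, d, a1, a2, a3, a4, a5, -, a6⟩ := hb.exists_wm (odd_card_of_ne hpl)
      (by simpa using hn)
    have a7 : ∀ v w, (hForm hF n).B (e (j ∘ v)) (e (j ∘ w)) = l / j c * j (Ψ.B v w) := fun v w => by
      rw [h9, a5, map_mul, div_mul_eq_mul_div, mul_div_assoc,
        mul_div_cancel_left₀ _ (by simpa using a4)]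
    rw [h6] at ha ⊢
    refine (m.norms.desc (fun s => linHom_mem_GamO _) m.ker_ind scalHom_mem_GamO
      a1.norms (fun s => linHom_mem_GamO _) a1.ker_ind two_pos (h8.sq hF h7)
      (h7 ▸ orderOf_cjE hF) h8 (h7 ▸ h5 ▸ hj) (fun s => ?_) fun _ ha _ h => h.mem_GamO hΨ
        (div_ne_zero hl (by simpa using a4)) a7 (.inr ⟨d, a6⟩) ha).elim fun φ hφ =>
      hφ.1.bal m.center_quot ha (fun k => hT ▸ mem_top _) a2 fun y _ _ _ => hT ▸ mem_top _
    have b1 := (isSS_ratLin_iff hF hb hl h9 (g := glEquiv.symm s.1.1) (k := 1)).mpr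
      ⟨1, one_ne_zero, map_one _, fun u v => mul_left_cancel₀ a4 (by
        rw [glEquiv_symm_mulVec, glEquiv_symm_mulVec, ← a5, one_mul, ← a5, O_B])⟩
    obtain ⟨t, ht⟩ : (⟨_, fun u v => by simpa using b1.B u v, fun _ => rfl⟩ : (hForm hF n).O) ∈
        (suRep hF n).range := by
      rw [range_suRep, mem_SO]
      refine (det_ratLin j e _).trans ?_
      rw [← det_glEquiv, MulEquiv.apply_symm_apply, mem_SO.mp (a3 s.2), map_one]
    exact ⟨t, congrArg Subtype.val ht⟩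
  obtain ⟨q₀, rfl, hF₀⟩ := Nat.exists_eq_pow_of_exponent_coprime_of_pow_eq_pow
    ((Nat.coprime_primes Nat.prime_two hp).mpr h2.symm) hF'
  have hτ := map_conj_of_odd hF hF₀ (j := j) (hp.odd_of_ne_two h2) rfl
  obtain ⟨e, ⟨l, hl⟩, he⟩ := exists_std_herm hF hF₀ hτ x.2 hp.pos h3 h1 hj
  have hR := rat_herm hF hF₀ hτ n
  obtain ⟨φ, hφ, -⟩ := m.desc (suModel hF₀ n hn) hl.ne
    (fun v w => (hl.B (j ∘ v) (j ∘ w)).trans (congrArg (l * ·) (hR.B v w)))
    (.inl fun v => (hl.Q (j ∘ v)).trans (congrArg (l * ·) (hR.Q v))) hp.pos h3 h1 he hj fun s => by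
      obtain ⟨t, ht⟩ : hR.o rfl hl (suRep hF₀ n s) ∈ (suRep hF n).range := by
        rw [range_suRep, mem_SO]
        refine (det_ratLin j e _).trans ?_
        rw [MonoidHom.comp_apply, MulEquiv.coe_toMonoidHom, ← det_glEquiv,
          MulEquiv.apply_symm_apply]
        exact (congrArg j (mem_SO.mp ((range_suRep hF₀ n).le ⟨s, rfl⟩))).trans (map_one _)
      exact ⟨t, congrArg Subtype.val ht⟩
  refine hφ.bal m.center_quot ha (fun k => hT ▸ mem_top _) (np_su hF₀ hn hp hpl (.inr ?_))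
    fun y _ _ _ => hT ▸ mem_top _
  have h5 := hd.trans m.card_quot_dvd
  have := Fact.mk hp
  have h6 : 0 < q₀ := Nat.pos_of_ne_zero fun h => by simp [h, hp.ne_zero] at hq
  rw [← ZMod.natCast_eq_zero_iff, card_O_herm _ n _ (hForm_nondeg _ n) rfl rfl (by simp)] at h5 ⊢
  simpa only [Nat.cast_mul, Nat.cast_pow, Nat.cast_prod, cast_pow_sub_one hq, cast_pow_sub_one h6,
    Nat.cast_ite, Nat.cast_add, ZMod.pow_card] using h5

end SU

section SL

variable [Fintype F] [CharP F ℓ] {n : ℕ}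

theorem bal_sl_field (hn : 2 ≤ n) (hp : p.Prime) (hpl : p ≠ ℓ) {θ : F ≃+* F} (hθ : orderOf θ = p)
    (ho : orderOf (slFld (ι := Fin n) θ) = p)
    (hd : p ∣ Nat.card (ProjectiveSpecialLinearGroup (Fin n) F)) :
    Bal p (slFld (ι := Fin n) θ) := by
  have : Nonempty (Fin n) := ⟨⟨0, by omega⟩⟩
  have hn' : 2 ≤ Fintype.card (Fin n) := by simpa
  obtain ⟨F₀, _, _, j, hj, hF⟩ := exists_fixed θ
  have := j.charP_iff_charP ℓ |>.mpr inferInstance
  have hq := cast_card_of_pow hp (hθ ▸ hF)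
  have h1 : ∀ s : SpecialLinearGroup (Fin n) F₀, slRep F _ (SpecialLinearGroup.map j s) =
      bcL j (LinearEquiv.refl F _) (slRep F₀ _ s) := fun s =>
    LinearEquiv.ext fun v => (bcL_refl j (fun _ => rfl) v).symm
  obtain ⟨φ, hφ, h2⟩ := (slNorms F (Fin n)).desc (fun _ => trivial) (ker_ind_sl hn')
    (fun _ => trivial) (slNorms F₀ (Fin n)) (fun _ => trivial) (ker_ind_sl hn')
    (x := ⟨stdSL _ θ, trivial⟩) hp.pos (stdSL_pow_eq_one hθ) hθ (std_stdSL θ) hj
    (fun s => ⟨_, h1 s⟩) fun _ _ _ _ => trivial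
  refine hφ.bal (center_PSL hn') ho ((slNorms F _).inn_le (fun s => trivial) ⟨·, rfl⟩)
    (np_sl hn hp hpl (.inr ?_)) fun y hy _ h3 => ?_
  · have h3 := ((hd.trans (card_quotient_dvd_card _)).mul_left (Fintype.card F - 1))
    have h4 : p ∣ (Fintype.card F₀ - 1) * Nat.card (SpecialLinearGroup (Fin n) F₀) := by
      rw [card_SL n (by omega), ← ZMod.natCast_eq_zero_iff, Nat.cast_prod] at h3 ⊢
      refine Eq.trans (Finset.prod_congr rfl fun i _ => ?_) h3
      rw [Nat.cast_sub (Nat.pow_le_pow_right Fintype.card_pos i.2.le),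
        Nat.cast_sub (Nat.pow_le_pow_right Fintype.card_pos i.2.le)]
      simp only [Nat.cast_pow, hq]
    exact (hp.dvd_mul.mp h4).elim (fun h => h.trans ((dvd_pow_self _ (by omega)).trans
      (pow_dvd_card_SL (by omega)))) id
  refine (sl_geom_or hn' y).resolve_right fun h5 => hφ.not_fix (itBar_slFld θ).symm (fun s => ?_)
    (itBar_not_mem h5.1) hy h5.2 h3
  obtain ⟨s, rfl⟩ := QuotientGroup.mk_surjective s
  refine (congrArg _ (h2 _ _ (h1 s))).trans (Eq.trans ?_ (h2 _ _ (h1 (itAut F₀ _ s))).symm)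
  exact congrArg QuotientGroup.mk (Subtype.ext (by
    simp [coe_itAut, ← map_inv, transpose_map] : (itAut F _ (SpecialLinearGroup.map j s)).1 = _))

theorem bal_sl_graph (hn : 3 ≤ n) (h2 : (2 : F) ≠ 0) (g : GL (Fin n) F)
    (ho : orderOf (glInd g * itBar F _) = 2) : Bal 2 (glInd g * itBar F _) := by
  have : Nonempty (Fin n) := ⟨⟨0, by omega⟩⟩
  have hn' : 2 ≤ Fintype.card (Fin n) := by simp; omega
  obtain ⟨_, hb, g, h1, rfl⟩ := (grIf_sl hn).all (glInd g * itBar F _)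
    ⟨hn, _, _, innerDiag_sl_iff.2 ⟨g, rfl⟩, it_iff.2 rfl, rfl⟩ ho
  rw [h1] at ho ⊢
  obtain ⟨Ψ, hΨ, G, c, d, a1, a2, a3, a4, a5, a6, a7, a8⟩ := hb.exists_wm h2 (by simpa using hn)
  refine ((slNorms F (Fin n)).desc_same (fun _ => trivial) (ker_ind_sl hn') a1.norms
    (fun s => linHom_mem_GamO _) a1.ker_ind (center_PSL hn')
    (fun s => range_slRep.ge (mem_SLv.mpr (mem_SO.mp (a3 s.2)))) (x := glInd g * itBar F _)
    (fun a ⟨s, hs⟩ => ?_) fun a ha => ⟨a, ?_, rfl⟩).elim fun φ hφ =>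
    hφ.bal (center_PSL hn') ho ((slNorms F _).inn_le (fun s => trivial) ⟨·, rfl⟩) a2
      fun y _ hy _ => mem_of_odd_index_two
        (mul_self_mem_of_index_two (index_ind_sl (by simpa using hn))) hy
  · have := ((range_simL (by omega) g).le ⟨⟨glEquiv.symm s.1.1, mem_sim.mpr ⟨1, one_ne_zero,
      fun u v => mul_left_cancel₀ a4 (by
        rw [glEquiv_symm_mulVec, glEquiv_symm_mulVec, ← a5, one_mul, ← a5, O_B])⟩⟩, rfl⟩).2
    obtain rfl : (⟨_, trivial⟩ : (⊤ : Subgroup _)) = a := Subtype.ext hs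
    simpa [glInd_apply, Commute, SemiconjBy] using mem_centralizer_singleton_iff.mp this
  · obtain ⟨a, h0⟩ := a
    obtain ⟨k, τ, rfl⟩ : ∃ k τ, a = semi k τ := (exists_semi a).imp fun _ h => ⟨_, h⟩
    rw [ind_semi_sl] at ha
    obtain ⟨e, he⟩ := (conj_gr_iff (by omega) (h := k) (g' := g)
      (g := GeneralLinearGroup.map (τ : F →+* F) g)).mp (by
        rw [← slFld_conj, eq_mul_inv_iff_mul_eq, mul_assoc _ _ (itBar F _),
          (itBar_slFld τ).inv_left.eq, ← mul_assoc, ← mul_assoc, ← mul_assoc,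
          mul_assoc _ (glInd g), ha.eq]
        group)
    have b1 : ∀ u v, Ψ.B ((semi k τ).ψ u) ((semi k τ).ψ v) = (e⁻¹ : Fˣ) * τ (Ψ.B u v) := by
      intro u v
      have := he ((semi k τ).ψ u) ((semi k τ).ψ v)
      rw [a5, a5, map_mul, a6, mul_left_comm, (Units.eq_inv_mul_iff_mul_eq _).mpr this.symm]
      simp [semi_ψ, toBilin'_apply, ← map_inv]
    exact ⟨_, (e⁻¹).ne_zero, (semi k τ).sl, b1, fun v => by
      change _ = _ * τ _
      rw [a8, a8, b1, map_mul, a7]; ring⟩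

theorem bal_sl_gf (hn : 3 ≤ n) (hl : 2 ≠ ℓ) {θ : F ≃+* F} (hθ : orderOf θ = 2)
    (ho : orderOf (slFld θ * itBar F (Fin n)) = 2) : Bal 2 (slFld θ * itBar F (Fin n)) := by
  have : Nonempty (Fin n) := ⟨⟨0, by omega⟩⟩
  have hn' : 2 ≤ Fintype.card (Fin n) := by simp; omega
  obtain ⟨f, -, hf⟩ := FiniteField.card F ℓ
  obtain ⟨-, hF, h1⟩ := exists_sq_of_order_two hf hθ
  have m := suModel hF n hn
  refine ((slNorms F (Fin n)).desc_same (fun _ => trivial) (ker_ind_sl hn') m.norms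
    (fun s => linHom_mem_GamO _) m.ker_ind (center_PSL hn')
    (fun s => ⟨s.1, rfl⟩) (x := slFld θ * itBar F _) (fun a ⟨s, hs⟩ => ?_) fun a ha => ?_).elim
    fun φ hφ => hφ.bal (center_PSL hn') ho ((slNorms F _).inn_le (fun s => trivial) ⟨·, rfl⟩)
      (np_su hF hn Nat.prime_two hl (.inl rfl)) fun y _ hy _ => mem_of_odd_index_two
        (mul_self_mem_of_index_two (index_ind_sl (by simpa using hn))) hy
  · have := ((range_gu hF h1 (by omega)).le ⟨⟨SpecialLinearGroup.toGL s.1, s.2⟩, rfl⟩).2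
    obtain rfl : (⟨_, trivial⟩ : (⊤ : Subgroup _)) = a := Subtype.ext hs
    exact mem_centralizer_singleton_iff.mp this
  · obtain ⟨a, h0⟩ := a
    obtain ⟨k, τ, rfl⟩ : ∃ k τ, a = semi k τ := (exists_semi a).imp fun _ h => ⟨_, h⟩
    rw [ind_semi_sl] at ha
    have h2 : Commute (slFld τ) (slFld θ * itBar F (Fin n)) :=
      ((ringAut_commute τ θ).map _).mul_right (itBar_slFld τ)
    obtain ⟨k', h3⟩ := (range_gu hF h1 (by omega)).ge ⟨range_glInd.le ⟨k, rfl⟩,
      mem_centralizer_singleton_iff.mpr (by simpa using (ha.mul_left h2.inv_left).eq)⟩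
    refine ⟨⟨semi k'.1 τ, trivial⟩, semi_mem_herm hF k'.2 τ, ?_⟩
    rw [ind_semi_sl, ind_semi_sl, ← h3]; rfl

end SL

end H22
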