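import Cfsg.Agent.H22.BalF

/-! Local balance: graph involutions of orthogonal groups. -/

set_option autoImplicit false

namespace H22

open Module H23 H23.Form Matrix Cfsg Subgroup

attribute [-simp] conj_apply

variable {E F V W N K : Type*} [Field E] [Field F] [AddCommGroup V] [Module F V] [AddCommGroup W]
  [Module E W] [Group N] [Group K] [FiniteDimensional F V] [FiniteDimensional E W] {p : ℕ}

theorem npl_range {G : Type*} [Group G] [Finite G] [Finite K] [Fact p.Prime] (f : G →* K)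
    (h1 : NP p (G ⧸ center G)) (h2 : IsPGroup p (center G)) (h3 : f.ker ≤ center G) :
    NPL p f.range := by
  intro L a1 a2 a3
  have hN : (L.comap f).Normal := ⟨fun n hn g => by simpa using a2 _ ⟨g, rfl⟩ _ hn⟩
  have a4 : (L.comap f).map f = L := map_comap_eq_self a1
  have a5 := h1 _ (hN.map (QuotientGroup.mk' _) (QuotientGroup.mk'_surjective _))
    (a3.coprime_dvd_left (by
      have := index_dvd_of_le (H := (f.comp (L.comap f).subtype).ker)
        (K := ((QuotientGroup.mk' (center G)).comp (L.comap f).subtype).ker)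
        fun k hk => (QuotientGroup.eq_one_iff _).mpr (h3 hk)
      rwa [index_ker, index_ker, MonoidHom.range_comp, MonoidHom.range_comp, range_subtype,
        a4] at this))
  rw [Subgroup.map_eq_bot_iff, QuotientGroup.ker_mk'] at a5
  obtain ⟨n, hn⟩ := IsPGroup.iff_card.mp (a4 ▸ (h2.to_le a5).map f)
  rw [hn] at a3
  exact card_eq_one.mp (hn.trans (Nat.Coprime.eq_one_of_dvd (a3.pow_right n) dvd_rfl))

theorem npl_omega [Finite E] [Finite K] {Ψ : Form (RingHom.id E) W} (hΨ : Ψ.Nondeg) (hκ : Ψ.κ = 1)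
    (h2 : (2 : E) ≠ 0) (h3 : finrank E W ≠ 2) (f : commutator Ψ.O →* K)
    (hf : f.ker ≤ center _) : NPL 2 f.range := by
  by_cases h : 3 ≤ finrank E W
  · have := Module.finite_of_finite E (M := W)
    have := finite_linearEquiv (F := E) (V := W)
    refine npl_range f (np_quad_two hΨ hκ h2 h) (fun z => ⟨1, ?_⟩) hf
    obtain ⟨a, ha⟩ := scalar_of_mem_center_quad hΨ hκ (exists_sing_of_three_le hΨ hκ h) h _
      (eichSet_le_commutator hΨ hκ (genHyp_of_two_ne_zero hΨ hκ h2)) z.1 z.2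
    have : Nontrivial W := Module.nontrivial_of_finrank_pos (R := E) (by omega)
    obtain ⟨t, ht⟩ := exists_Q_ne_zero hκ hΨ
    have h4 := O_Q Ψ z.1.1 t
    rw [ha, Q_smul, mul_eq_right₀ ht] at h4
    refine Subtype.ext (Subtype.ext (O_ext _ fun v => ?_))
    simp [sq, ha, smul_smul, ← sq a, h4]
  · have h4 : ∀ g : Ψ.O, ∃ c : E, ∀ v, g.1 v = c • v := fun g => by
      obtain ⟨v, hv⟩ := finrank_le_one_iff.mp (show finrank E W ≤ 1 by omega)
      obtain ⟨c, hc⟩ := hv (g.1 v)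
      refine ⟨c, fun w => ?_⟩
      obtain ⟨d, rfl⟩ := hv w
      rw [map_smul, ← hc, smul_comm]
    have h5 : commutator Ψ.O = ⊥ := by
      rw [commutator_eq_bot_iff_center_eq_top, eq_top_iff]
      refine fun g _ => Subgroup.mem_center_iff.mpr fun k => O_ext _ fun v => ?_
      obtain ⟨c, hc⟩ := h4 g
      simp [hc]
    refine fun L a _ _ => eq_bot_iff.mpr fun l hl => ?_
    obtain ⟨t, rfl⟩ := a hl
    rw [(Subtype.ext (h5.le t.2) : t = 1), map_one]
    exact one_mem _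

section Gen

variable {σ : F →+* F} {Φ : Form σ V} {hΦ : Φ.Nondeg} {r : N →* Φ.O} (m : Model hΦ r)

variable (r) in
/-- the image of a group of isometries -/
def img (T : Subgroup Φ.O) : Subgroup (N ⧸ center N) := (T.comap r).map (QuotientGroup.mk' _)

theorem Model.bal_of [Finite F] (x : GamO Φ) (S : Set (Subgroup Φ.O))
    (h1 : ∀ T ∈ S, NPL p (img r T)) (h2 : ∀ T ∈ S, ∀ t ∈ T, slAut x.1 t.1 = t.1)
    (h3 : ∀ y, Commute y (m.norms.ind x) → (orderOf y).Coprime p → ∃ b : GamO Φ,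
      y = m.norms.ind b ∧ (∀ T ∈ S, ∀ t ∈ T, ∀ t' : Φ.O, t'.1 = slAut b.1 t.1 → t' ∈ T) ∧
      ((∀ T ∈ S, ∀ t ∈ T ⊓ r.range, ∃ c : F, ∀ v, slAut b.1 t.1 v = c • t.1 v) → y = 1)) :
    Bal p (m.norms.ind x) := by
  have := m.pol.nontrivial
  refine ⟨img r '' S, ?_, fun y hy hc h => ?_⟩
  · rintro _ ⟨T, hT, rfl⟩
    refine ⟨h1 T hT, ?_, fun k hk hc => ?_⟩
    · rintro _ ⟨s, hs, rfl⟩
      exact m.norms.ind_mk x (h2 T hT _ hs).symm
    · obtain ⟨b, h4, h5, -⟩ := h3 _ ((conj_commute_iff m.center_quot).mpr hk)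
        (by rwa [orderOf_injective _ (conj_injective_of_center m.center_quot)])
      rintro _ ⟨s, hs, rfl⟩
      exact ⟨_, h5 T hT _ hs _ (m.norms.r_mAut b s),
        (m.norms.ind_mk b (m.norms.r_mAut b s)).symm.trans (by rw [← h4]; rfl)⟩
  · obtain ⟨b, rfl, -, h5⟩ := h3 y hy hc
    refine h5 ?_
    rintro T hT _ ⟨ht, s, rfl⟩
    have h6 := (m.norms.ind_mk b (m.norms.r_mAut b s)).symm.trans
      (h _ ⟨T, hT, rfl⟩ _ ⟨s, ht, rfl⟩)
    obtain ⟨c, hc⟩ := (m.norms.mem_center_iff (fun s => linHom_mem_GamO _) m.ker_ind).mp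
      (QuotientGroup.eq.mp h6.symm)
    refine ⟨c, fun v => ?_⟩
    have := congrArg (r s).1 (hc v)
    simp only [map_mul, map_inv, m.norms.r_mAut] at this
    simpa using this

end Gen

variable {Φ : Form (RingHom.id F) V} {hΦ : Φ.Nondeg} (hκ : Φ.κ = 1) {r : N →* Φ.O}
  (m : Model hΦ r) (hr : r.range = commutator Φ.O)

include m hr in
theorem Model.npl_img [Finite F] [Finite E] {Ψ : Form (RingHom.id E) W} (hΨ : Ψ.Nondeg)
    (hκ' : Ψ.κ = 1) (h2 : (2 : E) ≠ 0) (h3 : finrank E W ≠ 2) {ρ : Ψ.O →* Φ.O}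
    (hρ : Function.Injective ρ) : NPL 2 (img r ρ.range) := by
  have := m.pol.nontrivial
  have := m.finite
  obtain ⟨i, hi⟩ := exists_lift_range m.inj (ρ.comp (commutator _).subtype) fun s =>
    hr ▸ (((map_commutator_eq _ ρ).le.trans (commutator_mono le_top le_top)) ⟨_, s.2, rfl⟩)
  have h1 := npl_omega hΨ hκ' h2 h3 ((QuotientGroup.mk' (center N)).comp i) fun t ht =>
    Subgroup.mem_center_iff.mpr fun k => Subtype.ext (hρ (by
      have := congrArg r (Subgroup.mem_center_iff.mp ((QuotientGroup.eq_one_iff _).mp ht) (i k))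
      simpa [hi] using this))
  refine fun L a1 a2 a3 => h1 L (fun l hl => ?_) (fun l ⟨t, ht⟩ => a2 l ⟨i t, ⟨t, (hi t).symm⟩, ht⟩) a3
  obtain ⟨n, hn⟩ := exists_pow_eq_self_of_coprime
    (a3.coprime_dvd_left (orderOf_dvd_natCard _ hl)).symm
  obtain ⟨s, ⟨t, ht⟩, rfl⟩ := a1 hl
  rw [← hn]
  refine pow_mem (?_ : _ ∈ MonoidHom.range _) n
  refine ⟨⟨_, mul_self_mem_omega hΨ hκ' (genHyp_of_two_ne_zero hΨ hκ' h2) t⟩, ?_⟩
  rw [← map_pow]
  exact congrArg _ (m.inj (by simp [hi, ht, sq]))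

omit [FiniteDimensional F V] in
theorem exists_res {σ : F →+* F} {Φ : Form σ V} {b : GamL F V} (hb : b ∈ GamO Φ)
    {X : Submodule F V} (h : ∀ v, b.ψ v ∈ X ↔ v ∈ X) :
    ∃ b₀ ∈ GamO (Φ.restrict X), b₀.θ = b.θ ∧ ∀ v, (b₀.ψ v : V) = b.ψ v := by
  obtain ⟨k, hk⟩ := hb
  have h1 : IsSL (V₁ := X) (V₂ := X) b.θ
      { b.ψ.toEquiv.subtypeEquiv fun v => (h v).symm with
        map_add' := fun v w => Subtype.ext (b.ψ.map_add _ _) } :=
    fun c v => Subtype.ext (b.sl c v)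
  exact ⟨⟨_, _, h1⟩, ⟨k, hk.ne, h1, fun v w => hk.B v w, fun v => hk.Q v⟩, rfl, fun _ => rfl⟩

/-- `s` acts as `±1` on `X` and `X^⊥` -/
def Spl (s : Φ.O) (X : Submodule F V) : Prop :=
  IsCompl X (Φ.perp X) ∧ ∃ ε : F, ε ≠ 0 ∧ (∀ v ∈ X, s.1 v = ε • v) ∧ ∀ v ∈ Φ.perp X, s.1 v = -ε • v

include hΦ in
theorem Spl.perp {s : Φ.O} {X : Submodule F V} (h : Spl s X) : Spl s (Φ.perp X) := by
  obtain ⟨h1, ε, h2, h3, h4⟩ := h
  rw [Spl, hΦ.perp_perp]
  exact ⟨h1.symm, -ε, by simpa, h4, by simpa using h3⟩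

omit [FiniteDimensional F V] in
theorem Spl.mem_iff {s : Φ.O} {X : Submodule F V} (h : Spl s X) (h2 : (2 : F) ≠ 0) {b : GamL F V}
    (hb : Commute b (linHom s.1)) (hs : ∀ v, s.1 (s.1 v) = v) (v : V) : b.ψ v ∈ X ↔ v ∈ X := by
  obtain ⟨h1, ε, h0, h3, h4⟩ := h
  by_cases hX : X = ⊥
  · simp [hX]
  have a1 : ε * ε = 1 := by
    obtain ⟨u, hu, hu0⟩ := Submodule.exists_mem_ne_zero_of_ne_bot hX
    have := hs u
    rw [h3 u hu, map_smul, h3 u hu, smul_smul] at this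
    exact smul_left_injective F hu0 (this.trans (one_smul _ _).symm)
  have a2 : b.θ ε = ε := by rcases mul_self_eq_one_iff.mp a1 with h | h <;> simp [h]
  have a3 : ∀ v, v ∈ X ↔ s.1 v = ε • v := fun v => ⟨h3 v, fun h => by
    obtain ⟨u, w, rfl⟩ := exists_add_perp h1 v
    rw [map_add, h3 _ u.2, h4 _ w.2, smul_add, add_right_inj, neg_smul, neg_eq_iff_add_eq_zero,
      ← two_smul F, smul_smul, smul_eq_zero] at h
    simp [h.resolve_left (mul_ne_zero h2 h0)]⟩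
  have a4 : s.1 (b.ψ v) = b.ψ (s.1 v) := congrArg (fun a : GamL F V => a.ψ v) hb.eq.symm
  rw [a3, a3, a4, ← a2, ← b.map_smul, a2, b.ψ.apply_eq_iff_eq]

include hΦ hκ in
theorem scal_on_perp [Finite F] (h2 : (2 : F) ≠ 0) {X : Submodule F V} (hX : IsCompl X (Φ.perp X))
    {b : GamL F V} (hb : b ∈ GamO Φ) (h : ∀ v, b.ψ v ∈ Φ.perp X ↔ v ∈ Φ.perp X)
    (h1 : ∀ t ∈ (extendPerp hX).range ⊓ commutator Φ.O, ∃ c : F, ∀ v, slAut b t.1 v = c • t.1 v)
    (h3 : 3 ≤ finrank F (Φ.perp X) ∨ b.θ = 1 ∧ finrank F (Φ.perp X) = 1) :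
    b.θ = 1 ∧ ∃ c : F, ∀ v ∈ Φ.perp X, b.ψ v = c • v := by
  obtain ⟨b₀, a1, a2, a3⟩ := exists_res hb h
  obtain h3 | ⟨h3, h4⟩ := h3
  · have a4 := hΦ.nondeg_restrict_perp hX.disjoint
    obtain ⟨c, rfl⟩ := (wm_quad a4 hκ (genHyp_of_two_ne_zero a4 hκ h2) h3).of_scal a1 fun t ht => by
      obtain ⟨c, hc⟩ := h1 _ ⟨⟨t, rfl⟩,
        ((map_commutator_eq _ _).le.trans (commutator_mono le_top le_top)) ⟨_, ht, rfl⟩⟩
      refine ⟨c, fun v => Subtype.ext ?_⟩
      obtain ⟨v, rfl⟩ := b₀.ψ.surjective v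
      have := hc (b₀.ψ v)
      rw [extendPerp_apply_right, a3, slAut_apply', extendPerp_apply_right] at this
      rw [slAut_apply', a3, this]; rfl
    exact ⟨a2.symm, c, fun v hv => (a3 ⟨v, hv⟩).symm⟩
  · obtain ⟨v, -, hv⟩ := finrank_eq_one_iff'.mp h4
    obtain ⟨c, hc⟩ := hv (b₀.ψ v)
    refine ⟨h3, c, fun w hw => ?_⟩
    obtain ⟨d, hd⟩ := hv ⟨w, hw⟩
    obtain rfl : d • v.1 = w := congrArg Subtype.val hd
    rw [b.map_smul, h3, ← a3, ← hc, smul_comm]; rfl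

include hκ hr in
theorem Model.bal_split [Finite F] (h2 : (2 : F) ≠ 0) {s : Φ.O} (hs : ∀ v, s.1 (s.1 v) = v)
    {X : Submodule F V} (hX : Spl s X) (h1 : Odd (finrank F X)) (h3 : Odd (finrank F (Φ.perp X)))
    (hT : ∀ y, Commute y (m.sim (oGO Φ s)) → y ∈ m.norms.ind.range) :
    Bal 2 (m.sim (oGO Φ s)) := by
  have := m.pol.nontrivial
  have := m.finite
  have hP := hX.perp (hΦ := hΦ)
  have hS : ∀ T ∈ ({(extendPerp hX.1).range, (extendPerp hP.1).range} : Set (Subgroup Φ.O)),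
      ∃ Y, ∃ h : Spl s Y, Odd (finrank F (Φ.perp Y)) ∧ T = (extendPerp h.1).range := by
    rintro _ (rfl | rfl)
    exacts [⟨_, hX, h3, rfl⟩, ⟨_, hP, by rwa [hΦ.perp_perp], rfl⟩]
  refine m.bal_of ⟨linHom s.1, linHom_mem_GamO s⟩ {(extendPerp hX.1).range,
    (extendPerp hP.1).range} (fun T hT => ?_) (fun T hT t ht => ?_) fun y hy hc => ?_
  · obtain ⟨Y, h, a1, rfl⟩ := hS T hT
    exact m.npl_img hr (hΦ.nondeg_restrict_perp h.1.disjoint) hκ h2
      (fun h => absurd (h ▸ a1) (by decide)) (extendPerp_injective _)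
  · obtain ⟨Y, ⟨h, ε, _, a1, a2⟩, -, rfl⟩ := hS T hT
    obtain ⟨t, rfl⟩ := ht
    rw [slAut_linHom, mul_inv_eq_iff_eq_mul]
    ext v
    obtain ⟨u, w, rfl⟩ := exists_add_perp h v
    simp only [LinearEquiv.mul_apply, map_add, extendPerp_apply_left h t u.2, a1 _ u.2, a2 _ w.2,
      extendPerp_apply_right, a2 _ (t.1 w).2, map_smul]
  obtain ⟨a, rfl⟩ := hT y hy
  obtain ⟨n, hn⟩ := exists_pow_eq_self_of_coprime hc.symm
  obtain ⟨c, a1⟩ := (m.norms.ind_eq_iff m.ker_ind scalHom_mem_GamO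
    (a := a * ⟨_, linHom_mem_GamO s⟩ * a⁻¹) (b := ⟨_, linHom_mem_GamO s⟩)).mp (by
      rw [map_mul, map_mul, map_inv, mul_inv_eq_iff_eq_mul]; exact hy.eq)
  replace a1 : ∀ v, a.1.ψ (s.1 v) = c.1 • s.1 (a.1.ψ v) := fun v => by
    simpa using congrArg (fun b : GamL F V => b.ψ (a.1.ψ v)) a1
  have a2 : c.1 * c.1 = 1 := by
    obtain ⟨v, hv⟩ := exists_ne (0 : V)
    have := a1 (s.1 v)
    rw [hs, a1, map_smul, hs, smul_smul] at this
    exact (smul_left_injective F (by simpa using hv) ((one_smul _ _).trans this)).symm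
  have a3 : Commute ((a ^ 2) ^ n).1 (linHom s.1) := Commute.pow_left (GamL.ext' fun v => by
    have : a.1.θ c = c := by rcases mul_self_eq_one_iff.mp a2 with h | h <;> simp [h]
    simp [sq, a1, GamL.map_smul, this, smul_smul, a2]) n
  refine ⟨(a ^ 2) ^ n, by rw [map_pow, map_pow, hn], fun T hT t ht t' h => ?_, fun h => ?_⟩
  · obtain ⟨Y, hY, -, rfl⟩ := hS T hT
    rw [mem_range_extendPerp] at ht ⊢
    intro u hu
    obtain ⟨u, rfl⟩ := ((a ^ 2) ^ n).1.ψ.surjective u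
    rw [h, slAut_apply', ht u ((hY.mem_iff h2 a3 hs u).mp hu)]
  rw [← hn, ← map_pow, ← map_pow] at hc ⊢
  generalize (a ^ 2) ^ n = b at *
  have b1 := scal_on_perp hκ (hΦ := hΦ) h2 hX.1 b.2 (hP.mem_iff h2 a3 hs) (hr ▸ h _ (.inl rfl))
  have b2 := scal_on_perp hκ (hΦ := hΦ) h2 hP.1 b.2 ((hP.perp (hΦ := hΦ)).mem_iff h2 a3 hs)
    (hr ▸ h _ (.inr rfl))
  rw [hΦ.perp_perp] at b2
  have b3 := hΦ.finrank_perp_add X
  have b4 := m.pol.three
  rw [Nat.odd_iff] at h1 h3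
  have b5 : b.1.θ = 1 := by
    by_cases h : 3 ≤ finrank F X
    exacts [(b2 (.inl h)).1, (b1 (.inl (by omega))).1]
  obtain ⟨-, d, b1⟩ := b1 (by simp only [b5, true_and]; omega)
  obtain ⟨-, e, b2⟩ := b2 (by simp only [b5, true_and]; omega)
  obtain ⟨k, hk⟩ := b.2
  have b6 : ∀ {Y : Submodule F V} {d : F}, Disjoint Y (Φ.perp Y) → finrank F Y % 2 = 1 →
      (∀ v ∈ Y, b.1.ψ v = d • v) → d * d = k := fun {Y d} c1 c2 c3 => by
    have : Nontrivial Y := Module.nontrivial_of_finrank_pos (R := F) (by omega)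
    obtain ⟨t, ht⟩ := exists_Q_ne_zero (Φ := Φ.restrict Y) hκ (Φ.nondeg_restrict_iff.2 c1)
    have := hk.Q t
    rw [c3 _ t.2, Q_smul, b5, sq] at this
    exact mul_right_cancel₀ ht this
  have b7 := m.norms.ind_scalHom (Units.mk0 k hk.ne) (scalHom_mem_GamO _)
  rw [show (⟨_, _⟩ : GamO Φ) = b ^ 2 from Subtype.ext (GamL.ext' fun v => by
    obtain ⟨u, w, rfl⟩ := exists_add_perp hX.1 v
    simp [sq, b1 _ w.2, b2 _ u.2, GamL.map_smul, b5, smul_smul, b6 hP.1.disjoint h3 b1,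
      b6 hX.1.disjoint h1 b2]), map_pow] at b7
  exact orderOf_eq_one_iff.mp (hc.eq_one_of_dvd (orderOf_dvd_of_pow_eq_one b7))

section Ext

variable (g : V ≃ₗ[F] V) {l : F} [hl : Fact (∀ r, r ^ 2 ≠ l + 0 * r)] (h : ∀ v, g (g v) = l • v)

/-- `V` as a vector space over `F[g]` -/
@[nolint unusedArguments] def QV (g : V ≃ₗ[F] V) {l : F} (_ : ∀ v, g (g v) = l • v) := V

instance : AddCommGroup (QV g h) := inferInstanceAs (AddCommGroup V)
instance : Module F (QV g h) := inferInstanceAs (Module F V)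

/-- the identity -/
def QV.v (x : QV g h) : V := x

instance : Module (QuadraticAlgebra F l 0) (QV g h) where
  smul z v := (z.re • QV.v g h v + z.im • g (QV.v g h v) : V)
  one_smul v := by change ((1 : F) • QV.v g h v + (0 : F) • _ : V) = QV.v g h v; simp
  mul_smul z w v := by
    change ((_ : F) • QV.v g h v + _ • _ : V) = z.re • (w.re • QV.v g h v + w.im • g (QV.v g h v)) +
      z.im • g (w.re • QV.v g h v + w.im • g (QV.v g h v))
    simp [h]; module
  smul_zero z := by change (z.re • (0 : V) + z.im • g 0 : V) = 0; simp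
  smul_add z v w := by
    change (z.re • (QV.v g h v + QV.v g h w) + z.im • g (QV.v g h v + QV.v g h w) : V) =
      (z.re • QV.v g h v + z.im • g (QV.v g h v)) + (z.re • QV.v g h w + z.im • g (QV.v g h w))
    simp; module
  add_smul z w v := by
    change ((_ : F) • QV.v g h v + _ • _ : V) =
      (z.re • QV.v g h v + z.im • g (QV.v g h v)) + (w.re • QV.v g h v + w.im • g (QV.v g h v))
    simp; module
  zero_smul v := by change ((0 : F) • QV.v g h v + (0 : F) • _ : V) = 0; simp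

omit [FiniteDimensional F V] in
theorem QV.v_smul (z : QuadraticAlgebra F l 0) (v : QV g h) :
    QV.v g h (z • v) = z.re • QV.v g h v + z.im • g (QV.v g h v) := rfl

instance : IsScalarTower F (QuadraticAlgebra F l 0) (QV g h) := ⟨fun c z v => by
  change QV.v g h _ = c • QV.v g h _
  simp [QV.v_smul, mul_smul]⟩

variable (hB : ∀ x y, Φ.B (g x) y = Φ.B x (g y))

/-- the form over `F[g]` -/
noncomputable def QV.bil : LinearMap.BilinMap (QuadraticAlgebra F l 0) (QV g h)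
    (QuadraticAlgebra F l 0) :=
  LinearMap.mk₂ _ (fun x y => ⟨Φ.B (g (QV.v g h x)) (QV.v g h y), Φ.B (QV.v g h x) (QV.v g h y)⟩)
    (fun x y z => by
      rw [show QV.v g h (x + y) = QV.v g h x + QV.v g h y from rfl]; ext <;> simp)
    (fun x y z => by ext <;> simp [QV.v_smul, h]; ring)
    (fun x y z => by
      rw [show QV.v g h (y + z) = QV.v g h y + QV.v g h z from rfl]; ext <;> simp)
    (fun x y z => by ext <;> simp [QV.v_smul, h, ← hB]; ring)

/-- the quadratic form over `F[g]` -/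
noncomputable def QV.form : Form (RingHom.id (QuadraticAlgebra F l 0)) (QV g h) :=
  ofQuad (LinearMap.BilinMap.toQuadraticMap (QV.bil g h hB))

omit [FiniteDimensional F V] in
theorem QV.form_Q (x : QV g h) : (QV.form g h hB).Q x =
    ⟨Φ.B (g (QV.v g h x)) (QV.v g h x), Φ.B (QV.v g h x) (QV.v g h x)⟩ := rfl

omit [FiniteDimensional F V] in
include hΦ hκ in
theorem QV.nondeg (h2 : (2 : F) ≠ 0) : (QV.form g h hB).Nondeg := fun x hx =>
  hΦ (QV.v g h x) fun y => by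
  have : Φ.B (QV.v g h x) y + Φ.B y (QV.v g h x) = 0 := congrArg QuadraticAlgebra.im
    ((LinearMap.BilinMap.polar_toQuadraticMap (B := QV.bil g h hB) x y).symm.trans (hx y))
  rw [B_comm_quad hκ y, ← two_mul] at this
  exact (mul_eq_zero.mp this).resolve_left h2

/-- restriction of scalars -/
noncomputable def QV.res (h2 : (2 : F) ≠ 0) : (QV.form g h hB).O →* Φ.O where
  toFun t := ⟨t.1.restrictScalars F, mem_O_quad hκ fun x => mul_left_cancel₀ h2 (by
    rw [← B_self_quad hκ, ← B_self_quad hκ]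
    exact congrArg QuadraticAlgebra.im (O_Q _ t x))⟩
  map_one' := rfl
  map_mul' _ _ := rfl

omit [FiniteDimensional F V] in
theorem QV.mem_range_res (h2 : (2 : F) ≠ 0) {t : Φ.O} :
    t ∈ (QV.res hκ g h hB h2).range ↔ ∀ v, t.1 (g v) = g (t.1 v) := by
  refine ⟨?_, fun ht => ⟨⟨{ t.1.toAddEquiv with map_smul' := fun z v => ?_ },
    mem_O_quad rfl fun x => ?_⟩, rfl⟩⟩
  · rintro ⟨t, rfl⟩ v
    have : (QV.res hκ g h hB h2 t).1 ((0 : F) • v + (1 : F) • g v) =
      (0 : F) • _ + (1 : F) • g ((QV.res hκ g h hB h2 t).1 v) := t.1.map_smul ⟨0, 1⟩ v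
    simpa using this
  · change t.1 (QV.v g h (z • v)) = z.re • t.1 (QV.v g h v) + z.im • g (t.1 (QV.v g h v))
    simp [QV.v_smul, ht]
  · change (⟨Φ.B (g (t.1 (QV.v g h x))) (t.1 (QV.v g h x)),
      Φ.B (t.1 (QV.v g h x)) (t.1 (QV.v g h x))⟩ : QuadraticAlgebra F l 0) = _
    rw [← ht, O_B, O_B]; rfl

end Ext

include hκ hr in
theorem Model.bal_ext [Finite F] (h2 : (2 : F) ≠ 0) {g : GO Φ} {l : F} (hl : ¬ IsSquare l)
    (h : ∀ v, g.1 (g.1 v) = l • v) (hB : ∀ x y, Φ.B (g.1 x) y = Φ.B x (g.1 y))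
    (h5 : 5 ≤ finrank F V) (hT : ∀ y, Commute y (m.sim g) → y ∈ m.norms.ind.range) :
    Bal 2 (m.sim g) := by
  have := m.pol.nontrivial
  have := m.finite
  have : Fact (∀ r, r ^ 2 ≠ l + 0 * r) := ⟨fun r hr => hl ⟨r, by rw [← sq, hr]; simp⟩⟩
  have : Finite (QuadraticAlgebra F l 0) := Module.finite_of_finite F
  have : Nontrivial (QV g.1 h) := inferInstanceAs (Nontrivial V)
  have : FiniteDimensional F (QV g.1 h) := inferInstanceAs (FiniteDimensional F V)
  have : FiniteDimensional (QuadraticAlgebra F l 0) (QV g.1 h) := .right F _ _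
  have a0 : 3 ≤ finrank (QuadraticAlgebra F l 0) (QV g.1 h) := by
    have := finrank_mul_finrank F (QuadraticAlgebra F l 0) (QV g.1 h)
    rw [QuadraticAlgebra.finrank_eq_two] at this
    change _ = finrank F V at this
    omega
  have a1 : (2 : QuadraticAlgebra F l 0) ≠ 0 := fun h => h2 (congrArg QuadraticAlgebra.re h)
  have a2 := QV.nondeg hκ (hΦ := hΦ) g.1 h hB h2
  refine m.bal_of ⟨linHom g.1, g.2⟩ {(QV.res hκ g.1 h hB h2).range} ?_ ?_ fun y hy hc => ?_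
  · rintro _ rfl
    exact m.npl_img hr a2 rfl a1 (by omega) fun s t hst => O_ext _ fun v =>
      congrArg (fun k : Φ.O => k.1 v) hst
  · rintro _ rfl t ht
    rw [slAut_linHom, mul_inv_eq_iff_eq_mul]
    exact LinearEquiv.ext fun v => ((QV.mem_range_res ..).mp ht v).symm
  obtain ⟨a, rfl⟩ := hT y hy
  obtain ⟨c, a3⟩ := (m.norms.ind_eq_iff m.ker_ind scalHom_mem_GamO
    (a := a * ⟨_, g.2⟩ * a⁻¹) (b := ⟨_, g.2⟩)).mp (by
      rw [map_mul, map_mul, map_inv, mul_inv_eq_iff_eq_mul]; exact hy.eq)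
  replace a3 : ∀ v, a.1.ψ (g.1 v) = c.1 • g.1 (a.1.ψ v) := fun v => by
    simpa using congrArg (fun b : GamL F V => b.ψ (a.1.ψ v)) a3
  refine ⟨a, rfl, ?_, fun H => ?_⟩
  · rintro _ rfl t ht t' h'
    rw [QV.mem_range_res] at ht ⊢
    intro v
    obtain ⟨v, rfl⟩ := a.1.ψ.surjective v
    refine smul_right_injective V c.ne_zero ?_
    simp only [← map_smul, ← a3, h', slAut_apply', ht]
  have a4 : a.1.θ l = l * (c * c) := by
    obtain ⟨v, hv⟩ := exists_ne (0 : V)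
    have := a3 (g.1 v)
    rw [h, a3, a.1.map_smul, map_smul, h, smul_smul, smul_smul] at this
    rw [smul_left_injective F (by simpa using hv) this, mul_comm]
  let θ : QuadraticAlgebra F l 0 →+* QuadraticAlgebra F l 0 :=
    { toFun z := ⟨a.1.θ z.re, a.1.θ z.im * c⟩
      map_one' := by ext <;> simp [QuadraticAlgebra.re_one, QuadraticAlgebra.im_one]
      map_mul' z w := by ext <;> simp [a4] <;> ring
      map_zero' := by ext <;> simp
      map_add' z w := by ext <;> simp [add_mul] }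
  have a5 : IsSL (V₁ := QV g.1 h) (V₂ := QV g.1 h) (toRingEquiv θ) a.1.ψ := fun z v => by
    change a.1.ψ (QV.v _ h (z • v)) = a.1.θ z.re • a.1.ψ (QV.v _ h v) +
      (a.1.θ z.im * c) • g.1 (a.1.ψ (QV.v _ h v))
    simp [QV.v_smul, GamL.map_smul, a3, smul_smul]
  obtain ⟨k, hk⟩ := a.2
  have a6 : ∀ v w, Φ.B (g.1 (a.1.ψ v)) (a.1.ψ w) = k / c * a.1.θ (Φ.B (g.1 v) w) := fun v w => by
    rw [div_mul_eq_mul_div, ← hk.B, a3, eq_div_iff c.ne_zero]; simp [mul_comm]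
  obtain ⟨z, hz⟩ := mem_range_scalHom.mp ((wm_quad a2 rfl (genHyp_of_two_ne_zero a2 rfl a1)
    a0).of_scal (a := ⟨_, _, a5⟩) ⟨algebraMap F _ (k / c), isSS_quad_iff.mpr
      ⟨by simp [hk.ne], a5, fun v => by
        change (⟨Φ.B (g.1 (a.1.ψ (QV.v _ h v))) (a.1.ψ (QV.v _ h v)),
          Φ.B (a.1.ψ (QV.v _ h v)) (a.1.ψ (QV.v _ h v))⟩ : QuadraticAlgebra F l 0) =
          _ * θ ⟨Φ.B (g.1 (QV.v _ h v)) (QV.v _ h v), Φ.B (QV.v _ h v) (QV.v _ h v)⟩
        ext <;> simp only [θ, hk.B, a6, QuadraticAlgebra.im_mul, QuadraticAlgebra.re_mul,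
          QuadraticAlgebra.algebraMap_re, QuadraticAlgebra.algebraMap_im] <;> simp
        field_simp⟩⟩ fun t ht => by
      obtain ⟨d, hd⟩ := H _ rfl _ ⟨⟨t, rfl⟩, hr ▸
        ((map_commutator_eq _ _).le.trans (commutator_mono le_top le_top)) ⟨_, ht, rfl⟩⟩
      exact ⟨algebraMap F _ d, fun v => (hd v).trans (algebraMap_smul _ d (t.1 v)).symm⟩)
  replace hz : ∀ v, a.1.ψ v = z.re • v + z.im • g.1 v := hz
  have a7 : a.1.θ = 1 := a.1.sl.unique fun d v => by simp [hz, smul_comm d]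
  have a8 : z.re * z.im = 0 := by
    by_contra h0
    have b1 : ∀ v, (2 * (z.re * z.im)) • g.1 v = (k - z.re * z.re - l * (z.im * z.im)) • v :=
      fun v => sub_eq_zero.mp (hΦ _ fun w => by
        have := hk.B v w
        simp [hz, a7, ← hB, h] at this
        simp; linear_combination this)
    obtain ⟨v, hv⟩ := exists_ne (0 : V)
    have b2 : ∀ v, g.1 v = ((2 * (z.re * z.im))⁻¹ * (k - z.re * z.re - l * (z.im * z.im))) • v :=
      fun v => by rw [mul_smul, ← b1, inv_smul_smul₀ (mul_ne_zero h2 h0)]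
    have := h v
    rw [b2, b2, smul_smul] at this
    exact hl ⟨_, (smul_left_injective F hv this).symm⟩
  obtain ⟨d, hd⟩ := (mem_range_scalHom (a := (a ^ 2).1)).mpr ⟨z.re * z.re + l * (z.im * z.im),
    fun v => by
      simp only [sq, Subgroup.coe_mul, GamL.mul_ψ, hz, map_add, map_smul, h]
      linear_combination (norm := module) (2 * a8) • g.1 v⟩
  have b7 := m.norms.ind_scalHom d (scalHom_mem_GamO _)
  rw [show (⟨_, _⟩ : GamO Φ) = a ^ 2 from Subtype.ext hd, map_pow] at b7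
  exact orderOf_eq_one_iff.mp (hc.eq_one_of_dvd (orderOf_dvd_of_pow_eq_one b7))

open Polynomial in
include hΦ in
theorem det_of_skew {g : V →ₗ[F] V} {k : F} (h : ∀ v, g (g v) = -k • v)
    (hB : ∀ x y, Φ.B (g x) y = -Φ.B x (g y)) {M : ℕ} (hV : finrank F V = 2 * M) :
    LinearMap.det g = k ^ M := by
  let b := finBasis F V
  set A := LinearMap.toMatrix b b g with hA
  let G := LinearMap.BilinForm.toMatrix b Φ.B
  have h1 : G.det ≠ 0 := (LinearMap.BilinForm.nondegenerate_iff_det_ne_zero b).mp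
    (LinearMap.BilinForm.Nondegenerate.ofSeparatingLeft hΦ)
  have h2 : Aᵀ * G = -(G * A) := by
    have a1 := LinearMap.BilinForm.toMatrix_compLeft b Φ.B g
    have a2 := LinearMap.BilinForm.toMatrix_compRight b Φ.B g
    rw [← a1, ← a2, ← map_neg]
    congr 1; ext; simp [hB]
  have h3 : A * A = -k • (1 : Matrix _ _ F) := by
    rw [← LinearMap.toMatrix_mul, ← LinearMap.toMatrix_one b, ← map_smul]
    congr 1; ext; simp [h]
  have h4 : A.charpoly = (-A).charpoly := by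
    have : charmatrix Aᵀ * G.map C = G.map C * charmatrix (-A) := by
      simp only [charmatrix, RingHom.mapMatrix_apply, Matrix.sub_mul, Matrix.mul_sub,
        ← Matrix.map_mul, h2, Matrix.mul_neg]
      rw [(scalar_commute (X : F[X]) (fun _ => Commute.all _ _) _).eq]
    have := congrArg det this
    rw [det_mul, det_mul, mul_comm] at this
    rw [← charpoly_transpose]
    exact mul_left_cancel₀ (by rw [← RingHom.mapMatrix_apply, ← RingHom.map_det]; simpa) this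
  have h5 : A.charpoly * A.charpoly = (X ^ 2 + C k) ^ M * (X ^ 2 + C k) ^ M := by
    have : charmatrix A * charmatrix (-A) = (X ^ 2 + C k : F[X]) • (1 : Matrix _ _ F[X]) := by
      simp only [charmatrix, RingHom.mapMatrix_apply, Matrix.sub_mul, Matrix.mul_sub,
        ← Matrix.map_mul, Matrix.mul_neg, h3, Matrix.map_neg _ (map_neg C)]
      ext i j : 1
      by_cases h : i = j <;> simp [h, sq, mul_comm X]
      ring
    nth_rw 2 [h4]
    rw [charpoly, charpoly, ← det_mul, this, det_smul, det_one, mul_one, Fintype.card_fin, hV,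
      two_mul, pow_add]
  have h6 : A.charpoly = (X ^ 2 + C k) ^ M := (mul_self_eq_mul_self_iff.mp h5).elim id fun h6 => by
    have a1 := A.charpoly_monic
    have a2 := ((monic_X_pow_add_C k two_ne_zero).pow M).leadingCoeff
    rw [h6, Monic, leadingCoeff_neg, a2] at a1
    rw [h6, neg_eq_iff_add_eq_zero, ← two_mul, show (2 : F[X]) = C 2 from rfl,
      show (2 : F) = 0 by linear_combination -a1, map_zero, zero_mul]
  rw [← LinearMap.det_toMatrix b, det_eq_sign_charpoly_coeff, h6, Fintype.card_fin, hV,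
    coeff_zero_eq_eval_zero]
  simp

include hr in
theorem Model.bal_graph [Finite F] [Nontrivial V] (hg : GenHyp Φ) {M : ℕ}
    (hV : finrank F V = 2 * M) (h2 : (2 : F) ≠ 0) (hM : 3 ≤ M) {g : GO Φ}
    (h1 : gpar hΦ hκ hg hV g = -1) (h : m.sim g * m.sim g = 1)
    (hT : ∀ y, Commute y (m.sim g) → y ∈ m.norms.ind.range) : Bal 2 (m.sim g) := by
  obtain ⟨l, h⟩ := m.sim_eq_iff.1 (((map_mul _ _ _).trans h).trans (map_one m.sim).symm)
  have h3 : ∀ x, g.1 (g.1 x) = (l : F) • x := fun x => congrArg (fun a : GO Φ => a.1 x) h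
  have hB := (mult_spec hΦ g).B
  simp only [RingEquiv.refl_apply, LinearEquiv.coe_toAddEquiv, LinearEquiv.coe_addEquiv_apply] at hB
  have h4 : (l : F) = mult hΦ g := by
    have := congrArg (fun a => (mult hΦ a : F)) h
    simp only [map_mul, mult_sGO, Units.val_mul, map_one, mul_one] at this
    refine (mul_self_eq_mul_self_iff.1 this.symm).resolve_right fun h4 => ?_
    have := gpar_eq_of_det hΦ hκ hg hV h2 (g := g) (x := 1) (by
      simpa using det_of_skew (hΦ := hΦ) (g := g.1.toLinearMap) (k := mult hΦ g) (h4 ▸ h3)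
        (fun x y => mul_left_cancel₀ (mult hΦ g).ne_zero (by
          change _ * Φ.B (g.1 x) y = _ * -Φ.B x (g.1 y)
          rw [mul_neg, ← hB x, h3, h4]; simp)) hV)
    simp [h1] at this
  by_cases h5 : IsSquare (l : F)
  · obtain ⟨c, hc⟩ := h5
    have hc0 : c ≠ 0 := by rintro rfl; simp at hc
    obtain ⟨s, rfl⟩ := (mult_eq_mul_iff hΦ (c := Units.mk0 c hc0)).mp (h4 ▸ hc)
    rw [gpar_mul, dickson_apply, hV] at h1
    rw [m.sim_sGO_mul] at hT ⊢
    replace h3 : ∀ x, s.1 (s.1 x) = x := fun x => smul_right_injective V l.ne_zero (by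
      simp only; rw [← h3 x, hc, mul_smul, ← map_smul _ c (s.1 x)]; rfl)
    have h6 : ∀ x ∈ Φ.perp (fixSp s), s.1 x = (-1 : F) • x := fun x hx => by
      rw [perp_fixSp hΦ] at hx
      obtain ⟨y, rfl⟩ := hx
      simp [h3]
    have h7 : Disjoint (fixSp s) (Φ.perp (fixSp s)) := Submodule.disjoint_def.2 fun x a b =>
      smul_right_injective V h2 (by
        have := (mem_fixSp.1 a).symm.trans (h6 x b)
        simp only [two_smul, smul_zero]
        nth_rw 1 [this]; simp)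
    have h8 : Odd (finrank F (fixSp s)) := Nat.not_even_iff_odd.mp fun h => by
      simp [pow_add, h.neg_one_pow] at h1
    have h9 := hΦ.finrank_perp_add (fixSp s)
    exact m.bal_split hκ hr h2 h3 ⟨hΦ.isCompl_perp h7, 1, one_ne_zero,
      fun x hx => by simpa using mem_fixSp.1 hx, h6⟩ h8 (by grind) hT
  · exact m.bal_ext hκ hr h2 h5 h3 (fun x y => mul_left_cancel₀ l.ne_zero (by
      rw [h4, ← hB x, h3, h4, B_smul_right])) (by omega) hT

include hr in
theorem Model.bal_graph' [Finite F] [Nontrivial V] (hg : GenHyp Φ) {M : ℕ}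
    (hV : finrank F V = 2 * M) (hM : 3 ≤ M) {ℓ : ℕ} [Fact ℓ.Prime] [CharP F ℓ] (hp : p.Prime)
    (hpl : p ≠ ℓ) {g : GO Φ} (h1 : gpar hΦ hκ hg hV g ≠ 1) (h : orderOf (m.sim g) = p)
    (hT : ∀ y, Commute y (m.sim g) → y ∈ m.norms.ind.range) : p = 2 ∧ Bal p (m.sim g) := by
  replace h1 := (Int.units_eq_one_or _).resolve_left h1
  obtain rfl : p = 2 := hp.eq_two_or_odd'.resolve_right fun h2 => by
    have := (m.sim_mem_idg hκ hg hV (g := g ^ p)).mp (by
      rw [map_pow, ← h, pow_orderOf_eq_one]; exact one_mem _)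
    rw [map_pow, h1, h2.neg_one_pow] at this
    simp at this
  have := Fintype.ofFinite F
  exact ⟨rfl, m.bal_graph hκ hr hg hV (odd_card_of_ne hpl) hM h1
    (by rw [← sq, ← h, pow_orderOf_eq_one]) hT⟩

include hr in
theorem Model.balance_even [Finite F] [Nontrivial V] (hg : GenHyp Φ) {M : ℕ}
    (hV : finrank F V = 2 * M) (hM : 3 ≤ M) {ℓ : ℕ} [Fact ℓ.Prime] [CharP F ℓ] [Fact p.Prime]
    (hpl : p ≠ ℓ) (hT : m.norms.ind.range = ⊤) {A : Subgroup (MulAut (N ⧸ center N))}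
    (hA : ∀ k, MulAut.conj k ∈ A) {x : MulAut (N ⧸ center N)} (hx : orderOf x = p)
    (h1 : ∀ g, gpar hΦ hκ hg hV g = 1 → m.sim g ≠ x) {P : Prop}
    (hP : ∀ d : GamO Φ, Odd p → orderOf d.1.θ = p → d.1 ^ p = 1 → x = m.norms.ind d → P) :
    pPrimeCore p ↥(A ⊓ centralizer {x}) ≠ ⊥ ↔ P ∧ p.Coprime (Nat.card (FixA x)) := by
  have hp : p.Prime := Fact.out
  have := m.finite
  have : Nontrivial (N ⧸ center N) := by
    by_contra! h
    exact hp.ne_one (hx.symm.trans (orderOf_eq_one_iff.mpr (MulEquiv.ext fun _ => h.elim _ _)))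
  obtain ⟨c, rfl⟩ : x ∈ m.norms.ind.range := hT ▸ mem_top _
  by_cases h0 : c.1.θ = 1
  · obtain ⟨g, h2⟩ := m.exists_sim c h0
    rw [h2] at hx h1 ⊢
    obtain ⟨h4, h2⟩ := m.bal_graph' hκ hr hg hV hM hp hpl (fun h => h1 g h rfl) hx
      fun _ _ => hT ▸ mem_top _
    exact balance_iff m.center_quot hA hx (fun h => absurd h4
      (m.dvd_two hκ hr (by omega) hp hpl h)) fun _ => h2
  refine balance_iff m.center_quot hA hx (fun h => ?_)
    (m.bal_quad hκ hr (by omega) hT hp hpl c h0 hx)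
  obtain ⟨h1, d, h3, h4, h5⟩ := m.exists_norm c hp h0 (hx ▸ pow_orderOf_eq_one _)
  exact hP d (hp.odd_of_ne_two (m.dvd_two hκ hr (by omega) hp hpl h)) (h3 ▸ h1) h4 h5

theorem induced_sim [Finite F] {ι : Type} [Fintype ι] [DecidableEq ι] {Q : QuadraticForm F (ι → F)}
    (hQ : (ofQuad Q).Nondeg) (h5 : 5 ≤ Fintype.card ι) {g : GL ι F}
    (hg : glEquiv g ∈ GO (ofQuad Q)) : IsInducedBySemilinearPOmega Q g (RingEquiv.refl F)
      ((omegaModel Q hQ h5).sim ⟨_, hg⟩) :=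
  (induced_omega_iff hQ h5 (θ := RingEquiv.refl F) (g := g) hg).2 rfl

theorem idg_minus [Finite F] {m : ℕ} (hm : 2 ≤ m) {a b : F}
    (hab : ∀ z₁ z₂ : F, z₁ ^ 2 + a * z₁ * z₂ + b * z₂ ^ 2 = 0 → z₁ = 0 ∧ z₂ = 0) {g : GO _}
    (h : gpar (qMinus_nondeg m hab) (ofQuad_κ _) (genHyp_minus hm hab) (finrank_minus m) g = 1) :
    IsInnerDiagonalAutPOmegaMinus m a b ((minusModel hm hab).sim g) := by
  obtain ⟨g, hg⟩ := g
  obtain ⟨g, hg'⟩ := glEquiv.surjective g
  subst hg'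
  exact ⟨g, (mem_quadSim_iff (Q := qMinus m F a b)).2 hg, (preservesMinus_iff hab (by omega) _ hg).2 h,
    induced_sim (Q := qMinus m F a b) (qMinus_nondeg m hab) (by simp; omega) hg⟩

theorem idg_plus [Finite F] {m : ℕ} (hm : 3 ≤ m) [Nonempty (Fin m)] {g : GO _}
    (h : gpar (qPlus_nondeg m) (ofQuad_κ _) (genHyp_plus' F hm) (finrank_plus m) g = 1) :
    IsInnerDiagonalAutPOmegaPlus m ((plusModel F hm).sim g) := by
  obtain ⟨g, hg⟩ := g
  obtain ⟨g, hg'⟩ := glEquiv.surjective g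
  subst hg'
  exact ⟨g, (mem_quadSim_iff (Q := qPlus m F)).2 hg, (preserves_iff (Q := qPlus m F) _ _
      (totSing_kerR m) (finrank_kerR m) _ _ fun _ => rfl).2 h,
    induced_sim (Q := qPlus m F) (qPlus_nondeg m) (by simp; omega) hg⟩

theorem Model.exists_iso {V' N' : Type*} [AddCommGroup V'] [Module F V'] [FiniteDimensional F V']
    [Group N'] {σ : F →+* F} {Φ : Form σ V} {Φ' : Form σ V'} {hΦ : Φ.Nondeg} {hΦ' : Φ'.Nondeg}
    {r : N →* Φ.O} {r' : N' →* Φ'.O} (m : Model hΦ r) (m' : Model hΦ' r')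
    (hr : r.range = commutator _) (hr' : r'.range = commutator _) {θ : F ≃+* F} {k : F}
    {e : V' ≃+ V} (he : IsSS Φ' Φ θ k e) (a : GamO Φ) (a' : GamO Φ')
    (h : ∀ v, a.1.ψ (e v) = e (a'.1.ψ v)) : ∃ ψ : N ⧸ center N ≃* N' ⧸ center N',
      (ψ.symm.trans (m.norms.ind a)).trans ψ = m'.norms.ind a' := by
  let φ : N ≃* N' := (((MonoidHom.ofInjective m.inj).trans (MulEquiv.subgroupCongr hr)).trans
    (commutatorCongr he.conj.symm)).trans
      ((MonoidHom.ofInjective m'.inj).trans (MulEquiv.subgroupCongr hr')).symm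
  have h1 : ∀ s v, e ((r' (φ s)).1 v) = (r s).1 (e v) := fun s v => by
    have : r' (φ s) = he.conj.symm (r s) := congrArg Subtype.val
      (((MonoidHom.ofInjective m'.inj).trans (MulEquiv.subgroupCongr hr')).apply_symm_apply _)
    rw [← he.conj_apply', this, MulEquiv.apply_symm_apply]
  refine ⟨quotCenterCongr φ, m'.norms.eq_ind a' fun s s' hs => ?_⟩
  obtain ⟨s, rfl⟩ := φ.surjective s
  obtain ⟨s', rfl⟩ := φ.surjective s'
  have h2 : (quotCenterCongr φ).symm (QuotientGroup.mk (φ s)) = QuotientGroup.mk s :=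
    (MulEquiv.symm_apply_eq _).mpr rfl
  rw [MulEquiv.trans_apply, MulEquiv.trans_apply, h2, m.norms.ind_mk a (s' := s') (by
    ext v
    obtain ⟨v, rfl⟩ := a.1.ψ.surjective v
    obtain ⟨v, rfl⟩ := e.surjective v
    rw [slAut_apply', h]
    exact (h1 _ _).symm.trans ((congrArg e ((LinearEquiv.congr_fun hs _).trans
      (slAut_apply' ..))).trans ((h _).symm.trans (congrArg _ (h1 _ _)))))]
  rfl

theorem field_class_minus [Fintype F] {m : ℕ} (hm : 2 ≤ m) {a b : F}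
    (hab : ∀ z₁ z₂ : F, z₁ ^ 2 + a * z₁ * z₂ + b * z₂ ^ 2 = 0 → z₁ = 0 ∧ z₂ = 0) (hp : p.Prime)
    (d : GamO (ofQuad (qMinus m F a b))) (h2 : Odd p) (h1 : orderOf d.1.θ = p) (h4 : d.1 ^ p = 1) :
    IsFieldAutClassPOmegaMinus m ((minusModel hm hab).norms.ind d) := by
  obtain ⟨F₀, _, _, j, hj, -⟩ := exists_fixed d.1.θ
  obtain ⟨a₀, b₀, h6⟩ := exists_aniso F₀
  have h7 := aniso_of_odd hj h2 (h1 ▸ pow_orderOf_eq_one _) h6
  obtain ⟨e, l, h8, h9⟩ := (exists_std_even (qMinus_nondeg m hab) rfl d.2 hp.pos h4 h1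
    hj (finrank_minus m) h6).resolve_left fun h => not_hy_minus m hab (h.hy_iff.2 (hy_plus _))
  have a1 := (hj _).1 ⟨a₀, rfl⟩
  have a2 := (hj _).1 ⟨b₀, rfl⟩
  have a3 : stdSL _ d.1.θ ∈ GamO (ofQuad (qMinus m F (j a₀) (j b₀))) :=
    ⟨1, isSS_quad_iff.2 ⟨one_ne_zero, GamL.sl _, fun v => by simp [qMinus_apply, a1, a2]⟩⟩
  obtain ⟨ψ, hψ⟩ := (minusModel hm hab).exists_iso (minusModel hm h7) (range_minusRep m _ _)
    (range_minusRep m _ _) h9 d ⟨_, a3⟩ h8
  exact ⟨_, _, ψ, _, h7, fun h => hp.ne_one (h1.symm.trans (orderOf_eq_one_iff.mpr h)), a1, a2,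
    (field_minus_iff hm h7 a3).2 hψ⟩

theorem field_class_plus [Fintype F] {m : ℕ} (hm : 3 ≤ m) (hp : p.Prime)
    (d : GamO (ofQuad (qPlus m F))) (h2 : Odd p) (h1 : orderOf d.1.θ = p) (h4 : d.1 ^ p = 1) :
    IsFieldAutClassPOmega (quadFormPlus m F) ((plusModel F hm).norms.ind d) := by
  obtain ⟨m, rfl⟩ : ∃ k, m = k + 1 := ⟨m - 1, by omega⟩
  obtain ⟨F₀, _, _, j, hj, -⟩ := exists_fixed d.1.θ
  obtain ⟨a₀, b₀, h6⟩ := exists_aniso F₀
  have h7 := aniso_of_odd hj h2 (h1 ▸ pow_orderOf_eq_one _) h6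
  obtain ⟨k, hk, h8⟩ := ((exists_std_even (qPlus_nondeg _) rfl d.2 hp.pos h4 h1
    hj (finrank_plus _) h6).resolve_right fun h =>
      not_hy_minus m h7 (h.hy_iff.1 (hy_plus _))).conj (stdTo_plus _) rfl
  obtain ⟨α, h9⟩ := (plusModel F hm).exists_conj d.2 ⟨1, stdSL_qPlus _ d.1.θ⟩ hk h8
  exact ⟨α, _, _, fun h => hp.ne_one (h1.symm.trans (orderOf_eq_one_iff.mpr h)),
    (field_plus_iff hm).2 rfl, h9⟩

end H22
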