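import Cfsg.Agent.H14.Mil5

/-!
Unipotent isometries in characteristic two, I: the invariants `A i` and normalised generators.
-/

set_option autoImplicit false
set_option linter.unusedVariables false
set_option linter.unusedSectionVars false

namespace H22.Ev

open Module Polynomial H16 H23 H23.Form H14.Wall

variable {F V W : Type*} [Field F] [AddCommGroup V] [Module F V] [AddCommGroup W] [Module F W]
  {Φ : Form (RingHom.id F) V} {g : End F V}

/-- the pairing `B (x ^ a u) (x ^ b v)`, `x = g - 1` -/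
def P (Φ : Form (RingHom.id F) V) (g : End F V) (u v : V) (a b : ℕ) : F :=
  Φ.B (((g - 1) ^ a) u) (((g - 1) ^ b) v)

/-- the quadratic invariants -/
def A (Φ : Form (RingHom.id F) V) (g : End F V) : ℕ → V → F
  | 0, v => Φ.Q v
  | i + 1, v => P Φ g v v i (i + 1)

/-- the polarisation constant of `A i` -/
def kp (Φ : Form (RingHom.id F) V) : ℕ → F
  | 0 => Φ.κ
  | _ + 1 => 1

/-- the diagonal values of the pairing -/
def E (Φ : Form (RingHom.id F) V) (g : End F V) (u v : V) (d : ℕ) : F :=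
  P Φ g u v (d / 2) ((d + 1) / 2)

/-- standing hypotheses -/
structure Hy (Φ : Form (RingHom.id F) V) (g : End F V) : Prop where
  two : (2 : F) = 0
  pres : Pres Φ g
  kap : Φ.κ = 0 ∨ Φ.κ = 1

theorem eps_one (h2 : (2 : F) = 0) (Φ : Form (RingHom.id F) V) : Φ.ε = 1 := by
  have := eps_mul_self Φ
  have h : (Φ.ε - 1) ^ 2 = 0 := by linear_combination this + (1 - Φ.ε) * h2
  exact sub_eq_zero.1 (pow_eq_zero_iff (by simp) |>.1 h)

theorem B_symm (h2 : (2 : F) = 0) (x y : V) : Φ.B y x = Φ.B x y := by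
  rw [B_swap, eps_one h2, one_mul]

theorem B_self (h2 : (2 : F) = 0) (x : V) : Φ.B x x = 0 := by
  obtain ⟨s, h, -⟩ := Φ.trace x
  rw [h, eps_one h2]; simp only [RingHom.id_apply]; linear_combination s * h2

theorem xs (g : End F V) (a b : ℕ) (v : V) :
    ((g - 1) ^ a) (((g - 1) ^ b) v) = ((g - 1) ^ (a + b)) v := by
  rw [pow_add, Module.End.mul_apply]

theorem x_zero {n m : ℕ} {v : V} (h : ((g - 1) ^ n) v = 0) (hm : n ≤ m) : ((g - 1) ^ m) v = 0 := by
  obtain ⟨k, rfl⟩ := Nat.exists_eq_add_of_le' hm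
  rw [← xs, h, map_zero]

theorem P_symm (H : Hy Φ g) (u v : V) (a b : ℕ) : P Φ g u v a b = P Φ g v u b a :=
  B_symm H.two _ _

theorem P_self (H : Hy Φ g) (v : V) (a : ℕ) : P Φ g v v a a = 0 := B_self H.two _

theorem P_rule (H : Hy Φ g) (u v : V) (a b : ℕ) :
    P Φ g u v (a + 1) (b + 1) = P Φ g u v (a + 1) b + P Φ g u v a (b + 1) := by
  simp only [P, pow_succ', Module.End.mul_apply, LinearMap.sub_apply, Module.End.one_apply, map_sub,
    H.pres.B]
  linear_combination (2 * Φ.B (((g - 1) ^ a) u) (((g - 1) ^ b) v) -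
    Φ.B (((g - 1) ^ a) u) (g (((g - 1) ^ b) v)) - Φ.B (g (((g - 1) ^ a) u)) (((g - 1) ^ b) v)) * H.two

theorem P_add_right (u v w : V) (c : F) (m a b : ℕ) :
    P Φ g u (v + c • ((g - 1) ^ m) w) a b = P Φ g u v a b + c * P Φ g u w a (b + m) := by
  simp [P, xs]

theorem P_add_left (u v w : V) (c : F) (m a b : ℕ) :
    P Φ g (v + c • ((g - 1) ^ m) w) u a b = P Φ g v u a b + c * P Φ g w u (a + m) b := by
  simp [P, xs]

theorem P_zero (H : Hy Φ g) (u : V) {v : V} {n : ℕ} (hv : ((g - 1) ^ n) v = 0) :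
    ∀ a b, n ≤ a + b → P Φ g u v a b = 0 := by
  intro a
  induction a with
  | zero => intro b h; simp [P, x_zero hv (by omega : n ≤ b)]
  | succ a ih =>
    have : ∀ t b, n ≤ b + t → n ≤ a + 1 + b → P Φ g u v (a + 1) b = 0 := by
      intro t
      induction t with
      | zero => intro b h _; simp [P, x_zero hv (by omega : n ≤ b)]
      | succ t iht =>
        intro b h h'
        have := P_rule H u v a b
        rw [iht (b + 1) (by omega) (by omega), ih (b + 1) (by omega)] at this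
        linear_combination -this
    exact fun b h => this n b (by omega) h

theorem P_zero' (H : Hy Φ g) {u : V} (v : V) {n : ℕ} (hu : ((g - 1) ^ n) u = 0) (a b : ℕ)
    (h : n ≤ a + b) : P Φ g u v a b = 0 := by
  rw [P_symm H, P_zero H v hu _ _ (by omega)]

theorem P_top (H : Hy Φ g) (u : V) {v : V} {D : ℕ} (hv : ((g - 1) ^ (D + 1)) v = 0) :
    ∀ a b, a + b = D → P Φ g u v a b = bt Φ g D u v := by
  intro a
  induction a with
  | zero => intro b h; simp [P, bt, ← h]
  | succ a ih =>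
    intro b h
    have := P_rule H u v a b
    rw [P_zero H u hv _ _ (by omega), ih (b + 1) (by omega)] at this
    linear_combination -this - bt Φ g D u v * H.two

theorem bt_symm (H : Hy Φ g) {u v : V} {D : ℕ} (hu : ((g - 1) ^ (D + 1)) u = 0) :
    bt Φ g D u v = bt Φ g D v u := by
  rw [← P_top H v hu D 0 rfl, P_symm H]; simp [P, bt]

theorem kp_cases (H : Hy Φ g) (i : ℕ) : (kp Φ i = 0 ∧ ∀ v, A Φ g i v = 0) ∨ kp Φ i = 1 := by
  cases i with
  | succ i => exact Or.inr rfl
  | zero =>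
    rcases H.kap with h | h
    · refine Or.inl ⟨h, fun v => ?_⟩
      obtain ⟨s, -, h1⟩ := Φ.trace v
      simp [A, ← h1, h]
    · exact Or.inr h

theorem kp_mul (H : Hy Φ g) (i : ℕ) (v : V) : kp Φ i * A Φ g i v = A Φ g i v := by
  rcases kp_cases H i with ⟨h, h'⟩ | h
  · simp [h']
  · simp [h]

theorem A_add (H : Hy Φ g) (i : ℕ) (u w : V) (c : F) :
    A Φ g i (u + c • w) = A Φ g i u + c ^ 2 * A Φ g i w + kp Φ i * (c * P Φ g u w i i) := by
  cases i with
  | zero => simp [A, kp, P, Q_add_smul]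
  | succ i =>
    have h1 := P_rule H u w i i
    have h2 := P_symm H w u i (i + 1)
    simp only [A, kp, P, map_add, map_smul, LinearMap.add_apply, LinearMap.smul_apply, smul_eq_mul,
      LinearMap.map_smulₛₗ, RingHom.id_apply] at *
    linear_combination c * h2 - c * h1

theorem A_smul (H : Hy Φ g) (i : ℕ) (w : V) (c : F) : A Φ g i (c • w) = c ^ 2 * A Φ g i w := by
  cases i with
  | zero => simp [A, Q_smul]
  | succ i => simp [A, P]; ring

theorem A_x (H : Hy Φ g) (i m : ℕ) (w : V) :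
    A Φ g i (((g - 1) ^ m) w) = kp Φ i * A Φ g (i + m) w := by
  cases i with
  | succ i =>
    rw [show i + 1 + m = i + m + 1 by omega]
    simp only [A, kp, P, xs, one_mul]
    rw [show i + 1 + m = i + m + 1 by omega]
  | zero =>
    cases m with
    | zero => simpa using (kp_mul H 0 w).symm
    | succ m =>
      rw [zero_add]
      simp only [A, kp, P, pow_succ', Module.End.mul_apply, LinearMap.sub_apply,
        Module.End.one_apply, H.pres.Q_sub, map_sub, B_self H.two]
      rw [B_symm H.two]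
      linear_combination -(Φ.κ * Φ.B (((g - 1) ^ m) w) (g (((g - 1) ^ m) w))) * H.two

theorem A_move (H : Hy Φ g) (i m : ℕ) (u w : V) (c : F) :
    A Φ g i (u + c • ((g - 1) ^ m) w) =
      A Φ g i u + kp Φ i * (c ^ 2 * A Φ g (i + m) w + c * P Φ g u w i (i + m)) := by
  rw [A_add H, A_x H]
  simp only [P, xs]; ring

/-- `T D v`: the self pairing of `v` vanishes from total degree `D` on -/
def T (Φ : Form (RingHom.id F) V) (g : End F V) (D : ℕ) (v : V) : Prop :=
  ∀ a b, D ≤ a + b → P Φ g v v a b = 0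

theorem T.A {D : ℕ} {v : V} (h : T Φ g D v) {i : ℕ} (hi : D < 2 * i) : A Φ g i v = 0 := by
  obtain ⟨i, rfl⟩ : ∃ j, i = j + 1 := ⟨i - 1, by omega⟩
  exact h _ _ (by omega)

theorem T_of_nil (H : Hy Φ g) {n : ℕ} {v : V} (hv : ((g - 1) ^ n) v = 0) : T Φ g n v :=
  P_zero H v hv

theorem T_of_bt (H : Hy Φ g) {D : ℕ} {v : V} (hv : ((g - 1) ^ (D + 1)) v = 0)
    (h : bt Φ g D v v = 0) : T Φ g D v := fun a b hab => by
  rcases hab.eq_or_lt with e | e
  · rw [P_top H v hv _ _ e.symm, h]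
  · exact P_zero H v hv _ _ e

theorem bt_even (H : Hy Φ g) {j : ℕ} {v : V} (hv : ((g - 1) ^ (2 * j + 1)) v = 0) :
    bt Φ g (2 * j) v v = 0 := by
  rw [← P_top H v hv j j (by omega), P_self H]

theorem bt_odd (H : Hy Φ g) {j : ℕ} {v : V} (hv : ((g - 1) ^ (2 * j + 1 + 1)) v = 0) :
    bt Φ g (2 * j + 1) v v = A Φ g (j + 1) v := by
  rw [← P_top H v hv j (j + 1) (by omega), A]

theorem x_move {n : ℕ} {v w : V} (hv : ((g - 1) ^ n) v = 0) (hw : ((g - 1) ^ n) w = 0) (c : F)
    (m : ℕ) : ((g - 1) ^ n) (v + c • ((g - 1) ^ m) w) = 0 := by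
  rw [map_add, map_smul, xs, hv, x_zero hw (by omega : n ≤ n + m)]; simp

theorem normV (H : Hy Φ g) {j : ℕ} {v : V} (hv : ((g - 1) ^ (2 * j + 1 + 1)) v = 0)
    (h1 : A Φ g (j + 1) v = 1) : ∃ v', ((g - 1) ^ (2 * j + 1 + 1)) v' = 0 ∧
      A Φ g (j + 1) v' = 1 ∧ A Φ g j v' = A Φ g j v ∧ ∀ i < j, A Φ g i v' = 0 := by
  have key : ∀ t, ∃ v', ((g - 1) ^ (2 * j + 1 + 1)) v' = 0 ∧
      A Φ g (j + 1) v' = 1 ∧ A Φ g j v' = A Φ g j v ∧ ∀ i < j, j ≤ i + t → A Φ g i v' = 0 := by
    intro t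
    induction t with
    | zero => exact ⟨v, hv, h1, rfl, fun i h h' => by omega⟩
    | succ t ih =>
      obtain ⟨w, a1, a2, a3, a4⟩ := ih
      by_cases ht : j ≤ t
      · exact ⟨w, a1, a2, a3, fun i h _ => a4 i h (by omega)⟩
      have b1 : ∀ (c : F) i, j ≤ i + t → A Φ g i (w + c • ((g - 1) ^ (2 * t + 3)) w) = A Φ g i w := by
        intro c i hi
        rw [A_move H, (T_of_nil H a1).A (i := i + (2 * t + 3)) (by omega),
          P_zero H w a1 _ _ (by omega)]; simp
      refine ⟨w + A Φ g (j - t - 1) w • ((g - 1) ^ (2 * t + 3)) w, x_move a1 a1 _ _, ?_, ?_,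
        fun i h h' => ?_⟩
      · rw [b1 _ _ (by omega), a2]
      · rw [b1 _ _ (by omega), a3]
      · by_cases hi : j ≤ i + t
        · rw [b1 _ _ hi, a4 i h hi]
        · obtain rfl : i = j - t - 1 := by omega
          rw [A_move H, (T_of_nil H a1).A (i := j - t - 1 + (2 * t + 3)) (by omega),
            P_top H w a1 _ _ (by omega), bt_odd H a1, a2]
          linear_combination kp_mul H (j - t - 1) w + A Φ g (j - t - 1) w * H.two
  obtain ⟨w, a1, a2, a3, a4⟩ := key j
  exact ⟨w, a1, a2, a3, fun i h => a4 i h (by omega)⟩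

theorem bt_move (H : Hy Φ g) {D : ℕ} (u v : V) {w : V} (hw : ((g - 1) ^ (D + 1)) w = 0) (c : F)
    (m : ℕ) : bt Φ g D u (v + c • ((g - 1) ^ (m + 1)) w) = bt Φ g D u v := by
  simp [bt, xs, x_zero hw (by omega : D + 1 ≤ D + (m + 1))]

theorem T_move (H : Hy Φ g) {D : ℕ} {v w : V} (hv : T Φ g D v) (hw : ((g - 1) ^ (D + 1)) w = 0)
    (c : F) (m : ℕ) : T Φ g D (v + c • ((g - 1) ^ (m + 1)) w) := fun a b h => by
  rw [P_add_left, P_add_right, P_add_right, hv _ _ h, P_zero H v hw _ _ (by omega),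
    P_zero' H v hw _ _ (by omega), P_zero H w hw _ _ (by omega)]; simp

theorem normW (H : Hy Φ g) {D : ℕ} {u v : V} (hu : ((g - 1) ^ (D + 1)) u = 0)
    (hv : ((g - 1) ^ (D + 1)) v = 0) (tu : T Φ g D u) (tv : T Φ g D v) (h1 : bt Φ g D u v = 1) :
    ∃ v', ((g - 1) ^ (D + 1)) v' = 0 ∧ T Φ g D v' ∧ bt Φ g D u v' = 1 ∧
      (∀ i, 2 * i = D → A Φ g i v' = A Φ g i v) ∧ (∀ i, 2 * i < D → A Φ g i v' = 0) ∧
      ∀ d < D, E Φ g u v' d = 0 := by
  have key : ∀ t, ∃ v', ((g - 1) ^ (D + 1)) v' = 0 ∧ T Φ g D v' ∧ bt Φ g D u v' = 1 ∧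
      (∀ i, 2 * i = D → A Φ g i v' = A Φ g i v) ∧
      (∀ i, 2 * i < D → D ≤ 2 * i + t → A Φ g i v' = 0) ∧
      ∀ d < D, D ≤ d + t → E Φ g u v' d = 0 := by
    intro t
    induction t with
    | zero => exact ⟨v, hv, tv, h1, fun _ _ => rfl, fun i h h' => by omega, fun i h h' => by omega⟩
    | succ t ih =>
      obtain ⟨w, a1, a2, a3, a4, a5, a6⟩ := ih
      by_cases ht : D ≤ t
      · exact ⟨w, a1, a2, a3, a4, fun i h _ => a5 i h (by omega), fun i h _ => a6 i h (by omega)⟩
      set c := E Φ g u w (D - t - 1) with hc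
      set w1 := w + c • ((g - 1) ^ (t + 1)) w with hw1
      have b1 : ((g - 1) ^ (D + 1)) w1 = 0 := x_move a1 a1 _ _
      have b2 : T Φ g D w1 := T_move H a2 a1 _ _
      have b3 : bt Φ g D u w1 = 1 := by rw [hw1, bt_move H _ _ a1, a3]
      have b4 : ∀ i, D ≤ 2 * i + t + 1 → A Φ g i w1 = A Φ g i w := fun i hi => by
        rw [hw1, A_move H, a2.A (i := i + (t + 1)) (by omega), a2 _ _ (by omega)]; simp
      have b6 : ∀ d < D, D ≤ d + (t + 1) → E Φ g u w1 d = 0 := fun d h h' => by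
        by_cases hd : D ≤ d + t
        · rw [E, hw1, P_add_right, P_zero H u a1 _ (_ + (t + 1)) (by omega), ← E, a6 d h hd]; simp
        · obtain rfl : d = D - t - 1 := by omega
          rw [E, hw1, P_add_right, P_top H u a1 _ (_ + (t + 1)) (by omega), a3, ← E, ← hc]
          linear_combination c * H.two
      set c' := A Φ g ((D - t - 1) / 2) w1 with hc'
      have b7 : ∀ i, D ≤ 2 * i + t → A Φ g i (w1 + c' • ((g - 1) ^ (t + 1)) u) = A Φ g i w :=
        fun i hi => by
        rw [A_move H, tu.A (i := i + (t + 1)) (by omega), P_zero H w1 hu _ _ (by omega),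
          b4 _ (by omega)]; simp
      refine ⟨w1 + c' • ((g - 1) ^ (t + 1)) u, x_move b1 hu _ _, T_move H b2 hu _ _, ?_,
        fun i hi => ?_, fun i h h' => ?_, fun d h h' => ?_⟩
      · rw [bt_move H _ _ hu, b3]
      · rw [b7 _ (by omega), a4 i hi]
      · by_cases hi : D ≤ 2 * i + t
        · rw [b7 _ hi, a5 i h hi]
        · obtain rfl : i = (D - t - 1) / 2 := by omega
          rw [A_move H, tu.A (i := (D - t - 1) / 2 + (t + 1)) (by omega),
            P_top H w1 hu _ _ (by omega), ← bt_symm H hu, b3, ← hc']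
          linear_combination kp_mul H ((D - t - 1) / 2) w1 + c' * H.two
      · rw [E, P_add_right, tu _ (_ + (t + 1)) (by omega), ← E, b6 d h h']; simp
  obtain ⟨w, a1, a2, a3, a4, a5, a6⟩ := key D
  exact ⟨w, a1, a2, a3, a4, fun i h => a5 i h (by omega), fun d h => a6 d h (by omega)⟩

theorem rule_ext (h2 : (2 : F) = 0) {p q : ℕ → ℕ → F}
    (hp : ∀ a b, p (a + 1) (b + 1) = p (a + 1) b + p a (b + 1))
    (hq : ∀ a b, q (a + 1) (b + 1) = q (a + 1) b + q a (b + 1))
    (h : ∀ d, p (d / 2) ((d + 1) / 2) = q (d / 2) ((d + 1) / 2)) (a b : ℕ) : p a b = q a b := by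
  have h0 : ∀ i, p i i = q i i := fun i => by
    simpa [show (2 * i + 1) / 2 = i by omega] using h (2 * i)
  have h1 : ∀ i, p i (i + 1) = q i (i + 1) := fun i => by
    simpa [show (2 * i + 1) / 2 = i by omega, show (2 * i + 1 + 1) / 2 = i + 1 by omega]
      using h (2 * i + 1)
  have key : ∀ t, ∀ a, (p a (a + t) = q a (a + t) ∧ p a (a + t + 1) = q a (a + t + 1)) ∧
      p (a + t) a = q (a + t) a ∧ p (a + t + 1) a = q (a + t + 1) a := by
    intro t
    induction t with
    | zero =>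
      intro a
      refine ⟨⟨h0 a, h1 a⟩, h0 a, ?_⟩
      have e1 := hp a a
      have e2 := hq a a
      rw [h0, h1] at e1
      simp only [add_zero]
      linear_combination e2 - e1
    | succ t ih =>
      intro a
      refine ⟨⟨(ih a).1.2, ?_⟩, (ih a).2.2, ?_⟩
      · have e1 := hp a (a + t + 1)
        have e2 := hq a (a + t + 1)
        have e3 := (ih (a + 1)).1
        rw [show a + 1 + t = a + t + 1 by omega] at e3
        rw [← add_assoc]
        linear_combination e2 - e1 + e3.2 - e3.1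
      · have e1 := hp (a + t + 1) a
        have e2 := hq (a + t + 1) a
        have e3 := (ih (a + 1)).2
        rw [show a + 1 + t = a + t + 1 by omega] at e3
        rw [← add_assoc]
        linear_combination e2 - e1 + e3.2 - e3.1
  rcases le_total a b with e | e
  · obtain ⟨t, rfl⟩ := Nat.exists_eq_add_of_le e
    exact (key t a).1.1
  · obtain ⟨t, rfl⟩ := Nat.exists_eq_add_of_le e
    exact (key t b).2.1

theorem P_ext {Ψ : Form (RingHom.id F) W} {h : End F W} (H : Hy Φ g) (H' : Hy Ψ h) {u v : V}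
    {u' v' : W} (e : ∀ d, E Φ g u v d = E Ψ h u' v' d) (a b : ℕ) :
    P Φ g u v a b = P Ψ h u' v' a b :=
  rule_ext H.two (P_rule H u v) (P_rule H' u' v') e a b

theorem P_ext_self {Ψ : Form (RingHom.id F) W} {h : End F W} (H : Hy Φ g) (H' : Hy Ψ h) {u : V}
    {u' : W} (e : ∀ i, A Φ g i u = A Ψ h i u') (a b : ℕ) : P Φ g u u a b = P Ψ h u' u' a b := by
  refine P_ext H H' (fun d => ?_) a b
  obtain ⟨i, rfl | rfl⟩ := Nat.even_or_odd' d
  · simp only [E, show (2 * i + 1) / 2 = i by omega, show 2 * i / 2 = i by omega, P_self H,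
      P_self H']
  · simp only [E, show (2 * i + 1) / 2 = i by omega, show (2 * i + 1 + 1) / 2 = i + 1 by omega]
    exact e (i + 1)

end H22.Ev
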