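import Cfsg.Agent.H22.EvA

/-!
Unipotent isometries in characteristic two, II: standard blocks and decompositions.
-/

set_option autoImplicit false
set_option linter.unusedVariables false
set_option linter.unusedSectionVars false

namespace H22.Ev

open Module Polynomial H16 H23 H23.Form H14.Wall

universe u v w

section

variable {F V W : Type*} [Field F] [AddCommGroup V] [Module F V] [AddCommGroup W] [Module F W]
  {Φ : Form (RingHom.id F) V} {g : End F V} {β : F}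

/-- Jordan block size minus one of the block type `t` -/
def sz (t : ℕ) : ℕ := if 2 ≤ t % 5 then 2 * (t / 5) + 1 else 2 * (t / 5)

/-- number of Jordan blocks of the block type `t` -/
def rk (t : ℕ) : ℕ := if t % 5 = 3 ∨ t % 5 = 2 then 1 else 2

/-- the values of `A a` on the first generator -/
def tu (β : F) (t a : ℕ) : F :=
  if t % 5 = 3 then (if a = t / 5 + 1 then 1 else 0) else
  if t % 5 = 2 then (if a = t / 5 + 1 then 1 else if a = t / 5 then β else 0) else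
  if t % 5 = 0 then (if a = t / 5 then 1 else 0) else 0

/-- the values of `A a` on the second generator -/
def tv (β : F) (t a : ℕ) : F := if t % 5 = 0 ∧ a = t / 5 then β else 0

/-- standard generators of a block of type `t` -/
structure Std (β : F) (Φ : Form (RingHom.id F) V) (g : End F V) (t : ℕ) (u v : V) : Prop where
  nu : ((g - 1) ^ (sz t + 1)) u = 0
  nv : ((g - 1) ^ (sz t + 1)) v = 0
  au : ∀ a, A Φ g a u = tu β t a
  av : rk t = 2 → ∀ a, A Φ g a v = tv β t a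
  e : rk t = 2 → ∀ d, E Φ g u v d = if d = sz t then 1 else 0

/-- a block of type `t` is available -/
def Av (β : F) (Φ : Form (RingHom.id F) V) (g : End F V) (t : ℕ) : Prop := ∃ u v, Std β Φ g t u v

/-- the generators as a family -/
def gen (r : ℕ) (u v : V) : Fin r → V := fun i => if i.1 = 0 then u else v

theorem rk_cases (t : ℕ) : rk t = 1 ∨ rk t = 2 := by unfold rk; split_ifs <;> simp

theorem avV (H : Hy Φ g) {j : ℕ} {v : V} (hv : ((g - 1) ^ (2 * j + 1 + 1)) v = 0)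
    (h1 : A Φ g (j + 1) v = 1) :
    (A Φ g j v = 0 → Av β Φ g (5 * j + 3)) ∧ (A Φ g j v = β → Av β Φ g (5 * j + 2)) := by
  obtain ⟨w, a1, a2, a3, a4⟩ := normV H hv h1
  have a5 : ∀ a, j + 1 < a → A Φ g a w = 0 := fun a h => (T_of_nil H a1).A (by omega)
  have e1 : (5 * j + 3) % 5 = 3 := by omega
  have e2 : (5 * j + 3) / 5 = j := by omega
  have e3 : (5 * j + 2) % 5 = 2 := by omega
  have e4 : (5 * j + 2) / 5 = j := by omega
  refine ⟨fun h => ⟨w, w, ?_, ?_, fun a => ?_, ?_, ?_⟩, fun h => ⟨w, w, ?_, ?_, fun a => ?_, ?_, ?_⟩⟩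
  any_goals simp only [sz, rk, tu, e1, e2, e3, e4]; simp
  any_goals exact a1
  · split_ifs with h1
    · rw [h1, a2]
    · rcases lt_trichotomy a j with e | e | e
      · exact a4 a e
      · rw [e, a3, h]
      · exact a5 a (by omega)
  · split_ifs with h1 h2
    · rw [h1, a2]
    · rw [h2, a3, h]
    · rcases lt_trichotomy a j with e | e | e
      · exact a4 a e
      · exact absurd e h2
      · exact a5 a (by omega)

theorem stdW (H : Hy Φ g) {D : ℕ} {u v : V} (hu : ((g - 1) ^ (D + 1)) u = 0)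
    (hv : ((g - 1) ^ (D + 1)) v = 0) (tu : T Φ g D u) (tv : T Φ g D v) (h1 : bt Φ g D u v = 1) :
    ∃ u' v', ((g - 1) ^ (D + 1)) u' = 0 ∧ ((g - 1) ^ (D + 1)) v' = 0 ∧
      (∀ a, A Φ g a u' = if 2 * a = D then A Φ g a u else 0) ∧
      (∀ a, A Φ g a v' = if 2 * a = D then A Φ g a v else 0) ∧
      ∀ d, E Φ g u' v' d = if d = D then 1 else 0 := by
  obtain ⟨u', a1, a2, a3, a4, a5, -⟩ := normW H hv hu tv tu (by rwa [bt_symm H hv])
  obtain ⟨v', b1, b2, b3, b4, b5, b6⟩ := normW H a1 hv a2 tv (by rwa [bt_symm H a1])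
  refine ⟨u', v', a1, b1, fun a => ?_, fun a => ?_, fun d => ?_⟩
  · split_ifs with h
    · exact a4 a h
    · rcases Nat.lt_or_gt_of_ne h with e | e
      · exact a5 a e
      · exact a2.A e
  · split_ifs with h
    · exact b4 a h
    · rcases Nat.lt_or_gt_of_ne h with e | e
      · exact b5 a e
      · exact b2.A e
  · split_ifs with h
    · rw [E, P_top H _ b1 _ _ (by omega), b3]
    · rcases Nat.lt_or_gt_of_ne h with e | e
      · exact b6 d e
      · exact P_zero H _ b1 _ _ (by omega)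

theorem avW4 (H : Hy Φ g) {j : ℕ} {u v : V} (hu : ((g - 1) ^ (2 * j + 1 + 1)) u = 0)
    (hv : ((g - 1) ^ (2 * j + 1 + 1)) v = 0) (h1 : bt Φ g (2 * j + 1) u v = 1)
    (h2 : A Φ g (j + 1) u = 0) (h3 : A Φ g (j + 1) v = 0) : Av β Φ g (5 * j + 4) := by
  obtain ⟨u', v', a1, a2, a3, a4, a5⟩ := stdW H hu hv (T_of_bt H hu (by rw [bt_odd H hu, h2]))
    (T_of_bt H hv (by rw [bt_odd H hv, h3])) h1
  have e1 : (5 * j + 4) % 5 = 4 := by omega
  have e2 : (5 * j + 4) / 5 = j := by omega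
  refine ⟨u', v', ?_, ?_, fun a => ?_, fun _ a => ?_, fun _ d => ?_⟩
  all_goals simp only [sz, tu, tv, e1, e2]; simp
  · exact a1
  · exact a2
  · rw [a3, if_neg (by omega)]
  · rw [a4, if_neg (by omega)]
  · exact a5 d

theorem avW1 (H : Hy Φ g) {j : ℕ} {u v : V} (hu : ((g - 1) ^ (2 * j + 1)) u = 0)
    (hv : ((g - 1) ^ (2 * j + 1)) v = 0) (h1 : bt Φ g (2 * j) u v = 1)
    (h2 : A Φ g j u = 0) : Av β Φ g (5 * j + 1) := by
  have hv' : ((g - 1) ^ (2 * j + 1)) (v + A Φ g j v • u) = 0 := by simp [hu, hv]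
  have h3 : A Φ g j (v + A Φ g j v • u) = 0 := by
    rw [A_add H, h2, P_top H _ hu _ _ (by omega), ← bt_symm H hu, h1]
    linear_combination kp_mul H j v + A Φ g j v * H.two
  obtain ⟨u', v', a1, a2, a3, a4, a5⟩ := stdW H hu hv' (T_of_bt H hu (bt_even H hu))
    (T_of_bt H hv' (bt_even H hv')) (by
      have := bt_even H hu
      simp only [bt, map_add, map_smul, smul_eq_mul] at *
      rw [h1, this]; simp)
  have e1 : (5 * j + 1) % 5 = 1 := by omega
  have e2 : (5 * j + 1) / 5 = j := by omega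
  refine ⟨u', v', ?_, ?_, fun a => ?_, fun _ a => ?_, fun _ d => ?_⟩
  all_goals simp only [sz, tu, tv, e1, e2]; simp
  · exact a1
  · exact a2
  · rw [a3]; split_ifs with h
    · rw [show a = j by omega, h2]
    · rfl
  · rw [a4]; split_ifs with h
    · rw [show a = j by omega, h3]
    · rfl
  · exact a5 d

theorem avW0 (H : Hy Φ g) {j : ℕ} {u v : V} (hu : ((g - 1) ^ (2 * j + 1)) u = 0)
    (hv : ((g - 1) ^ (2 * j + 1)) v = 0) (h1 : bt Φ g (2 * j) u v = 1)
    (h2 : A Φ g j u = 1) (h3 : A Φ g j v = β) : Av β Φ g (5 * j) := by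
  obtain ⟨u', v', a1, a2, a3, a4, a5⟩ := stdW H hu hv (T_of_bt H hu (bt_even H hu))
    (T_of_bt H hv (bt_even H hv)) h1
  have e1 : (5 * j) % 5 = 0 := by omega
  have e2 : (5 * j) / 5 = j := by omega
  refine ⟨u', v', ?_, ?_, fun a => ?_, fun _ a => ?_, fun _ d => ?_⟩
  all_goals simp only [sz, tu, tv, e1, e2]; simp
  · exact a1
  · exact a2
  · rw [a3]; by_cases h : a = j
    · simp [h, h2]
    · rw [if_neg h, if_neg (by omega)]
  · rw [a4]; by_cases h : a = j
    · simp [h, h3]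
    · rw [if_neg h, if_neg (by omega)]
  · exact a5 d

theorem Std.bt_uv (H : Hy Φ g) {t : ℕ} {u v : V} (h : Std β Φ g t u v) (hr : rk t = 2) :
    bt Φ g (sz t) u v = 1 := by
  have := h.e hr (sz t)
  rwa [if_pos rfl, E, P_top H _ h.nv _ _ (by omega)] at this

theorem Std.det (H : Hy Φ g) {t : ℕ} {u v : V} (h : Std β Φ g t u v) :
    (Matrix.of fun i k => bt Φ g (sz t) (gen (rk t) u v i) (gen (rk t) u v k)).det ≠ 0 := by
  have key : ∀ r, (r = 1 ∧ bt Φ g (sz t) u u = 1 ∨ r = 2 ∧ bt Φ g (sz t) u u = 0 ∧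
      bt Φ g (sz t) u v = 1) →
      (Matrix.of fun i k => bt Φ g (sz t) (gen r u v i) (gen r u v k)).det ≠ 0 := by
    rintro r (⟨rfl, h1⟩ | ⟨rfl, h1, h2⟩)
    · simp [gen, h1]
    · simp [Matrix.det_fin_two, gen, h1, h2, bt_symm H h.nv]
  refine key _ ?_
  have h1 := h.nu
  have h2 := h.au (t / 5 + 1)
  by_cases e : t % 5 = 3 ∨ t % 5 = 2
  · have e1 : sz t = 2 * (t / 5) + 1 := if_pos (by omega)
    refine Or.inl ⟨if_pos e, ?_⟩
    rw [e1] at h1 ⊢
    rw [bt_odd H h1, h2]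
    rcases e with e | e <;> simp [tu, e]
  · have e2 : rk t = 2 := if_neg e
    refine Or.inr ⟨e2, ?_, h.bt_uv H e2⟩
    by_cases e3 : 2 ≤ t % 5
    · have e1 : sz t = 2 * (t / 5) + 1 := if_pos e3
      rw [e1] at h1 ⊢
      rw [bt_odd H h1, h2]
      simp [tu, show t % 5 = 4 by omega]
    · have e1 : sz t = 2 * (t / 5) := if_neg e3
      rw [e1] at h1 ⊢
      exact bt_even H h1

theorem Std.P_gen {Ψ : Form (RingHom.id F) W} {h : End F W} (H : Hy Φ g) (H' : Hy Ψ h) {t : ℕ}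
    {u v : V} {u' v' : W} (s : Std β Φ g t u v) (s' : Std β Ψ h t u' v') (i k : Fin (rk t))
    (a b : ℕ) : P Φ g (gen _ u v i) (gen _ u v k) a b = P Ψ h (gen _ u' v' i) (gen _ u' v' k) a b := by
  have h1 : ∀ i : Fin (rk t), i.1 ≠ 0 → rk t = 2 := fun i hi => by
    have := i.2; have := rk_cases t; omega
  unfold gen
  split_ifs with e1 e2 e2
  · exact P_ext_self H H' (fun i => by rw [s.au, s'.au]) a b
  · exact P_ext H H' (fun d => by rw [s.e (h1 k e2), s'.e (h1 k e2)]) a b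
  · rw [P_symm H, P_symm H']
    exact P_ext H H' (fun d => by rw [s.e (h1 i e1), s'.e (h1 i e1)]) b a
  · exact P_ext_self H H' (fun a => by rw [s.av (h1 i e1), s'.av (h1 i e1)]) a b

theorem Std.A_gen {Ψ : Form (RingHom.id F) W} {h : End F W} {t : ℕ}
    {u v : V} {u' v' : W} (s : Std β Φ g t u v) (s' : Std β Ψ h t u' v') (i : Fin (rk t))
    (a : ℕ) : A Φ g a (gen _ u v i) = A Ψ h a (gen _ u' v' i) := by
  unfold gen
  split_ifs with e1
  · rw [s.au, s'.au]
  · have : rk t = 2 := by have := i.2; have := rk_cases t; omega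
    rw [s.av this, s'.av this]

variable {ι : Type*} [Fintype ι] [DecidableEq ι] {n : ℕ}

theorem span_gM : Submodule.span F (Set.range fun p : ℕ × ι =>
    ((gM F ι n - 1) ^ p.1) (Pi.single p.2 1 : ι → RU F n)) = ⊤ := by
  set S := Submodule.span F (Set.range fun p : ℕ × ι =>
    ((gM F ι n - 1) ^ p.1) (Pi.single p.2 1 : ι → RU F n))
  have key : ∀ (j : ℕ) m, ∃ m', m - ((gM F ι n - 1) ^ j) m' ∈ S := by
    intro j m
    induction j with
    | zero => exact ⟨m, by simp⟩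
    | succ j ih =>
      obtain ⟨m', h⟩ := ih
      obtain ⟨a, m'', rfl⟩ := gM_split m'
      refine ⟨m'', ?_⟩
      have : ((gM F ι n - 1) ^ j) (∑ i, a i • (Pi.single i 1 : ι → RU F n)) ∈ S := by
        rw [map_sum]
        exact S.sum_mem fun i _ => by
          rw [map_smul]; exact S.smul_mem _ (Submodule.subset_span ⟨(j, i), rfl⟩)
      convert S.add_mem h this using 1
      rw [map_add, pow_succ, Module.End.mul_apply]; abel
  refine eq_top_iff.2 fun m _ => ?_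
  obtain ⟨m', h⟩ := key n m
  simpa [gM_nil] using h

theorem iso_blk {Ψ : Form (RingHom.id F) W} {h : End F W} (H : Hy Φ g) (H' : Hy Ψ h)
    (hκ : Φ.κ = Ψ.κ) {x : ι → V} {y : ι → W} {φ : (ι → RU F n) →ₗ[F] V} {φ' : (ι → RU F n) →ₗ[F] W}
    (h1 : ∀ m, φ (gM F ι n m) = g (φ m)) (h2 : ∀ i, φ (Pi.single i 1) = x i)
    (h1' : ∀ m, φ' (gM F ι n m) = h (φ' m)) (h2' : ∀ i, φ' (Pi.single i 1) = y i)
    (hP : ∀ i k a b, P Φ g (x i) (x k) a b = P Ψ h (y i) (y k) a b)
    (hA : ∀ i a, A Φ g a (x i) = A Ψ h a (y i)) :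
    Iso (Φ.comap φ) (gM F ι n) (Ψ.comap φ') (gM F ι n) := by
  have h3 : ∀ (k : ℕ) m, φ (((gM F ι n - 1) ^ k) m) = ((g - 1) ^ k) (φ m) :=
    pow_comm_of_comm (fun m => by simp [h1])
  have h3' : ∀ (k : ℕ) m, φ' (((gM F ι n - 1) ^ k) m) = ((h - 1) ^ k) (φ' m) :=
    pow_comm_of_comm (fun m => by simp [h1'])
  have hB : (Ψ.comap φ').B = (Φ.comap φ).B :=
    LinearMap.ext_on_range span_gM fun p => LinearMap.ext_on_range span_gM fun q => by
      rw [comap_B, comap_B, h3, h3, h3', h3', h2, h2, h2', h2']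
      exact (hP _ _ _ _).symm
  refine ⟨LinearEquiv.refl F _, fun a b => by rw [← hB]; rfl, fun m => ?_, fun _ => rfl⟩
  have hm : m ∈ (⊤ : Submodule F _) := trivial
  rw [← span_gM] at hm
  change (Ψ.comap φ').Q m = _
  induction hm using Submodule.span_induction with
  | mem m hm =>
    obtain ⟨p, rfl⟩ := hm
    change Ψ.Q (φ' _) = Φ.Q (φ _)
    rw [h3, h3', h2, h2']
    have e1 := A_x H 0 p.1 (x p.2)
    have e2 := A_x H' 0 p.1 (y p.2)
    change Φ.Q _ = Φ.κ * _ at e1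
    change Ψ.Q _ = Ψ.κ * _ at e2
    rw [e1, e2, hA, hκ]
  | zero => simp
  | add a b _ _ ha hb => rw [Q_add, Q_add, ha, hb, hB]; exact congrArg (_ + · * _) hκ.symm
  | smul c a _ ha => rw [Q_smul, Q_smul, ha]

theorem exists_block' [FiniteDimensional F V] (hΦ : Φ.Nondeg) (hg : Pres Φ g) {j : ℕ} (x : ι → V)
    (hx : ∀ i, ((g - 1) ^ (j + 1)) (x i) = 0)
    (hG : (Matrix.of fun i k => bt Φ g j (x i) (x k)).det ≠ 0) :
    ∃ (φ : (ι → RU F (j + 1)) →ₗ[F] V) (A : Submodule F V) (hA : ∀ v ∈ A, g v ∈ A),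
      (∀ m, φ (gM F ι _ m) = g (φ m)) ∧ (∀ i, φ (Pi.single i 1) = x i) ∧ (Φ.comap φ).Nondeg ∧
      (Φ.restrict A).Nondeg ∧ (∀ w ∈ A, ∀ m, Φ.B (φ m) w = 0) ∧
      Iso (fprod (Φ.comap φ) (Φ.restrict A) rfl rfl) ((gM F ι _).prodMap (g.restrict hA)) Φ g := by
  obtain ⟨φ, h1, h2⟩ := exists_gM_hom x hx
  have h3 : ∀ (k : ℕ) m, φ (((gM F ι (j + 1) - 1) ^ k) m) = ((g - 1) ^ k) (φ m) :=
    pow_comm_of_comm (fun m => by simp [h1])
  have hp : Pres (Φ.comap φ) (gM F ι _) :=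
    ⟨fun u v => by simp [Form.comap, h1, hg.B], fun u => by simp [Form.comap, h1, hg.Q]⟩
  have hs : Function.Surjective (gM F ι (j + 1)) := by
    have := (show IsNilpotent _ from ⟨_, gM_nil (F := F) (ι := ι) (n := j + 1)⟩).isUnit_add_one
    rw [sub_add_cancel] at this
    exact ((Module.End.isUnit_iff _).1 this).2
  have hn : (Φ.comap φ).Nondeg := by
    intro u hu
    by_contra h0
    have h4 : ∀ (k : ℕ) m, (Φ.comap φ).B (((gM F ι (j + 1) - 1) ^ k) u) m = 0 := fun k => by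
      induction k with
      | zero => exact hu
      | succ k ih =>
        intro m
        obtain ⟨m, rfl⟩ := hs m
        rw [pow_succ', Module.End.mul_apply, B_sub_one hp.B, ih, neg_zero]
    have h5 : ∃ k : ℕ, ((gM F ι (j + 1) - 1) ^ k) u = 0 := ⟨_, by rw [gM_nil]; rfl⟩
    classical
    obtain ⟨k, hk⟩ := Nat.exists_eq_add_of_le' (show 1 ≤ Nat.find h5 from
      Nat.pos_of_ne_zero fun h => h0 (by simpa [h] using Nat.find_spec h5))
    have h6 := Nat.find_spec h5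
    rw [hk, pow_succ', Module.End.mul_apply] at h6
    obtain ⟨a, ha⟩ := gM_soc _ h6
    refine Nat.find_min h5 (show k < _ by omega) ?_
    have : a = 0 := Matrix.eq_zero_of_mulVec_eq_zero hG (_root_.funext fun i => by
      have := Φ.B_eq_zero_symm (h4 k (Pi.single i 1))
      rw [ha, h3, h2] at this
      simpa [Matrix.mulVec, dotProduct, bt, map_sum, h2, mul_comm] using this)
    rw [ha, this]; simp
  have hi : Function.Injective φ := by
    rw [← LinearMap.ker_eq_bot, LinearMap.ker_eq_bot']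
    exact fun u hu => hn u fun y => by simp [Form.comap, hu]
  have hA : ∀ v ∈ LinearMap.range φ, g v ∈ LinearMap.range φ := by
    rintro _ ⟨m, rfl⟩; exact ⟨_, h1 m⟩
  have H : Iso (Φ.comap φ) (gM F ι _) (Φ.restrict (LinearMap.range φ)) (g.restrict hA) :=
    ⟨LinearEquiv.ofInjective φ hi, fun _ _ => rfl, fun _ => rfl, fun m => Subtype.ext (h1 m)⟩
  have hd := (Φ.nondeg_restrict_iff).1 (H.nondeg hn)
  refine ⟨φ, Φ.perp (LinearMap.range φ), hg.perp_inv hΦ hA, h1, h2, hn,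
    hΦ.nondeg_restrict_perp hd, fun w hw m => Φ.mem_perp.1 hw _ ⟨m, rfl⟩, Iso.trans ?_
      (iso_fprod_restrict (hΦ.isCompl_perp hd) hA (hg.perp_inv hΦ hA))⟩
  exact Iso.prodMap _ _ _ _ H (Iso.refl _ _)

theorem Hy.restrict (H : Hy Φ g) {A : Submodule F V} (hA : ∀ v ∈ A, g v ∈ A) :
    Hy (Φ.restrict A) (g.restrict hA) := ⟨H.two, H.pres.restrict hA, H.kap⟩

end

/-- orthogonal decomposition into standard blocks and a fixed point free part -/
def Dec {F : Type u} [Field F] (β : F) (s : Multiset F[X]) : List ℕ →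
    ∀ {V : Type v} [AddCommGroup V] [Module F V], Form (RingHom.id F) V → End F V → Prop
  | [], V, _, _, Φ, g => (∀ v, g v = v → v = 0) ∧ ed g = s
  | t :: L, V, _, _, Φ, g => ∃ (u v : V) (φ : (Fin (rk t) → RU F (sz t + 1)) →ₗ[F] V)
      (A : Submodule F V) (hA : ∀ v ∈ A, g v ∈ A), Std β Φ g t u v ∧
      (∀ m, φ (gM F _ _ m) = g (φ m)) ∧ (∀ i, φ (Pi.single i 1) = gen _ u v i) ∧
      (Φ.comap φ).Nondeg ∧ (Φ.restrict A).Nondeg ∧
      Iso (fprod (Φ.comap φ) (Φ.restrict A) rfl rfl) ((gM F _ _).prodMap (g.restrict hA)) Φ g ∧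
      Dec β s L (Φ.restrict A) (g.restrict hA)

variable {F : Type u} [Field F] [Finite F] {β : F} {s : Multiset F[X]}

theorem iso_of_dec (L : List ℕ) : ∀ {V : Type v} {W : Type w} [AddCommGroup V] [Module F V]
    [AddCommGroup W] [Module F W] [FiniteDimensional F V] [FiniteDimensional F W]
    {Φ : Form (RingHom.id F) V} {Ψ : Form (RingHom.id F) W} {g : End F V} {h : End F W},
    Φ.Nondeg → Ψ.Nondeg → Φ.κ = Ψ.κ → Hy Φ g → Hy Ψ h → Dec β s L Φ g → Dec β s L Ψ h →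
    Iso Φ g Ψ h := by
  induction L with
  | nil =>
    intro V W _ _ _ _ _ _ Φ Ψ g h hΦ hΨ hκ H H' d d'
    refine iso_free hΦ hΨ (by rw [eps_one H.two, eps_one H.two]) hκ H.pres H'.pres
      (sim_of_ed_eq (d.2.trans d'.2.symm)) d.1 fun v hv => d.1 v ?_
    rw [hv, neg_eq_iff_add_eq_zero, ← two_smul F, H.two, zero_smul]
  | cons t L ih =>
    intro V W _ _ _ _ _ _ Φ Ψ g h hΦ hΨ hκ H H' d d'
    obtain ⟨u, v, φ, A, hA, a1, a2, a3, a4, a5, a6, a7⟩ := d
    obtain ⟨u', v', φ', A', hA', b1, b2, b3, b4, b5, b6, b7⟩ := d'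
    exact a6.symm.trans ((Iso.prodMap _ _ _ _ (iso_blk H H' hκ a2 a3 b2 b3 (a1.P_gen H H' b1)
      fun i a => a1.A_gen b1 i a) (ih a5 b5 hκ (H.restrict hA) (H'.restrict hA') a7 b7)).trans b6)

/-- the properties of the elementary divisors of the free part -/
structure Good (s : Multiset F[X]) : Prop where
  pp : ∀ q ∈ s, IsPP q
  c0 : ∀ q ∈ s, q.coeff 0 ≠ 0
  rv : s.map rev = s
  fr : ∀ j, (X - C 1) ^ (j + 1) ∉ s

theorem dec_dim (L : List ℕ) : ∀ {V : Type v} [AddCommGroup V] [Module F V]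
    [FiniteDimensional F V] {Φ : Form (RingHom.id F) V} {g : End F V},
    Φ.Nondeg → Hy Φ g → Dec β s L Φ g → Good s ∧
      finrank F V = (L.map fun t => rk t * (sz t + 1)).sum + (s.map natDegree).sum := by
  induction L with
  | nil =>
    intro V _ _ _ Φ g hΦ H d
    obtain ⟨d, rfl⟩ := d
    refine ⟨⟨fun q => ed_isPP, (isUnit_iff_ed g).1 ((Module.End.isUnit_iff _).2
      ⟨H.pres.inj hΦ, H.pres.surj hΦ⟩), ed_rev hΦ H.pres.B, fun j hj => ?_⟩, by
        simp [sum_natDegree_ed]⟩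
    obtain ⟨x, -, y, hy, h⟩ := exists_bt_ne hΦ H.pres hj
    have : ((g - 1) ^ j) y = 0 := d _ (by
      have : ((g - 1) ^ (j + 1)) y = 0 := hy
      rw [pow_succ', Module.End.mul_apply] at this
      exact sub_eq_zero.1 this)
    simp [bt, this] at h
  | cons t L ih =>
    intro V _ _ _ Φ g hΦ H d
    obtain ⟨u, v, φ, A, hA, a1, a2, a3, a4, a5, a6, a7⟩ := d
    obtain ⟨h1, h2⟩ := ih a5 (H.restrict hA) a7
    refine ⟨h1, ?_⟩
    rw [finrank_of_iso_prod a6, finrank_gM, h2]; simp [add_assoc]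

end H22.Ev
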