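import Cfsg.Agent.H22.EvB

/-!
Unipotent isometries in characteristic two, III: existence of a normal decomposition.
-/

set_option autoImplicit false
set_option linter.unusedVariables false
set_option linter.unusedSectionVars false

namespace H22.Ev

open Module Polynomial H16 H23 H23.Form H14.Wall

universe u v w

section

variable {F : Type*} [Field F] [Finite F]

/-- `β` represents the non-trivial Artin-Schreier class -/
structure AS (β : F) : Prop where
  ne : ∀ c : F, c ^ 2 + c ≠ β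
  cases : ∀ a : F, (∃ c, a = c ^ 2 + c) ∨ ∃ c, a = β + (c ^ 2 + c)

theorem AS.ne_zero {β : F} (h : AS β) : β ≠ 0 := fun e => h.ne 0 (by simp [e])

theorem exists_AS (h2 : (2 : F) = 0) : ∃ β : F, AS β := by
  let f : F →+ F := AddMonoidHom.mk' (fun c => c ^ 2 + c) fun a b => by
    linear_combination a * b * h2
  have hk : (f.ker : Set F) = {0, 1} := by
    ext c
    simp only [SetLike.mem_coe, AddMonoidHom.mem_ker, f, AddMonoidHom.mk'_apply, Set.mem_insert_iff,
      Set.mem_singleton_iff]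
    constructor
    · intro h
      rcases mul_eq_zero.1 (show c * (c - 1) = 0 by linear_combination h - c * h2) with e | e
      · exact Or.inl e
      · exact Or.inr (sub_eq_zero.1 e)
    · rintro (rfl | rfl)
      · simp
      · linear_combination h2
  have h1 : Nat.card f.ker = 2 := by
    rw [← SetLike.coe_sort_coe, hk, Nat.card_coe_set_eq, Set.ncard_pair zero_ne_one]
  have h3 := f.ker.card_mul_index
  rw [AddSubgroup.index_ker, h1] at h3
  have h4 := f.range.card_mul_index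
  have h5 : f.range.index = 2 := Nat.eq_of_mul_eq_mul_left (Nat.card_pos (α := f.range))
    (by rw [h4, ← h3, mul_comm])
  obtain ⟨β, hβ⟩ : ∃ β, β ∉ f.range := by
    by_contra h
    push Not at h
    rw [(AddSubgroup.eq_top_iff' _).2 h] at h5
    simp at h5
  refine ⟨β, fun c h => hβ ⟨c, h⟩, fun a => ?_⟩
  by_cases ha : a ∈ f.range
  · obtain ⟨c, h⟩ := ha
    exact Or.inl ⟨c, h.symm⟩
  · obtain ⟨c, h⟩ := (AddSubgroup.add_mem_iff_of_index_two h5 (a := a) (b := β)).2 (by simp [ha, hβ])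
    refine Or.inr ⟨c, ?_⟩
    change c ^ 2 + c = _ at h
    linear_combination -h - β * h2

theorem exists_sqrt (h2 : (2 : F) = 0) (a : F) : ∃ c : F, c ^ 2 = a :=
  (Finite.injective_iff_surjective (f := fun c : F => c ^ 2)).1 (fun x y h => by
    have : (x - y) ^ 2 = 0 := by linear_combination h + (y ^ 2 - x * y) * h2
    exact sub_eq_zero.1 (pow_eq_zero_iff (by simp) |>.1 this)) a

variable {V : Type*} [AddCommGroup V] [Module F V] [FiniteDimensional F V]
  {Φ : Form (RingHom.id F) V} {g : End F V} {β : F}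

theorem P_restrict {S : Submodule F V} (hS : ∀ v ∈ S, g v ∈ S) (u v : S) (a b : ℕ) :
    P (Φ.restrict S) (g.restrict hS) u v a b = P Φ g u v a b := by
  simp only [P, ← restrict_sub_pow hS]; rfl

theorem A_restrict {S : Submodule F V} (hS : ∀ v ∈ S, g v ∈ S) (a : ℕ) (u : S) :
    A (Φ.restrict S) (g.restrict hS) a u = A Φ g a u := by
  cases a with
  | zero => rfl
  | succ a => exact P_restrict hS _ _ _ _

theorem nil_restrict {S : Submodule F V} {hS : ∀ v ∈ S, g v ∈ S} {n : ℕ} {u : S}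
    (h : ((g.restrict hS - 1 : End F S) ^ n) u = 0) : ((g - 1) ^ n) (u : V) = 0 := by
  rw [← restrict_sub_pow hS, h]; rfl

theorem Std.restrict {S : Submodule F V} {hS : ∀ v ∈ S, g v ∈ S} {t : ℕ} {u v : S}
    (h : Std β (Φ.restrict S) (g.restrict hS) t u v) : Std β Φ g t u v :=
  ⟨nil_restrict h.nu, nil_restrict h.nv, fun a => by rw [← A_restrict hS, h.au],
    fun e a => by rw [← A_restrict hS, h.av e], fun e d => by rw [← h.e e, E, E, P_restrict]⟩

theorem Av.restrict {S : Submodule F V} {hS : ∀ v ∈ S, g v ∈ S} {t : ℕ}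
    (h : Av β (Φ.restrict S) (g.restrict hS) t) : Av β Φ g t :=
  let ⟨u, v, h⟩ := h
  ⟨u, v, h.restrict⟩

theorem avV' (H : Hy Φ g) (hβ : AS β) {j : ℕ} {z : V} (hz : ((g - 1) ^ (2 * j + 1 + 1)) z = 0)
    (h1 : A Φ g (j + 1) z ≠ 0) : Av β Φ g (5 * j + 3) ∨ Av β Φ g (5 * j + 2) := by
  obtain ⟨c, hc⟩ := exists_sqrt H.two (A Φ g (j + 1) z)⁻¹
  have a1 : ((g - 1) ^ (2 * j + 1 + 1)) (c • z) = 0 := by simp [hz]
  have a2 : A Φ g (j + 1) (c • z) = 1 := by rw [A_smul H, hc, inv_mul_cancel₀ h1]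
  generalize c • z = w at a1 a2
  have b1 : ∀ d : F, A Φ g (j + 1) (w + d • ((g - 1) ^ (1 : ℕ)) w) = 1 := fun d => by
    rw [A_move H, (T_of_nil H a1).A (i := j + 1 + 1) (by omega), P_zero H w a1 _ _ (by omega), a2]
    simp
  have b2 : ∀ d : F, A Φ g j (w + d • ((g - 1) ^ (1 : ℕ)) w) = A Φ g j w + kp Φ j * (d ^ 2 + d) :=
    fun d => by rw [A_move H, a2, ← A, a2]; ring
  rcases kp_cases H j with ⟨-, h⟩ | h
  · exact Or.inl ((avV H a1 a2).1 (h _))
  · rcases hβ.cases (A Φ g j w) with ⟨d, e⟩ | ⟨d, e⟩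
    · exact Or.inl ((avV H (x_move a1 a1 d 1) (b1 d)).1 (by
        rw [b2, h, e]; linear_combination (d ^ 2 + d) * H.two))
    · exact Or.inr ((avV H (x_move a1 a1 d 1) (b1 d)).2 (by
        rw [b2, h, e]; linear_combination (d ^ 2 + d) * H.two))

theorem avW' (H : Hy Φ g) (hβ : AS β) {j : ℕ} {u v : V} (hu : ((g - 1) ^ (2 * j + 1)) u = 0)
    (hv : ((g - 1) ^ (2 * j + 1)) v = 0) (h1 : bt Φ g (2 * j) u v = 1) :
    Av β Φ g (5 * j + 1) ∨ Av β Φ g (5 * j) := by
  by_cases h0 : A Φ g j u = 0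
  · exact Or.inl (avW1 H hu hv h1 h0)
  have hk : kp Φ j = 1 := (kp_cases H j).resolve_left fun h => h0 (h.2 u)
  obtain ⟨c, hc⟩ := exists_sqrt H.two (A Φ g j u)⁻¹
  have hc0 : c ≠ 0 := by rintro rfl; exact h0 (by simpa using hc.symm)
  have a1 : ((g - 1) ^ (2 * j + 1)) (c • u) = 0 := by simp [hu]
  have a2 : A Φ g j (c • u) = 1 := by rw [A_smul H, hc, inv_mul_cancel₀ h0]
  have a3 : ((g - 1) ^ (2 * j + 1)) (c⁻¹ • v) = 0 := by simp [hv]
  have a4 : bt Φ g (2 * j) (c • u) (c⁻¹ • v) = 1 := by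
    simp only [bt, map_smul, LinearMap.map_smulₛₗ, LinearMap.smul_apply, smul_eq_mul,
      RingHom.id_apply] at h1 ⊢
    rw [h1]; field_simp
  generalize c • u = u' at a1 a2 a4
  generalize c⁻¹ • v = v' at a3 a4
  have b1 : ∀ d : F, ((g - 1) ^ (2 * j + 1)) (v' + d • u') = 0 := fun d => by simp [a1, a3]
  have b2 : ∀ d : F, A Φ g j (v' + d • u') = A Φ g j v' + (d ^ 2 + d) := fun d => by
    rw [A_add H, a2, P_top H _ a1 _ _ (by omega), ← bt_symm H a1, a4, hk]; ring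
  have b3 : ∀ d : F, bt Φ g (2 * j) u' (v' + d • u') = 1 := fun d => by
    have := bt_even H a1
    simp only [bt, map_add, map_smul, smul_eq_mul] at *
    rw [a4, this]; simp
  rcases hβ.cases (A Φ g j v') with ⟨d, e⟩ | ⟨d, e⟩
  · exact Or.inl (avW1 H (b1 d) a1 (by rw [bt_symm H (b1 d), b3]) (by
      rw [b2, e]; linear_combination (d ^ 2 + d) * H.two))
  · exact Or.inr (avW0 H a1 (b1 d) (b3 d) a2 (by
      rw [b2, e]; linear_combination (d ^ 2 + d) * H.two))

theorem exists_av (hΦ : Φ.Nondeg) (H : Hy Φ g) (hβ : AS β) {D : ℕ}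
    (h : (X - C 1) ^ (D + 1) ∈ ed g) : ∃ t, Av β Φ g t := by
  obtain ⟨x, hx, y, hy, h⟩ := exists_bt_ne hΦ H.pres h
  obtain ⟨j, rfl | rfl⟩ := Nat.even_or_odd' D
  · exact (avW' H hβ hx hy h).elim (⟨_, ·⟩) (⟨_, ·⟩)
  · by_cases h1 : A Φ g (j + 1) x = 0
    · by_cases h2 : A Φ g (j + 1) y = 0
      · exact ⟨_, avW4 H hx hy h h1 h2⟩
      · exact (avV' H hβ hy h2).elim (⟨_, ·⟩) (⟨_, ·⟩)
    · exact (avV' H hβ hx h1).elim (⟨_, ·⟩) (⟨_, ·⟩)

theorem Std.nil_gen {t : ℕ} {u v : V} (h : Std β Φ g t u v) (i : Fin (rk t)) :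
    ((g - 1) ^ (sz t + 1)) (gen _ u v i) = 0 := by
  unfold gen; split_ifs
  · exact h.nu
  · exact h.nv

theorem Av.le (hΦ : Φ.Nondeg) (H : Hy Φ g) {t : ℕ} (h : Av β Φ g t) :
    t ≤ 5 * finrank F V + 4 := by
  obtain ⟨u, v, h⟩ := h
  obtain ⟨φ, S, hS, -, -, -, -, -, h1⟩ := exists_block' hΦ H.pres _ h.nil_gen (h.det H)
  have := finrank_of_iso_prod h1
  rw [finrank_gM, Fintype.card_fin] at this
  have h2 : t / 5 ≤ sz t := by unfold sz; split_ifs <;> omega
  rcases rk_cases t with e | e <;> rw [e] at this <;> omega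

theorem Std.wit (H : Hy Φ g) {t j : ℕ} {u v : V} (h : Std β Φ g t u v) (hk : kp Φ j = 1)
    (h1 : t ≤ 5 * j + 2) (h2 : t + 1 ≠ 5 * j) (h3 : 5 * j < t + 4) :
    ∃ w ∈ Submodule.span F {u, v, (g - 1) u}, ((g - 1) ^ (2 * j + 1)) w = 0 ∧ A Φ g j w ≠ 0 := by
  have m1 : u ∈ Submodule.span F {u, v, (g - 1) u} := Submodule.subset_span (by simp)
  have m2 : v ∈ Submodule.span F {u, v, (g - 1) u} := Submodule.subset_span (by simp)
  have hu := h.nu
  have hv := h.nv
  by_cases e : t = 5 * j + 2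
  · subst e
    have e1 : (5 * j + 2) % 5 = 2 := by omega
    have e2 : (5 * j + 2) / 5 = j := by omega
    refine ⟨(g - 1) u, Submodule.subset_span (by simp), ?_, ?_⟩
    · simpa [sz, e1, e2, pow_succ (g - 1) (2 * j + 1)] using hu
    · have := A_x H j 1 u
      rw [pow_one] at this
      rw [this]; simp [hk, h.au, tu, e1, e2]
  by_cases e' : t = 5 * j + 1
  · subst e'
    have e1 : (5 * j + 1) % 5 = 1 := by omega
    have e2 : (5 * j + 1) / 5 = j := by omega
    have e3 : sz (5 * j + 1) = 2 * j := by simp [sz, e1, e2]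
    have e4 : rk (5 * j + 1) = 2 := by simp [rk, e1]
    have := h.bt_uv H e4
    rw [e3] at hu hv this
    refine ⟨u + (1 : F) • v, Submodule.add_mem _ m1 (Submodule.smul_mem _ _ m2), by simp [hu, hv], ?_⟩
    rw [A_add H, h.au, h.av e4, P_top H _ hv _ _ (by omega), this, hk]
    simp [tu, tv, e1]
  refine ⟨u, m1, x_zero hu (by unfold sz; split_ifs <;> omega), ?_⟩
  rw [h.au]
  by_cases e'' : t = 5 * j
  · subst e''; simp [tu]
  · have e2 : t / 5 + 1 = j := by omega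
    have e1 : t % 5 = 3 ∨ t % 5 = 2 := by omega
    rcases e1 with e1 | e1 <;> simp [tu, e1, e2]

/-- the order relation of normal lists -/
def R (t t' : ℕ) : Prop :=
  t' ≤ t ∧ (t % 5 = 0 ∨ t % 5 = 2 → t' + 1 = 5 * (t / 5) ∨ t' + 4 ≤ 5 * (t / 5))

/-- the number of cyclic blocks of level `j` -/
def cV (L : List ℕ) (j : ℕ) : ℕ := L.count (5 * j + 3) + L.count (5 * j + 2)

/-- two orthogonal cyclic blocks -/
def Two (Φ : Form (RingHom.id F) V) (g : End F V) (j : ℕ) : Prop :=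
  ∃ y z, ((g - 1) ^ (2 * j + 1 + 1)) y = 0 ∧ ((g - 1) ^ (2 * j + 1 + 1)) z = 0 ∧
    A Φ g (j + 1) y = 1 ∧ A Φ g (j + 1) z = 1 ∧ bt Φ g (2 * j + 1) y z = 0

theorem Std.cyc {t j : ℕ} {u v : V} (h : Std β Φ g t u v) (e : t = 5 * j + 3 ∨ t = 5 * j + 2) :
    ((g - 1) ^ (2 * j + 1 + 1)) u = 0 ∧ A Φ g (j + 1) u = 1 := by
  have e2 : t / 5 = j := by omega
  have e1 : t % 5 = 3 ∨ t % 5 = 2 := by omega
  have hu := h.nu
  rw [h.au]
  rcases e1 with e1 | e1 <;> simpa [tu, sz, e1, e2] using hu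

theorem rel_of_max (H : Hy Φ g) (hβ : AS β) {t t' : ℕ} {u v : V} (h : Std β Φ g t u v)
    (hmax : ∀ t', Av β Φ g t' → t' ≤ t) {S : Submodule F V} (hS : ∀ v ∈ S, g v ∈ S)
    (o1 : ∀ w ∈ S, ∀ a b, P Φ g u w a b = 0) (o2 : rk t = 2 → ∀ w ∈ S, ∀ a b, P Φ g v w a b = 0)
    (h' : Av β (Φ.restrict S) (g.restrict hS) t') : R t t' := by
  have h1 := hmax _ h'.restrict
  refine ⟨h1, fun e => ?_⟩
  by_contra hc
  obtain ⟨u', v', h'⟩ := h'
  obtain ⟨j, hj⟩ : ∃ j, j = t / 5 := ⟨_, rfl⟩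
  have a0 : A Φ g j u ≠ 0 := by
    rw [h.au]
    rcases e with e | e <;> simp [tu, e, ← hj, hβ.ne_zero]
  have hk : kp Φ j = 1 := (kp_cases H j).resolve_left fun h => a0 (h.2 u)
  obtain ⟨w, hw, a1, a2⟩ := h'.restrict.wit H hk (by omega) (by omega) (by omega)
  have hwS : w ∈ S := Submodule.span_le.2 (by
    rintro _ (rfl | rfl | rfl)
    · exact u'.2
    · exact v'.2
    · exact S.sub_mem (hS _ u'.2) u'.2) hw
  obtain ⟨c, hc⟩ := exists_sqrt H.two (A Φ g j u / A Φ g j w)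
  have a3 : A Φ g j (u + c • w) = 0 := by
    rw [A_add H, o1 w hwS, hc, div_mul_cancel₀ _ a2]
    linear_combination A Φ g j u * H.two
  rcases e with e | e
  · have e3 : sz t = 2 * j := by simp [sz, e, hj]
    have e4 : rk t = 2 := by simp [rk, e]
    have b1 := h.bt_uv H e4
    have hu := h.nu
    have hv := h.nv
    rw [e3] at hu hv b1
    have := hmax _ (avW1 (u := u + c • w) H (by simp [hu, a1]) hv (by
      have := o2 e4 w hwS (2 * j) 0
      rw [P_symm H] at this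
      simp only [bt, P, pow_zero, Module.End.one_apply, map_add, LinearMap.add_apply,
        LinearMap.map_smulₛₗ, LinearMap.smul_apply] at *
      rw [b1, this]; simp) a3)
    omega
  · obtain ⟨b1, b2⟩ := h.cyc (j := j) (by omega)
    have := hmax _ ((avV (v := u + c • w) H (by simp [b1, x_zero a1 (Nat.le_succ _)]) (by
      rw [A_add H, o1 w hwS, b2, (T_of_nil H a1).A (by omega)]; simp)).1 a3)
    omega

end

variable {F : Type u} [Field F] [Finite F] {β : F}

theorem exists_dec (hβ : AS β) (n : ℕ) : ∀ {V : Type v} [AddCommGroup V] [Module F V]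
    [FiniteDimensional F V] {Φ : Form (RingHom.id F) V} {g : End F V}, finrank F V < n →
    Φ.Nondeg → Hy Φ g → ∃ L s, Dec β s L Φ g ∧ (∀ t ∈ L, Av β Φ g t) ∧ L.Pairwise R ∧
      (∀ j, cV L j ≤ 2) ∧ ∀ j, 2 ≤ cV L j → Two Φ g j := by
  induction n with
  | zero => intros; omega
  | succ n ih =>
    intro V _ _ _ Φ g hn hΦ H
    by_cases h0 : ∃ t, Av β Φ g t
    swap
    · refine ⟨[], ed g, ⟨free_of_not_mem fun j hj => h0 (exists_av hΦ H hβ hj), rfl⟩, ?_⟩
      simp [cV]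
    classical
    obtain ⟨t, ⟨u, v, h⟩, hmax⟩ : ∃ t, Av β Φ g t ∧ ∀ t', Av β Φ g t' → t' ≤ t := by
      obtain ⟨t, ht⟩ := h0
      exact ⟨_, Nat.findGreatest_spec (ht.le hΦ H) ht, fun t' ht' =>
        Nat.le_findGreatest (ht'.le hΦ H) ht'⟩
    obtain ⟨φ, S, hS, a1, a2, a3, a4, a5, a6⟩ := exists_block' hΦ H.pres _ h.nil_gen (h.det H)
    have h3 : ∀ (k : ℕ) m, φ (((gM F _ _ - 1) ^ k) m) = ((g - 1) ^ k) (φ m) :=
      pow_comm_of_comm (fun m => by simp [a1])
    have o : ∀ i, ∀ w ∈ S, ∀ a b, P Φ g (gen _ u v i) w a b = 0 := fun i w hw a b => by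
      rw [P, ← a2, ← h3, ← restrict_sub_pow hS b ⟨w, hw⟩]
      exact a5 _ (Subtype.prop _) _
    have o1 := o ⟨0, by have := rk_cases t; omega⟩
    have o2 : rk t = 2 → ∀ w ∈ S, ∀ a b, P Φ g v w a b = 0 := fun e => o ⟨1, by omega⟩
    change ∀ w ∈ S, ∀ a b, P Φ g u w a b = 0 at o1
    have hd := finrank_of_iso_prod a6
    rw [finrank_gM, Fintype.card_fin] at hd
    obtain ⟨L, s, b1, b2, b3, b4, b5⟩ := ih (Φ := Φ.restrict S) (g := g.restrict hS)
      (by rcases rk_cases t with e | e <;> rw [e] at hd <;> omega) a4 (H.restrict hS)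
    have c1 : ∀ j, cV (t :: L) j = cV L j + if t = 5 * j + 3 ∨ t = 5 * j + 2 then 1 else 0 := by
      intro j
      simp only [cV, List.count_cons, beq_iff_eq]
      split_ifs <;> omega
    have c2 : ∀ j, Two (Φ.restrict S) (g.restrict hS) j → ∃ y ∈ S, ∃ z ∈ S,
        ((g - 1) ^ (2 * j + 1 + 1)) y = 0 ∧ ((g - 1) ^ (2 * j + 1 + 1)) z = 0 ∧
        A Φ g (j + 1) y = 1 ∧ A Φ g (j + 1) z = 1 ∧ bt Φ g (2 * j + 1) y z = 0 := by
      rintro j ⟨y, z, d1, d2, d3, d4, d5⟩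
      exact ⟨y, y.2, z, z.2, nil_restrict d1, nil_restrict d2, by rw [← A_restrict hS, d3],
        by rw [← A_restrict hS, d4], by rw [← bt_restrict hS, d5]⟩
    refine ⟨t :: L, s, ⟨u, v, φ, S, hS, h, a1, a2, a3, a4, a6, b1⟩, ?_, List.pairwise_cons.2
      ⟨fun t' ht' => rel_of_max H hβ h hmax hS o1 o2 (b2 t' ht'), b3⟩, fun j => ?_, fun j hj => ?_⟩
    · intro t' ht'
      rcases List.mem_cons.1 ht' with rfl | e
      · exact ⟨u, v, h⟩
      · exact (b2 t' e).restrict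
    · rw [c1]
      split_ifs with e
      · by_contra hc
        obtain ⟨y, hy, z, hz, d1, d2, d3, d4, d5⟩ := c2 j (b5 j (by omega))
        obtain ⟨d6, d7⟩ := h.cyc e
        have := hmax _ (avW4 (j := j) (u := u + (1 : F) • y) (v := y + (1 : F) • z) H (by simp [d1, d6])
          (by simp [d1, d2]) (by
            have e1 := o1 y hy 0 (2 * j + 1)
            have e2 := o1 z hz 0 (2 * j + 1)
            have e3 := bt_odd H d1
            simp only [bt, P, pow_zero, Module.End.one_apply, map_add, LinearMap.add_apply,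
              one_smul] at *
            rw [e1, e2, e3, d5, d3]; simp)
          (by rw [A_add H, o1 y hy, d7, d3]; linear_combination H.two)
          (by rw [A_add H, P_zero H y d2 _ _ (by omega), d4, d3]; linear_combination H.two))
        omega
      · simpa using b4 j
    · rw [c1] at hj
      split_ifs at hj with e
      · obtain ⟨t', ht', e'⟩ : ∃ t' ∈ L, t' = 5 * j + 3 ∨ t' = 5 * j + 2 := by
          by_contra hc
          push Not at hc
          have e1 := List.count_eq_zero.2 fun h => (hc _ h).1 rfl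
          have e2 := List.count_eq_zero.2 fun h => (hc _ h).2 rfl
          simp [cV, e1, e2] at hj
        obtain ⟨u', v', h'⟩ := b2 t' ht'
        obtain ⟨d6, d7⟩ := h.cyc e
        obtain ⟨d8, d9⟩ := h'.restrict.cyc e'
        exact ⟨u, u', d6, d8, d7, d9, by simpa [P, bt] using o1 u' u'.2 0 (2 * j + 1)⟩
      · obtain ⟨y, hy, z, hz, d⟩ := c2 j (b5 j (by simpa using hj))
        exact ⟨y, z, d⟩

theorem Av.kap {V : Type v} [AddCommGroup V] [Module F V] {Φ : Form (RingHom.id F) V} {g : End F V}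
    (hβ : AS β) (H : Hy Φ g) (hκ : Φ.κ = 0) {t : ℕ} (h : Av β Φ g t) : t ≠ 0 ∧ t ≠ 2 := by
  obtain ⟨u, v, h⟩ := h
  have h1 : A Φ g 0 u = 0 := by rw [← kp_mul H]; simp [kp, hκ]
  rw [h.au] at h1
  constructor <;> rintro rfl
  · simp [tu] at h1
  · simp [tu, hβ.ne_zero] at h1

end H22.Ev
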