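import Cfsg.Agent.H22.EvC

/-!
Unipotent isometries in characteristic two, IV: the weights of the sign patterns.
-/

set_option autoImplicit false
set_option linter.unusedVariables false
set_option linter.unusedSectionVars false

namespace H22.Ev

open Module Polynomial H16 H23 H23.Form H14.Wall Finset

/-- the previous level has no cyclic block -/
def zz (b : Bool) : List (ℕ × ℕ) → Bool
  | [] => b
  | p :: _ => p.1 == 0

/-- the weight of a pattern -/
def wt : List (ℕ × ℕ) → ℕ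
  | [] => 0
  | p :: l => (l.length + 1) * p.1 + (if p.1 = 0 then (2 * l.length + 1) * p.2 else 0) + wt l

/-- admissible patterns -/
def Ad (b : Bool) : List (ℕ × ℕ) → Prop
  | [] => True
  | p :: l => p.1 ≤ 2 ∧ p.2 ≤ 1 ∧ (p.2 = 1 → zz b l = true) ∧ Ad b l

/-- the transfer recursion -/
def zn (b : Bool) : ℕ → ℚ × ℚ
  | 0 => if b then (1, 0) else (0, 1)
  | N + 1 => ((zn b N).1 * (1 + (1 / 2) ^ (2 * N + 1)) + (zn b N).2,
      ((1 / 2) ^ (N + 1) + (1 / 2) ^ (2 * N + 2)) * (2 * (zn b N).1 + (zn b N).2))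

theorem sum_Ad (b : Bool) (N : ℕ) : ∀ (S : Finset (List (ℕ × ℕ))),
    (∀ l ∈ S, Ad b l ∧ l.length = N) → ∀ x y : ℝ, 0 ≤ x → 0 ≤ y →
    ∑ l ∈ S, (if zz b l then x else y) * (1 / 2) ^ wt l ≤ x * (zn b N).1 + y * (zn b N).2 := by
  induction N with
  | zero =>
    intro S hS x y hx hy
    refine (sum_le_sum_of_subset_of_nonneg (t := {[]}) (fun l hl => by
      simpa using (hS l hl).2) fun _ _ _ => by positivity).trans ?_
    cases b <;> simp [zz, wt, zn]
  | succ N ih =>
    intro S hS x y hx hy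
    let ψ : List (ℕ × ℕ) × ℕ × ℕ → ℝ := fun q => if q.2.2 = 1 → zz b q.1 = true then
      (if zz b (q.2 :: q.1) then x else y) * (1 / 2) ^ wt (q.2 :: q.1) else 0
    have h1 : ∑ l ∈ S, (if zz b l then x else y) * (1 / 2) ^ wt l =
        ∑ q ∈ S.image (fun l => (l.tail, l.headD (0, 0))), ψ q := by
      rw [sum_image]
      · refine sum_congr rfl fun l hl => ?_
        obtain ⟨h1, h2⟩ := hS l hl
        cases l with
        | nil => simp at h2
        | cons p l => simp only [ψ, List.tail_cons, List.headD_cons, if_pos h1.2.2.1]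
      · intro l hl l' hl' e
        have h2 := (hS l hl).2
        have h3 := (hS l' hl').2
        obtain ⟨p, l, rfl⟩ := List.exists_cons_of_length_eq_add_one h2
        obtain ⟨p', l', rfl⟩ := List.exists_cons_of_length_eq_add_one h3
        simp only [List.tail_cons, List.headD_cons, Prod.mk.injEq] at e
        rw [e.1, e.2]
    rw [h1]
    refine (sum_le_sum_of_subset_of_nonneg (t := S.image List.tail ×ˢ (range 3 ×ˢ range 2))
      (fun q hq => ?_) fun q _ _ => by simp only [ψ]; positivity).trans ?_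
    · obtain ⟨l, hl, rfl⟩ := mem_image.1 hq
      obtain ⟨h1, h2⟩ := hS l hl
      refine mem_product.2 ⟨mem_image_of_mem _ hl, ?_⟩
      cases l with
      | nil => simp at h2
      | cons p l => have := h1.1; have := h1.2.1; simp; omega
    have h2 : ∀ l ∈ S.image List.tail, Ad b l ∧ l.length = N := fun l hl => by
      obtain ⟨l, hl', rfl⟩ := mem_image.1 hl
      obtain ⟨h1, h2⟩ := hS l hl'
      cases l with
      | nil => simp at h2
      | cons p l => exact ⟨h1.2.2.2, by simpa using h2⟩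
    rw [sum_product]
    refine le_of_eq_of_le (sum_congr rfl fun l hl => ?_) ((ih _ h2
      (x * (1 + (1 / 2) ^ (2 * N + 1)) + 2 * y * ((1 / 2) ^ (N + 1) + (1 / 2) ^ (2 * N + 2)))
      (x + y * ((1 / 2) ^ (N + 1) + (1 / 2) ^ (2 * N + 2))) (by positivity) (by positivity)).trans_eq
      (by simp only [zn]; push_cast; ring))
    rw [sum_product]
    have e0 : ∀ p, zz b (p :: l) = (p.1 == 0) := fun _ => rfl
    simp only [sum_range_succ, sum_range_zero, ψ, e0, wt, (h2 l hl).2]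
    cases zz b l <;> simp <;> ring

theorem zn_nonneg (b : Bool) (N : ℕ) : 0 ≤ (zn b N).1 ∧ 0 ≤ (zn b N).2 := by
  induction N with
  | zero => cases b <;> simp [zn]
  | succ N ih => obtain ⟨h1, h2⟩ := ih; simp only [zn]; constructor <;> positivity

theorem zn_le (b : Bool) {D : ℚ} (h : (zn b 14).1 + (zn b 14).2 ≤ D * (1 - 3 * (1 / 2) ^ 14)) (i : ℕ) :
    (zn b (14 + i)).1 + (zn b (14 + i)).2 ≤ D * (1 - 3 * (1 / 2) ^ (14 + i)) := by
  have hD : 0 ≤ D := by
    have := zn_nonneg b 14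
    nlinarith [this.1, this.2]
  induction i with
  | zero => exact h
  | succ i ih =>
    obtain ⟨h1, h2⟩ := zn_nonneg b (14 + i)
    rw [← add_assoc]
    simp only [zn]
    generalize (zn b (14 + i)).1 = Z at *
    generalize (zn b (14 + i)).2 = Y at *
    have h3 : (1 / 2 : ℚ) ^ (14 + i) ≤ 1 / 4 :=
      (pow_le_pow_of_le_one (by norm_num) (by norm_num) (by omega : 2 ≤ 14 + i)).trans (by norm_num)
    have h4 : 0 ≤ (1 / 2 : ℚ) ^ (14 + i) := by positivity
    rw [pow_succ _ (14 + i), pow_succ _ (2 * (14 + i)), pow_add _ (2 * (14 + i)), pow_mul']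
    generalize (1 / 2 : ℚ) ^ (14 + i) = u at *
    have h5 : Z * (1 + u ^ 2 * (1 / 2)) + Y + (u * (1 / 2) + u ^ 2 * (1 / 2) ^ 2) * (2 * Z + Y) ≤
        (Z + Y) * (1 + 3 * (u * (1 / 2))) := by
      nlinarith [mul_nonneg h1 h4, mul_nonneg h2 h4, mul_nonneg (mul_nonneg h1 h4) (sub_nonneg.2 h3),
        mul_nonneg (mul_nonneg h2 h4) (sub_nonneg.2 h3)]
    refine h5.trans ((mul_le_mul_of_nonneg_right ih (by positivity)).trans ?_)
    nlinarith [mul_nonneg hD (mul_nonneg h4 h4)]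

theorem sum_Ad_le (b : Bool) {D : ℚ} (h : (zn b 14).1 + (zn b 14).2 ≤ D * (1 - 3 * (1 / 2) ^ 14))
    (i : ℕ) (S : Finset (List (ℕ × ℕ))) (hS : ∀ l ∈ S, Ad b l ∧ l.length = 14 + i) :
    ∑ l ∈ S, (1 / 2 : ℝ) ^ wt l ≤ D := by
  have h1 := sum_Ad b _ S hS 1 1 zero_le_one zero_le_one
  have h2 := zn_le b h i
  have h3 := zn_nonneg b (14 + i)
  have h4 : 0 ≤ (1 / 2 : ℚ) ^ (14 + i) := by positivity
  have h5 : (1 / 2 : ℚ) ^ (14 + i) ≤ 1 / 4 :=
    (pow_le_pow_of_le_one (by norm_num) (by norm_num) (by omega : 2 ≤ 14 + i)).trans (by norm_num)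
  have hD : 0 ≤ D := by nlinarith [h3.1, h3.2]
  have h6 : (zn b (14 + i)).1 + (zn b (14 + i)).2 ≤ D := by nlinarith
  simp only [ite_self, one_mul] at h1
  exact h1.trans (by exact_mod_cast h6)

theorem zn_false : (zn false 14).1 + (zn false 14).2 ≤ 4388 / 1000 * (1 - 3 * (1 / 2) ^ 14) := by
  decide +kernel

theorem zn_true : (zn true 14).1 + (zn true 14).2 ≤ 75 / 10 * (1 - 3 * (1 / 2) ^ 14) := by
  decide +kernel

theorem prod_half (N : ℕ) : ∏ i ∈ range N, (1 - (1 / 2 : ℝ) ^ (i + 1))⁻¹ ≤ 34635 / 10000 := by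
  have h0 : ∀ i, (1 / 2 : ℝ) ^ (i + 1) ≤ 1 / 2 := fun i =>
    pow_le_of_le_one (by norm_num) (by norm_num) (by omega)
  refine prod_bound _ 14 (c := (1 / 2) ^ 14) (t := 1 / 2) (fun i => ?_) (by norm_num) (by norm_num)
    (by norm_num) (fun i => ?_) (by norm_num) (by simp only [prod_range_succ]; norm_num) N
  · exact (one_le_inv₀ (by linarith [h0 i])).2 (by simp)
  · have h1 := h0 (14 + i)
    have h2 : (1 / 2 : ℝ) ^ 14 * (1 / 2) ^ i = 2 * (1 / 2) ^ (14 + i + 1) := by ring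
    have h3 : 0 ≤ (1 / 2 : ℝ) ^ (14 + i + 1) := by positivity
    rw [h2, inv_le_comm₀ (by linarith) (by linarith), inv_eq_one_div, div_le_iff₀ (by linarith)]
    nlinarith

variable {F : Type*} [Field F] [Finite F]

theorem card_le_lev {α : Type*} [Finite α] (f : α → ℕ → F[X]) (c : α → List (ℕ × ℕ)) {n M : ℕ}
    (inj : ∀ x y, (∀ i < M + 1, f x i = f y i) → c x = c y → x = y)
    (hf : ∀ x i, ∃ d, Pal d (f x i))
    (hs : ∀ x, ∑ i ∈ range (M + 1), (i + 1) * ((f x i).natDegree / 2) + wt (c x) = n)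
    (Pp : List (ℕ × ℕ) → Prop) (hc : ∀ x, Pp (c x)) {D : ℝ} (hD0 : 0 ≤ D)
    (hD : ∀ S : Finset (List (ℕ × ℕ)), (∀ l ∈ S, Pp l) → ∑ l ∈ S, (1 / 2 : ℝ) ^ wt l ≤ D) :
    (Nat.card α : ℝ) ≤ D * (34635 / 10000) * (Nat.card F : ℝ) ^ n := by
  classical
  have hq : (2 : ℝ) ≤ Nat.card F := by exact_mod_cast Finite.one_lt_card
  have hq' : (Nat.card F : ℝ)⁻¹ ≤ 1 / 2 := by
    rw [one_div]; exact inv_anti₀ (by norm_num) hq
  generalize hqq : (Nat.card F : ℝ) = q at *
  have hq0 : 0 < q := by linarith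
  have := gf_bound (N := M) (fun x => (f x 0, c x)) (fun x i => f x (i + 1))
    (fun x y h h' => inj x y (fun i hi => by
      cases i with
      | zero => exact congrArg Prod.fst h
      | succ i => exact congrFun h' ⟨i, by omega⟩) (congrArg Prod.snd h))
    (fun k y => Pp y.2 ∧ ∃ d, Pal d y.1 ∧ d + wt y.2 + k = n) (fun _ t => ∃ d, Pal d t)
    (fun i t => (i + 2) * (t.natDegree / 2)) (ρ := fun k => q⁻¹ ^ k) (M := D * q ^ n)
    (A := fun i => (1 - (1 / 2 : ℝ) ^ (i.1 + 1))⁻¹) (fun k => by positivity) (by simp)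
    (fun a b => (pow_add _ _ _).le) (by positivity) (fun x => ⟨⟨hc x, ?_⟩, fun i => hf x _⟩)
    (fun k U hU => ?_) fun i U hU => ?_
  · refine this.trans ?_
    rw [Fin.prod_univ_eq_prod_range (fun i => (1 - (1 / 2 : ℝ) ^ (i + 1))⁻¹), mul_right_comm]
    exact mul_le_mul_of_nonneg_right (mul_le_mul_of_nonneg_left (prod_half M) hD0) (by positivity)
  · obtain ⟨d, hd⟩ := hf x 0
    refine ⟨d, hd, ?_⟩
    have := hs x
    rw [sum_range_succ', hd.1.2] at this
    rw [Fin.sum_univ_eq_sum_range (fun i => (i + 2) * ((f x (i + 1)).natDegree / 2))]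
    simp only [add_assoc, Nat.reduceAdd] at this ⊢
    omega
  · rw [card_eq_sum_card_fiberwise (f := Prod.snd) (t := U.image Prod.snd)
      fun y hy => mem_image_of_mem _ hy, Nat.cast_sum]
    refine (sum_le_sum (g := fun l => q ^ n * q⁻¹ ^ k * (1 / 2) ^ wt l) fun l hl => ?_).trans ?_
    · obtain ⟨y, hy, rfl⟩ := mem_image.1 hl
      obtain ⟨-, d, -, hd⟩ := hU y hy
      rw [← card_image_of_injOn (f := Prod.fst) fun a ha b hb e => Prod.ext e
        ((mem_filter.1 ha).2.trans (mem_filter.1 hb).2.symm)]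
      refine (card_le_Pal d _ fun v hv => ?_).trans ?_
      · obtain ⟨a, ha, rfl⟩ := mem_image.1 hv
        obtain ⟨-, d', h1, hd'⟩ := hU a (mem_filter.1 ha).1
        rw [(mem_filter.1 ha).2] at hd'
        rwa [show d = d' by omega]
      · rw [hqq]
        calc q ^ d = q ^ n * q⁻¹ ^ k * q⁻¹ ^ wt y.2 := by
              rw [← hd, pow_add, pow_add, inv_pow, inv_pow]; field_simp
          _ ≤ _ := by gcongr
    · rw [← mul_sum]
      refine (mul_le_mul_of_nonneg_left (hD _ fun l hl => ?_) (by positivity)).trans_eq (by ring)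
      obtain ⟨y, hy, rfl⟩ := mem_image.1 hl
      exact (hU y hy).1
  · obtain ⟨D', h⟩ := sum_le_param (P := Unit) (fun e => {v : F[X] | Pal e v}) _ card_le_Pal
      (fun _ v => v) U (fun t => q⁻¹ ^ ((i.1 + 2) * (t.natDegree / 2)))
      (fun _ e => q⁻¹ ^ ((i.1 + 2) * e)) (fun _ _ => by positivity) fun t ht => by
        obtain ⟨d, hd⟩ := hU t ht
        exact ⟨(), d, t, hd, rfl, by rw [hd.1.2, Nat.mul_div_cancel_left _ two_pos]⟩
    refine h.trans ?_
    rw [Fintype.sum_unique, hqq]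
    refine (sum_le_sum fun e _ => ?_).trans (geom_le (by positivity)
      (pow_lt_one₀ (by norm_num) (by norm_num) (by omega)) D')
    calc q ^ e * q⁻¹ ^ ((i.1 + 2) * e) = (q⁻¹ ^ (i.1 + 1)) ^ e := by
          rw [← pow_mul, show (i.1 + 2) * e = e + (i.1 + 1) * e by ring, pow_add, ← mul_assoc,
            ← mul_pow, mul_inv_cancel₀ hq0.ne', one_pow, one_mul]
      _ ≤ _ := by gcongr

end H22.Ev
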