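import Cfsg.Agent.H22.EvD

/-!
Unipotent isometries in characteristic two, V: counting the parameters.
-/

set_option autoImplicit false
set_option linter.unusedVariables false
set_option linter.unusedSectionVars false

namespace H22.Ev

open Module Polynomial H16 H23 H23.Form H14.Wall Finset

section

variable {F : Type*} [Field F]

theorem SR.pal_two (h2 : (2 : F) = 0) {u : F[X]} (h : SR u) (h1 : u.eval 1 ≠ 0) : ∃ e, Pal e u := by
  have h0 : u.coeff 0 = 1 := by rw [h.eval (by simp) h1, one_pow]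
  refine h.pal h0 (by_contra fun ho => h1 ?_)
  obtain ⟨k, hk⟩ := Nat.not_even_iff_odd.1 ho
  rw [eval_eq_sum_range]
  simp only [one_pow, mul_one]
  refine sum_involution (fun i _ => u.natDegree - i) (fun i hi => ?_) (fun i hi _ => by omega)
    (fun i hi => by simp) fun i hi => by simp at hi; omega
  have := coeff_dual (RingHom.id F) u i
  rw [dual_id, h.2.2, if_pos (by simp at hi; omega), h0] at this
  rw [this]; simp only [RingHom.id_apply]
  linear_combination u.coeff (u.natDegree - i) * h2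

theorem Pal.mul_pow {e : ℕ} {u : F[X]} (h : Pal e u) (a : ℕ) :
    Pal (a + e) ((X - C 1) ^ (2 * a) * u) := by
  have h1 : SR ((X - C 1) ^ (2 * a) * u) := ((sr_X_sub_C (by simp)).pow _).mul h.sr
  refine ⟨⟨h1.1, ?_⟩, ?_, h1.2.2⟩
  · rw [((monic_X_sub_C 1).pow _).natDegree_mul h.1.1, natDegree_pow, natDegree_X_sub_C, h.1.2]
    ring
  · simp [h.2.1, coeff_zero_eq_eval_zero, pow_mul]
    rw [← coeff_zero_eq_eval_zero, h.2.1]

theorem pow_mul_inj {a b : ℕ} {u v : F[X]} (hu : u.eval 1 ≠ 0) (hv : v.eval 1 ≠ 0)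
    (h : (X - C 1) ^ a * u = (X - C 1) ^ b * v) : a = b ∧ u = v := by
  have key : ∀ {a b : ℕ} {u v : F[X]}, u.eval 1 ≠ 0 → (X - C 1) ^ a * u = (X - C 1) ^ b * v →
      b ≤ a := fun {a b u v} hu h => by
    by_contra hc
    obtain ⟨k, rfl⟩ := Nat.exists_eq_add_of_lt (not_le.1 hc)
    rw [add_assoc, pow_add, mul_assoc] at h
    exact hu (by rw [mul_left_cancel₀ (pow_ne_zero _ (X_sub_C_ne_zero 1)) h]; simp)
  obtain rfl := le_antisymm (key hv h.symm) (key hu h)
  exact ⟨rfl, mul_left_cancel₀ (pow_ne_zero _ (X_sub_C_ne_zero 1)) h⟩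

end

/-- the dimension of a block -/
def wd (t : ℕ) : ℕ := rk t * (sz t + 1)

theorem le_wd (t : ℕ) : t / 5 < wd t := by
  unfold wd rk sz; split_ifs <;> omega

theorem sum_wd (μ : Multiset ℕ) {N : ℕ} (h : ∀ t ∈ μ, t < 5 * N) : (μ.map wd).sum =
    ∑ j ∈ range N, (2 * (2 * j + 2) * μ.count (5 * j + 4) + (2 * j + 2) * (μ.count (5 * j + 3) +
      μ.count (5 * j + 2)) + 2 * (2 * j + 1) * (μ.count (5 * j + 1) + μ.count (5 * j))) := by
  have h1 : (μ.map wd).sum = ∑ t ∈ range (5 * N), μ.count t * wd t := by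
    rw [Finset.sum_multiset_map_count]
    refine sum_subset (fun t ht => mem_range.2 (h t (Multiset.mem_toFinset.1 ht))) fun t _ ht => ?_
    simp [Multiset.count_eq_zero.2 (mt Multiset.mem_toFinset.2 ht)]
  rw [h1]
  clear h h1
  induction N with
  | zero => simp
  | succ N ih =>
    rw [sum_range_succ _ N, ← ih, mul_add, mul_one]
    simp only [sum_range_succ, wd, rk, sz, show (5 * N + 4) % 5 = 4 by omega,
      show (5 * N + 3) % 5 = 3 by omega, show (5 * N + 2) % 5 = 2 by omega,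
      show (5 * N + 1) % 5 = 1 by omega, show (5 * N) % 5 = 0 by omega,
      show (5 * N + 4) / 5 = N by omega, show (5 * N + 3) / 5 = N by omega,
      show (5 * N + 2) / 5 = N by omega, show (5 * N + 1) / 5 = N by omega,
      show (5 * N) / 5 = N by omega]
    simp
    ring

variable {F : Type*} [Field F] [Finite F]

/-- admissible data -/
structure Cn (b : Bool) (n : ℕ) (x : Multiset ℕ × Multiset F[X]) : Prop where
  f1 : ∀ j, x.1.count (5 * j + 2) + x.1.count (5 * j) ≤ 1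
  f2 : ∀ j, x.1.count (5 * j + 2) = 0 ∨ x.1.count (5 * j + 1) = 0
  f3 : ∀ j, x.1.count (5 * (j + 1) + 2) + x.1.count (5 * (j + 1)) = 0 ∨
    x.1.count (5 * j + 3) + x.1.count (5 * j + 2) = 0
  f4 : ∀ j, x.1.count (5 * j + 3) + x.1.count (5 * j + 2) ≤ 2
  f0 : b = false → x.1.count 2 + x.1.count 0 = 0
  good : Good x.2
  dim : (x.1.map wd).sum + (x.2.map natDegree).sum = 2 * n

/-- the sign pattern -/
def ce (μ : Multiset ℕ) : ℕ → List (ℕ × ℕ)
  | 0 => []
  | j + 1 => (μ.count (5 * j + 3) + μ.count (5 * j + 2), μ.count (5 * j + 2) + μ.count (5 * j)) ::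
      ce μ j

theorem length_ce (μ : Multiset ℕ) (N : ℕ) : (ce μ N).length = N := by
  induction N <;> simp_all [ce]

theorem wt_ce (μ : Multiset ℕ) (N : ℕ) : wt (ce μ N) = ∑ j ∈ range N,
    ((j + 1) * (μ.count (5 * j + 3) + μ.count (5 * j + 2)) +
      if μ.count (5 * j + 3) + μ.count (5 * j + 2) = 0 then
        (2 * j + 1) * (μ.count (5 * j + 2) + μ.count (5 * j)) else 0) := by
  induction N with
  | zero => rfl
  | succ N ih => rw [sum_range_succ, ← ih, ce, wt, length_ce, add_comm]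

theorem ce_inj {μ ν : Multiset ℕ} {N : ℕ} (h : ce μ N = ce ν N) : ∀ j < N,
    μ.count (5 * j + 3) + μ.count (5 * j + 2) = ν.count (5 * j + 3) + ν.count (5 * j + 2) ∧
    μ.count (5 * j + 2) + μ.count (5 * j) = ν.count (5 * j + 2) + ν.count (5 * j) := by
  induction N with
  | zero => simp
  | succ N ih =>
    simp only [ce, List.cons.injEq, Prod.mk.injEq] at h
    intro j hj
    rcases (Nat.lt_succ_iff.1 hj).eq_or_lt with rfl | e
    · exact h.1
    · exact ih h.2 j e

variable {b : Bool} {n : ℕ} {x y : Multiset ℕ × Multiset F[X]}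

theorem Cn.ad (h : Cn b n x) (N : ℕ) : Ad b (ce x.1 N) := by
  induction N with
  | zero => trivial
  | succ N ih =>
    refine ⟨h.f4 N, h.f1 N, fun e => ?_, ih⟩
    cases N with
    | zero =>
      cases b with
      | true => rfl
      | false => have := h.f0 rfl; simp at e; omega
    | succ N => have := h.f3 N; simp only [ce, zz, beq_iff_eq] at e ⊢; omega

/-- multiplicities of the level polynomials -/
def am (μ : Multiset ℕ) (i : ℕ) : ℕ :=
  if i % 2 = 1 then μ.count (5 * (i / 2) + 4) else μ.count (5 * (i / 2) + 1) +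
    if μ.count (5 * (i / 2) + 3) + μ.count (5 * (i / 2) + 2) = 0 then 0 else μ.count (5 * (i / 2))

/-- the level polynomials -/
noncomputable def lp (x : Multiset ℕ × Multiset F[X]) (i : ℕ) : F[X] :=
  (X - C 1) ^ (2 * am x.1 i) * fs x.2 i

theorem Good.eval {s : Multiset F[X]} (h : Good s) (i : ℕ) : (fs s i).eval 1 ≠ 0 :=
  fun e => h.fr i ((eval_fs_eq_zero h.pp 1 i).1 e)

theorem Good.pal (h2 : (2 : F) = 0) {s : Multiset F[X]} (h : Good s) (i : ℕ) : ∃ d, Pal d (fs s i) :=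
  SR.pal_two h2 (sr_fs h.pp h.c0 h.rv i) (h.eval i)

theorem Cn.lt (h : Cn b n x) {N : ℕ} (hN : 2 * n ≤ N) : ∀ t ∈ x.1, t < 5 * N := fun t ht => by
  have h1 := Multiset.single_le_sum (s := x.1.map wd) (fun _ _ => Nat.zero_le _) _
    (Multiset.mem_map_of_mem _ ht)
  have := le_wd t
  have := h.dim
  omega

theorem sum_two_mul (f : ℕ → ℕ) (N : ℕ) :
    ∑ i ∈ range (2 * N), f i = ∑ j ∈ range N, (f (2 * j) + f (2 * j + 1)) := by
  induction N with
  | zero => simp
  | succ N ih => rw [mul_add, mul_one, sum_range_succ, sum_range_succ, ih, sum_range_succ, add_assoc]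

theorem Cn.sum (h2 : (2 : F) = 0) (h : Cn b n x) {N : ℕ} (hN : 2 * n ≤ N) :
    ∑ i ∈ range (2 * N), (i + 1) * ((lp x i).natDegree / 2) + wt (ce x.1 N) = n := by
  have h1 : ∀ i, 2 * ((i + 1) * ((lp x i).natDegree / 2)) =
      2 * ((i + 1) * am x.1 i) + (i + 1) * (fs x.2 i).natDegree := fun i => by
    obtain ⟨d, hd⟩ := h.good.pal h2 i
    rw [lp, (Pal.mul_pow hd _).1.2, hd.1.2, Nat.mul_div_cancel_left _ two_pos]; ring
  have h3 := h.dim
  have h4 := (sum_fs h.good.pp (N := 2 * N) (by omega)).1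
  refine Nat.eq_of_mul_eq_mul_left two_pos ?_
  rw [mul_add, mul_sum, sum_congr rfl fun i _ => h1 i, sum_add_distrib, h4, ← h3, sum_wd _ (h.lt hN),
    add_right_comm, add_left_inj, sum_two_mul, wt_ce, mul_sum, ← sum_add_distrib]
  refine sum_congr rfl fun j _ => ?_
  simp only [am, show 2 * j % 2 = 0 by omega, show (2 * j + 1) % 2 = 1 by omega,
    show 2 * j / 2 = j by omega, show (2 * j + 1) / 2 = j by omega, if_true, zero_ne_one, if_false]
  split_ifs with e
  · rw [show x.1.count (5 * j + 3) = 0 by omega, show x.1.count (5 * j + 2) = 0 by omega]; ring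
  · ring

theorem Cn.inj (h : Cn b n x) (h' : Cn b n y) {N : ℕ} (hN : 2 * n ≤ N)
    (e : ∀ i < 2 * N, lp x i = lp y i) (e' : ce x.1 N = ce y.1 N) : x = y := by
  have h1 := fun i hi => pow_mul_inj (h.good.eval i) (h'.good.eval i) (e i hi)
  refine Prod.ext (Multiset.ext.2 fun t => ?_) (fs_inj h.good.pp h'.good.pp (funext fun i => ?_))
  · by_cases ht : t < 5 * N
    · obtain ⟨j, hj⟩ : ∃ j, j = t / 5 := ⟨_, rfl⟩
      have a1 := (h1 (2 * j) (by omega)).1
      have a2 := (h1 (2 * j + 1) (by omega)).1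
      simp only [am, show 2 * j % 2 = 0 by omega, show (2 * j + 1) % 2 = 1 by omega,
        show 2 * j / 2 = j by omega, show (2 * j + 1) / 2 = j by omega, if_true, zero_ne_one,
        if_false] at a1 a2
      have a3 := ce_inj e' j (by omega)
      have := h.f1 j
      have := h'.f1 j
      have := h.f2 j
      have := h'.f2 j
      have a4 : t = 5 * j ∨ t = 5 * j + 1 ∨ t = 5 * j + 2 ∨ t = 5 * j + 3 ∨ t = 5 * j + 4 := by omega
      rcases a4 with a4 | a4 | a4 | a4 | a4 <;> rw [a4] <;> split_ifs at a1 <;> omega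
    · rw [Multiset.count_eq_zero.2 fun e => ht (h.lt hN t e),
        Multiset.count_eq_zero.2 fun e => ht (h'.lt hN t e)]
  · by_cases hi : i < 2 * N
    · exact (h1 i hi).2
    · have := h.dim
      have := h'.dim
      rw [(sum_fs h.good.pp (N := 2 * N) (by omega)).2 i (by omega),
        (sum_fs h'.good.pp (N := 2 * N) (by omega)).2 i (by omega)]

theorem card_cn (h2 : (2 : F) = 0) {α : Type*} [Finite α] {D : α → Multiset ℕ × Multiset F[X]}
    (hD : Function.Injective D) (h : ∀ a, Cn b n (D a)) (Pp : List (ℕ × ℕ) → Prop)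
    (hc : ∀ a, Pp (ce (D a).1 (14 + 2 * n))) {M : ℝ} (hM0 : 0 ≤ M)
    (hM : ∀ S : Finset (List (ℕ × ℕ)), (∀ l ∈ S, Pp l) → ∑ l ∈ S, (1 / 2 : ℝ) ^ wt l ≤ M) :
    (Nat.card α : ℝ) ≤ M * (34635 / 10000) * (Nat.card F : ℝ) ^ n := by
  have e : 2 * (14 + 2 * n) = (27 + 4 * n) + 1 := by ring
  refine card_le_lev (M := 27 + 4 * n) (fun a => lp (D a)) (fun a => ce (D a).1 (14 + 2 * n))
    (fun a a' h1 h3 => hD ((h a).inj (h a') (by omega) (by rwa [e]) h3)) (fun a i => ?_)
    (fun a => by rw [← e]; exact (h a).sum h2 (by omega)) Pp hc hM0 hM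
  obtain ⟨d, hd⟩ := (h a).good.pal h2 i
  exact ⟨_, Pal.mul_pow hd _⟩

theorem card_cn' (h2 : (2 : F) = 0) {α : Type*} [Finite α] {D : α → Multiset ℕ × Multiset F[X]}
    (hD : Function.Injective D) (h : ∀ a, Cn b n (D a)) {M : ℚ} (hM0 : 0 ≤ M)
    (hM : (zn b 14).1 + (zn b 14).2 ≤ M * (1 - 3 * (1 / 2) ^ 14)) :
    (Nat.card α : ℝ) ≤ M * (34635 / 10000) * (Nat.card F : ℝ) ^ n :=
  card_cn h2 hD h (fun l => Ad b l ∧ l.length = 14 + 2 * n)
    (fun a => ⟨(h a).ad _, length_ce _ _⟩) (by exact_mod_cast hM0) (sum_Ad_le b hM _)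

theorem pw_count {L : List ℕ} (h : L.Pairwise R) (t t' : ℕ) :
    (¬ R t t → L.count t ≤ 1) ∧ (t' < t → ¬ R t t' → L.count t = 0 ∨ L.count t' = 0) := by
  induction L with
  | nil => simp
  | cons a L ih =>
    obtain ⟨h1, h3⟩ := List.pairwise_cons.1 h
    obtain ⟨h4, h5⟩ := ih h3
    simp only [List.count_cons, beq_iff_eq]
    refine ⟨fun e => ?_, fun e e' => ?_⟩
    · split_ifs with e1
      · subst e1; rw [List.count_eq_zero.2 fun h => e (h1 _ h)]
      · exact h4 e
    · split_ifs with e1 e2 e2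
      · omega
      · subst e1; rw [List.count_eq_zero.2 fun h => e' (h1 _ h)]; simp
      · subst e2; rw [List.count_eq_zero.2 fun h => absurd (h1 _ h).1 (by omega)]; simp
      · exact h5 e e'

theorem eq_of_pw {L L' : List ℕ} (h : L.Pairwise R) (h' : L'.Pairwise R)
    (e : (L : Multiset ℕ) = L') : L = L' :=
  List.Perm.eq_of_pairwise (le := R) (fun a b _ _ h1 h2 => le_antisymm h2.1 h1.1) h h'
    (Multiset.coe_eq_coe.1 e)

variable {V : Type*} [AddCommGroup V] [Module F V] [FiniteDimensional F V]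
  {Φ : Form (RingHom.id F) V} {β : F}

theorem exists_cn (hβ : AS β) (hΦ : Φ.Nondeg) {g : End F V} (H : Hy Φ g) (hb : b = false → Φ.κ = 0)
    (hV : finrank F V = 2 * n) : ∃ L s, Dec β s L Φ g ∧ L.Pairwise R ∧ Cn b n (L, s) := by
  obtain ⟨L, s, h1, h3, h4, h5, -⟩ := exists_dec hβ _ (Nat.lt_succ_self _) hΦ H
  obtain ⟨h6, h7⟩ := dec_dim L hΦ H h1
  have key := pw_count h4
  refine ⟨L, s, h1, h4, fun j => ?_, fun j => ?_, fun j => ?_, fun j => ?_, fun e => ?_, h6, ?_⟩
  all_goals simp only [Multiset.coe_count]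
  · have := (key (5 * j + 2) 0).1 (by unfold R; omega)
    have := (key (5 * j) 0).1 (by unfold R; omega)
    have := (key (5 * j + 2) (5 * j)).2 (by omega) (by unfold R; omega)
    omega
  · exact (key (5 * j + 2) (5 * j + 1)).2 (by omega) (by unfold R; omega)
  · have := (key (5 * (j + 1) + 2) (5 * j + 3)).2 (by omega) (by unfold R; omega)
    have := (key (5 * (j + 1) + 2) (5 * j + 2)).2 (by omega) (by unfold R; omega)
    have := (key (5 * (j + 1)) (5 * j + 3)).2 (by omega) (by unfold R; omega)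
    have := (key (5 * (j + 1)) (5 * j + 2)).2 (by omega) (by unfold R; omega)
    omega
  · exact h5 j
  · rw [List.count_eq_zero.2 fun h => ((h3 _ h).kap hβ H (hb e)).2 rfl,
      List.count_eq_zero.2 fun h => ((h3 _ h).kap hβ H (hb e)).1 rfl]
  · rw [← hV, h7]; rfl

theorem exists_dat (h2 : (2 : F) = 0) (hβ : AS β) (hΦ : Φ.Nondeg) (hκ : Φ.κ = 0 ∨ Φ.κ = 1)
    (hb : b = false → Φ.κ = 0) (hV : finrank F V = 2 * n) :
    ∃ D : ConjClasses Φ.O → Multiset ℕ × Multiset F[X], Function.Injective D ∧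
      (∀ C, Cn b n (D C)) ∧ ∀ C, ∃ L : List ℕ, (D C).1 = L ∧
        Dec β (D C).2 L Φ C.out.1.toLinearMap := by
  choose L s h1 h3 h4 using fun C : ConjClasses Φ.O =>
    exists_cn hβ hΦ ⟨h2, pres_O C.out, hκ⟩ hb hV
  refine ⟨fun C => (L C, s C), fun C D e => ?_, h4, fun C => ⟨_, rfl, h1 C⟩⟩
  obtain ⟨e1, e2⟩ := Prod.mk.inj e
  have h5 := h1 D
  rw [← eq_of_pw (h3 C) (h3 D) e1, ← e2] at h5
  rw [← C.out_eq, ← D.out_eq]
  exact Quotient.sound (isConj_iff_iso.2 (iso_of_dec _ hΦ hΦ rfl ⟨h2, pres_O _, hκ⟩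
    ⟨h2, pres_O _, hκ⟩ (h1 C) h5))

theorem card_cl_sp (h2 : (2 : F) = 0) (hΦ : Φ.Nondeg) (hκ : Φ.κ = 0) (hV : finrank F V = 2 * n) :
    5 * Nat.card (ConjClasses Φ.O) ≤ 76 * Nat.card F ^ n := by
  haveI := finite_O Φ
  obtain ⟨β, hβ⟩ := exists_AS h2
  obtain ⟨D, h1, h3, -⟩ := exists_dat (b := false) h2 hβ hΦ (Or.inl hκ) (fun _ => hκ) hV
  have := card_cn' h2 h1 h3 (by norm_num) zn_false
  have h4 : (0 : ℝ) ≤ (Nat.card F : ℝ) ^ n := by positivity
  have : (5 : ℝ) * Nat.card (ConjClasses Φ.O) ≤ 76 * (Nat.card F : ℝ) ^ n := by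
    push_cast at this
    linarith
  exact_mod_cast this

theorem pal_decomp2 (h2 : (2 : F) = 0) {m : ℕ} {u : F[X]} (hu : Pal m u) :
    ∃ (t : Multiset F[X]) (a k : ℕ), (∀ q ∈ t, IsPP q) ∧ (∀ q ∈ t, q.coeff 0 ≠ 0) ∧
      t.map rev = t ∧ (∀ q ∈ t, IsCoprime (X ^ 2 - 1) q) ∧ (t.map natDegree).sum = 2 * k ∧
      k + a = m ∧ u = (t + Multiset.replicate (2 * a) (X - C 1)).prod := by
  classical
  obtain ⟨⟨h1, h8⟩, h9, h10⟩ := hu
  obtain ⟨s, hs, rfl⟩ := exists_monic_irred_factors h1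
  have h11 : s.prod.coeff 0 ≠ 0 := by rw [h9]; simp
  have h12 := map_dual_eq_of_prod (σ := RingHom.id F) (fun _ => rfl) hs h11 (by rwa [dual_id])
  rw [_root_.funext dual_id] at h12
  have h13 : ∀ f ∈ s, f.coeff 0 ≠ 0 := fun f hf h14 => h11 (by
    obtain ⟨t, rfl⟩ := Multiset.exists_cons_of_mem hf
    simp [h14])
  obtain ⟨t, a, hst, ht⟩ : ∃ (t : Multiset F[X]) (a : ℕ),
      s = t + Multiset.replicate a (X - C 1) ∧ (∀ f ∈ t, f ≠ X - C 1) := by
    refine ⟨s.filter (· ≠ X - C 1), (s.filter (¬ · ≠ X - C 1)).card, ?_, ?_⟩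
    · rw [← Multiset.eq_replicate_card.2, Multiset.filter_add_not]
      exact fun f hf => not_not.1 (Multiset.mem_filter.1 hf).2
    · exact fun f hf => (Multiset.mem_filter.1 hf).2
  have hts : ∀ f ∈ t, f ∈ s := fun f hf => by rw [hst]; simp [hf]
  have htr : t.map rev = t := by
    rw [hst, Multiset.map_add, Multiset.map_replicate, rev_X_sub_C one_ne_zero, inv_one] at h12
    exact add_right_cancel h12
  have hn : (-1 : F) = 1 := by linear_combination -h2
  have htc : ∀ f ∈ t, IsCoprime (X ^ 2 - 1) f := fun f hf =>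
    isCoprime_of_ne (hs f (hts f hf)).1 (hs f (hts f hf)).2 (ht f hf) (by rw [hn]; exact ht f hf)
  have htp : ∀ f ∈ t, IsPP f := fun f hf => isPP_of_irred (hs f (hts f hf)).1 (hs f (hts f hf)).2
  obtain ⟨k, hk⟩ := even_of_free htp (fun f hf => h13 f (hts f hf)) htr htc
  have hdeg : (t.map natDegree).sum + a = 2 * m := by
    rw [natDegree_prod_monic fun f hf => (hs f hf).1, hst] at h8
    simp only [Multiset.map_add, Multiset.sum_add, Multiset.map_replicate, natDegree_X_sub_C,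
      Multiset.sum_replicate, smul_eq_mul, mul_one] at h8
    omega
  refine ⟨t, m - k, k, htp, fun f hf => h13 f (hts f hf), htr, htc, by omega, by omega, ?_⟩
  rw [hst, show 2 * (m - k) = a by omega]

theorem le_card_cl_sp (h2 : (2 : F) = 0) (n : ℕ) :
    Nat.card F ^ n ≤ Nat.card (ConjClasses (spForm n F).O) := by
  haveI := finite_O (spForm n F)
  have key : ∀ x : {u : F[X] // Pal n u}, ∃ K : ConjClasses (spForm n F).O,
      K.out.1.toLinearMap.charpoly = x.1 := fun u => by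
    obtain ⟨t, a, k, h1, h3, h4, h5, h6, h7, h8⟩ := pal_decomp2 h2 u.2
    obtain ⟨A, hA⟩ := exists_sp_edM (m := n) h1 h3 h4 h5 a 0 (by omega)
    have hp : Pres (spForm n F) (Matrix.toLin' A.1) := sp_pres A
    refine ⟨ConjClasses.mk (hp.toO (spForm_nondeg n)), (charpoly_out _).trans ?_⟩
    rw [Pres.toO_coe, Matrix.charpoly_toLin', charpoly_eq_prod_edM, hA, h8]
    simp
  choose f hf using key
  rw [← card_Pal]
  exact Nat.card_le_card_of_injective f fun u v h => Subtype.ext ((hf u).symm.trans (h ▸ hf v))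

end H22.Ev
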