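import Cfsg.Agent.H22.EvE

/-!
Unipotent isometries in characteristic two, VI: Gauss sums and the orthogonal upper bound.
-/

set_option autoImplicit false
set_option linter.unusedVariables false
set_option linter.unusedSectionVars false

namespace H22.Ev

open Module Polynomial H16 H23 H23.Form H14.Wall Finset

universe u v w

section

variable {F : Type*} [Field F] [Finite F] {β : F}

open Classical in
/-- the quadratic character of the additive group -/
noncomputable def chi (a : F) : ℝ := if ∃ c, a = c ^ 2 + c then 1 else -1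

theorem chi_zero : chi (0 : F) = 1 := if_pos ⟨0, by simp⟩

theorem chi_beta (hβ : AS β) : chi β = -1 := if_neg fun ⟨c, h⟩ => hβ.ne c h.symm

theorem chi_add (h2 : (2 : F) = 0) (hβ : AS β) (a b : F) : chi (a + b) = chi a * chi b := by
  unfold chi
  by_cases ha : ∃ c, a = c ^ 2 + c <;> by_cases hb : ∃ c, b = c ^ 2 + c
  · obtain ⟨c, hc⟩ := id ha
    obtain ⟨d, hd⟩ := id hb
    rw [if_pos ha, if_pos hb, if_pos ⟨c + d, by linear_combination hc + hd - c * d * h2⟩, one_mul]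
  · obtain ⟨c, hc⟩ := id ha
    rw [if_pos ha, if_neg hb, if_neg, one_mul]
    rintro ⟨d, hd⟩
    exact hb ⟨c + d, by linear_combination hd - hc - (c ^ 2 + c + c * d) * h2⟩
  · obtain ⟨c, hc⟩ := id hb
    rw [if_neg ha, if_pos hb, if_neg, mul_one]
    rintro ⟨d, hd⟩
    exact ha ⟨c + d, by linear_combination hd - hc - (c ^ 2 + c + c * d) * h2⟩
  · obtain ⟨c, hc⟩ := (hβ.cases a).resolve_left ha
    obtain ⟨d, hd⟩ := (hβ.cases b).resolve_left hb
    rw [if_neg ha, if_neg hb, if_pos ⟨c + d, by linear_combination hc + hd + (β - c * d) * h2⟩]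
    norm_num

variable {M : Type*} [AddCommGroup M] [Module F M]

theorem sum_chi_lin [Fintype M] (h2 : (2 : F) = 0) (hβ : AS β) (l : M →ₗ[F] F) [Decidable (l = 0)] :
    ∑ x, chi (l x) = if l = 0 then (Fintype.card M : ℝ) else 0 := by
  split_ifs with h
  · simp [h, chi_zero]
  · obtain ⟨x, hx⟩ : ∃ x, l x ≠ 0 := by
      by_contra hc
      push Not at hc
      exact h (LinearMap.ext hc)
    have h1 := Equiv.sum_comp (Equiv.addRight ((β / l x) • x)) fun y => chi (l y)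
    simp only [Equiv.coe_addRight, map_add, map_smul, smul_eq_mul, div_mul_cancel₀ _ hx,
      chi_add h2 hβ, chi_beta hβ, ← sum_mul] at h1
    linarith

/-- the Gauss sum of a function -/
noncomputable def G (f : M → F) : ℝ := ∑ᶠ v, chi (f v)

theorem G_eq [Fintype M] (f : M → F) : G f = ∑ v, chi (f v) := finsum_eq_sum_of_fintype _

theorem G_sign [Finite M] (h2 : (2 : F) = 0) (hβ : AS β) {f : M → F}
    (hf : ∀ (c : F) m, f (c • m) = c ^ 2 * f m) :
    ((Nat.card F : ℝ) - 1) * G f = Nat.card F * Nat.card {m // f m = 0} - Nat.card M := by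
  classical
  letI := Fintype.ofFinite M
  letI := Fintype.ofFinite F
  have h1 : ∑ c : F, ∑ m, chi (c * f m) = Nat.card F * Nat.card {m // f m = 0} := by
    rw [sum_comm, Nat.card_eq_fintype_card, Nat.card_eq_fintype_card, Fintype.card_subtype,
      card_filter, Nat.cast_sum, mul_sum]
    refine sum_congr rfl fun m _ => ?_
    have := sum_chi_lin h2 hβ (LinearMap.mulRight F (f m))
    simp only [LinearMap.mulRight_apply] at this
    rw [this]
    by_cases h : f m = 0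
    · rw [if_pos h, if_pos (by ext; simp [h])]; simp
    · rw [if_neg h, if_neg fun e => h (by simpa using LinearMap.congr_fun e 1)]; simp
  have h3 : ∀ c ∈ univ.erase (0 : F), ∑ m, chi (c * f m) = G f := fun c hc => by
    obtain ⟨d, rfl⟩ := exists_sqrt h2 c
    have hd : d ≠ 0 := by rintro rfl; simp at hc
    rw [G_eq, ← Equiv.sum_comp (LinearEquiv.smulOfNeZero F M d hd).toEquiv fun m => chi (f m)]
    exact sum_congr rfl fun m _ => by simp [hf]
  rw [← add_sum_erase _ _ (mem_univ 0), sum_congr rfl h3, sum_const, card_erase_of_mem (mem_univ _),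
    nsmul_eq_mul, card_univ, Nat.cast_sub Fintype.card_pos] at h1
  simp only [zero_mul, chi_zero, sum_const, card_univ, nsmul_eq_mul, mul_one] at h1
  rw [← h1]; simp

theorem G_plane [Finite M] (h2 : (2 : F) = 0) (hβ : AS β) {f a b : M → F} {α γ : F} {w : M}
    (hf : ∀ (c : F) m, f (c • m) = c ^ 2 * f m)
    (h1 : ∀ m, f m = a m ^ 2 * α + a m * b m + b m ^ 2 * γ)
    (ha : ∀ (c : F) m, a (m + c • w) = a m) (hb : ∀ (c : F) m, b (m + c • w) = b m + c) :
    (α = 0 → 0 ≤ G f) ∧ ((∀ x y : F, x ^ 2 * α + x * y + y ^ 2 * γ = 0 → y = 0) → G f ≤ 0) := by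
  have h3 := G_sign h2 hβ hf
  have hq : (1 : ℝ) < Nat.card F := by exact_mod_cast Finite.one_lt_card
  rw [← Nat.cast_mul, ← Nat.card_prod] at h3
  refine ⟨fun h => ?_, fun h => ?_⟩
  · have := Nat.card_le_card_of_injective (fun m : M => ((b m, ⟨m + b m • w, by
      rw [h1, hb, h, show b m + b m = 0 by linear_combination b m * h2]; simp⟩) :
        F × {m // f m = 0})) fun m m' e => by
      obtain ⟨e1, e2⟩ := Prod.mk.inj e
      have e3 := congrArg Subtype.val e2
      simp only [e1] at e3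
      exact add_right_cancel e3
    have h4 : (Nat.card M : ℝ) ≤ Nat.card (F × {m // f m = 0}) := by exact_mod_cast this
    nlinarith
  · have := Nat.card_le_card_of_injective (fun p : F × {m // f m = 0} => p.2.1 + p.1 • w)
      fun p p' e => by
        have e1 := congrArg b e
        simp only [hb, h _ _ ((h1 _).symm.trans p.2.2), h _ _ ((h1 _).symm.trans p'.2.2),
          zero_add] at e1
        simp only [e1] at e
        exact Prod.ext e1 (Subtype.ext (add_right_cancel e))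
    have h4 : (Nat.card (F × {m // f m = 0}) : ℝ) ≤ Nat.card M := by exact_mod_cast this
    nlinarith

variable {V W : Type*} [AddCommGroup V] [Module F V] [AddCommGroup W] [Module F W]
  [FiniteDimensional F V] [FiniteDimensional F W]
  {Φ : Form (RingHom.id F) V} {Ψ : Form (RingHom.id F) W} {g : End F V} {h : End F W}

theorem G_iso (H : Iso Φ g Ψ h) : G Φ.Q = G Ψ.Q := by
  obtain ⟨e, -, h1, -⟩ := H
  rw [G, G, ← finsum_comp_equiv e.toEquiv]
  simp [h1]

theorem G_prod (h2 : (2 : F) = 0) (hβ : AS β) (hε : Ψ.ε = Φ.ε) (hκ : Ψ.κ = Φ.κ) :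
    G (fprod Φ Ψ hε hκ).Q = G Φ.Q * G Ψ.Q := by
  haveI : Finite V := Module.finite_of_finite F
  haveI : Finite W := Module.finite_of_finite F
  letI := Fintype.ofFinite V
  letI := Fintype.ofFinite W
  rw [G_eq, G_eq, G_eq, Fintype.sum_prod_type, sum_mul_sum]
  exact sum_congr rfl fun _ _ => sum_congr rfl fun _ _ => chi_add h2 hβ _ _

theorem G_ne (h2 : (2 : F) = 0) (hβ : AS β) (hΦ : Φ.Nondeg) (hκ : Φ.κ = 1) : G Φ.Q ≠ 0 := by
  classical
  haveI : Finite V := Module.finite_of_finite F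
  letI := Fintype.ofFinite V
  have h1 : G Φ.Q * G Φ.Q = ∑ z, chi (Φ.Q z) * ∑ x, chi (Φ.B z x) := by
    rw [G_eq, sum_mul_sum]
    simp only [mul_sum]
    rw [sum_comm (f := fun z x => chi (Φ.Q z) * chi (Φ.B z x))]
    refine sum_congr rfl fun x _ => ?_
    rw [← Equiv.sum_comp (Equiv.addRight x)]
    refine sum_congr rfl fun z _ => ?_
    simp only [Equiv.coe_addRight, ← chi_add h2 hβ, Q_add, hκ]
    congr 1
    linear_combination Φ.Q x * h2
  intro h0
  rw [h0, sum_eq_single 0 (fun z _ hz => by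
    rw [sum_chi_lin h2 hβ, if_neg fun e => hz (hΦ z fun y => by rw [e]; rfl), mul_zero]) (by simp)] at h1
  simp [chi_zero] at h1
  exact Fintype.card_ne_zero (α := V) (by exact_mod_cast h1.symm)

theorem G_step (hβ : AS β) (H : Hy Φ g) (hΦ : Φ.Nondeg) (hκ : Φ.κ = 1) {D i : ℕ}
    (h0 : ∀ m, ((g - 1) ^ (D + 1)) m = 0) (hk : ∀ m, ((g - 1) ^ D) m = 0 → ∃ w, (g - 1) w = m)
    (hi : 2 * i ≤ D) (hA : ∀ m, A Φ g (D - i) m = 0) :
    ∃ c : ℝ, 0 < c ∧ G (A Φ g (i + 1)) = c * G (A Φ g i) := by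
  classical
  haveI : Finite V := Module.finite_of_finite F
  letI := Fintype.ofFinite V
  have hkp : kp Φ i = 1 := by cases i <;> simp [kp, hκ]
  have h1 : (Fintype.card V : ℝ) * G (A Φ g i) =
      Fintype.card V * ∑ m with ((g - 1) ^ D) m = 0, chi (A Φ g i m) := by
    calc (Fintype.card V : ℝ) * G (A Φ g i) =
          ∑ n, ∑ m, chi (A Φ g i (m + (1 : F) • ((g - 1) ^ (D - 2 * i)) n)) := by
          refine Eq.trans ?_ (sum_congr rfl fun n _ =>
            (Equiv.sum_comp (Equiv.addRight _) fun m => chi (A Φ g i m)).symm)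
          simp [G_eq]
      _ = ∑ m, chi (A Φ g i m) * ∑ n, chi (Φ.B (((g - 1) ^ D) m) n) := by
          rw [sum_comm]
          refine sum_congr rfl fun m _ => ?_
          rw [mul_sum]
          refine sum_congr rfl fun n _ => ?_
          rw [A_move H, show i + (D - 2 * i) = D - i by omega, hA, P_top H _ (h0 n) _ _ (by omega),
            ← P_top H _ (h0 n) D 0 rfl, hkp, ← chi_add H.two hβ]
          simp [P]
      _ = _ := by
          rw [sum_filter, mul_sum]
          refine sum_congr rfl fun m _ => ?_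
          rw [sum_chi_lin H.two hβ]
          by_cases e : ((g - 1) ^ D) m = 0
          · simp [e, mul_comm]
          · rw [if_neg e, if_neg fun e' => e (hΦ _ fun y => by rw [e']; rfl)]; simp
  refine ⟨#{m | (g - 1) m = 0}, by exact_mod_cast card_pos.2 ⟨0, by simp⟩, ?_⟩
  rw [mul_left_cancel₀ (by exact_mod_cast Fintype.card_ne_zero) h1, G_eq,
    ← sum_fiberwise_of_maps_to (t := {m | ((g - 1) ^ D) m = 0}) (g := fun m => (g - 1) m)
      (fun m _ => by simpa [pow_succ] using h0 m), mul_sum]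
  refine sum_congr rfl fun y hy => ?_
  rw [sum_congr rfl (g := fun _ => chi (A Φ g i y)) fun m hm => by
    rw [← (mem_filter.1 hm).2, ← pow_one (g - 1), A_x H, hkp, one_mul], sum_const, nsmul_eq_mul,
    AddMonoidHom.card_fiber_eq_of_mem_range (g - 1 : End F V) (x := y) (y := 0)
      (hk y (mem_filter.1 hy).2) ⟨0, by simp⟩]

theorem G_chain (hβ : AS β) (H : Hy Φ g) (hΦ : Φ.Nondeg) (hκ : Φ.κ = 1) {D : ℕ}
    (h0 : ∀ m, ((g - 1) ^ (D + 1)) m = 0) (hk : ∀ m, ((g - 1) ^ D) m = 0 → ∃ w, (g - 1) w = m)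
    (j : ℕ) (hA : ∀ i < j, 2 * i ≤ D ∧ ∀ m, A Φ g (D - i) m = 0) :
    ∃ c : ℝ, 0 < c ∧ G (A Φ g j) = c * G Φ.Q := by
  induction j with
  | zero => exact ⟨1, one_pos, (one_mul _).symm⟩
  | succ j ih =>
    obtain ⟨c, h1, h3⟩ := ih fun i hi => hA i (by omega)
    obtain ⟨d, h4, h5⟩ := G_step hβ H hΦ hκ h0 hk (hA j (by omega)).1 (hA j (by omega)).2
    exact ⟨d * c, by positivity, by rw [h5, h3, mul_assoc]⟩

/-- the sign of a block -/
def sg (t : ℕ) : ℝ := if t % 5 = 0 ∨ t % 5 = 2 then -1 else 1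

theorem aniso (hβ : AS β) (h2 : (2 : F) = 0) (x y : F) (h : x ^ 2 * β + x * y + y ^ 2 = 0) :
    x = 0 ∧ y = 0 := by
  by_cases hx : x = 0
  · simpa [hx] using h
  · exact absurd (show (y / x) ^ 2 + y / x = β by field_simp; linear_combination h - x ^ 2 * β * h2)
      (hβ.ne _)

theorem G_std (hβ : AS β) (H : Hy Φ g) (hΦ : Φ.Nondeg) (hκ : Φ.κ = 1) {t : ℕ} {u v : V}
    (hs : Std β Φ g t u v) (h0 : ∀ m, ((g - 1) ^ (sz t + 1)) m = 0)
    (hk : ∀ m, ((g - 1) ^ sz t) m = 0 → ∃ w, (g - 1) w = m)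
    (hm : ∀ m, ∃ (a b : F) (m' : V), (rk t = 1 → b = 0) ∧ m = a • u + b • v + (g - 1) m') :
    0 < sg t * G Φ.Q := by
  haveI : Finite V := Module.finite_of_finite F
  have hne := G_ne H.two hβ hΦ hκ
  have hkp : ∀ i, kp Φ i = 1 := fun i => by cases i <;> simp [kp, hκ]
  have hx : ∀ i m, A Φ g i ((g - 1) m) = A Φ g (i + 1) m := fun i m => by
    rw [← pow_one (g - 1), A_x H, hkp, one_mul]
  have px : ∀ m n a b, P Φ g ((g - 1) m) n a b = P Φ g m n (a + 1) b := fun m n a b => by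
    simp only [P, pow_succ, Module.End.mul_apply]
  have px' : ∀ m n a b, P Φ g m ((g - 1) n) a b = P Φ g m n a (b + 1) := fun m n a b => by
    simp only [P, pow_succ, Module.End.mul_apply]
  have aadd : ∀ i m n, A Φ g i (m + n) = A Φ g i m + A Φ g i n + P Φ g m n i i := fun i m n => by
    simpa [hkp] using A_add H i m n 1
  have pl : ∀ (c d : F) x y z n a b, P Φ g (c • x + d • y + z) n a b =
      c * P Φ g x n a b + d * P Φ g y n a b + P Φ g z n a b := by intros; simp [P]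
  have pr : ∀ (c : F) x n a b, P Φ g n (c • x) a b = c * P Φ g n x a b := by intros; simp [P]
  have pr' : ∀ (c : F) x n a b, P Φ g (c • x) n a b = c * P Φ g x n a b := by intros; simp [P]
  obtain ⟨j, hj⟩ : ∃ j, j = t / 5 := ⟨_, rfl⟩
  by_cases e4 : t % 5 = 4
  · have e1 : sz t = 2 * j + 1 := by simp [sz, e4, hj]
    have e2 : rk t = 2 := by simp [rk, e4]
    rw [e1] at h0 hk
    have h1 : ∀ m, A Φ g (j + 1) m = 0 := fun m => by
      obtain ⟨a, b, m', -, rfl⟩ := hm m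
      rw [aadd, aadd, A_smul H, A_smul H, hx, hs.au, hs.av e2, (T_of_nil H (h0 m')).A (by omega),
        P_zero H _ (h0 _) _ _ (by omega), P_zero H _ (h0 _) _ _ (by omega)]
      simp [tu, tv, e4]
    obtain ⟨c, h3, h4⟩ := G_chain hβ H hΦ hκ h0 hk (j + 1) fun i hi => ⟨by omega, fun m => by
      by_cases e : i = j
      · rw [show 2 * j + 1 - i = j + 1 by omega, h1]
      · exact (T_of_nil H (h0 m)).A (by omega)⟩
    letI := Fintype.ofFinite V
    rw [G_eq] at h4
    simp only [h1, chi_zero, sum_const, card_univ, nsmul_eq_mul, mul_one] at h4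
    have h5 : (0 : ℝ) < Fintype.card V := by exact_mod_cast Fintype.card_pos
    rw [sg, if_neg (by omega), one_mul]
    rw [h4] at h5
    exact pos_of_mul_pos_left (by rwa [mul_comm]) h3.le
  obtain ⟨w, h1, h3⟩ : ∃ w, P Φ g u w j j = 1 ∧ ((∀ m, A Φ g j m = P Φ g m w j j ^ 2 * A Φ g j u +
      P Φ g m w j j * P Φ g m u j j + P Φ g m u j j ^ 2 * A Φ g j w) ∧
      (t % 5 = 2 → A Φ g j w = 1) ∧ (t % 5 = 0 → A Φ g j w = β)) := by
    by_cases e : t % 5 = 3 ∨ t % 5 = 2
    · have e1 : sz t = 2 * j + 1 := by rw [hj]; exact if_pos (by omega)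
      rw [e1] at h0
      obtain ⟨-, a2⟩ := hs.cyc (j := j) (by omega)
      have a3 : P Φ g u u j (j + 1) = 1 := a2
      have a4 : P Φ g u u (j + 1) j = 1 := by rw [P_symm H, a3]
      refine ⟨(g - 1) u, by rw [px', a3], fun m => ?_, fun _ => by rw [hx, a2], by omega⟩
      obtain ⟨a, b, m', hb, rfl⟩ := hm m
      obtain ⟨a', b', m'', hb', rfl⟩ := hm m'
      rw [hb (if_pos e), hb' (if_pos e)]
      simp only [zero_smul, add_zero, map_add, map_smul, ← add_assoc]
      simp only [aadd, A_smul H, hx, pl, pr, pr', px, px', a2, a3, a4, P_self H,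
        (T_of_nil H (h0 m'')).A (show _ < 2 * (j + 1 + 1) by omega),
        P_zero H _ (h0 _) j (j + 1 + 1) (by omega), P_zero H _ (h0 _) (j + 1) (j + 1 + 1) (by omega),
        P_zero H _ (h0 _) (j + 1 + 1) j (by omega), P_zero H _ (h0 _) (j + 1 + 1) (j + 1) (by omega)]
      ring
    · have e1 : sz t = 2 * j := by rw [hj]; exact if_neg (by omega)
      have e2 : rk t = 2 := if_neg e
      have a2 := hs.bt_uv H e2
      rw [e1] at h0 a2
      have a3 : P Φ g u v j j = 1 := by rw [P_top H _ (h0 _) _ _ (by omega), a2]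
      have a4 : P Φ g v u j j = 1 := by rw [P_symm H, a3]
      refine ⟨v, a3, fun m => ?_, by omega, fun e => by simp [hs.av e2, tv, e, hj]⟩
      obtain ⟨a, b, m', -, rfl⟩ := hm m
      simp only [aadd, A_smul H, hx, pl, pr, pr', px, px', a3, a4, P_self H,
        (T_of_nil H (h0 m')).A (show _ < 2 * (j + 1) by omega),
        P_zero H _ (h0 _) j (j + 1) (by omega), P_zero H _ (h0 _) (j + 1) j (by omega)]
      ring
  obtain ⟨c, h4, h5⟩ := G_chain hβ H hΦ hκ h0 hk j fun i hi => ⟨by unfold sz; split_ifs <;> omega,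
    fun m => (T_of_nil H (h0 m)).A (by unfold sz; split_ifs <;> omega)⟩
  have h6 := G_plane H.two hβ (w := w) (fun c m => A_smul H j m c) h3.1
    (fun c m => by simp [P, B_self H.two]) fun c m => by
      have := P_add_left (Φ := Φ) (g := g) u m w c 0 j j
      rw [pow_zero, Module.End.one_apply, add_zero, P_symm H w, h1, mul_one] at this
      exact this
  rw [h5] at h6
  unfold sg
  split_ifs with e
  · have := h6.2 fun x y hxy => by
      rw [hs.au] at hxy
      rcases e with e | e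
      · rw [h3.2.2 e] at hxy
        simp only [tu, e, hj] at hxy
        exact (aniso hβ H.two y x (by simp at hxy; linear_combination hxy)).1
      · rw [h3.2.1 e] at hxy
        simp only [tu, e, hj] at hxy
        exact (aniso hβ H.two x y (by simp at hxy; linear_combination hxy)).2
    have := nonpos_of_mul_nonpos_right this h4
    have := lt_of_le_of_ne this hne
    linarith
  · have := h6.1 (by
      rw [hs.au]
      have : t % 5 = 3 ∨ t % 5 = 1 := by omega
      rcases this with e | e <;> simp [tu, e, hj])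
    have := nonneg_of_mul_nonneg_right this h4
    have := lt_of_le_of_ne this hne.symm
    linarith

theorem P_comap {φ : W →ₗ[F] V} (h1 : ∀ m, φ (h m) = g (φ m)) (u v : W) (a b : ℕ) :
    P (Φ.comap φ) h u v a b = P Φ g (φ u) (φ v) a b := by
  have h3 : ∀ (k : ℕ) m, φ (((h - 1) ^ k) m) = ((g - 1) ^ k) (φ m) :=
    pow_comm_of_comm (fun m => by simp [h1])
  simp only [P, ← h3]; rfl

theorem A_comap {φ : W →ₗ[F] V} (h1 : ∀ m, φ (h m) = g (φ m)) (a : ℕ) (u : W) :
    A (Φ.comap φ) h a u = A Φ g a (φ u) := by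
  cases a with
  | zero => rfl
  | succ a => exact P_comap h1 _ _ _ _

theorem G_blk (hβ : AS β) (H : Hy Φ g) (hκ : Φ.κ = 1) {t : ℕ} {u v : V} (hs : Std β Φ g t u v)
    {φ : (Fin (rk t) → RU F (sz t + 1)) →ₗ[F] V} (h1 : ∀ m, φ (gM F _ _ m) = g (φ m))
    (h2 : ∀ i, φ (Pi.single i 1) = gen _ u v i) (h3 : (Φ.comap φ).Nondeg) :
    0 < sg t * G (Φ.comap φ).Q := by
  have hr := rk_cases t
  have H' : Hy (Φ.comap φ) (gM F (Fin (rk t)) (sz t + 1)) :=
    ⟨H.two, ⟨fun u v => by simp [Form.comap, h1, H.pres.B],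
      fun u => by simp [Form.comap, h1, H.pres.Q]⟩, H.kap⟩
  have h0 : ∀ m, ((gM F (Fin (rk t)) (sz t + 1) - 1) ^ (sz t + 1)) m = 0 := fun m => by
    rw [gM_nil]; rfl
  have e0 : φ (Pi.single ⟨0, by omega⟩ 1) = u := h2 _
  have e1 : rk t = 2 → φ (Pi.single ⟨rk t - 1, by omega⟩ 1) = v := fun e => by
    rw [h2, gen, if_neg (by simp [e])]
  refine G_std hβ H' h3 hκ (u := Pi.single ⟨0, by omega⟩ 1) (v := Pi.single ⟨rk t - 1, by omega⟩ 1)
    ⟨h0 _, h0 _, fun a => by rw [A_comap h1, e0, hs.au], fun e a => by rw [A_comap h1, e1 e, hs.av e],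
      fun e d => by rw [E, P_comap h1, e0, e1 e, ← E, hs.e e]⟩ h0 gM_ker fun m => ?_
  obtain ⟨a, m', rfl⟩ := gM_split m
  have key : ∀ (r : ℕ) (hr : r = 1 ∨ r = 2) (a : Fin r → F) (e : Fin r → Fin (rk t) → RU F (sz t + 1)),
      ∃ x y : F, (r = 1 → y = 0) ∧
        ∑ i, a i • e i = x • e ⟨0, by omega⟩ + y • e ⟨r - 1, by omega⟩ := by
    rintro r (rfl | rfl) a e
    · exact ⟨a 0, 0, by simp, by simp⟩
    · exact ⟨a 0, a 1, by simp, by simp⟩
  obtain ⟨x, y, h4, h5⟩ := key _ hr a fun i => Pi.single i 1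
  exact ⟨x, y, m', h4, by rw [h5]⟩

end

variable {F : Type u} [Field F] [Finite F] {β : F} {s : Multiset F[X]}

theorem G_dec_aux (hβ : AS β) (L : List ℕ) : ∀ {V : Type v} [AddCommGroup V] [Module F V]
    [FiniteDimensional F V] {Φ : Form (RingHom.id F) V} {g : End F V}, Φ.Nondeg → Φ.κ = 1 → Hy Φ g →
    Dec β s L Φ g → ∃ (W : Type v) (_ : AddCommGroup W) (_ : Module F W) (_ : FiniteDimensional F W)
      (Ψ : Form (RingHom.id F) W) (h : End F W), Ψ.Nondeg ∧ Ψ.κ = 1 ∧ Hy Ψ h ∧ Dec β s [] Ψ h ∧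
      0 < (L.map sg).prod * G Φ.Q * G Ψ.Q := by
  induction L with
  | nil =>
    intro V _ _ _ Φ g hΦ hκ H d
    exact ⟨V, _, _, inferInstance, Φ, g, hΦ, hκ, H, d, by
      simpa using mul_self_pos.2 (G_ne H.two hβ hΦ hκ)⟩
  | cons t L ih =>
    intro V _ _ _ Φ g hΦ hκ H d
    obtain ⟨u, v, φ, S, hS, a1, a2, a3, a4, a5, a6, a7⟩ := d
    obtain ⟨W, _, _, _, Ψ, h, b1, b2, b3, b4, b5⟩ := ih a5 hκ (H.restrict hS) a7
    refine ⟨W, _, _, inferInstance, Ψ, h, b1, b2, b3, b4, ?_⟩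
    rw [(G_iso a6).symm.trans (G_prod (Φ := Φ.comap φ) (Ψ := Φ.restrict S) H.two hβ rfl rfl),
      List.map_cons, List.prod_cons]
    exact (mul_pos (G_blk hβ H hκ a1 a2 a3 a4) b5).trans_eq (by ring)

theorem sg_dec (hβ : AS β) {V : Type v} [AddCommGroup V] [Module F V] [FiniteDimensional F V]
    {Φ : Form (RingHom.id F) V} {g h : End F V} (hΦ : Φ.Nondeg) (hκ : Φ.κ = 1) (H : Hy Φ g)
    (H' : Hy Φ h) {L L' : List ℕ} (d : Dec β s L Φ g) (d' : Dec β s L' Φ h) :
    (L.map sg).prod ≠ -(L'.map sg).prod := by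
  obtain ⟨W, _, _, _, Ψ, k, b1, b2, b3, b4, b5⟩ := G_dec_aux hβ L hΦ hκ H d
  obtain ⟨W', _, _, _, Ψ', k', c1, c2, c3, c4, c5⟩ := G_dec_aux hβ L' hΦ hκ H' d'
  rw [← G_iso (iso_of_dec [] b1 c1 (b2.trans c2.symm) b3 c3 b4 c4)] at c5
  intro e
  rw [e] at b5
  linarith

/-- the partner of a block type -/
def fl (t : ℕ) : ℕ := if t % 5 = 0 ∨ t % 5 = 2 then t + 1 else t - 1

/-- the least block type that carries a sign -/
noncomputable def mn (μ : Multiset ℕ) : ℕ := sInf {t | t ∈ μ ∧ t % 5 ≠ 4}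

/-- changing the lowest sign -/
noncomputable def flip (μ : Multiset ℕ) : Multiset ℕ := fl (mn μ) ::ₘ μ.erase (mn μ)

theorem mn_spec {μ : Multiset ℕ} (h : ∃ t ∈ μ, t % 5 ≠ 4) :
    (mn μ ∈ μ ∧ mn μ % 5 ≠ 4) ∧ ∀ t, t < mn μ → t % 5 ≠ 4 → μ.count t = 0 :=
  ⟨Nat.sInf_mem h, fun t ht h' => Multiset.count_eq_zero.2 fun e => Nat.notMem_of_lt_sInf ht ⟨e, h'⟩⟩

theorem count_flip {μ : Multiset ℕ} (h : mn μ ∈ μ) (t : ℕ) : (flip μ).count t +
    (if t = mn μ then 1 else 0) = μ.count t + if t = fl (mn μ) then 1 else 0 := by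
  have := congrArg (Multiset.count t) (Multiset.cons_erase h)
  simp only [flip, Multiset.count_cons] at this ⊢
  omega

variable {n : ℕ} {x : Multiset ℕ × Multiset F[X]}

theorem Cn.flip (h : Cn true n x) (h1 : ∃ t ∈ x.1, t % 5 ≠ 4) : Cn true n (flip x.1, x.2) := by
  obtain ⟨⟨h2, h3⟩, h4⟩ := mn_spec h1
  have h5 := count_flip h2
  have h6 := Multiset.count_pos.2 h2
  obtain ⟨k, hk⟩ : ∃ k, k = mn x.1 / 5 := ⟨_, rfl⟩
  have h7 : (mn x.1 = 5 * k ∧ fl (mn x.1) = 5 * k + 1) ∨ (mn x.1 = 5 * k + 1 ∧ fl (mn x.1) = 5 * k) ∨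
      (mn x.1 = 5 * k + 2 ∧ fl (mn x.1) = 5 * k + 3) ∨
      (mn x.1 = 5 * k + 3 ∧ fl (mn x.1) = 5 * k + 2) := by
    unfold fl; split_ifs <;> omega
  have h8 : ∀ t, t / 5 ≠ k → (Ev.flip x.1).count t = x.1.count t := fun t ht => by
    have := h5 t
    rw [if_neg (by omega), if_neg (by omega)] at this
    omega
  have a0 := h5 (5 * k)
  have a1 := h5 (5 * k + 1)
  have a2 := h5 (5 * k + 2)
  have a3 := h5 (5 * k + 3)
  have b0 := h4 (5 * k)
  have b1 := h4 (5 * k + 1)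
  have b2 := h4 (5 * k + 2)
  have c1 := h.f1 k
  have c2 := h.f2 k
  have c4 := h.f4 k
  have key : (Ev.flip x.1).count (5 * k + 2) + (Ev.flip x.1).count (5 * k) ≤ 1 ∧
      ((Ev.flip x.1).count (5 * k + 2) = 0 ∨ (Ev.flip x.1).count (5 * k + 1) = 0) ∧
      (Ev.flip x.1).count (5 * k + 3) + (Ev.flip x.1).count (5 * k + 2) =
        x.1.count (5 * k + 3) + x.1.count (5 * k + 2) := by
    rcases h7 with ⟨e, e'⟩ | ⟨e, e'⟩ | ⟨e, e'⟩ | ⟨e, e'⟩ <;> rw [e'] at a0 a1 a2 a3 <;>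
      rw [e] at a0 a1 a2 a3 b0 b1 b2 h6 <;> split_ifs at a0 a1 a2 a3 <;> omega
  refine ⟨fun j => ?_, fun j => ?_, fun j => ?_, fun j => ?_, by simp, h.good, ?_⟩
  · by_cases e : j = k
    · exact e ▸ key.1
    · simp only [h8 _ (show (5 * j + 2) / 5 ≠ k by omega), h8 _ (show (5 * j) / 5 ≠ k by omega)]
      exact h.f1 j
  · by_cases e : j = k
    · exact e ▸ key.2.1
    · simp only [h8 _ (show (5 * j + 2) / 5 ≠ k by omega), h8 _ (show (5 * j + 1) / 5 ≠ k by omega)]
      exact h.f2 j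
  · dsimp only
    by_cases e : j + 1 = k
    · right
      simp only [h8 _ (show (5 * j + 2) / 5 ≠ k by omega), h8 _ (show (5 * j + 3) / 5 ≠ k by omega)]
      rw [h4 _ (by omega) (by omega), h4 _ (by omega) (by omega)]
    · simp only [h8 _ (show (5 * (j + 1) + 2) / 5 ≠ k by omega),
        h8 _ (show (5 * (j + 1)) / 5 ≠ k by omega)]
      by_cases e : j = k
      · subst e; rw [key.2.2]; exact h.f3 j
      · simp only [h8 _ (show (5 * j + 2) / 5 ≠ k by omega),
          h8 _ (show (5 * j + 3) / 5 ≠ k by omega)]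
        exact h.f3 j
  · by_cases e : j = k
    · subst e; rw [key.2.2]; exact h.f4 j
    · simp only [h8 _ (show (5 * j + 2) / 5 ≠ k by omega), h8 _ (show (5 * j + 3) / 5 ≠ k by omega)]
      exact h.f4 j
  · rw [← h.dim]
    conv_rhs => rw [← Multiset.cons_erase h2]
    simp only [Ev.flip, Multiset.map_cons, Multiset.sum_cons]
    congr 2
    rcases h7 with ⟨e, e'⟩ | ⟨e, e'⟩ | ⟨e, e'⟩ | ⟨e, e'⟩ <;> rw [e', e] <;> unfold wd rk sz <;>
      split_ifs <;> omega

theorem Cn.mn_flip (h : Cn true n x) (h1 : ∃ t ∈ x.1, t % 5 ≠ 4) : mn (Ev.flip x.1) = fl (mn x.1) := by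
  obtain ⟨⟨h2, h3⟩, h4⟩ := mn_spec h1
  have h5 : fl (mn x.1) % 5 ≠ 4 := by unfold fl; split_ifs <;> omega
  obtain ⟨⟨a2, a3⟩, a4⟩ := mn_spec (μ := Ev.flip x.1) ⟨_, Multiset.mem_cons_self _ _, h5⟩
  have a5 := Multiset.count_pos.2 a2
  have a6 := Multiset.count_pos.2 (show fl (mn x.1) ∈ Ev.flip x.1 from Multiset.mem_cons_self _ _)
  have a7 := mt (a4 (fl (mn x.1)) · h5) a6.ne'
  have a8 := count_flip h2 (mn (Ev.flip x.1))
  have a9 := h4 (mn (Ev.flip x.1))
  have b1 := h.f1 (mn x.1 / 5)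
  by_contra hc
  rw [if_neg hc] at a8
  have b2 : mn (Ev.flip x.1) = mn x.1 ∧ (mn x.1 % 5 = 0 ∨ mn x.1 % 5 = 2) := by
    unfold fl at a7 hc; split_ifs at a7 hc a8 <;> omega
  rw [if_pos b2.1] at a8
  rw [b2.1] at a5 a8
  rcases b2.2 with e | e
  · rw [show 5 * (mn x.1 / 5) = mn x.1 by omega] at b1; omega
  · rw [show 5 * (mn x.1 / 5) + 2 = mn x.1 by omega] at b1; omega

theorem flip_inj {y : Multiset ℕ × Multiset F[X]} (h : Cn true n x) (h1 : ∃ t ∈ x.1, t % 5 ≠ 4)
    (h' : Cn true n y) (h1' : ∃ t ∈ y.1, t % 5 ≠ 4) (e : flip x.1 = flip y.1) : x.1 = y.1 := by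
  have a1 := h.mn_flip h1
  rw [e, h'.mn_flip h1'] at a1
  obtain ⟨⟨h2, h3⟩, -⟩ := mn_spec h1
  obtain ⟨⟨h2', h3'⟩, -⟩ := mn_spec h1'
  have a2 : mn y.1 = mn x.1 := by unfold fl at a1; split_ifs at a1 <;> omega
  rw [flip, flip, a2, Multiset.cons_inj_right] at e
  rw [← Multiset.cons_erase h2, e, ← a2, Multiset.cons_erase h2']

theorem sg_flip {μ : Multiset ℕ} (h1 : ∃ t ∈ μ, t % 5 ≠ 4) :
    ((flip μ).map sg).prod = -(μ.map sg).prod := by
  obtain ⟨⟨h2, h3⟩, -⟩ := mn_spec h1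
  conv_rhs => rw [← Multiset.cons_erase h2]
  simp only [flip, Multiset.map_cons, Multiset.prod_cons, ← neg_mul]
  congr 1
  unfold sg fl
  split_ifs <;> first | omega | simp

theorem ce_four {μ : Multiset ℕ} (h : ¬ ∃ t ∈ μ, t % 5 ≠ 4) (N : ℕ) :
    ce μ N = List.replicate N (0, 0) := by
  have h1 : ∀ t, t % 5 ≠ 4 → μ.count t = 0 := fun t ht => Multiset.count_eq_zero.2 fun e => h ⟨t, e, ht⟩
  induction N with
  | zero => rfl
  | succ N ih =>
    rw [ce, ih, h1 _ (by omega), h1 _ (by omega), h1 _ (by omega), List.replicate_succ]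

theorem card_cl_o {V : Type v} [AddCommGroup V] [Module F V] [FiniteDimensional F V]
    {Φ : Form (RingHom.id F) V} (h2 : (2 : F) = 0) (hΦ : Φ.Nondeg) (hκ : Φ.κ = 1)
    (hV : finrank F V = 2 * n) : Nat.card (ConjClasses Φ.O) ≤ 15 * Nat.card F ^ n := by
  classical
  haveI := finite_O Φ
  obtain ⟨β, hβ⟩ := exists_AS h2
  obtain ⟨D, h1, h3, h4⟩ := exists_dat (b := true) h2 hβ hΦ (Or.inr hκ) (by simp) hV
  have a1 := card_cn' h2 (α := ConjClasses Φ.O ⊕ {C : ConjClasses Φ.O // ∃ t ∈ (D C).1, t % 5 ≠ 4})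
    (D := Sum.elim D fun C => (flip (D C.1).1, (D C.1).2)) (Function.Injective.sumElim h1
      (fun C C' e => Subtype.ext (h1 (Prod.ext (flip_inj (h3 _) C.2 (h3 _) C'.2
        (congrArg Prod.fst e)) (congrArg Prod.snd e :)))) fun C C' e => by
      obtain ⟨L, b1, b2⟩ := h4 C
      obtain ⟨L', c1, c2⟩ := h4 C'.1
      have e1 := sg_flip C'.2
      rw [← show (D C).1 = flip (D C'.1).1 from congrArg Prod.fst e, b1, c1] at e1
      rw [show (D C).2 = (D C'.1).2 from (congrArg Prod.snd e :)] at b2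
      exact sg_dec hβ hΦ hκ ⟨h2, pres_O _, Or.inr hκ⟩ ⟨h2, pres_O _, Or.inr hκ⟩ b2 c2
        (by simpa using e1))
    (by rintro (C | C); exacts [h3 C, (h3 C.1).flip C.2]) (by norm_num) zn_true
  have a2 := card_cn h2 (α := {C : ConjClasses Φ.O // ¬ ∃ t ∈ (D C).1, t % 5 ≠ 4})
    (D := fun C => D C.1) (h1.comp Subtype.val_injective) (fun C => h3 C.1)
    (· = List.replicate (14 + 2 * n) (0, 0)) (fun C => ce_four C.2 _) zero_le_one fun S hS =>
      (sum_le_sum_of_subset_of_nonneg (t := {List.replicate (14 + 2 * n) (0, 0)})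
        (fun l hl => mem_singleton.2 (hS l hl)) fun _ _ _ => by positivity).trans (by
        rw [sum_singleton]; exact pow_le_one₀ (by norm_num) (by norm_num))
  have a3 := Nat.card_congr (Equiv.sumCompl fun C : ConjClasses Φ.O => ∃ t ∈ (D C).1, t % 5 ≠ 4)
  rw [Nat.card_sum] at a1 a3
  have a4 := congrArg (Nat.cast : ℕ → ℝ) a3
  have h5 : (0 : ℝ) ≤ (Nat.card F : ℝ) ^ n := by positivity
  have : (Nat.card (ConjClasses Φ.O) : ℝ) ≤ 15 * (Nat.card F : ℝ) ^ n := by
    push_cast at a1 a4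
    linarith
  exact_mod_cast this

end H22.Ev
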