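import Cfsg.Agent.H22.EvF

/-!
Isometries in characteristic two, VII: the Arf invariant of a free isometry; the lower bound.
-/

set_option autoImplicit false
set_option linter.unusedVariables false
set_option linter.unusedSectionVars false

namespace H22.Ev

open Module Polynomial H16 H23 H23.Form H14.Wall Finset

section

variable {F : Type*} [Field F] {m : ℕ}

/-- the second elementary symmetric function of a matrix -/
def e2 (A : Matrix (Fin m) (Fin m) F) : F := ∑ i, ∑ j ∈ Ioi i, (A i i * A j j - A i j * A j i)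

theorem e2_add (A B : Matrix (Fin m) (Fin m) F) :
    e2 (A + B) = e2 A + e2 B + (A.trace * B.trace - (A * B).trace) := by
  have h1 := sum_sum_Ioi_add_eq_sum_sum_off_diag fun i j => A i i * B j j - A i j * B j i
  have h2 : ∀ i, ∑ j ∈ ({i} : Finset (Fin m))ᶜ, (A j j * B i i - A j i * B i j) =
      ∑ j, (A j j * B i i - A j i * B i j) := fun i => by
    rw [← sum_compl_add_sum {i}]; simp
  simp only [h2] at h1
  have h3 : A.trace * B.trace - (A * B).trace = ∑ i, ∑ j, (A j j * B i i - A j i * B i j) := by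
    rw [sum_comm]
    simp only [Matrix.trace, Matrix.diag, Matrix.mul_apply, sum_mul_sum, ← sum_sub_distrib]
  rw [h3, ← h1]
  simp only [e2, ← sum_add_distrib, Matrix.add_apply]
  exact sum_congr rfl fun i _ => sum_congr rfl fun j _ => by ring

theorem coeff_two (A : Matrix (Fin m) (Fin m) F) :
    (Matrix.det (1 + (X : F[X]) • A.map C)).coeff 2 = e2 A := by
  rw [Matrix.coeff_det_one_add_X_smul_eq_sum_minors, e2, sum_sigma']
  refine (sum_bij (fun p _ => {p.1, p.2}) (fun p hp => ?_) (fun p hp q hq e => ?_) (fun s hs => ?_)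
    fun p hp => ?_).symm
  · simp at hp
    simp [card_pair hp.ne]
  · obtain ⟨a, b⟩ := p
    obtain ⟨c, d⟩ := q
    simp at hp hq
    have h1 : a ∈ ({c, d} : Finset _) := by simp [← show ({a, b} : Finset _) = _ from e]
    have h2 : b ∈ ({c, d} : Finset _) := by simp [← show ({a, b} : Finset _) = _ from e]
    have h3 : c ∈ ({a, b} : Finset _) := by simp [show ({a, b} : Finset _) = _ from e]
    simp only [mem_insert, mem_singleton] at h1 h2 h3
    have : a = c ∧ b = d := by omega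
    rw [this.1, this.2]
  · obtain ⟨a, b, h, rfl⟩ := card_eq_two.1 (mem_powersetCard.1 hs).2
    rcases lt_or_gt_of_ne h with e | e
    · exact ⟨⟨a, b⟩, by simpa using e, rfl⟩
    · exact ⟨⟨b, a⟩, by simpa using e, pair_comm _ _⟩
  · obtain ⟨a, b⟩ := p
    simp at hp
    let e : Fin 2 ≃ ({a, b} : Finset (Fin m)) := Equiv.ofBijective
      (fun i => ⟨![a, b] i, by fin_cases i <;> simp⟩) ⟨fun i j h => by
        have := hp.ne
        fin_cases i <;> fin_cases j <;> simp_all, by
        rintro ⟨x, hx⟩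
        rcases mem_insert.1 hx with rfl | h
        · exact ⟨0, rfl⟩
        · exact ⟨1, Subtype.ext (mem_singleton.1 h).symm⟩⟩
    rw [← Matrix.det_submatrix_equiv_self e, Matrix.det_fin_two]
    rfl

theorem e2_inv (h2 : (2 : F) = 0) {G T : Matrix (Fin m) (Fin m) F} (h : (G - 1) * T = 1) :
    G.charpoly.eval 1 * e2 T = (G.charpoly.comp (X + C 1)).coeff 2 := by
  have h1 : C (G - 1).det * Matrix.det (1 + (X : F[X]) • T.map C) = G.charpoly.comp (X + C 1) := by
    rw [← Matrix.charpoly_sub_scalar, Matrix.charpoly, RingHom.map_det, ← Matrix.det_mul]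
    congr 1
    rw [mul_add, mul_one, Matrix.mul_smul, RingHom.mapMatrix_apply, ← Matrix.map_mul, h]
    ext i j : 1
    have : (2 : F[X]) = 0 := by rw [← map_ofNat C, h2, map_zero]
    by_cases e : i = j
    · subst e; simp; linear_combination (C (G i i) - 1) * this
    · simp [e]; linear_combination C (G i j) * this
  have h3 := congrArg (coeff · 0) h1
  simp only [coeff_C_mul, Matrix.coeff_det_one_add_X_smul_eq_sum_minors] at h3
  rw [← h1, coeff_C_mul, coeff_two]
  simp [coeff_zero_eq_eval_zero, eval_comp] at h3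
  rw [h3]

variable {V : Type*} [AddCommGroup V] [Module F V] [FiniteDimensional F V]
  {Φ : Form (RingHom.id F) V} (b : Basis (Fin m) F V)

/-- the second elementary symmetric function of an endomorphism -/
noncomputable def E2 (T : End F V) : F := e2 (LinearMap.toMatrix b b T)

theorem E2_add (S T : End F V) : E2 b (S + T) = E2 b S + E2 b T +
    (LinearMap.trace F V S * LinearMap.trace F V T - LinearMap.trace F V (S * T)) := by
  simp only [E2, map_add, e2_add, LinearMap.trace_eq_matrix_trace F b, LinearMap.toMatrix_mul]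

theorem E2_smulRight (f : V →ₗ[F] F) (x : V) : E2 b (f.smulRight x) = 0 := by
  unfold E2 e2
  refine sum_eq_zero fun i _ => sum_eq_zero fun j _ => ?_
  simp only [LinearMap.toMatrix_apply, LinearMap.smulRight_apply, map_smul, Finsupp.smul_apply,
    smul_eq_mul]
  ring

theorem E2_step (h2 : (2 : F) = 0) {T : End F V} (hT : ∀ u v, Φ.B u (T v) + Φ.B (T u) v = Φ.B u v)
    (x y : V) : E2 b (T + ((Φ.B y).smulRight x + (Φ.B x).smulRight y)) =
      E2 b T + (Φ.B x y ^ 2 + Φ.B x y) := by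
  have h1 : ∀ (S : End F V) (f : V →ₗ[F] F) (x : V), S * f.smulRight x = f.smulRight (S x) :=
    fun S f x => by ext; simp
  rw [E2_add, E2_add, E2_smulRight, E2_smulRight, mul_add]
  simp only [h1, map_add, LinearMap.trace_smulRight, LinearMap.smulRight_apply, map_smul,
    B_self h2, B_symm h2 x y, smul_eq_mul]
  have := hT x y
  rw [← B_symm h2 (T x)] at this
  linear_combination -this + (LinearMap.trace F V T * Φ.B x y - Φ.B x y) * h2

theorem E2_alt (h2 : (2 : F) = 0) (hΦ : Φ.Nondeg) (k : ℕ) : ∀ {T N : End F V},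
    finrank F V < finrank F (LinearMap.ker N) + k →
    (∀ u v, Φ.B u (T v) + Φ.B (T u) v = Φ.B u v) → (∀ v, Φ.B v (N v) = 0) →
    ∃ c, E2 b (T + N) = E2 b T + (c ^ 2 + c) := by
  induction k with
  | zero => intro T N h; have := (LinearMap.ker N).finrank_le; omega
  | succ k ih =>
    intro T N hk hT hN
    by_cases h0 : N = 0
    · exact ⟨0, by simp [h0]⟩
    obtain ⟨v, hv⟩ : ∃ v, N v ≠ 0 := by
      by_contra hc
      push Not at hc
      exact h0 (LinearMap.ext hc)
    obtain ⟨u, hu⟩ := hΦ.exists_ne hv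
    have h1 : ∀ u v, Φ.B (N u) v = Φ.B u (N v) := fun u v => by
      have := hN (u + v)
      simp only [map_add, LinearMap.add_apply, hN, B_symm h2 (N u)] at this
      linear_combination this - Φ.B u (N v) * h2
    set M : End F V := (Φ.B (N u)).smulRight (N v) + (Φ.B (N v)).smulRight (N u) with hM
    have h3 : ∀ w, M w = Φ.B (N u) w • N v + Φ.B (N v) w • N u := fun w => rfl
    obtain ⟨c, hc⟩ := ih (T := T + M) (N := N - M) (by
      have : LinearMap.ker N < LinearMap.ker (N - M) := by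
        refine lt_of_le_of_ne (fun w hw => ?_) fun e => hv ?_
        · simp [h3, h1, LinearMap.mem_ker.1 hw]
        · rw [← LinearMap.mem_ker, e, LinearMap.mem_ker, LinearMap.sub_apply, h3, h1 u,
            B_symm h2 (N v), hu, h1, hN]
          simp
      have := Submodule.finrank_lt_finrank_of_lt this
      omega) (fun x y => by
      simp only [LinearMap.add_apply, h3, map_add, map_smul, LinearMap.map_smulₛₗ,
        LinearMap.smul_apply, smul_eq_mul, RingHom.id_apply, B_symm h2 (N u) x, B_symm h2 (N v) x]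
      linear_combination hT x y + (Φ.B (N u) y * Φ.B (N v) x + Φ.B (N v) y * Φ.B (N u) x) * h2)
      fun x => by
      simp only [LinearMap.sub_apply, h3, map_add, map_sub, map_smul, smul_eq_mul, hN,
        B_symm h2 (N u) x, B_symm h2 (N v) x]
      linear_combination -(Φ.B (N u) x * Φ.B (N v) x) * h2
    rw [add_add_sub_cancel, hM, E2_step b h2 hT] at hc
    exact ⟨c + Φ.B (N v) (N u), by rw [hc]; linear_combination -(c * Φ.B (N v) (N u)) * h2⟩

theorem exists_inv (hΦ : Φ.Nondeg) (hκ : Φ.κ = 1) {g : End F V} (H : Hy Φ g)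
    (h : g.charpoly.eval 1 ≠ 0) : ∃ T : End F V, (∀ v, Φ.B v (T v) = Φ.Q v) ∧
      g.charpoly.eval 1 * E2 b T = (g.charpoly.comp (X + C 1)).coeff 2 := by
  have h1 : IsUnit (g - 1) := by
    rw [LinearMap.eval_charpoly, ← isUnit_iff_ne_zero, ← LinearMap.isUnit_iff_isUnit_det] at h
    simpa using h.neg
  obtain ⟨T, hT⟩ := h1.exists_right_inv
  refine ⟨T, fun v => ?_, ?_⟩
  · have := A_x H 0 1 (T v)
    simp only [A, kp, P, hκ, pow_one, pow_zero, zero_add, ← Module.End.mul_apply, hT,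
      Module.End.one_apply, one_mul] at this
    rw [this, B_symm H.two]
  · rw [← LinearMap.charpoly_toMatrix g b]
    refine e2_inv H.two ?_
    rw [← LinearMap.toMatrix_one b, ← map_sub, ← LinearMap.toMatrix_mul, hT]

theorem arf_free (hΦ : Φ.Nondeg) (hκ : Φ.κ = 1) {g h : End F V} (H : Hy Φ g) (H' : Hy Φ h)
    (h0 : g.charpoly.eval 1 ≠ 0) (h1 : h.charpoly.eval 1 = g.charpoly.eval 1) :
    ∃ c, (h.charpoly.comp (X + C 1)).coeff 2 =
      (g.charpoly.comp (X + C 1)).coeff 2 + g.charpoly.eval 1 * (c ^ 2 + c) := by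
  let b := Module.finBasis F V
  obtain ⟨T, a1, a2⟩ := exists_inv b hΦ hκ H h0
  obtain ⟨S, b1, b2⟩ := exists_inv b hΦ hκ H' (h1 ▸ h0)
  obtain ⟨c, hc⟩ := E2_alt b H.two hΦ (finrank F V + 1) (T := T) (N := S - T) (by omega)
    (fun u v => by
      have := a1 (u + v)
      simp only [map_add, LinearMap.add_apply, a1, Q_add, hκ, B_symm H.two (T u)] at this
      linear_combination this) fun v => by simp [a1, b1]
  exact ⟨c, by rw [← a2, ← b2, h1, ← mul_add, ← hc, add_sub_cancel]⟩

/-- changing the Arf invariant -/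
noncomputable def tw2 (β : F) (m : ℕ) (u : F[X]) : F[X] :=
  u + C (β * u.eval 1) * (X ^ (m + 2) + X ^ m)

theorem tw2_one (h2 : (2 : F) = 0) (β : F) (m : ℕ) (u : F[X]) : (tw2 β m u).eval 1 = u.eval 1 := by
  simp [tw2, one_add_one_eq_two, h2]

theorem tw2_inj (h2 : (2 : F) = 0) (β : F) (m : ℕ) : Function.Injective (tw2 β m) := fun u v h => by
  have := congrArg (eval 1) h
  rw [tw2_one h2, tw2_one h2] at this
  rwa [tw2, tw2, this, add_left_inj] at h

theorem tw2_coeff (h2 : (2 : F) = 0) (β : F) (m : ℕ) (u : F[X]) :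
    ((tw2 β m u).comp (X + C 1)).coeff 2 = (u.comp (X + C 1)).coeff 2 + u.eval 1 * β := by
  have h3 : (2 : F[X]) = 0 := by rw [← map_ofNat C, h2, map_zero]
  have h1 : ((X : F[X]) ^ (m + 2) + X ^ m).comp (X + C 1) = (X + 1) ^ m * X ^ 2 := by
    simp only [add_comp, pow_comp, X_comp, C_1]
    linear_combination (X + 1) ^ m * (X + 1) * h3
  rw [tw2, add_comp, mul_comp, C_comp, h1, coeff_add, coeff_C_mul, coeff_mul_X_pow' ]
  simp [coeff_zero_eq_eval_zero, mul_comm]

theorem Pal.tw2 {m : ℕ} {u : F[X]} (hu : Pal (m + 2) u) (β : F) : Pal (m + 2) (tw2 β (m + 1) u) := by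
  obtain ⟨⟨h1, h3⟩, h4, h5⟩ := hu
  have e1 : (C (β * u.eval 1) * (X ^ (m + 1 + 2) + X ^ (m + 1)) : F[X]).natDegree < u.natDegree := by
    rw [h3]
    refine lt_of_le_of_lt (b := m + 3) ?_ (by omega)
    compute_degree
  have e2 := natDegree_add_eq_left_of_natDegree_lt e1
  have e3 : (Ev.tw2 β (m + 1) u).coeff 0 = 1 := by simp [Ev.tw2, h4]
  refine ⟨⟨h1.add_of_left (degree_lt_degree e1), e2.trans h3⟩, e3, ?_⟩
  rw [rev, h4, inv_one, C_1, mul_one, reverse] at h5
  rw [rev, e3, inv_one, C_1, mul_one, reverse, Ev.tw2, e2, reflect_add, h5, reflect_C_mul,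
    reflect_add, reflect_monomial, reflect_monomial, h3, revAt_le (by omega), revAt_le (by omega),
    show 2 * (m + 2) - (m + 1 + 2) = m + 1 by omega,
    show 2 * (m + 2) - (m + 1) = m + 1 + 2 by omega]
  ring

end

variable {F V : Type*} [Field F] [Finite F] [AddCommGroup V] [Module F V] [FiniteDimensional F V]
  {Φ : Form (RingHom.id F) V}

theorem charpoly_or (h2 : (2 : F) = 0) (hΦ : Φ.Nondeg) (hκ : Φ.κ = 1) {m : ℕ}
    (hV : finrank F V = 2 * (m + 2)) {β : F} (hβ : AS β) {u : F[X]} (hu : Pal (m + 2) u) :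
    (∃ g, Pres Φ g ∧ g.charpoly = u) ∨ ∃ g, Pres Φ g ∧ g.charpoly = tw2 β (m + 1) u := by
  have key : ∀ u, Pal (m + 2) u → (∃ g, Pres Φ g ∧ g.charpoly = u) ∨
      ∃ (Θ : Form (RingHom.id F) V) (g : End F V), Θ.Nondeg ∧ Θ.κ = 1 ∧ Pres Θ g ∧ g.charpoly = u ∧
        u.eval 1 ≠ 0 ∧ ¬ (IsPlus Θ (m + 2) ↔ IsPlus Φ (m + 2)) := by
    intro u hu
    obtain ⟨t, a, k, h1, h3, h4, h5, h6, h7, rfl⟩ := pal_decomp2 h2 hu
    obtain ⟨Q, g, a1, a2, a3⟩ := exists_quad_free h1 h3 h4 h5
    by_cases ha : a = 0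
    · subst ha
      obtain ⟨Θ, g, b1, -, b3, b4, b5⟩ := exists_transport (W := V) a1 a2 (by simp; omega)
      have b6 : g.charpoly = (t + Multiset.replicate (2 * 0) (X - C 1)).prod := by
        simp [charpoly_eq_prod_ed, b5, a3]
      by_cases e : IsPlus Θ (m + 2) ↔ IsPlus Φ (m + 2)
      · obtain ⟨k, h12, h13⟩ := exists_pres_of_iso (iso_of_isPlus_iff b1 b3 hΦ hκ hV hV e) b4
        exact Or.inl ⟨k, h12, by rw [← h13.sim.charpoly, b6]⟩
      · refine Or.inr ⟨Θ, g, b1, b3, b4, b6, fun h => ?_, e⟩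
        obtain ⟨a, b, hab⟩ : IsCoprime (X ^ 2 - 1) t.prod :=
          Multiset.prod_induction _ _ (fun _ _ => IsCoprime.mul_right) isCoprime_one_right h5
        simp only [mul_zero, Multiset.replicate_zero, add_zero] at h
        simpa [h] using congrArg (eval 1) hab
    · obtain ⟨h, b1, b2⟩ := exists_ext_even a1 rfl hΦ hκ (k := k) (by simpa using h6) hV (by omega) a2
      exact Or.inl ⟨h, b1, by
        rw [charpoly_eq_prod_ed, b2, a3, show 2 * (m + 2) - 2 * k = 2 * a by omega]⟩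
  rcases key u hu with h | ⟨Θ, g, h1, h3, h4, rfl, h5, h6⟩
  · exact Or.inl h
  rcases key _ (Pal.tw2 hu β) with h | ⟨Θ', g', h1', h3', h4', h7, h5', h6'⟩
  · exact Or.inr h
  obtain ⟨k, h8, h9⟩ := exists_pres_of_iso (iso_of_isPlus_iff h1' h3' h1 h3 hV hV (by tauto)) h4'
  rw [h9.sim.charpoly] at h7
  obtain ⟨c, hc⟩ := arf_free h1 h3 ⟨h2, h4, Or.inr h3⟩ ⟨h2, h8, Or.inr h3⟩ h5 (by rw [h7, tw2_one h2])
  rw [h7, tw2_coeff h2, add_right_inj, mul_right_inj' h5] at hc
  exact absurd hc.symm (hβ.ne c)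

theorem le_card_cl_o (h2 : (2 : F) = 0) (hΦ : Φ.Nondeg) (hκ : Φ.κ = 1) {m : ℕ}
    (hV : finrank F V = 2 * m) (hm : 2 ≤ m) : Nat.card F ^ m ≤ 2 * Nat.card (ConjClasses Φ.O) := by
  haveI := finite_O Φ
  obtain ⟨m, rfl⟩ := Nat.exists_eq_add_of_le' hm
  obtain ⟨β, hβ⟩ := exists_AS h2
  have key : ∀ u : {u : F[X] // Pal (m + 2) u}, ∃ x : ConjClasses Φ.O ⊕ ConjClasses Φ.O,
      x.elim (fun K => K.out.1.toLinearMap.charpoly = u.1) fun K =>
        K.out.1.toLinearMap.charpoly = tw2 β (m + 1) u.1 := fun u => by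
    rcases charpoly_or h2 hΦ hκ hV hβ u.2 with ⟨g, h1, h3⟩ | ⟨g, h1, h3⟩
    · exact ⟨.inl (ConjClasses.mk (h1.toO hΦ)), (charpoly_out _).trans (by rw [Pres.toO_coe, h3])⟩
    · exact ⟨.inr (ConjClasses.mk (h1.toO hΦ)), (charpoly_out _).trans (by rw [Pres.toO_coe, h3])⟩
  choose f hf using key
  rw [← card_Pal, two_mul, ← Nat.card_sum]
  refine Nat.card_le_card_of_injective f fun u v h => Subtype.ext ?_
  have h1 := hf u
  have h3 := hf v
  rw [h] at h1
  rcases hx : f v with C | C <;> rw [hx] at h1 h3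
  · exact h1.symm.trans h3
  · exact tw2_inj h2 _ _ (h1.symm.trans h3)

end H22.Ev
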