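import Cfsg.Agent.H22.FldI
import Cfsg.Agent.H22.IsoA

/-! Similarity groups of symmetric and skew bilinear forms. -/

set_option autoImplicit false

namespace H22

open Module H23 H23.Form Matrix Cfsg Subgroup

variable {K : Type*} [Field K] {ι κ μ : Type} [Fintype ι] [DecidableEq ι] [Fintype κ]
  [DecidableEq κ]

/-- bilinear forms on a coordinate space -/
abbrev BF (ι : Type) (K : Type*) [Field K] := LinearMap.BilinForm K (ι → K)

/-- the similarity group -/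
abbrev sim (b : BF ι K) : Subgroup (GL ι K) := Geo.similarityGroup fun u v => b u v

/-- similarity with a given multiplier -/
def IsSim (b : BF ι K) (g : GL ι K) (k : K) : Prop := ∀ u v, b (g.1 *ᵥ u) (g.1 *ᵥ v) = k * b u v

/-- determinant and multiplier of a similarity -/
def DM (b : BF ι K) (D k : K) : Prop := k ≠ 0 ∧ ∃ g, IsSim b g k ∧ g.1.det = D

/-- similar forms -/
def Simil (b : BF ι K) (b' : BF κ K) : Prop :=
  ∃ (P : (κ → K) ≃ₗ[K] (ι → K)) (c : K), c ≠ 0 ∧ ∀ x y, b (P x) (P y) = c * b' x y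

/-- non-degenerate symmetric or skew forms -/
structure Good (b : BF ι K) : Prop where
  nd : ∀ x, (∀ y, b x y = 0) → x = 0
  sy : (∀ x y, b y x = b x y) ∨ ∀ x y, b y x = -b x y

theorem mem_sim {b : BF ι K} {g : GL ι K} : g ∈ sim b ↔ ∃ k, k ≠ 0 ∧ IsSim b g k :=
  ⟨fun ⟨c, h⟩ => ⟨c, c.ne_zero, h⟩, fun ⟨c, h0, h⟩ => ⟨Units.mk0 c h0, h⟩⟩

omit [Fintype ι] [DecidableEq ι] [Fintype κ] [DecidableEq κ] in
theorem Simil.symm {b : BF ι K} {b' : BF κ K} (h : Simil b b') : Simil b' b := by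
  obtain ⟨P, c, hc, h⟩ := h
  refine ⟨P.symm, c⁻¹, inv_ne_zero hc, fun x y => ?_⟩
  rw [eq_inv_mul_iff_mul_eq₀ hc, ← h]; simp

omit [Fintype ι] [DecidableEq ι] [Fintype κ] [DecidableEq κ] in
theorem Simil.trans {b : BF ι K} {b' : BF κ K} {b'' : BF μ K} (h : Simil b b') (h' : Simil b' b'') :
    Simil b b'' := by
  obtain ⟨P, c, hc, h⟩ := h
  obtain ⟨P', c', hc', h'⟩ := h'
  exact ⟨P'.trans P, c * c', mul_ne_zero hc hc', fun x y => by simp [h, h', mul_assoc]⟩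

omit [Fintype ι] [DecidableEq ι] [Fintype κ] [DecidableEq κ] in
theorem Simil.good {b : BF ι K} {b' : BF κ K} (h : Simil b b') (hb : Good b') : Good b := by
  obtain ⟨P, c, hc, h⟩ := h
  refine ⟨fun x hx => ?_, hb.sy.imp (fun h1 x y => ?_) fun h1 x y => ?_⟩
  · obtain ⟨x, rfl⟩ := P.surjective x
    rw [hb.nd x fun y => by simpa [h, hc] using hx (P y), map_zero]
  all_goals
    obtain ⟨x, rfl⟩ := P.surjective x
    obtain ⟨y, rfl⟩ := P.surjective y
    rw [h, h, h1]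
  ring

omit [Fintype ι] [DecidableEq ι] [Fintype κ] [DecidableEq κ] in
theorem Simil.alt {b : BF ι K} {b' : BF κ K} (h : Simil b b') (hb : ∀ x, b x x = 0) (x : κ → K) :
    b' x x = 0 := by
  obtain ⟨P, c, hc, h⟩ := h
  simpa [h, hc] using hb (P x)

omit [DecidableEq ι] [DecidableEq κ] in
theorem exists_simil (b' : BF κ K) (h : Fintype.card ι = Fintype.card κ) :
    ∃ b : BF ι K, Simil b b' :=
  let P := LinearEquiv.funCongrLeft K K (Fintype.equivOfCardEq h)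
  ⟨b'.compl₁₂ P.symm.toLinearMap P.symm.toLinearMap, P, 1, one_ne_zero, fun x y => by simp⟩

theorem pq_of_hom {H : Subgroup (GL ι K)} {X : Type*} [Group X] (φ : X →* GL ι K)
    (h1 : ∀ x, φ x ∈ H) (N : Subgroup X) [N.Normal] (h2 : ∀ x, φ x ∈ Geo.scalars ι K ↔ x ∈ N)
    (h3 : ∀ g ∈ H, ∃ x, (φ x)⁻¹ * g ∈ Geo.scalars ι K) : Nonempty (projQuot H ≃* X ⧸ N) := by
  let ψ : X →* projQuot H := (QuotientGroup.mk' _).comp (φ.codRestrict H h1)
  have h4 : ψ.ker = N := by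
    ext x
    rw [← h2, MonoidHom.mem_ker]
    exact QuotientGroup.eq_one_iff _
  refine ⟨((QuotientGroup.quotientMulEquivOfEq h4.symm).trans
    (QuotientGroup.quotientKerEquivOfSurjective ψ fun g => ?_)).symm⟩
  induction g using QuotientGroup.induction_on with | _ g =>
  obtain ⟨x, hx⟩ := h3 g g.2
  exact ⟨x, QuotientGroup.eq.2 hx⟩

theorem pq_of_hom' [Nonempty ι] {H : Subgroup (GL ι K)} {X : Type*} [Group X] (φ : X →* GL ι K)
    (h1 : ∀ x, φ x ∈ H) (h2 : ∀ x (c : K), (∀ v, (φ x).1 *ᵥ v = c • v) → x = 1)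
    (h3 : ∀ g ∈ H, ∃ x, ∃ c : K, ∀ v, g.1 *ᵥ v = c • ((φ x).1 *ᵥ v)) :
    Nonempty (projQuot H ≃* X) := by
  refine ⟨(pq_of_hom φ h1 ⊥ (fun x => ⟨fun h => ?_, fun h => ?_⟩) fun g hg => ?_).some.trans
    QuotientGroup.quotientBot⟩
  · obtain ⟨c, hc⟩ := (Geo.mem_scalars_iff _).1 h
    exact h2 x c fun v => by simp [hc, smul_mulVec]
  · rw [mem_bot.1 h, map_one]; exact one_mem _
  · obtain ⟨x, c, h⟩ := h3 g hg
    have h0 : c ≠ 0 := by
      rintro rfl
      obtain ⟨v, hv⟩ := exists_ne (0 : ι → K)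
      exact hv ((glEquiv g).injective (by simp [glEquiv_apply, h]))
    refine ⟨x, (Geo.mem_scalars_iff _).2 ⟨Units.mk0 c h0, ?_⟩⟩
    refine ext_of_mulVec_single fun i => ?_
    rw [Units.val_mul, ← mulVec_mulVec, h, mulVec_smul, mulVec_mulVec, smul_mulVec]
    simp

/-- transport of matrices along a linear equivalence -/
noncomputable def trGL (P : (κ → K) ≃ₗ[K] (ι → K)) : GL κ K →* GL ι K :=
  glEquiv.symm.toMonoidHom.comp (ratLin (RingHom.id K) P)

theorem trGL_mulVec (P : (κ → K) ≃ₗ[K] (ι → K)) (g : GL κ K) (v : κ → K) :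
    (trGL P g).1 *ᵥ P v = P (g.1 *ᵥ v) :=
  (glEquiv_symm_mulVec _ _).trans (ratLin_apply _ _ _ _)

theorem det_trGL (P : (κ → K) ≃ₗ[K] (ι → K)) (g : GL κ K) : (trGL P g).1.det = g.1.det := by
  rw [← det_glEquiv, show glEquiv (trGL P g) = _ from glEquiv.apply_symm_apply _, det_ratLin]; rfl

theorem trGL_trGL (P : (κ → K) ≃ₗ[K] (ι → K)) (g : GL ι K) : trGL P (trGL P.symm g) = g :=
  glEquiv.injective (LinearEquiv.ext fun v => by
    have h := trGL_mulVec P (trGL P.symm g) (P.symm v)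
    rwa [trGL_mulVec P.symm, P.apply_symm_apply, P.apply_symm_apply] at h)

theorem isSim_trGL {b : BF ι K} {b' : BF κ K} {P : (κ → K) ≃ₗ[K] (ι → K)} {c : K} (hc : c ≠ 0)
    (h : ∀ x y, b (P x) (P y) = c * b' x y) {g : GL κ K} {k : K} :
    IsSim b (trGL P g) k ↔ IsSim b' g k := by
  refine ⟨fun h1 u v => mul_left_cancel₀ hc ?_, fun h1 u v => ?_⟩
  · rw [← h, ← trGL_mulVec, ← trGL_mulVec, h1, h, mul_left_comm]
  · obtain ⟨u, rfl⟩ := P.surjective u
    obtain ⟨v, rfl⟩ := P.surjective v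
    rw [trGL_mulVec, trGL_mulVec, h, h, h1, mul_left_comm]

theorem Simil.pq {b : BF ι K} {b' : BF κ K} (h : Simil b b') :
    Nonempty (projQuot (sim b) ≃* projQuot (sim b')) := by
  obtain ⟨P, c, hc, h⟩ := h
  refine pq_of_hom ((trGL P).comp (sim b').subtype) (fun x => ?_) _ (fun x => ?_) fun g hg => ?_
  · obtain ⟨k, h0, hk⟩ := mem_sim.1 x.2
    exact mem_sim.2 ⟨k, h0, (isSim_trGL hc h).2 hk⟩
  · rw [mem_subgroupOf, ← ratLin_scal_iff (RingHom.id K) P,
      ← ratLin_scal_iff (RingHom.id K) (LinearEquiv.refl K _), ratLin_id]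
    exact iff_of_eq (congrArg (fun y => linHom y ∈ _) (glEquiv.apply_symm_apply _))
  · obtain ⟨k, h0, hk⟩ := mem_sim.1 hg
    refine ⟨⟨trGL P.symm g, mem_sim.2 ⟨k, h0, (isSim_trGL hc h).1 (by rwa [trGL_trGL])⟩⟩, ?_⟩
    simp [trGL_trGL]

theorem Simil.dm {b : BF ι K} {b' : BF κ K} (h : Simil b b') {D k : K} : DM b D k ↔ DM b' D k := by
  have : ∀ {ι κ : Type} [Fintype ι] [DecidableEq ι] [Fintype κ] [DecidableEq κ] {b : BF ι K}
      {b' : BF κ K}, Simil b b' → DM b' D k → DM b D k := by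
    rintro ι κ _ _ _ _ b b' ⟨P, c, hc, h⟩ ⟨h0, g, h1, h2⟩
    exact ⟨h0, trGL P g, (isSim_trGL hc h).2 h1, (det_trGL _ _).trans h2⟩
  exact ⟨this h.symm, this h⟩

theorem IsSim.mul {b : BF ι K} {g g' : GL ι K} {k k' : K} (h : IsSim b g k) (h' : IsSim b g' k') :
    IsSim b (g * g') (k * k') := fun u v => by
  rw [Units.val_mul, ← mulVec_mulVec, ← mulVec_mulVec, h, h', mul_assoc]

theorem IsSim.inv_mul {b : BF ι K} {g g' : GL ι K} {k : K} (hk : k ≠ 0) (h : IsSim b g k)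
    (h' : IsSim b g' k) : IsSim b (g⁻¹ * g') 1 := fun u v => mul_left_cancel₀ hk (by
  rw [← h, mulVec_mulVec, mulVec_mulVec, ← Units.val_mul, mul_inv_cancel_left, h', one_mul])

theorem DM.mul {b : BF ι K} {D D' k k' : K} (h : DM b D k) (h' : DM b D' k') :
    DM b (D * D') (k * k') := by
  obtain ⟨h0, g, h1, rfl⟩ := h
  obtain ⟨h0', g', h1', rfl⟩ := h'
  exact ⟨mul_ne_zero h0 h0', g * g', h1.mul h1', by simp⟩

theorem dm_scal (b : BF ι K) {d : K} (hd : d ≠ 0) : DM b (d ^ Fintype.card ι) (d ^ 2) :=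
  ⟨pow_ne_zero _ hd, GeneralLinearGroup.mkOfDetNeZero (d • (1 : Matrix ι ι K)) (by simp [hd]),
    fun u v => by simp [smul_mulVec, sq, mul_assoc], by simp⟩

theorem DM.sq {b : BF ι K} (hb : Good b) {D k : K} (h : DM b D k) : D ^ 2 = k ^ Fintype.card ι := by
  obtain ⟨-, g, h, rfl⟩ := h
  have h1 : g.1ᵀ * LinearMap.BilinForm.toMatrix' b * g.1 = k • LinearMap.BilinForm.toMatrix' b := by
    have := LinearMap.BilinForm.toMatrix'_comp b (toLin' g.1) (toLin' g.1)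
    rw [LinearMap.toMatrix'_toLin'] at this
    rw [← this]
    ext i j
    simpa using h (Pi.single i 1) (Pi.single j 1)
  have h2 : (LinearMap.BilinForm.toMatrix' b).det ≠ 0 :=
    gram_det_ne_zero ⟨hb.nd, fun x hx => hb.nd x fun y => by
      rcases hb.sy with h | h <;> simp [h y, hx]⟩ (Pi.basisFun K ι)
  have h3 := congrArg det h1
  rw [det_mul, det_mul, det_transpose, det_smul] at h3
  exact mul_right_cancel₀ h2 (by rw [← h3]; ring)

/-! ### alternating forms -/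

theorem sim_sp (m : ℕ) : sim (spForm m K).B = GSp m K :=
  Subgroup.ext fun _ => exists_congr fun _ => by simp only [spForm_B]

theorem good_sp (m : ℕ) : Good (spForm m K).B :=
  ⟨spForm_nondeg m, .inr fun x y => by rw [(spForm m K).symm]; simp⟩

theorem alt_sp (m : ℕ) (x : Fin m ⊕ Fin m → K) : (spForm m K).B x x = 0 :=
  (sing_of_alt _ rfl rfl x).1

omit [DecidableEq ι] in
theorem Good.even {b : BF ι K} (hb : Good b) (h : ∀ x, b x x = 0) : Even (Fintype.card ι) := by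
  simpa using even_finrank_of_alt (B := b) h hb.nd

omit [DecidableEq ι] in
theorem Good.simil_sp {b : BF ι K} (hb : Good b) (h : ∀ x, b x x = 0) {m : ℕ}
    (hm : Fintype.card ι = 2 * m) : Simil b (spForm m K).B := by
  obtain ⟨e, h1, -⟩ := exists_equiv_spForm (Φ := ofAlt b h) hb.nd rfl rfl (m := m) (by simpa)
  exact ⟨e, 1, one_ne_zero, fun x y => by
    rw [one_mul, spForm_B, ← H23.spForm_B]; exact h1 x y⟩

/-- symplectic matrices as invertible matrices -/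
noncomputable abbrev spGL' (m : ℕ) (K : Type*) [Field K] :
    Matrix.symplecticGroup (Fin m) K →* GL (Fin m ⊕ Fin m) K := (spToMat m K).toHomUnits

theorem isSim_sp_one {m : ℕ} {g : GL (Fin m ⊕ Fin m) K} :
    IsSim (spForm m K).B g 1 ↔ ∃ s, spGL' m K s = g := by
  simp only [IsSim, spForm_B, one_mul, ← mem_symplecticGroup_iff]
  exact ⟨fun h => ⟨⟨_, h⟩, Units.ext rfl⟩, fun ⟨s, hs⟩ => hs ▸ s.2⟩

theorem dm_sp {m : ℕ} {D k : K} : DM (spForm m K).B D k ↔ k ≠ 0 ∧ D = k ^ m := by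
  have h1 : ∀ hk : k ≠ 0, ∃ g, IsSim (spForm m K).B g k ∧ g.1.det = k ^ m := fun hk =>
    ⟨glEquiv.symm (diagEquiv (Sum.elim (fun _ => Units.mk0 k hk) fun _ => 1)), fun u v => by
      simp [glEquiv_symm_mulVec, spForm_B, sympForm_eq, Finset.mul_sum, mul_sub, mul_assoc,
        mul_left_comm], by rw [← det_glEquiv, glEquiv.apply_symm_apply, det_diagEquiv]; simp⟩
  refine and_congr_right fun hk => ⟨?_, fun h => h ▸ h1 hk⟩
  rintro ⟨g, h, rfl⟩
  obtain ⟨g', h2, h3⟩ := h1 hk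
  obtain ⟨s, hs⟩ := isSim_sp_one.1 (h2.inv_mul hk h)
  rw [← h3, ← mul_inv_cancel_left g' g, ← hs, Units.val_mul, det_mul]
  exact mul_eq_left₀ (g'.isUnit.map detMonoidHom).ne_zero |>.2 (SymplecticGroup.det_eq_one s.2)

/-! ### symmetric forms in odd characteristic -/

omit [Fintype ι] [DecidableEq ι] in
theorem Good.alt_or {b : BF ι K} (hb : Good b) (h2 : (2 : K) ≠ 0) :
    (∀ x, b x x = 0) ∨ ∀ x y, b y x = b x y :=
  hb.sy.symm.imp_left fun h x => mul_left_cancel₀ h2 (by linear_combination h x x)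

omit [Fintype ι] [DecidableEq ι] in
theorem good_quad {Q : QuadraticForm K (ι → K)} (h : (ofQuad Q).Nondeg) : Good (ofQuad Q).B :=
  ⟨h, .inl fun x y => QuadraticMap.polar_comm _ _ _⟩

omit [Fintype ι] [DecidableEq ι] in
theorem Good.exists_quad {b : BF ι K} (hb : Good b) (h2 : (2 : K) ≠ 0) (h : ∀ x y, b y x = b x y) :
    ∃ Q : QuadraticForm K (ι → K), (ofQuad Q).Nondeg ∧ Simil b (ofQuad Q).B ∧ ∀ x, Q x = b x x := by
  have h1 : ∀ x y, (ofQuad b.toQuadraticMap).B x y = 2 * b x y := fun x y => by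
    simp [LinearMap.BilinMap.polar_toQuadraticMap, h x y, two_mul]
  exact ⟨b.toQuadraticMap, fun x hx => hb.nd x fun y => by simpa [h2] using (h1 x y).symm.trans (hx y),
    ⟨LinearEquiv.refl K _, 2⁻¹, inv_ne_zero h2, fun x y => by
      rw [h1, inv_mul_cancel_left₀ h2]; rfl⟩, fun _ => rfl⟩

omit [Fintype ι] [DecidableEq ι] [Fintype κ] [DecidableEq κ] in
theorem simil_quad_iff (h2 : (2 : K) ≠ 0) {Q : QuadraticForm K (ι → K)}
    {Q' : QuadraticForm K (κ → K)} : Simil (ofQuad Q).B (ofQuad Q').B ↔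
      ∃ (e : (κ → K) ≃ₗ[K] (ι → K)) (c : K), c ≠ 0 ∧ ∀ x, Q (e x) = c * Q' x := by
  refine exists_congr fun e => exists_congr fun c => and_congr_right fun hc =>
    ⟨fun h x => mul_left_cancel₀ h2 ?_, fun h x y => ?_⟩
  · simpa [QuadraticMap.polar_self, two_mul, mul_add] using h x x
  · simp only [ofQuad_B, QuadraticMap.polar, ← map_add e, h]; ring

theorem isSim_quad (h2 : (2 : K) ≠ 0) {Q : QuadraticForm K (ι → K)} {g : GL ι K} {k : K} :
    IsSim (ofQuad Q).B g k ↔ ∀ x, Q (g.1 *ᵥ x) = k * Q x := by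
  refine ⟨fun h x => mul_left_cancel₀ h2 ?_, fun h x y => ?_⟩
  · simpa [QuadraticMap.polar_self, two_mul, mul_add] using h x x
  · simp only [ofQuad_B, QuadraticMap.polar, ← mulVec_add, h]; ring

theorem sim_quad (h2 : (2 : K) ≠ 0) (Q : QuadraticForm K (ι → K)) :
    sim (ofQuad Q).B = Geo.quadSimilarityGroup Q :=
  Subgroup.ext fun _ => exists_congr fun _ => isSim_quad h2

omit [DecidableEq ι] in
theorem Good.simil_odd [Finite K] {b : BF ι K} (hb : Good b) (h2 : (2 : K) ≠ 0) {m : ℕ}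
    (hm : Fintype.card ι = 2 * m + 1) : Simil b (ofQuad (qOdd m K)).B := by
  obtain ⟨Q, h3, h4, -⟩ := hb.exists_quad h2 ((hb.alt_or h2).resolve_left fun h => by
    have := hb.even h
    rw [hm] at this; simp at this)
  obtain ⟨c, hc, e, he⟩ := exists_equiv_odd h3 (m := m) (by simpa)
  exact h4.trans ((simil_quad_iff h2).2 ⟨e, c, hc, he⟩)

omit [DecidableEq ι] in
theorem Good.simil_even [Fintype K] {b : BF ι K} (hb : Good b) (h2 : (2 : K) ≠ 0) {m : ℕ}
    (hm : Fintype.card ι = 2 * (m + 1)) {c d : K}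
    (hcd : ∀ z₁ z₂ : K, z₁ ^ 2 + c * z₁ * z₂ + d * z₂ ^ 2 = 0 → z₁ = 0 ∧ z₂ = 0) :
    Simil b (spForm (m + 1) K).B ∨ Simil b (ofQuad (qPlus (m + 1) K)).B ∨
      Simil b (ofQuad (qMinus m K c d)).B := by
  refine (hb.alt_or h2).imp (fun h => hb.simil_sp h hm) fun h => ?_
  obtain ⟨Q, h3, h4, -⟩ := hb.exists_quad h2 h
  exact (exists_equiv_plus_or_minus h3 (m := m) (by simpa) hcd).imp
    (fun ⟨e, he⟩ => h4.trans ((simil_quad_iff h2).2 ⟨e, 1, one_ne_zero, by simpa⟩))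
    fun ⟨e, he⟩ => h4.trans ((simil_quad_iff h2).2 ⟨e, 1, one_ne_zero, by simpa⟩)

omit [DecidableEq ι] in
theorem not_simil_sp_quad (h2 : (2 : K) ≠ 0) {m : ℕ} {Q : QuadraticForm K (ι → K)} [Nonempty ι]
    (hQ : (ofQuad Q).Nondeg) : ¬ Simil (spForm m K).B (ofQuad Q).B := fun h => by
  obtain ⟨x, hx⟩ := exists_ne (0 : ι → K)
  refine hx (hQ x fun y => mul_left_cancel₀ h2 ?_)
  have h1 := h.alt (alt_sp m)
  have h3 := h1 (x + y)
  simp only [map_add, LinearMap.add_apply, h1] at h3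
  rw [(ofQuad Q).symm x y] at h3
  simpa [two_mul] using h3

theorem not_simil_plus_minus [Finite K] (h2 : (2 : K) ≠ 0) {m : ℕ} {c d : K}
    (hcd : ∀ z₁ z₂ : K, z₁ ^ 2 + c * z₁ * z₂ + d * z₂ ^ 2 = 0 → z₁ = 0 ∧ z₂ = 0) :
    ¬ Simil (ofQuad (qPlus (m + 1) K)).B (ofQuad (qMinus m K c d)).B := fun h => by
  obtain ⟨e, k, hk, he⟩ := (simil_quad_iff h2).1 h.symm
  have := finrank_le_of_sing_qMinus m hcd ((kerR K (m + 1)).map e.toLinearMap) (by
    rintro _ ⟨x, hx, rfl⟩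
    rw [LinearEquiv.coe_coe, he, show qPlus (m + 1) K x = 0 from (totSing_kerR _).2 x hx, mul_zero])
  rw [LinearEquiv.finrank_map_eq, finrank_kerR] at this
  omega

theorem dm_quad (h2 : (2 : K) ≠ 0) {Q : QuadraticForm K (ι → K)} [Nonempty ι]
    (hQ : (ofQuad Q).Nondeg) (hs : Function.Surjective (mult hQ)) {m : ℕ}
    (hm : Fintype.card ι = 2 * m) {D k : K} :
    DM (ofQuad Q).B D k ↔ k ≠ 0 ∧ (D = k ^ m ∨ D = -k ^ m) := by
  have h1 : ∀ D, DM (ofQuad Q).B D k → D = k ^ m ∨ D = -k ^ m := fun D h =>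
    sq_eq_sq_iff_eq_or_eq_neg.1 (by rw [h.sq (good_quad hQ), hm, mul_comm, pow_mul])
  refine ⟨fun h => ⟨h.1, h1 D h⟩, fun ⟨hk, h⟩ => ?_⟩
  obtain ⟨g, hg⟩ := hs (Units.mk0 k hk)
  have h3 : DM (ofQuad Q).B (glEquiv.symm g.1).1.det k := ⟨hk, _, fun u v => by
    simpa [glEquiv_symm_mulVec, hg] using (mult_spec hQ g).B u v, rfl⟩
  obtain ⟨v, hv⟩ : ∃ v, Q v ≠ 0 := by
    by_contra! h4
    obtain ⟨x, hx⟩ := exists_ne (0 : ι → K)
    exact hx (hQ x fun y => by simp [QuadraticMap.polar, h4])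
  have h4 : DM (ofQuad Q).B (-1) 1 := ⟨one_ne_zero, glEquiv.symm (refl (ofQuad_κ Q) v).1, fun u w => by
    simpa [glEquiv_symm_mulVec] using (refl (ofQuad_κ Q) v).2.1 u w, by
      rw [← det_glEquiv, glEquiv.apply_symm_apply, det_refl _ hv]⟩
  have h5 := h3.mul h4
  rcases h1 _ h3 with h6 | h6 <;> rw [h6] at h3 h5 <;> rcases h with rfl | rfl <;> simp_all

theorem DM.odd {b : BF ι K} (hb : Good b) (hn : Odd (Fintype.card ι)) {D k : K} (h : DM b D k) :
    ∃ d, d ≠ 0 ∧ D = d ^ Fintype.card ι ∧ k = d ^ 2 := by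
  have h1 := h.sq hb
  obtain ⟨m, hm⟩ := hn
  have h0 := h.1
  have h2 : k = (D / k ^ m) ^ 2 := by field_simp; rw [h1, hm]; ring1
  refine ⟨D / k ^ m, fun h3 => h0 (by rw [h2, h3]; simp), ?_, h2⟩
  rw [hm, pow_succ, pow_mul, ← h2]; field_simp

theorem DM.two [Finite K] (h2 : (2 : K) = 0) {b : BF ι K} (hb : Good b) {D k : K} (h : DM b D k) :
    ∃ d, d ≠ 0 ∧ D = d ^ Fintype.card ι ∧ k = d ^ 2 := by
  obtain ⟨d, hd⟩ := isSquare_of_two_eq_zero h2 k
  refine ⟨d, fun h3 => h.1 (by simp [hd, h3]), ?_, by rw [hd, _root_.sq]⟩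
  have h1 := h.sq hb
  rw [hd, ← _root_.sq, ← pow_mul, mul_comm, pow_mul] at h1
  rcases sq_eq_sq_iff_eq_or_eq_neg.1 h1 with h | h
  · exact h
  · linear_combination h - d ^ Fintype.card ι * h2

theorem card_pq [Fintype K] [Nonempty ι] {Φ : Form (RingHom.id K) (ι → K)} (hΦ : Φ.Nondeg)
    (hs : Function.Surjective (mult hΦ)) {H : Subgroup (GL ι K)}
    (h : ∀ g, g ∈ H ↔ glEquiv g ∈ GO Φ) : Nat.card (projQuot H) = Nat.card Φ.O := by
  have h1 : Nat.card H = Nat.card (GO Φ) := Nat.card_congr (glEquiv.toEquiv.subtypeEquiv h)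
  have h2 : Nat.card (mult hΦ).ker = Nat.card Φ.O := by
    rw [show (mult hΦ).ker = (oGO Φ).range from Subgroup.ext fun g =>
      ⟨fun h => (exists_oGO hΦ h).imp fun _ => Eq.symm, by rintro ⟨s, rfl⟩; exact mult_oGO hΦ s⟩]
    exact Nat.card_congr (MonoidHom.ofInjective (f := oGO Φ) fun a b h =>
      Subtype.ext (congrArg (fun x : GO Φ => x.1) h)).toEquiv.symm
  have h3 : Geo.scalars ι K ≤ H := by
    rintro _ ⟨c, rfl⟩
    refine (h _).2 ?_
    convert scal_mem_GO (Φ := Φ) c using 1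
    ext v i; simp [glEquiv_apply, Units.smul_def]
  have h4 := (mult hΦ).ker.card_mul_index
  rw [index_ker, MonoidHom.range_eq_top.2 hs, card_top, h2, ← h1,
    card_eq_card_quotient_mul_card_subgroup ((Geo.scalars ι K).subgroupOf H),
    Nat.card_congr (subgroupOfEquivOfLe h3).toEquiv, Geo.scalars,
    ← Nat.card_congr (MonoidHom.ofInjective (Units.map_injective
      (f := (Matrix.scalar ι : K →+* Matrix ι ι K).toMonoidHom)
      (RingHom.injective _))).toEquiv] at h4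
  exact (Nat.eq_of_mul_eq_mul_right Nat.card_pos h4).symm

end H22
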