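import Cfsg.Agent.H22.GrA
import Cfsg.Agent.S0304

/-! Symmetric bilinear forms in characteristic two. -/

set_option autoImplicit false

namespace H22

open Module H23 H23.Form Matrix Cfsg Subgroup

variable {K : Type*} [Field K] {ι : Type}

/-- the square of a linear form -/
def sqB (f : Dual K (ι → K)) : BF ι K := (LinearMap.mul K K).compl₁₂ f f

theorem sqB_apply (f : Dual K (ι → K)) (x y : ι → K) : sqB f x y = f x * f y := rfl

/-- the non-alternating form in odd dimension -/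
noncomputable def oddB (m : ℕ) (K : Type*) [Field K] : BF (Unit ⊕ (Fin m ⊕ Fin m)) K :=
  sqB (LinearMap.proj (.inl ())) +
    (spForm m K).B.compl₁₂ (LinearMap.funLeft K K Sum.inr) (LinearMap.funLeft K K Sum.inr)

theorem oddB_apply (m : ℕ) (x y : Unit ⊕ (Fin m ⊕ Fin m) → K) : oddB m K x y =
    x (.inl ()) * y (.inl ()) + (spForm m K).B (x ∘ Sum.inr) (y ∘ Sum.inr) := rfl

/-- the non-alternating form in even dimension -/
noncomputable def nalB {m : ℕ} (w : Fin m ⊕ Fin m → K) : BF (Fin m ⊕ Fin m) K :=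
  (spForm m K).B + sqB ((spForm m K).B w)

theorem nalB_apply {m : ℕ} (w x y : Fin m ⊕ Fin m → K) :
    nalB w x y = (spForm m K).B x y + (spForm m K).B w x * (spForm m K).B w y := rfl

theorem eq_of_sq_two (h2 : (2 : K) = 0) {a b : K} (h : a ^ 2 = b ^ 2) : a = b := by
  rcases sq_eq_sq_iff_eq_or_eq_neg.1 h with h | h
  · exact h
  · linear_combination h - b * h2

theorem Good.symm_two (h2 : (2 : K) = 0) {b : BF ι K} (hb : Good b) (x y : ι → K) :
    b y x = b x y := by
  rcases hb.sy with h | h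
  · exact h x y
  · linear_combination h x y - b x y * h2

theorem good_add_sq (h2 : (2 : K) = 0) {b : BF ι K} (hb : Good b) {w : ι → K} (hw : b w w = 0) :
    Good (b + sqB (b w)) := by
  refine ⟨fun x hx => ?_, .inl fun x y => ?_⟩
  · have h1 : x + b w x • w = 0 := hb.nd _ fun y => by simpa [sqB_apply] using hx y
    have h3 := congrArg (b w) h1
    simp only [map_add, map_smul, hw, smul_zero, add_zero, map_zero] at h3
    simpa [h3] using h1
  · simp [sqB_apply, hb.symm_two h2 x y, mul_comm]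

theorem good_nalB (h2 : (2 : K) = 0) {m : ℕ} (w : Fin m ⊕ Fin m → K) : Good (nalB w) :=
  good_add_sq h2 (good_sp m) (alt_sp m w)

theorem good_oddB (h2 : (2 : K) = 0) (m : ℕ) : Good (oddB m K) := by
  refine ⟨fun x hx => funext ?_, .inl fun x y => ?_⟩
  · rintro (i | i)
    · simpa [oddB_apply, show Pi.single (Sum.inl ()) (1 : K) ∘ Sum.inr = 0 by ext; simp] using
        hx (Pi.single (.inl ()) 1)
    · exact congrFun (spForm_nondeg m (x ∘ Sum.inr) fun y => by
        simpa [oddB_apply] using hx (Sum.elim 0 y)) i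
  · rw [oddB_apply, oddB_apply, (good_sp m).symm_two h2, mul_comm]

theorem not_simil_sp_nalB {m : ℕ} {w : Fin m ⊕ Fin m → K} (hw : w ≠ 0) :
    ¬ Simil (spForm m K).B (nalB w) := fun h =>
  hw (spForm_nondeg m w fun y => by simpa [nalB_apply, alt_sp] using h.alt (alt_sp m) y)

variable [Fintype ι] [DecidableEq ι] [Finite K] (h2 : (2 : K) = 0)
include h2

omit [DecidableEq ι] in
theorem Good.exists_char {b : BF ι K} (hb : Good b) : ∃ w, ∀ x, b x x = b w x ^ 2 := by
  choose r hr using fun x => isSquare_of_two_eq_zero h2 (b x x)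
  simp only [← _root_.sq] at hr
  let f : Dual K (ι → K) := ⟨⟨r, fun x y => eq_of_sq_two h2 (by
      rw [← hr, add_sq, ← hr, ← hr]
      simp [hb.symm_two h2 x y, h2]
      linear_combination b x y * h2)⟩,
    fun c x => eq_of_sq_two h2 (by simp [← hr, mul_pow, _root_.sq c, mul_assoc])⟩
  obtain ⟨w, hw⟩ := (LinearMap.BilinForm.toDual b
    ⟨hb.nd, fun x hx => hb.nd x fun y => hb.symm_two h2 x y ▸ hx y⟩).surjective f
  exact ⟨w, fun x => (hr x).trans (congrArg (· ^ 2) (LinearMap.congr_fun hw x).symm)⟩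

omit [DecidableEq ι] in
theorem Good.two_cases {b : BF ι K} (hb : Good b) : (∀ x, b x x = 0) ∨
    (∃ m, Fintype.card ι = 2 * m + 1 ∧ Simil b (oddB m K)) ∨ Even (Fintype.card ι) ∧
      ∀ m, Fintype.card ι = 2 * m → ∀ w : Fin m ⊕ Fin m → K, w ≠ 0 → Simil b (nalB w) := by
  obtain ⟨w, hw⟩ := hb.exists_char h2
  by_cases h0 : w = 0
  · exact .inl fun x => by simp [hw, h0]
  by_cases h1 : b w w = 0
  · have h3 := good_add_sq h2 hb h1
    have h4 : ∀ x, (b + sqB (b w)) x x = 0 := fun x => by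
      simp only [LinearMap.add_apply, sqB_apply, hw x]; linear_combination b w x ^ 2 * h2
    refine .inr (.inr ⟨h3.even h4, fun m hm w₀ hw₀ => ?_⟩)
    obtain ⟨e, h5, -⟩ := exists_equiv_spForm (Φ := ofAlt _ h4) h3.nd rfl rfl (m := m) (by simpa)
    obtain ⟨s, hs, h6⟩ := (spForm_nondeg m).witt_one hw₀ (y := e.symm w) (by simpa)
      (by simp [alt_sp]) rfl
    have h7 : ∀ x y, b (e (s x)) (e (s y)) + b w (e (s x)) * b w (e (s y)) = (spForm m K).B x y :=
      fun x y => by rw [← hs.1, spForm_B, ← H23.spForm_B]; exact h5 _ _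
    refine ⟨s.trans e, 1, one_ne_zero, fun x y => ?_⟩
    have h8 : ∀ y, b w (e (s y)) = (spForm m K).B w₀ y := fun y => by
      simpa [h6, h1] using h7 w₀ y
    rw [one_mul, nalB_apply, ← h7, h8, h8]
    simp only [LinearEquiv.trans_apply]
    linear_combination -((spForm m K).B w₀ x * (spForm m K).B w₀ y) * h2
  · have h3 : b w w = 1 := mul_left_cancel₀ h1 (by rw [mul_one, ← _root_.sq, ← hw])
    let U := LinearMap.ker (b w)
    have h4 : (b.restrict U).IsAlt := fun x => by
      have : b w x = 0 := x.2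
      simp [hw x, this]
    have h5 : (ofAlt _ h4).Nondeg := fun x hx => Subtype.ext (hb.nd _ fun y => by
      have h6 := hx ⟨y - b w y • w, by simp [U, h3]⟩
      have : b w x = 0 := x.2
      simpa [hb.symm_two h2 w x, this] using h6)
    obtain ⟨m, hm⟩ := even_finrank_of_alt h4 h5
    have h6 : Fintype.card ι = 2 * m + 1 := by
      have : finrank K U + 1 = _ := finrank_ker_add_one h3
      simp only [finrank_fintype_fun_eq_card] at this
      omega
    obtain ⟨e, h7, -⟩ := exists_equiv_spForm h5 rfl rfl (m := m) (by omega)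
    let P : (Unit ⊕ (Fin m ⊕ Fin m) → K) →ₗ[K] (ι → K) := (LinearMap.proj (.inl ())).smulRight w +
      U.subtype ∘ₗ e.toLinearMap ∘ₗ LinearMap.funLeft K K Sum.inr
    have h8 : ∀ x y, b (P x) (P y) = oddB m K x y := fun x y => by
      have h9 : ∀ z, b w (e z) = 0 := fun z => (e z).2
      have h10 : ∀ z, b (e z) w = 0 := fun z => (hb.symm_two h2 _ _).trans (h9 z)
      rw [oddB_apply, spForm_B, ← H23.spForm_B, ← h7]
      simp [P, h3, h9, h10, mul_comm]; rfl
    exact .inr (.inl ⟨m, h6, LinearMap.linearEquivOfInjective P ((injective_iff_map_eq_zero _).2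
      fun x hx => (good_oddB h2 m).nd x fun y => by simp [← h8, hx]) (by simp; omega), 1,
      one_ne_zero, fun x y => by simp [h8]⟩)

omit [Finite K] h2 in
theorem exists_scale (g : GL ι K) {d : K} (hd : d ≠ 0) :
    ∃ g' : GL ι K, ∀ v, g.1 *ᵥ v = d • (g'.1 *ᵥ v) :=
  ⟨g * GeneralLinearGroup.mkOfDetNeZero (d⁻¹ • (1 : Matrix ι ι K)) (by simp [hd]), fun v => by
    simp [smul_mulVec, smul_smul, hd]⟩

theorem pq_two [Nonempty ι] {b : BF ι K} (hb : Good b) {X : Type*} [Group X] (φ : X →* GL ι K)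
    (hφ : Function.Injective φ) (h : ∀ g, IsSim b g 1 ↔ ∃ x, φ x = g) :
    Nonempty (projQuot (sim b) ≃* X) := by
  refine pq_of_hom' φ (fun x => mem_sim.2 ⟨1, one_ne_zero, (h _).2 ⟨x, rfl⟩⟩) (fun x c hc => ?_)
    fun g hg => ?_
  · obtain ⟨u, hu⟩ := exists_ne (0 : ι → K)
    obtain ⟨v, hv⟩ := not_forall.1 (mt (hb.nd u) hu)
    have h1 := (h _).2 ⟨x, rfl⟩ u v
    simp only [hc, map_smul, LinearMap.smul_apply, smul_eq_mul, ← mul_assoc] at h1
    obtain rfl : c = 1 := eq_of_sq_two h2 (by rw [_root_.sq, mul_right_cancel₀ hv h1, one_pow])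
    exact hφ (by rw [map_one]; exact Units.ext (ext_of_mulVec_single fun i => by rw [hc]; simp [-mulVec_single]))
  · obtain ⟨k, hk, hg⟩ := mem_sim.1 hg
    obtain ⟨d, rfl⟩ := isSquare_of_two_eq_zero h2 k
    obtain ⟨g', h1⟩ := exists_scale g (left_ne_zero_of_mul hk)
    obtain ⟨x, rfl⟩ := (h g').1 fun u v => mul_left_cancel₀ hk (by
      simpa [h1, mul_assoc] using hg u v)
    exact ⟨x, d, h1⟩

theorem pq_sp_two {m : ℕ} [Nonempty (Fin m)] :
    Nonempty (projQuot (sim (spForm m K).B) ≃* Matrix.symplecticGroup (Fin m) K) :=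
  pq_two h2 (good_sp m) (spGL' m K) (fun _ _ h => Subtype.ext (congrArg Units.val h))
    fun _ => isSim_sp_one

theorem pq_oddB (m : ℕ) :
    Nonempty (projQuot (sim (oddB m K)) ≃* Matrix.symplecticGroup (Fin m) K) := by
  let φ : Matrix.symplecticGroup (Fin m) K →* Matrix (Unit ⊕ (Fin m ⊕ Fin m)) _ K :=
    ⟨⟨fun s => fromBlocks 1 0 0 s.1, fromBlocks_one⟩, fun s t => by simp [fromBlocks_multiply]⟩
  refine pq_two h2 (good_oddB h2 m) φ.toHomUnits
    (fun s t h => Subtype.ext (fromBlocks_inj.1 (congrArg Units.val h)).2.2.2) fun g => ⟨fun h => ?_, ?_⟩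
  · have h1 : ∀ x, (g.1 *ᵥ x) (.inl ()) = x (.inl ()) := fun x => eq_of_sq_two h2 (by
      simpa [oddB_apply, alt_sp, _root_.sq] using h x x)
    have h0 : Pi.single (Sum.inl ()) (1 : K) ∘ (Sum.inr : Fin m ⊕ Fin m → _) = 0 := by ext; simp
    have h3 : g.1 *ᵥ Pi.single (.inl ()) 1 = Pi.single (.inl ()) 1 :=
      sub_eq_zero.1 ((good_oddB h2 m).nd _ fun y => by
        obtain ⟨y, rfl⟩ := (glEquiv g).surjective y
        rw [map_sub, LinearMap.sub_apply, glEquiv_apply, h, oddB_apply, oddB_apply, h1, h0]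
        simp)
    have h4 : fromBlocks 1 0 0 g.1.toBlocks₂₂ = g.1 := by
      ext (i | i) (j | j)
      · simpa using (congrFun h3 (.inl ())).symm
      · simpa using (h1 (Pi.single (.inr j) 1)).symm
      · simpa using (congrFun h3 (.inr i)).symm
      · rfl
    refine ⟨⟨g.1.toBlocks₂₂, mem_symplecticGroup_iff.2 fun u v => ?_⟩, Units.ext h4⟩
    have h5 := h (Sum.elim 0 u) (Sum.elim 0 v)
    rw [← h4] at h5
    simpa [oddB_apply, fromBlocks_mulVec, spForm_B] using h5
  · rintro ⟨s, rfl⟩ u v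
    simp [φ, oddB_apply, fromBlocks_mulVec, spForm_B, mem_symplecticGroup_iff.1 s.2]

theorem pq_nalB {m : ℕ} {w : Fin m ⊕ Fin m → K} (hw : w ≠ 0) :
    ∃ t : Matrix.symplecticGroup (Fin m) K, IsTransvection t.1 ∧
      Nonempty (projQuot (sim (nalB w)) ≃* centralizer {t}) := by
  have : Nonempty (Fin m ⊕ Fin m) := by
    by_contra! h; exact hw (Subsingleton.elim _ _)
  let t := (spEquiv m K).symm (spTv (spForm_nondeg m) (spForm_ε m) (spForm_κ m) w 1)
  have h1 : ∀ x, t.1 *ᵥ x = x + (spForm m K).B w x • w := fun x => by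
    rw [spEquiv_symm_mulVec, spTv_apply, one_mul]
  obtain ⟨x₀, hx₀⟩ : ∃ x, (spForm m K).B w x = 1 := by
    obtain ⟨v, hv⟩ := not_forall.1 (mt (spForm_nondeg m w) hw)
    exact ⟨((spForm m K).B w v)⁻¹ • v, by simp [hv]⟩
  have h3 : ∀ (s : Matrix.symplecticGroup (Fin m) K) u v,
      (spForm m K).B (s.1 *ᵥ u) (s.1 *ᵥ v) = (spForm m K).B u v := fun s => (spEquiv m K s).2.1
  have h4 : ∀ s, s ∈ centralizer {t} ↔ s.1 *ᵥ w = w := fun s => by
    rw [mem_centralizer_singleton_iff]
    refine ⟨fun h => ?_, fun h => Subtype.ext (ext_of_mulVec_single fun i => ?_)⟩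
    · have h5 := congrArg (fun a : Matrix.symplecticGroup (Fin m) K => a.1 *ᵥ x₀) h
      simp only [Submonoid.coe_mul, ← mulVec_mulVec, h1, hx₀, mulVec_add, one_smul,
        add_right_inj] at h5
      have h6 := h3 s w x₀
      rw [h5, map_smul, LinearMap.smul_apply, hx₀, smul_eq_mul, ← _root_.sq, ← one_pow 2] at h6
      rw [h5, eq_of_sq_two h2 h6, one_smul]
    · simp only [Submonoid.coe_mul, ← mulVec_mulVec, h1, mulVec_add, mulVec_smul, h]
      rw [← h3 s w, h]
  refine ⟨t, ⟨?_, ext_of_mulVec_single fun i => ?_⟩, pq_two h2 (good_nalB h2 w)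
    ((spGL' m K).comp (Subgroup.subtype _)) (fun _ _ h => Subtype.ext (Subtype.ext
      (congrArg Units.val h))) fun g => ⟨fun h => ?_, ?_⟩⟩
  · rw [rank, show LinearMap.range (mulVecLin (t.1 - 1)) = Submodule.span K {w} from
      le_antisymm (by rintro _ ⟨x, rfl⟩; simp [sub_mulVec, h1, Submodule.mem_span_singleton])
        ((Submodule.span_singleton_le_iff_mem _ _).2 ⟨x₀, by simp [sub_mulVec, h1, hx₀]⟩),
      finrank_span_singleton hw]
  · simp only [← mulVec_mulVec, sub_mulVec, h1, one_mulVec, add_sub_cancel_left, map_smul, alt_sp]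
    simp [-mulVec_single]
  · have h5 : ∀ x, (spForm m K).B w (g.1 *ᵥ x) = (spForm m K).B w x := fun x => eq_of_sq_two h2 (by
      simpa [nalB_apply, alt_sp, _root_.sq] using h x x)
    obtain ⟨s, rfl⟩ := (isSim_sp_one (g := g)).1 fun u v => by simpa [nalB_apply, h5] using h u v
    refine ⟨⟨s, (h4 s).2 (sub_eq_zero.1 (spForm_nondeg m _ fun y => ?_))⟩, rfl⟩
    obtain ⟨y, rfl⟩ := (spEquiv m K s).1.surjective y
    rw [map_sub, LinearMap.sub_apply, spEquiv_apply, h3, sub_eq_zero]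
    exact (h5 y).symm
  · rintro ⟨s, rfl⟩ u v
    have h5 : ∀ x, (spForm m K).B w (s.1.1 *ᵥ x) = (spForm m K).B w x := fun x => by
      rw [← h3 s.1 w x, (h4 _).1 s.2]
    change nalB w (s.1.1 *ᵥ u) (s.1.1 *ᵥ v) = _
    rw [nalB_apply, h3, h5, h5, one_mul, nalB_apply]

omit [Finite K] in
theorem pq_oddB' [Fintype K] (m : ℕ) :
    Nonempty (projQuot (sim (oddB m K)) ≃* PGO K (quadFormOdd m K)) := by
  have : CharP K 2 := CharTwo.of_one_ne_zero_of_two_eq_zero one_ne_zero h2
  refine ⟨((pq_oddB h2 m).some.trans (Cfsg.Agent.S0304.result m).some.symm).trans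
    (pq_of_hom' (H := Geo.quadSimilarityGroup (quadFormOdd m K)) (isometryGroup K _).subtype
      (fun x => ⟨1, fun v => by simpa using mem_isometryGroup.1 x.2 v⟩) (fun x c hc => ?_)
      fun g ⟨k, hk⟩ => ?_).some.symm⟩
  · have h1 := mem_isometryGroup.1 x.2 (Pi.single (.inl ()) 1)
    erw [hc] at h1
    obtain rfl : c = 1 := eq_of_sq_two h2 (by simpa [quadFormOdd] using h1)
    exact Subtype.ext (Units.ext (ext_of_mulVec_single fun i => by
      simpa [-mulVec_single] using hc _))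
  · obtain ⟨d, hd⟩ := isSquare_of_two_eq_zero h2 (k : K)
    obtain ⟨g', h1⟩ := exists_scale g (left_ne_zero_of_mul (hd ▸ k.ne_zero))
    refine ⟨⟨g', mem_isometryGroup.2 fun v => mul_left_cancel₀ k.ne_zero ?_⟩, d, h1⟩
    rw [← hk v, h1, ← coe_qOdd, QuadraticMap.map_smul, hd, smul_eq_mul]

end H22
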