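import Cfsg.Agent.H22.GrB

/-! Involutory graph automorphisms: the common pattern. -/

set_option autoImplicit false

namespace H22

open Module H23 H23.Form Matrix Cfsg Subgroup

/-- involutions of type `P` are parametrised by forms -/
structure GrIf {A : Type*} [Group A] (G I : Subgroup A) (P : A → Prop) {K : Type*} [Field K] {n : ℕ}
    {C : Type*} [CommGroup C] (Rep : A → BF (Fin n) K → Prop) (ρ : C → K → K → Prop) : Prop where
  ex : ∀ b, Good b → ∃ γ, P γ ∧ orderOf γ = 2 ∧ Rep γ b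
  all : ∀ γ, P γ → orderOf γ = 2 → ∃ b, Good b ∧ Rep γ b
  conj : ∀ {γ γ' b b'}, Good b → Good b' → Rep γ b → Rep γ' b' → (IsConjUnder G γ γ' ↔ Simil b b')
  cent : ∀ {γ b}, Good b → Rep γ b → Nonempty (↥(G ⊓ centralizer {γ}) ≃* projQuot (sim b))
  count : ∀ {γ b}, Good b → Rep γ b → ∀ R : Subgroup C, (∀ x, x ∈ R ↔ ∃ D k, DM b D k ∧ ρ x D k) →
    splitClassCount G I γ = Nat.gcd n R.index
  rhoS : ∀ m, n = 2 * m → ∀ x, (∃ k, k ≠ 0 ∧ ρ x (k ^ m) k) ↔ x ∈ (powMonoidHom m).range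
  rhoN : (2 : K) ≠ 0 → ∃ z : C, orderOf z = 2 ∧ ∀ x D k, ρ x (-D) k ↔ ρ (z * x) D k
  rhoT : ∀ x, (∃ d, d ≠ 0 ∧ ρ x (d ^ n) (d ^ 2)) ↔ x ∈ (powMonoidHom n).range

variable {A : Type*} [Group A] {G I : Subgroup A} {P : A → Prop} {K : Type*} [Field K] {n : ℕ}
  {C : Type*} [CommGroup C] {Rep : A → BF (Fin n) K → Prop} {ρ : C → K → K → Prop}
  (H : GrIf G I P Rep ρ) {κ : Type} [Fintype κ] [DecidableEq κ]

theorem card_pgsp [Fintype K] (m : ℕ) : Nat.card (PGSp (m + 1) K) = Fintype.card K ^ ((m + 1) ^ 2) *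
    ∏ i ∈ Finset.range (m + 1), (Fintype.card K ^ (2 * (i + 1)) - 1) :=
  (card_pq (spForm_nondeg _) (mult_surj_of _ fun k hk => by
    obtain ⟨g, -, h⟩ := exists_GSp_mult (m + 1) (Units.mk0 k hk)
    exact ⟨linHom (glEquiv g), rfl, h⟩) fun _ => mem_GSp_iff).trans
    (card_O_alt _ _ (spForm_nondeg _) rfl rfl (by simp; omega))

theorem card_pgo [Fintype K] (h2 : (2 : K) ≠ 0) [Nonempty κ] {Q : QuadraticForm K (κ → K)}
    (hQ : (ofQuad Q).Nondeg) (hs : Function.Surjective (mult hQ)) :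
    Nat.card (projQuot (sim (ofQuad Q).B)) = Nat.card (ofQuad Q).O :=
  card_pq hQ hs fun g => mem_sim.trans (exists_congr fun k => by
    rw [isSS_quad_iff, isSim_quad h2]
    exact and_congr_right fun _ => ⟨fun h => ⟨(glEquiv g).map_smul, h⟩, fun h => h.2⟩)

theorem sp_card_ne {q m x : ℕ} (hq : 3 ≤ q) (hx : x ∣ q ^ (2 * (m + 1)) - 1) :
    2 * q ^ ((m + 1) * m) * x * ∏ i ∈ Finset.range m, (q ^ (2 * (i + 1)) - 1) ≠
      q ^ ((m + 1) ^ 2) * ∏ i ∈ Finset.range (m + 1), (q ^ (2 * (i + 1)) - 1) := by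
  have h1 : 0 < ∏ i ∈ Finset.range m, (q ^ (2 * (i + 1)) - 1) := Finset.prod_pos fun i _ =>
    Nat.sub_pos_of_lt (Nat.one_lt_pow (by omega) (by omega))
  have h2 : 0 < q ^ (2 * (m + 1)) - 1 := Nat.sub_pos_of_lt (Nat.one_lt_pow (by omega) (by omega))
  have h3 := Nat.le_of_dvd h2 hx
  have h4 : 2 < q ^ (m + 1) := lt_of_lt_of_le (by omega) (Nat.le_self_pow (by omega) q)
  rw [Finset.prod_range_succ, show (m + 1) ^ 2 = (m + 1) + (m + 1) * m by ring, pow_add]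
  refine ne_of_lt ?_
  calc _ ≤ 2 * q ^ ((m + 1) * m) * (q ^ (2 * (m + 1)) - 1) * _ := by gcongr
    _ < q ^ (m + 1) * q ^ ((m + 1) * m) * (q ^ (2 * (m + 1)) - 1) * _ := by gcongr
    _ = _ := by ring

/-- the standard dot product -/
def dotB (n : ℕ) (K : Type*) [Field K] : BF (Fin n) K := toBilin' 1

theorem dotB_apply (x y : Fin n → K) : dotB n K x y = x ⬝ᵥ y := by simp [dotB, toBilin'_apply']

theorem good_dotB : Good (dotB n K) :=
  ⟨fun x hx => dotProduct_eq_zero x fun y => by rw [← dotB_apply, hx],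
    .inl fun x y => by rw [dotB_apply, dotB_apply, dotProduct_comm]⟩

theorem simil_dot [Fintype K] (h2 : (2 : K) ≠ 0) {m : ℕ} (hn : n = 2 * (m + 1)) {c d : K}
    (hcd : ∀ z₁ z₂ : K, z₁ ^ 2 + c * z₁ * z₂ + d * z₂ ^ 2 = 0 → z₁ = 0 ∧ z₂ = 0) :
    (Fintype.card K ^ (m + 1) % 4 = 1 ∧ Simil (dotB n K) (ofQuad (qPlus (m + 1) K)).B) ∨
      Fintype.card K ^ (m + 1) % 4 = 3 ∧ Simil (dotB n K) (ofQuad (qMinus m K c d)).B := by
  classical
  obtain ⟨Q, h3, h4, h5⟩ := (good_dotB (n := n)).exists_quad h2 fun x y => by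
    rw [dotB_apply, dotB_apply, dotProduct_comm]
  have h6 : scal _ (-1) (by simp) ∈ commutator (ofQuad Q).O := by
    rw [neg_mem_commutator_iff h3 h2 (fun i => Pi.single i 1) ?_ ?_ (by simp) rfl]
    · simp [h5, dotB_apply, hn]
    · intro i j hij
      simp [QuadraticMap.polar, h5, dotB_apply, hij, hij.symm]
    · simp [h5, dotB_apply]
  have key : ∀ {κ : Type} {Q' : QuadraticForm K (κ → K)} (e : (κ → K) ≃ₗ[K] _),
      (∀ x, Q (e x) = Q' x) → scal _ (-1) (by simp) ∈ commutator (ofQuad Q').O := fun e he => by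
    have h7 : IsSS _ (ofQuad Q) (RingEquiv.refl K) 1 e.toAddEquiv :=
      isSS_quad_iff.2 ⟨one_ne_zero, e.map_smul, by simpa using he⟩
    rw [← mem_commutator_equiv h7.conj]
    convert h6
    refine O_ext _ fun v => ?_
    rw [h7.conj_apply]; simp
  exact (exists_equiv_plus_or_minus h3 (m := m) (by simpa) hcd).imp
    (fun ⟨e, he⟩ => ⟨(neg_mem_omega_plus_iff h2 _).1 (key e he),
      h4.trans ((simil_quad_iff h2).2 ⟨e, 1, one_ne_zero, by simpa⟩)⟩)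
    fun ⟨e, he⟩ => ⟨(neg_mem_omega_minus_iff h2 _ hcd).1 (key e he),
      h4.trans ((simil_quad_iff h2).2 ⟨e, 1, one_ne_zero, by simpa⟩)⟩

include H

theorem GrIf.cent' {γ : A} {b : BF (Fin n) K} (hb : Good b) (h : Rep γ b) {b₀ : BF κ K}
    (h0 : Simil b b₀) : Nonempty (↥(G ⊓ centralizer {γ}) ≃* projQuot (sim b₀)) :=
  ⟨(H.cent hb h).some.trans h0.pq.some⟩

theorem GrIf.ex' {b₀ : BF κ K} (h0 : Good b₀) (h : Fintype.card κ = n) :
    ∃ γ b, P γ ∧ orderOf γ = 2 ∧ Good b ∧ Rep γ b ∧ Simil b b₀ := by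
  obtain ⟨b, hb⟩ := exists_simil (ι := Fin n) b₀ (by simp [h])
  obtain ⟨γ, h1, h2, h3⟩ := H.ex b (hb.good h0)
  exact ⟨γ, b, h1, h2, hb.good h0, h3, hb⟩

variable [Fintype K]

theorem GrIf.odd {m : ℕ} (hn : n = 2 * m + 1) {γ γ' : A} (h1 : P γ) (h2 : orderOf γ = 2)
    (h3 : P γ') (h4 : orderOf γ' = 2) :
    Nonempty (↥(G ⊓ centralizer {γ}) ≃* PGO K (quadFormOdd m K)) ∧ IsConjUnder G γ γ' := by
  obtain ⟨b₀, h5, h6⟩ : ∃ b₀ : BF (Unit ⊕ (Fin m ⊕ Fin m)) K, (∀ b : BF (Fin n) K, Good b →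
      Simil b b₀) ∧ Nonempty (projQuot (sim b₀) ≃* PGO K (quadFormOdd m K)) := by
    by_cases h2 : (2 : K) = 0
    · refine ⟨_, fun b hb => ?_, pq_oddB' h2 m⟩
      rcases hb.two_cases h2 with h | ⟨m', h, h'⟩ | ⟨h, -⟩
      · simpa [hn] using hb.even h
      · obtain rfl : m = m' := by simp at h; omega
        exact h'
      · simp [hn] at h
    · exact ⟨_, fun b hb => hb.simil_odd h2 (by simpa), by rw [sim_quad h2, coe_qOdd]; exact ⟨.refl _⟩⟩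
  obtain ⟨b, hb, h7⟩ := H.all γ h1 h2
  obtain ⟨b', hb', h8⟩ := H.all γ' h3 h4
  exact ⟨⟨(H.cent' hb h7 (h5 b hb)).some.trans h6.some⟩,
    (H.conj hb hb' h7 h8).2 ((h5 b hb).trans (h5 b' hb').symm)⟩

theorem GrIf.even (hodd : Odd (Fintype.card K)) {m : ℕ} (hm : 1 ≤ m) (hn : n = 2 * m) :
    ∃ (γ₁ γ₂ γ₃ : A) (a b : K), (∀ z₁ z₂ : K, z₁ ^ 2 + a * z₁ * z₂ + b * z₂ ^ 2 = 0 → z₁ = 0 ∧ z₂ = 0) ∧
      P γ₁ ∧ orderOf γ₁ = 2 ∧ P γ₂ ∧ orderOf γ₂ = 2 ∧ P γ₃ ∧ orderOf γ₃ = 2 ∧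
      ¬ IsConjUnder G γ₁ γ₂ ∧ ¬ IsConjUnder G γ₁ γ₃ ∧ ¬ IsConjUnder G γ₂ γ₃ ∧
      (∀ γ, P γ → orderOf γ = 2 → IsConjUnder G γ₁ γ ∨ IsConjUnder G γ₂ γ ∨ IsConjUnder G γ₃ γ) ∧
      Nonempty (↥(G ⊓ centralizer {γ₁}) ≃* PGSp m K) ∧
      Nonempty (↥(G ⊓ centralizer {γ₂}) ≃* PGO K (quadFormPlus m K)) ∧
      Nonempty (↥(G ⊓ centralizer {γ₃}) ≃* PGO K (quadFormMinus (m - 1) K a b)) := by
  obtain ⟨m, rfl⟩ : ∃ k, m = k + 1 := ⟨m - 1, by omega⟩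
  have h2 := two_ne_zero_of_odd_card hodd
  obtain ⟨c, d, hcd⟩ := exists_aniso K
  obtain ⟨γ₁, b₁, a1, a2, a3, a4, a5⟩ := H.ex' (good_sp (m + 1)) (by simp; omega)
  obtain ⟨γ₂, b₂, b1, b2, b3, b4, b5⟩ := H.ex' (good_quad (qPlus_nondeg (m + 1))) (by simp; omega)
  obtain ⟨γ₃, b₃, c1, c2, c3, c4, c5⟩ := H.ex' (good_quad (qMinus_nondeg m hcd)) (by simp; omega)
  refine ⟨γ₁, γ₂, γ₃, c, d, hcd, a1, a2, b1, b2, c1, c2, fun h => not_simil_sp_quad h2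
    (qPlus_nondeg _) (a5.symm.trans (((H.conj a3 b3 a4 b4).1 h).trans b5)), fun h =>
    not_simil_sp_quad h2 (qMinus_nondeg m hcd) (a5.symm.trans (((H.conj a3 c3 a4 c4).1 h).trans c5)),
    fun h => not_simil_plus_minus h2 hcd (b5.symm.trans (((H.conj b3 c3 b4 c4).1 h).trans c5)),
    fun γ h3 h4 => ?_, by have := H.cent' a3 a4 a5; rwa [sim_sp] at this, ?_, ?_⟩
  · obtain ⟨b, hb, h5⟩ := H.all γ h3 h4
    exact (hb.simil_even h2 (by simpa) hcd).imp (fun h => (H.conj a3 hb a4 h5).2 (a5.trans h.symm))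
      (Or.imp (fun h => (H.conj b3 hb b4 h5).2 (b5.trans h.symm))
        fun h => (H.conj c3 hb c4 h5).2 (c5.trans h.symm))
  · have := H.cent' b3 b4 b5
    rwa [sim_quad h2, coe_qPlus] at this
  · have := H.cent' c3 c4 c5
    rwa [sim_quad h2, coe_qMinus] at this

theorem GrIf.two (h2 : (2 : K) = 0) {m : ℕ} (hm : 1 ≤ m) (hn : n = 2 * m) :
    ∃ (γ₁ γ₃ : A) (t : Matrix.symplecticGroup (Fin m) K), IsTransvection t.1 ∧ P γ₁ ∧
      orderOf γ₁ = 2 ∧ P γ₃ ∧ orderOf γ₃ = 2 ∧ ¬ IsConjUnder G γ₁ γ₃ ∧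
      (∀ γ, P γ → orderOf γ = 2 → IsConjUnder G γ₁ γ ∨ IsConjUnder G γ₃ γ) ∧
      Nonempty (↥(G ⊓ centralizer {γ₁}) ≃* Matrix.symplecticGroup (Fin m) K) ∧
      Nonempty (↥(G ⊓ centralizer {γ₃}) ≃* centralizer {t}) := by
  have : Nonempty (Fin m) := ⟨⟨0, hm⟩⟩
  obtain ⟨w, hw⟩ := exists_ne (0 : Fin m ⊕ Fin m → K)
  obtain ⟨t, h3, h4⟩ := pq_nalB h2 hw
  obtain ⟨γ₁, b₁, a1, a2, a3, a4, a5⟩ := H.ex' (good_sp m) (by simp; omega)
  obtain ⟨γ₃, b₃, c1, c2, c3, c4, c5⟩ := H.ex' (good_nalB h2 w) (by simp; omega)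
  refine ⟨γ₁, γ₃, t, h3, a1, a2, c1, c2, fun h => not_simil_sp_nalB hw
    (a5.symm.trans (((H.conj a3 c3 a4 c4).1 h).trans c5)), fun γ h5 h6 => ?_,
    ⟨(H.cent' a3 a4 a5).some.trans (pq_sp_two h2).some⟩, ⟨(H.cent' c3 c4 c5).some.trans h4.some⟩⟩
  obtain ⟨b, hb, h7⟩ := H.all γ h5 h6
  rcases hb.two_cases h2 with h | ⟨m', h, -⟩ | ⟨-, h⟩
  · exact .inl ((H.conj a3 hb a4 h7).2 (a5.trans (hb.simil_sp h (by simpa)).symm))
  · simp at h; omega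
  · exact .inr ((H.conj c3 hb c4 h7).2 (c5.trans (h m (by simpa) w hw).symm))

theorem GrIf.dot (h2 : (2 : K) ≠ 0) {m : ℕ} (hm : 1 ≤ m) (hn : n = 2 * m) {γ : A}
    (h : Rep γ (dotB n K)) : (Fintype.card K ^ m % 4 = 1 ∧
      Nonempty (↥(G ⊓ centralizer {γ}) ≃* PGO K (quadFormPlus m K))) ∨ Fintype.card K ^ m % 4 = 3 ∧
      ∃ a b : K, (∀ z₁ z₂ : K, z₁ ^ 2 + a * z₁ * z₂ + b * z₂ ^ 2 = 0 → z₁ = 0 ∧ z₂ = 0) ∧
        Nonempty (↥(G ⊓ centralizer {γ}) ≃* PGO K (quadFormMinus (m - 1) K a b)) := by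
  obtain ⟨m, rfl⟩ : ∃ k, m = k + 1 := ⟨m - 1, by omega⟩
  obtain ⟨c, d, hcd⟩ := exists_aniso K
  refine (simil_dot h2 hn hcd).imp (And.imp_right fun h1 => ?_)
    (And.imp_right fun h1 => ⟨c, d, hcd, ?_⟩) <;> have := H.cent' good_dotB h h1
  · rwa [sim_quad h2, coe_qPlus] at this
  · rwa [sim_quad h2, coe_qMinus] at this

theorem GrIf.counts [Finite C] [IsCyclic C] (hn : 1 ≤ n) {γ : A} (h1 : P γ) (h2 : orderOf γ = 2) :
    ((Even n ∧ Odd (Fintype.card K) ∧ Nonempty (↥(G ⊓ centralizer {γ}) ≃* PGSp (n / 2) K)) →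
      splitClassCount G I γ = Nat.gcd (n / 2) (Nat.card C)) ∧
    ((Even n ∧ Odd (Fintype.card K) ∧ ¬ Nonempty (↥(G ⊓ centralizer {γ}) ≃* PGSp (n / 2) K)) →
      splitClassCount G I γ = Nat.gcd n (Nat.card C) / 2) ∧
    (¬ (Even n ∧ Odd (Fintype.card K)) → splitClassCount G I γ = Nat.gcd n (Nat.card C)) := by
  classical
  obtain ⟨b, hb, h3⟩ := H.all γ h1 h2
  by_cases h : Even n ∧ Odd (Fintype.card K)
  · obtain ⟨m, hm⟩ : ∃ m, n = 2 * (m + 1) := by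
      obtain ⟨k, hk⟩ := h.1
      exact ⟨k - 1, by omega⟩
    have h4 := two_ne_zero_of_odd_card h.2
    have h5 : n / 2 = m + 1 := by omega
    have hq : 3 ≤ Fintype.card K := by
      have := Fintype.one_lt_card (α := K)
      obtain ⟨k, hk⟩ := h.2; omega
    obtain ⟨c, d, hcd⟩ := exists_aniso K
    have key : ∀ {κ : Type} [Fintype κ] [DecidableEq κ] [Nonempty κ] {Q : QuadraticForm K (κ → K)}
        (hQ : (ofQuad Q).Nondeg), Function.Surjective (mult hQ) → Fintype.card κ = 2 * (m + 1) →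
        Simil b (ofQuad Q).B → Nat.card (ofQuad Q).O ≠ Nat.card (PGSp (m + 1) K) →
        ¬ Nonempty (↥(G ⊓ centralizer {γ}) ≃* PGSp (m + 1) K) ∧
          splitClassCount G I γ = Nat.gcd n (Nat.card C) / 2 := by
      intro κ _ _ _ Q hQ hs hκ h6 h7
      refine ⟨fun ⟨e⟩ => h7 (by
        rw [← card_pgo h4 hQ hs]
        exact Nat.card_congr ((H.cent' hb h3 h6).some.symm.trans e).toEquiv), ?_⟩
      obtain ⟨z, hz, h8⟩ := H.rhoN h4
      have h9 : z * z = 1 := by rw [← _root_.sq, ← hz, pow_orderOf_eq_one]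
      rw [H.count hb h3 ((powMonoidHom (m + 1)).range ⊔ zpowers z) fun x => ?_, cyc_index_sup,
        IsCyclic.index_powMonoidHom_range, index_eq_div, Nat.card_zpowers, hz]
      · obtain ⟨t, ht⟩ : 2 ∣ Nat.card C := hz ▸ orderOf_dvd_natCard z
        rw [ht, hm, Nat.gcd_mul_left, Nat.mul_div_cancel_left _ two_pos,
          Nat.mul_div_cancel_left _ two_pos, Nat.gcd_comm (2 * t), Nat.gcd_assoc,
          Nat.gcd_eq_right (dvd_mul_left t 2), Nat.gcd_eq_right]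
        exact (Nat.gcd_dvd_left _ _).mul_left _
      · simp only [h6.dm, dm_quad h4 hQ hs hκ, mem_sup]
        constructor
        · rintro ⟨y, hy, w, hw, rfl⟩
          obtain ⟨k, hk, h10⟩ := (H.rhoS _ hm y).2 hy
          rw [mem_zpowers_iff_mem_range_orderOf, hz] at hw
          simp only [Finset.range_add_one, Finset.range_zero] at hw
          simp at hw
          rcases hw with rfl | rfl
          · exact ⟨_, k, ⟨hk, .inr rfl⟩, (h8 _ _ _).2 (by rwa [mul_left_comm, h9, mul_one])⟩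
          · exact ⟨_, k, ⟨hk, .inl rfl⟩, by rwa [mul_one]⟩
        · rintro ⟨_, k, ⟨hk, rfl | rfl⟩, h10⟩
          · exact ⟨x, (H.rhoS _ hm x).1 ⟨k, hk, h10⟩, 1, one_mem _, mul_one x⟩
          · exact ⟨_, (H.rhoS _ hm _).1 ⟨k, hk, (h8 _ _ _).1 h10⟩, z, mem_zpowers z, by
              rw [mul_right_comm, h9, one_mul]⟩
    rw [h5]
    have h6 : Fintype.card K ^ (2 * (m + 1)) - 1 =
        (Fintype.card K ^ (m + 1) + 1) * (Fintype.card K ^ (m + 1) - 1) := by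
      rw [← Nat.sq_sub_sq, ← pow_mul, mul_comm, one_pow]
    rcases hb.simil_even h4 (by simpa) hcd with h7 | h7 | h7
    · refine ⟨fun _ => ?_, fun h8 => (h8.2.2 (by have := H.cent' hb h3 h7; rwa [sim_sp] at this)).elim,
        fun h8 => (h8 h).elim⟩
      rw [H.count hb h3 (powMonoidHom (m + 1)).range fun x => ?_,
        IsCyclic.index_powMonoidHom_range, Nat.gcd_comm (Nat.card C), hm, Nat.gcd_eq_right]
      · exact (Nat.gcd_dvd_left _ _).mul_left _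
      · simp only [h7.dm, dm_sp, ← H.rhoS _ hm]
        exact ⟨fun ⟨k, h8, h9⟩ => ⟨_, k, ⟨h8, rfl⟩, h9⟩, fun ⟨_, k, ⟨h8, h9⟩, h10⟩ => ⟨k, h8, h9 ▸ h10⟩⟩
    · obtain ⟨h8, h9⟩ := key _ (mult_surj_plus _) (by simp; omega) h7 (by
        rw [card_O_qPlus _ (by omega), card_pgsp]
        exact sp_card_ne hq (h6 ▸ dvd_mul_left _ _))
      exact ⟨fun h => (h8 h.2.2).elim, fun _ => h9, fun h8 => (h8 h).elim⟩
    · obtain ⟨h8, h9⟩ := key _ (mult_surj_minus hcd _) (by simp; omega) h7 (by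
        rw [card_O_qMinus _ hcd, card_pgsp]
        exact sp_card_ne hq (h6 ▸ dvd_mul_right _ _))
      exact ⟨fun h => (h8 h.2.2).elim, fun _ => h9, fun h8 => (h8 h).elim⟩
  · refine ⟨fun h4 => (h ⟨h4.1, h4.2.1⟩).elim, fun h4 => (h ⟨h4.1, h4.2.1⟩).elim, fun _ => ?_⟩
    rw [H.count hb h3 (powMonoidHom n).range fun x => ?_, IsCyclic.index_powMonoidHom_range,
      Nat.gcd_comm (Nat.card C), Nat.gcd_eq_right (Nat.gcd_dvd_left _ _)]
    rw [← H.rhoT]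
    refine ⟨fun ⟨d, h4, h5⟩ => ⟨_, _, by simpa using dm_scal b h4, h5⟩, fun ⟨D, k, h4, h5⟩ => ?_⟩
    obtain ⟨d, h6, rfl, rfl⟩ : ∃ d, d ≠ 0 ∧ D = d ^ Fintype.card (Fin n) ∧ k = d ^ 2 := by
      by_cases h2 : (2 : K) = 0
      · exact h4.two h2 hb
      · exact h4.odd hb (by simpa [odd_card_of_two_ne_zero h2] using h)
    exact ⟨d, h6, by simpa using h5⟩

end H22
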