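import Cfsg.Agent.H22.IsoE

/-! The Heisenberg group of order 27 and its holomorph by `SL₂(3)` inside `Sp₄(3)`. -/

set_option autoImplicit false

namespace H22.Hs3

open Subgroup Matrix
open scoped commutatorElement MatrixGroups

abbrev Z3 : Type := ZMod 3

/-- the Heisenberg group -/
@[ext] structure Hs where
  x : Z3
  y : Z3
  s : Z3
  deriving DecidableEq, Fintype

namespace Hs

instance : Mul Hs := ⟨fun a b => ⟨a.x + b.x, a.y + b.y, a.s + b.s + (a.x * b.y - a.y * b.x)⟩⟩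
instance : One Hs := ⟨⟨0, 0, 0⟩⟩
instance : Inv Hs := ⟨fun a => ⟨-a.x, -a.y, -a.s⟩⟩
@[simp] theorem mul_x (a b : Hs) : (a * b).x = a.x + b.x := rfl
@[simp] theorem mul_y (a b : Hs) : (a * b).y = a.y + b.y := rfl
@[simp] theorem mul_s (a b : Hs) : (a * b).s = a.s + b.s + (a.x * b.y - a.y * b.x) := rfl
@[simp] theorem one_x : (1 : Hs).x = 0 := rfl
@[simp] theorem one_y : (1 : Hs).y = 0 := rfl
@[simp] theorem one_s : (1 : Hs).s = 0 := rfl
@[simp] theorem inv_x (a : Hs) : a⁻¹.x = -a.x := rfl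
@[simp] theorem inv_y (a : Hs) : a⁻¹.y = -a.y := rfl
@[simp] theorem inv_s (a : Hs) : a⁻¹.s = -a.s := rfl

instance : Group Hs := Group.ofLeftAxioms
  (fun a b c => by ext <;> simp <;> ring) (fun a => by ext <;> simp)
  (fun a => by ext <;> simp; ring)

theorem card : Nat.card Hs = 27 := by
  rw [Nat.card_congr (⟨fun a => (a.x, a.y, a.s), fun p => ⟨p.1, p.2.1, p.2.2⟩, fun _ => rfl,
    fun _ => rfl⟩ : Hs ≃ Z3 × Z3 × Z3)]
  simp

theorem pow_eq (a : Hs) (n : ℕ) : a ^ n = ⟨n * a.x, n * a.y, n * a.s⟩ := by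
  induction n with
  | zero => ext <;> simp
  | succ n ih => rw [pow_succ, ih]; ext <;> simp <;> ring

end Hs

def a0 : Hs := ⟨1, 0, 0⟩
def b0 : Hs := ⟨0, 1, 0⟩
def c0 : Hs := ⟨0, 0, 1⟩

theorem nf (h : Hs) : h = a0 ^ h.x.val * b0 ^ h.y.val * ⁅a0, b0⁆ ^ (h.x * h.y - h.s).val := by
  revert h; decide

theorem hom_apply (φ : Hs →* Hs) (h : Hs) : φ h = ⟨(φ a0).x * h.x + (φ b0).x * h.y,
    (φ a0).y * h.x + (φ b0).y * h.y,
    ((φ a0).x * (φ b0).y - (φ a0).y * (φ b0).x) * h.s + (φ a0).s * h.x + (φ b0).s * h.y⟩ := by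
  conv_lhs => rw [nf h]
  rw [map_mul, map_mul, map_pow, map_pow, map_pow, map_commutatorElement]
  simp only [Hs.pow_eq, commutatorElement_def]
  have h3 : (3 : Z3) = 0 := rfl
  ext <;> simp
  · ring
  · ring
  · linear_combination ((φ a0).x * (φ b0).y - (φ a0).y * (φ b0).x) * (h.x * h.y - h.s) * h3

/-- the matrix of an automorphism -/
def mat : MulAut Hs →* Matrix (Fin 2) (Fin 2) Z3 where
  toFun φ := !![(φ a0).x, (φ b0).x; (φ a0).y, (φ b0).y]
  map_one' := by decide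
  map_mul' φ ψ := by
    have := hom_apply φ.toMonoidHom
    simp only [MulEquiv.coe_toMonoidHom] at this
    ext i j
    fin_cases i <;> fin_cases j <;>
      simp [Matrix.mul_apply, Fin.sum_univ_two, MulAut.mul_apply, this (ψ _)]

theorem aut_apply (φ : MulAut Hs) (h : Hs) : φ h = ⟨mat φ 0 0 * h.x + mat φ 0 1 * h.y,
    mat φ 1 0 * h.x + mat φ 1 1 * h.y, (mat φ).det * h.s + (φ a0).s * h.x + (φ b0).s * h.y⟩ := by
  rw [det_fin_two, mul_comm (mat φ 0 1) (mat φ 1 0)]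
  exact hom_apply φ.toMonoidHom h

/-- the linear action -/
def lin (g : Matrix (Fin 2) (Fin 2) Z3) (h : Hs) : Hs :=
  ⟨g 0 0 * h.x + g 0 1 * h.y, g 1 0 * h.x + g 1 1 * h.y, h.s⟩

theorem lin_mul (g k : Matrix (Fin 2) (Fin 2) Z3) (h : Hs) : lin (g * k) h = lin g (lin k h) := by
  ext <;> simp [lin, Matrix.mul_apply, Fin.sum_univ_two] <;> ring

theorem lin_one (h : Hs) : lin 1 h = h := by ext <;> simp [lin]

/-- the action of `SL₂(3)` -/
def act : SL(2, Z3) →* MulAut Hs := MonoidHom.mk' (fun g =>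
  { toFun := lin g.1
    invFun := lin (g⁻¹).1
    left_inv := fun h => by rw [← lin_mul, ← Matrix.SpecialLinearGroup.coe_mul, inv_mul_cancel]; exact lin_one h
    right_inv := fun h => by rw [← lin_mul, ← Matrix.SpecialLinearGroup.coe_mul, mul_inv_cancel]; exact lin_one h
    map_mul' := fun a b => by
      have := g.2
      rw [det_fin_two] at this
      ext <;> simp [lin]
      · ring
      · ring
      · linear_combination (a.y * b.x - a.x * b.y) * this }) fun g k =>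
  MulEquiv.ext fun h => lin_mul g.1 k.1 h

theorem act_apply (g : SL(2, Z3)) (h : Hs) : act g h = lin g.1 h := rfl

/-- the model group -/
abbrev X0 : Type := Hs ⋊[act] SL(2, Z3)

theorem card_SL : Nat.card SL(2, Z3) = 24 := by
  have := Fact.mk Nat.prime_three
  rw [card_SL_two]; simp

theorem card_X0 : Nat.card X0 = 648 := by rw [SemidirectProduct.card, Hs.card, card_SL]

section abstract

variable {G : Type*} [Group G] {a b : G} (ha : a ^ 3 = 1) (hb : b ^ 3 = 1) (hc : ⁅a, b⁆ ^ 3 = 1)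
  (h1 : Commute ⁅a, b⁆ a) (h2 : Commute ⁅a, b⁆ b)

theorem pow_val_add {g : G} (h : g ^ 3 = 1) (i j : Z3) : g ^ (i + j).val = g ^ i.val * g ^ j.val := by
  rw [ZMod.val_add, ← pow_eq_pow_mod _ h, pow_add]

theorem pow_val_mul {g : G} (h : g ^ 3 = 1) (i j : Z3) : g ^ (i * j).val = g ^ (i.val * j.val) := by
  rw [ZMod.val_mul, ← pow_eq_pow_mod _ h]

include h1 h2 in
theorem swap_pow (m n : ℕ) : a ^ m * b ^ n = b ^ n * a ^ m * ⁅a, b⁆ ^ (m * n) := by
  have e1 : ∀ n : ℕ, a * b ^ n = b ^ n * a * ⁅a, b⁆ ^ n := fun n => by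
    induction n with
    | zero => simp
    | succ n ih =>
      have e : a * b = ⁅a, b⁆ * (b * a) := by simp only [commutatorElement_def]; group
      rw [pow_succ, ← mul_assoc, ih, mul_assoc, (h2.pow_left n).eq, ← mul_assoc, mul_assoc _ a b, e,
        (h2.mul_right h1).eq, pow_succ' ⁅a, b⁆]
      generalize ⁅a, b⁆ = c
      group
  induction m with
  | zero => simp
  | succ m ih =>
    rw [pow_succ, mul_assoc, e1, ← mul_assoc, ← mul_assoc, ih, mul_assoc _ _ a,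
      (h1.pow_left _).eq, add_mul, one_mul, pow_add]
    generalize ⁅a, b⁆ = c
    group

include ha hb hc h1 h2 in
theorem exists_eta : ∃ η : Hs →* G, η a0 = a ∧ η b0 = b := by
  refine ⟨MonoidHom.mk' (fun h => a ^ h.x.val * b ^ h.y.val * ⁅a, b⁆ ^ (h.x * h.y - h.s).val)
    fun p q => ?_, by simp [a0, ZMod.val_one], by simp [b0, ZMod.val_one]⟩
  have e : (p.x * p.y - p.s) + (q.x * q.y - q.s) =
      ((p * q).x * (p * q).y - (p * q).s) + q.x * p.y := by
    have h3 : (3 : Z3) = 0 := rfl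
    simp; linear_combination (-(p.y * q.x)) * h3
  have e2 := congrArg (fun t : Z3 => ⁅a, b⁆ ^ t.val) e
  simp only [pow_val_add hc, pow_val_mul hc q.x p.y] at e2
  have e3 := swap_pow h1 h2 q.x.val p.y.val
  have c1 : ∀ k m, Commute (⁅a, b⁆ ^ k) (a ^ m) := fun k m => (h1.pow_left k).pow_right m
  have c2 : ∀ k m, Commute (⁅a, b⁆ ^ k) (b ^ m) := fun k m => (h2.pow_left k).pow_right m
  rw [Hs.mul_x, Hs.mul_y, pow_val_add ha, pow_val_add hb, ← Hs.mul_x, ← Hs.mul_y,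
    ← mul_left_inj (⁅a, b⁆ ^ (q.x.val * p.y.val)), mul_assoc _ _ (⁅a, b⁆ ^ (q.x.val * p.y.val)), ← e2]
  generalize (p.x * p.y - p.s).val = k
  generalize (q.x * q.y - q.s).val = l
  calc _ = a ^ p.x.val * (a ^ q.x.val * b ^ p.y.val) * b ^ q.y.val * (⁅a, b⁆ ^ k * ⁅a, b⁆ ^ l) := by group
    _ = a ^ p.x.val * b ^ p.y.val * a ^ q.x.val * (⁅a, b⁆ ^ (q.x.val * p.y.val) * b ^ q.y.val) *
        (⁅a, b⁆ ^ k * ⁅a, b⁆ ^ l) := by rw [e3]; group
    _ = a ^ p.x.val * b ^ p.y.val * (a ^ q.x.val * b ^ q.y.val * ⁅a, b⁆ ^ k) * ⁅a, b⁆ ^ l *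
        ⁅a, b⁆ ^ (q.x.val * p.y.val) := by rw [(c2 _ _).eq]; group
    _ = _ := by rw [← ((c1 k _).mul_right (c2 k _)).eq]; group

theorem eta_inj {η : Hs →* G} (h : ⁅η a0, η b0⁆ ≠ 1) : Function.Injective η := by
  rw [injective_iff_map_eq_one]
  intro p hp
  by_contra h0
  have : ∀ p : Hs, p ≠ 1 → ∃ q : Hs, ⁅a0, b0⁆ = ⁅p, q⁆ ∨ ⁅a0, b0⁆ = p ∨ ⁅a0, b0⁆ = p * p := by decide
  obtain ⟨q, e | e | e⟩ := this p h0 <;> apply h <;> rw [← map_commutatorElement, e] <;> simp [hp]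

end abstract

section sp

def i4 : Fin 2 ⊕ Fin 2 → Fin 4 := Sum.elim ![0, 1] ![2, 3]

/-- the unipotent radical -/
def m1 (h : Hs) : Matrix (Fin 2 ⊕ Fin 2) (Fin 2 ⊕ Fin 2) Z3 :=
  (!![1, -h.y, h.s, h.x; 0, 1, h.x, 0; 0, 0, 1, 0; 0, 0, h.y, 1]).submatrix i4 i4

/-- the Levi factor -/
def m2 (g : Matrix (Fin 2) (Fin 2) Z3) : Matrix (Fin 2 ⊕ Fin 2) (Fin 2 ⊕ Fin 2) Z3 :=
  (!![1, 0, 0, 0; 0, g 0 0, 0, g 0 1; 0, 0, 1, 0; 0, g 1 0, 0, g 1 1]).submatrix i4 i4

abbrev Sp : Type := symplecticGroup (Fin 2) Z3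

theorem fa {P : Fin 2 ⊕ Fin 2 → Prop} (h0 : P (.inl 0)) (h1 : P (.inl 1)) (h2 : P (.inr 0))
    (h3 : P (.inr 1)) : ∀ i, P i := by
  rintro (i | i) <;> fin_cases i <;> assumption

theorem mext {A B : Matrix (Fin 2 ⊕ Fin 2) (Fin 2 ⊕ Fin 2) Z3}
    (h00 : A (.inl 0) (.inl 0) = B (.inl 0) (.inl 0)) (h01 : A (.inl 0) (.inl 1) = B (.inl 0) (.inl 1))
    (h02 : A (.inl 0) (.inr 0) = B (.inl 0) (.inr 0)) (h03 : A (.inl 0) (.inr 1) = B (.inl 0) (.inr 1))
    (h10 : A (.inl 1) (.inl 0) = B (.inl 1) (.inl 0)) (h11 : A (.inl 1) (.inl 1) = B (.inl 1) (.inl 1))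
    (h12 : A (.inl 1) (.inr 0) = B (.inl 1) (.inr 0)) (h13 : A (.inl 1) (.inr 1) = B (.inl 1) (.inr 1))
    (h20 : A (.inr 0) (.inl 0) = B (.inr 0) (.inl 0)) (h21 : A (.inr 0) (.inl 1) = B (.inr 0) (.inl 1))
    (h22 : A (.inr 0) (.inr 0) = B (.inr 0) (.inr 0)) (h23 : A (.inr 0) (.inr 1) = B (.inr 0) (.inr 1))
    (h30 : A (.inr 1) (.inl 0) = B (.inr 1) (.inl 0)) (h31 : A (.inr 1) (.inl 1) = B (.inr 1) (.inl 1))
    (h32 : A (.inr 1) (.inr 0) = B (.inr 1) (.inr 0)) (h33 : A (.inr 1) (.inr 1) = B (.inr 1) (.inr 1)) : A = B :=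
  Matrix.ext (fa (fa h00 h01 h02 h03) (fa h10 h11 h12 h13) (fa h20 h21 h22 h23) (fa h30 h31 h32 h33))

def t1 : Hs →* Sp := MonoidHom.mk' (fun h => ⟨m1 h, by
    rw [SymplecticGroup.mem_iff]; revert h; decide +kernel⟩) fun p q => Subtype.ext (by
  change m1 (p * q) = m1 p * m1 q
  apply mext <;> simp [m1, i4, Matrix.mul_apply, Fin.sum_univ_two] <;> ring)

def t2 : SL(2, Z3) →* Sp := MonoidHom.mk' (fun g => ⟨m2 g.1, by
    have := g.2
    rw [det_fin_two] at this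
    rw [SymplecticGroup.mem_iff]
    apply mext <;> simp [m2, i4, Matrix.mul_apply, Fin.sum_univ_two, J] <;>
      first | linear_combination this | linear_combination -this | ring⟩) fun p q => Subtype.ext (by
  change m2 (p.1 * q.1) = m2 p.1 * m2 q.1
  apply mext <;> simp [m2, i4, Matrix.mul_apply, Fin.sum_univ_two])

theorem t2_t1 (g : SL(2, Z3)) (h : Hs) : t1 (act g h) = t2 g * t1 h * (t2 g)⁻¹ := by
  rw [eq_mul_inv_iff_mul_eq]
  apply Subtype.ext
  change m1 (lin g.1 h) * m2 g.1 = m2 g.1 * m1 h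
  have := g.2
  rw [det_fin_two] at this
  apply mext <;> simp [m1, m2, lin, i4, Matrix.mul_apply, Fin.sum_univ_two] <;>
    first | linear_combination (-h.y) * this | linear_combination h.x * this | ring

/-- the embedding -/
def θ : X0 →* Sp := SemidirectProduct.lift t1 t2 fun g => MonoidHom.ext fun h => t2_t1 g h

theorem θ_val (x : X0) : (θ x).1 = m1 x.left * m2 x.right.1 := rfl

theorem neg_one_ne : (-1 : Matrix (Fin 2 ⊕ Fin 2) (Fin 2 ⊕ Fin 2) Z3) ≠ 1 := by decide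

theorem central_sp {g : Sp} (h : g ∈ center Sp) : g.1 = 1 ∨ g.1 = -1 := by
  have := Fact.mk Nat.prime_three
  have hc := card_center_Sp (F := Z3) 2 (by norm_num)
  let n : Sp := ⟨-1, by rw [SymplecticGroup.mem_iff]; simp⟩
  have hn : n ∈ center Sp := mem_center_iff.2 fun k => Subtype.ext (by
    rw [Submonoid.coe_mul, Submonoid.coe_mul]; simp [n])
  have hn1 : (⟨n, hn⟩ : center Sp) ≠ 1 := fun e =>
    absurd (show (-1 : Matrix (Fin 2 ⊕ Fin 2) (Fin 2 ⊕ Fin 2) Z3) = 1 from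
      congrArg (fun t : center Sp => t.1.1) e) neg_one_ne
  by_cases h1 : (⟨g, h⟩ : center Sp) = 1
  · exact .inl (congrArg (fun t : center Sp => t.1.1) h1)
  · obtain ⟨y, -, hy⟩ := (Nat.card_eq_two_iff' (1 : center Sp)).1 (by rw [hc]; simp)
    exact .inr (congrArg (fun t : center Sp => t.1.1) ((hy _ h1).trans (hy _ hn1).symm))

theorem θ_inj : Function.Injective ((QuotientGroup.mk' (center Sp)).comp θ) := by
  rw [injective_iff_map_eq_one]
  rintro ⟨h, g⟩ e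
  rw [MonoidHom.comp_apply, QuotientGroup.mk'_apply, QuotientGroup.eq_one_iff] at e
  have e1 : m1 h * m2 g.1 = 1 := (central_sp e).resolve_right fun e => by
    have := congrFun (congrFun e (.inl 0)) (.inl 0)
    rw [θ_val] at this
    simp [m1, m2, i4, Matrix.mul_apply, Fin.sum_univ_two] at this
    exact absurd this (by decide)
  have f := fun i j => congrFun (congrFun e1 i) j
  have f1 := f (.inl 0) (.inr 0)
  have f2 := f (.inl 1) (.inr 0)
  have f3 := f (.inr 1) (.inr 0)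
  have f4 := f (.inl 1) (.inl 1)
  have f5 := f (.inl 1) (.inr 1)
  have f6 := f (.inr 1) (.inl 1)
  have f7 := f (.inr 1) (.inr 1)
  simp [m1, m2, i4, Matrix.mul_apply, Fin.sum_univ_two] at f1 f2 f3 f4 f5 f6 f7
  refine SemidirectProduct.ext (Hs.ext f2 f3 f1) (Subtype.ext ?_)
  ext i j
  fin_cases i <;> fin_cases j <;> simp [f4, f5, f6, f7]

theorem exists_θ {g : Sp} (h : g * t1 c0 = t1 c0 * g) : ∃ x, (θ x).1 = g.1 ∨ (θ x).1 = -g.1 := by
  have key : ∀ N : Matrix (Fin 2 ⊕ Fin 2) (Fin 2 ⊕ Fin 2) Z3, N * J (Fin 2) Z3 * Nᵀ = J (Fin 2) Z3 →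
      N * m1 c0 = m1 c0 * N → N (.inl 0) (.inl 0) = 1 → ∃ x, (θ x).1 = N := by
    intro N h1 h2 h3
    have f := fun i j => congrFun (congrFun h2 i) j
    have f1 := f (.inl 0) (.inl 0)
    have f2 := f (.inl 0) (.inl 1)
    have f3 := f (.inl 0) (.inr 0)
    have f4 := f (.inl 0) (.inr 1)
    have f5 := f (.inl 1) (.inr 0)
    have f6 := f (.inr 1) (.inr 0)
    simp [m1, c0, i4, Matrix.mul_apply, Fin.sum_univ_two, h3] at f1 f2 f3 f4 f5 f6
    have f7 : N (.inr 0) (.inr 0) = 1 := by linear_combination -f3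
    have k := fun i j => congrFun (congrFun h1 i) j
    have k1 := k (.inl 1) (.inr 1)
    have k2 := k (.inl 0) (.inl 1)
    have k3 := k (.inl 0) (.inr 1)
    simp [J, Matrix.mul_apply, Fin.sum_univ_two, h3, f1, f2, f4, f5, f6, f7] at k1 k2 k3
    refine ⟨⟨⟨N (.inl 1) (.inr 0), N (.inr 1) (.inr 0), N (.inl 0) (.inr 0)⟩,
      ⟨!![N (.inl 1) (.inl 1), N (.inl 1) (.inr 1); N (.inr 1) (.inl 1), N (.inr 1) (.inr 1)], by
        rw [det_fin_two_of]; linear_combination -k1⟩⟩, ?_⟩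
    rw [θ_val]
    apply mext <;> simp [m1, m2, i4, Matrix.mul_apply, Fin.sum_univ_two, h3, f1, f2, f4, f5, f6, f7]
    · linear_combination N (.inl 1) (.inl 1) * k3 - N (.inr 1) (.inl 1) * k2 - N (.inl 0) (.inl 1) * k1
    · linear_combination N (.inl 1) (.inr 1) * k3 - N (.inr 1) (.inr 1) * k2 - N (.inl 0) (.inr 1) * k1
  have h1 := SymplecticGroup.mem_iff.1 g.2
  have h2 : g.1 * m1 c0 = m1 c0 * g.1 := congrArg Subtype.val h
  have h3 : g.1 (.inl 0) (.inl 0) = 1 ∨ g.1 (.inl 0) (.inl 0) = -1 := by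
    have f := fun i j => congrFun (congrFun h2 i) j
    have f1 := f (.inl 0) (.inl 0)
    have f2 := f (.inl 0) (.inl 1)
    have f3 := f (.inl 0) (.inr 0)
    have f4 := f (.inl 0) (.inr 1)
    simp [m1, c0, i4, Matrix.mul_apply, Fin.sum_univ_two] at f1 f2 f3 f4
    have k1 := congrFun (congrFun h1 (.inl 0)) (.inr 0)
    simp [J, Matrix.mul_apply, Fin.sum_univ_two, f1, f2, f4] at k1
    rw [← mul_self_eq_one_iff]
    linear_combination k1 + g.1 (.inl 0) (.inl 0) * f3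
  rcases h3 with h3 | h3
  · obtain ⟨x, hx⟩ := key _ h1 h2 h3
    exact ⟨x, .inl hx⟩
  · obtain ⟨x, hx⟩ := key (-g.1) (by simpa using h1) (by simpa using h2) (by simp [h3])
    exact ⟨x, .inr hx⟩

theorem range_θ : ((QuotientGroup.mk' (center Sp)).comp θ).range =
    centralizer {QuotientGroup.mk' (center Sp) (t1 c0)} := by
  ext g
  rw [mem_centralizer_singleton_iff]
  constructor
  · rintro ⟨x, rfl⟩
    have : t1 c0 = θ (SemidirectProduct.inl c0) := (SemidirectProduct.lift_inl _ _ _ _).symm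
    rw [this, MonoidHom.comp_apply, ← map_mul, ← map_mul, ← map_mul, ← map_mul]
    congr 2
    ext <;> simp [c0, act_apply, lin, add_comm]
  · intro h
    obtain ⟨g, rfl⟩ := QuotientGroup.mk'_surjective _ g
    have h1 : (t1 c0)⁻¹ * (g * t1 c0 * g⁻¹) ∈ center Sp := by
      rw [← QuotientGroup.eq_one_iff]
      change QuotientGroup.mk' _ _ = 1
      rw [map_mul, map_mul, map_mul, h, map_inv, map_inv]; group
    have h2 : g * t1 c0 = t1 c0 * g := by
      have e3 : t1 c0 ^ 3 = 1 := by rw [← map_pow, show c0 ^ 3 = 1 by decide, map_one]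
      rcases central_sp h1 with e | e
      · rw [← mul_inv_eq_iff_eq_mul, eq_comm, ← inv_mul_eq_one]; exact Subtype.ext e
      · exfalso
        have e1 : (g * t1 c0 * g⁻¹) ^ 3 = 1 := by rw [conj_pow, e3]; simp
        have e2 : (g * t1 c0 * g⁻¹).1 = -(t1 c0).1 := by
          rw [← mul_inv_cancel_left (t1 c0) (g * t1 c0 * g⁻¹), Submonoid.coe_mul, e, mul_neg, mul_one]
        have e4 := congrArg Subtype.val e1
        rw [SubmonoidClass.coe_pow, e2, Odd.neg_pow (by decide), ← SubmonoidClass.coe_pow, e3] at e4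
        exact neg_one_ne e4
    obtain ⟨x, e | e⟩ := exists_θ h2
    · exact ⟨x, congrArg (QuotientGroup.mk' _) (Subtype.ext e)⟩
    · refine ⟨x, QuotientGroup.eq.2 (mem_center_iff.2 fun k => Subtype.ext ?_)⟩
      have : ((θ x)⁻¹ * g).1 = -1 := by
        have h2 : ((θ x)⁻¹ * θ x).1 = 1 := by rw [inv_mul_cancel]; rfl
        rw [Submonoid.coe_mul] at h2 ⊢
        rw [← h2, e, mul_neg, neg_neg]
      rw [Submonoid.coe_mul _ k, Submonoid.coe_mul _ _ k, this]; simp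

end sp

end H22.Hs3
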