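import Cfsg.Agent.H22.MuD
import Cfsg.Agent.H22.IsoC

/-!
Minimal degree of the unitary groups, part five: numerical checks and induction.
-/

set_option autoImplicit false

namespace H22

open H23 H23.Form Module Pointwise Cfsg

universe u

theorem le_index_of_perfect {G : Type*} [Group G] [Finite G] (hG : commutator G = ⊤) {b : ℕ}
    (h : ∀ H : Subgroup (G ⧸ Subgroup.center G), H ≠ ⊤ → b ≤ H.index) (H : Subgroup G)
    (hH : H ≠ ⊤) : b ≤ H.index := by
  refine (h (H.map (QuotientGroup.mk' _)) fun h1 => hH ?_).trans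
    (Nat.le_of_dvd (Nat.pos_of_ne_zero H.index_ne_zero_of_finite)
      (H.index_map_dvd (QuotientGroup.mk'_surjective _)))
  have h2 : ∀ g : G, ∃ k ∈ H, ∃ z ∈ Subgroup.center G, g = k * z := fun g => by
    obtain ⟨k, hk, e⟩ : QuotientGroup.mk' _ g ∈ H.map (QuotientGroup.mk' (Subgroup.center G)) := by
      rw [h1]; trivial
    exact ⟨k, hk, k⁻¹ * g, QuotientGroup.eq.1 e, by group⟩
  rw [eq_top_iff, ← hG, commutator_def, Subgroup.commutator_le]
  intro a _ b _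
  obtain ⟨k, hk, z, hz, rfl⟩ := h2 a
  obtain ⟨k', hk', z', hz', rfl⟩ := h2 b
  have h3 := Subgroup.mem_center_iff.1 hz
  have h4 := Subgroup.mem_center_iff.1 hz'
  rw [commutatorElement_def, show k * z * (k' * z') * (k * z)⁻¹ * (k' * z')⁻¹ =
      k * k' * k⁻¹ * k'⁻¹ by
    calc _ = k * (z * (k' * z')) * z⁻¹ * (k⁻¹ * z'⁻¹) * k'⁻¹ := by group
      _ = k * k' * (z' * (k⁻¹ * z'⁻¹)) * k'⁻¹ := by rw [← h3]; group
      _ = _ := by rw [← h4]; group]
  exact mul_mem (mul_mem (mul_mem hk hk') (inv_mem hk)) (inv_mem hk')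

namespace UC

variable {F : Type*} {V : Type u} [Field F] [Fintype F] [AddCommGroup V] [Module F V]
  [FiniteDimensional F V] (C : UC F V)

theorem exists_su_equiv : Nonempty (SU (finrank F V) F C.q ≃* C.G) := by
  obtain ⟨q, σ, hF, rfl, Φ, hΦ, hε⟩ := C
  obtain ⟨e, h1, h2⟩ := exists_equiv_huForm hF hΦ hε rfl
  refine ⟨(suEquiv hF _).trans (((oCongr Φ (hForm hF _) e h1 h2).subgroupMap _).trans
    (MulEquiv.subgroupCongr ?_))⟩
  ext g
  obtain ⟨g, rfl⟩ := (oCongr Φ (hForm hF _) e h1 h2).surjective g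
  refine (Subgroup.mem_map_iff_mem (oCongr Φ (hForm hF _) e h1 h2).injective).trans ?_
  rw [mem_SO, mem_SO, ← LinearMap.det_conj _ e]
  rfl

theorem ncard_iso : {w | w ≠ 0 ∧ C.Φ.B w w = 0}.ncard = if Even (finrank F V) then
    (C.q ^ finrank F V - 1) * (C.q ^ (finrank F V - 1) + 1)
      else (C.q ^ finrank F V + 1) * (C.q ^ (finrank F V - 1) - 1) := by
  have := finite_of_fd F V
  have h1 := card_sing_ne_zero (Φ := C.Φ)
  simp only [C.sing, and_comm] at h1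
  rw [← Nat.card_coe_set_eq]
  obtain ⟨q, σ, hF, rfl, Φ, hΦ, hε⟩ := C
  rw [nsing_herm hF Φ hΦ hε (κ_of_ne_id (conj_ne_id hF)) rfl] at h1
  exact Nat.succ_injective h1

theorem ncard_norm {a : F} (ha : a ≠ 0) (h : C.σ a = a) : {w | C.Φ.B w w = a}.ncard =
    if Even (finrank F V) then C.q ^ (finrank F V - 1) * (C.q ^ finrank F V - 1)
      else C.q ^ (finrank F V - 1) * (C.q ^ finrank F V + 1) := by
  rw [← Nat.card_coe_set_eq]
  obtain ⟨q, σ, hF, rfl, Φ, hΦ, hε⟩ := C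
  exact (card_norm_eq_herm hF Φ ha h).trans
    (card_norm_one_herm hF Φ hΦ hε (κ_of_ne_id (conj_ne_id hF)) rfl)

theorem num_of (hV : 5 ≤ finrank F V) (hH : ∀ c c' (h : Hyp C.Φ c c'), (res h).H1) {ω : ℕ}
    (hs : ω * (C.q ^ 2 - 1) < {w | w ≠ 0 ∧ C.Φ.B w w = 0}.ncard)
    (hn : ∀ a ≠ 0, C.σ a = a → ω * (C.q + 1) < {w | C.Φ.B w w = a}.ncard) : C.Num ω := by
  refine ⟨by omega, ?_, hs, hn, hH⟩
  rw [ncard_iso] at hs
  obtain ⟨k, hk⟩ : ∃ k, finrank F V = k + 5 := ⟨finrank F V - 5, by omega⟩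
  obtain ⟨r, hr⟩ : ∃ r, C.q = r + 2 := ⟨C.q - 2, by have := C.two_le; omega⟩
  have h1 : ω * (C.q ^ 2 - 1) < C.q ^ (k + 5) * (C.q ^ (k + 4) + 1) := by
    rw [hk, show k + 5 - 1 = k + 4 from rfl] at hs
    refine hs.trans_le ?_
    split_ifs
    · exact Nat.mul_le_mul_right _ (Nat.sub_le _ _)
    · have : C.q ^ (k + 4) ≤ C.q ^ (k + 5) := Nat.pow_le_pow_right (by omega) (by omega)
      have : C.q ^ (k + 4) - 1 ≤ C.q ^ (k + 4) := Nat.sub_le _ _
      nlinarith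
  rw [hk, show 2 * (k + 5 - 2) = (k + 5) + (k + 1) by omega, pow_add]
  rw [show k + 4 = 3 + (k + 1) by omega, pow_add _ 3] at h1
  have h2 : 0 < C.q ^ (k + 1) := Nat.pow_pos (by omega)
  generalize C.q ^ (k + 5) = a at h1 ⊢
  generalize C.q ^ (k + 1) = b at h1 h2 ⊢
  rw [hr, show (r + 2) ^ 2 - 1 = r ^ 2 + 4 * r + 3 by apply Nat.sub_eq_of_eq_add; ring] at h1
  rw [hr]
  refine Nat.lt_of_mul_lt_mul_right (a := r ^ 2 + 4 * r + 3) (h1.trans_le ?_)
  have : (r + 2) ^ 3 * b + 1 ≤ (r + 2 + 1) * b * (r ^ 2 + 4 * r + 3) := by nlinarith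
  nlinarith

theorem h1_four (hV : finrank F V = 4) : C.H1 := by
  refine C.h1_of_index (by omega) fun H hH => ?_
  obtain ⟨K, _, _, hK⟩ := exists_field_sqrt C.hF
  have hF := C.hF
  rw [← hK] at hF
  obtain ⟨φ⟩ := nonempty_ringHom_of_card_eq_pow two_ne_zero hF
  letI := φ.toAlgebra
  obtain ⟨a, b, hab⟩ := exists_aniso_pair K
  obtain ⟨e⟩ := pomega_minus_six hF hab
  obtain ⟨e'⟩ := C.exists_su_equiv
  rw [hV] at e'
  rw [hK] at e
  have := finite_of_fd F V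
  have : Finite (V ≃ₗ[F] V) := Finite.of_injective _ DFunLike.coe_injective
  have h1 := le_index_of_perfect
    (commutator_eq_top_congr e' (commutator_SU_eq_top C.hF 4 (by omega) (by omega)))
    (MinIdx.congr ((quotCenterCongr e').symm.trans e.symm) (minIdx_minus 2 le_rfl hab)).1 H hH
  obtain ⟨r, hr⟩ : ∃ r, C.q = r + 1 := ⟨C.q - 1, by have := C.two_le; omega⟩
  rw [hK, hr, show (r + 1) ^ 2 - 1 = (r + 2) * r by apply Nat.sub_eq_of_eq_add; ring,
    Nat.add_sub_cancel, ← mul_assoc, Nat.mul_div_cancel _ (by have := C.two_le; omega)] at h1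
  rw [hV, hr]
  refine le_trans ?_ (Nat.mul_le_mul_left (r + 1) h1)
  rw [show (r + 1) * (((r + 1) ^ (2 + 1) + 1) * (r + 2)) =
    (r + 1 + 1) * (r + 1) ^ 4 + (r + 1) * (r + 2) by ring]
  omega

theorem h1_step (hV : 5 ≤ finrank F V) (hH : ∀ c c' (h : Hyp C.Φ c c'), (res h).H1) : C.H1 := by
  refine C.h1_of_index (by omega) fun H hH' => not_lt.1 fun h1 => ?_
  refine absurd (C.le_index (b := H.index + 1) (fun ω hω => ?_) H hH') (by omega)
  have h2 : C.q * ω < (C.q + 1) * C.q ^ finrank F V :=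
    (Nat.mul_le_mul_left _ (by omega)).trans_lt h1
  obtain ⟨k, hk⟩ : ∃ k, finrank F V = k + 5 := ⟨finrank F V - 5, by omega⟩
  obtain ⟨r, hr⟩ : ∃ r, C.q = r + 2 := ⟨C.q - 2, by have := C.two_le; omega⟩
  have h3 : C.q ^ (k + 5) = C.q * C.q ^ (k + 4) := pow_succ' _ _
  have h4 : C.q ^ 4 ≤ C.q ^ (k + 4) := Nat.pow_le_pow_right (by omega) (by omega)
  rw [hk, h3, mul_left_comm] at h2
  replace h2 := Nat.lt_of_mul_lt_mul_left h2
  obtain ⟨y, hy⟩ : ∃ y, C.q ^ (k + 4) = y + 1 :=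
    ⟨C.q ^ (k + 4) - 1, (Nat.sub_add_cancel (Nat.one_le_pow _ _ (by omega))).symm⟩
  have h5 : (r + 2) * (y + 1) - 1 = (r + 2) * y + r + 1 := by apply Nat.sub_eq_of_eq_add; ring
  rw [hy, hr] at h2 h4
  refine C.num_of hV hH ?_ fun a ha h => ?_
  · rw [ncard_iso, hk, show k + 5 - 1 = k + 4 from rfl, h3, hy, hr, h5,
      show (r + 2) ^ 2 - 1 = r ^ 2 + 4 * r + 3 by apply Nat.sub_eq_of_eq_add; ring,
      Nat.add_sub_cancel]
    have h6 : (r + 3) * (r ^ 2 + 4 * r + 3) + (r + 2) ≤ (r + 2) * (y + 1) := by nlinarith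
    have h7 := Nat.mul_le_mul_right (r ^ 2 + 4 * r + 3) h2
    split_ifs <;> nlinarith
  · rw [ncard_norm _ ha h, hk, show k + 5 - 1 = k + 4 from rfl, h3, hy, hr, h5]
    have h6 : (r + 3) * (r + 3) ≤ (r + 2) * y := by
      have : r + 5 ≤ y := by nlinarith [Nat.zero_le (r ^ 2), Nat.zero_le (r ^ 3), Nat.zero_le (r ^ 4)]
      nlinarith
    have h7 := Nat.mul_le_mul_right (r + 3) h2
    split_ifs <;> nlinarith

theorem h1_even (m : ℕ) : ∀ {V : Type u} [AddCommGroup V] [Module F V] [FiniteDimensional F V]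
    (C : UC F V), finrank F V = 2 * m + 4 → C.H1 := by
  induction m with
  | zero => exact fun C h => C.h1_four h
  | succ m ih =>
    exact fun C h => C.h1_step (by omega) fun c c' hh => ih _ (by rw [finrank_res hh]; omega)

theorem minIdx (hV : 3 ≤ finrank F V) {b : ℕ} (hN : ∀ ω < b, C.Num ω) {v : V} (h0 : v ≠ 0)
    (hb : {w | w ≠ 0 ∧ C.Φ.B w w = C.Φ.B v v}.ncard =
      b * {t : F | t ≠ 0 ∧ C.σ t * t * C.Φ.B v v = C.Φ.B v v}.ncard) :
    MinIdx (PSU (finrank F V) F C.q) b := by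
  obtain ⟨e⟩ := C.exists_su_equiv
  refine MinIdx.congr (quotCenterCongr e) ⟨fun H hH => ?_, C.exists_index hV h0 hb⟩
  rw [← Subgroup.index_comap_of_surjective _ (QuotientGroup.mk'_surjective _)]
  exact C.le_index hN _ fun h => hH (Subgroup.comap_injective (QuotientGroup.mk'_surjective _)
    (h.trans (Subgroup.comap_top _).symm))

theorem minIdx_iso (hV : 5 ≤ finrank F V) (hH : ∀ c c' (h : Hyp C.Φ c c'), (res h).H1) {b : ℕ}
    (hb : b * (C.q ^ 2 - 1) = {w | w ≠ 0 ∧ C.Φ.B w w = 0}.ncard)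
    (hn : ∀ a ≠ 0, C.σ a = a →
      {w | w ≠ 0 ∧ C.Φ.B w w = 0}.ncard ≤ (C.q - 1) * {w | C.Φ.B w w = a}.ncard) :
    MinIdx (PSU (finrank F V) F C.q) b := by
  obtain ⟨c, hc, hc0⟩ := C.exists_sing (by omega)
  obtain ⟨r, hr⟩ : ∃ r, C.q = r + 2 := ⟨C.q - 2, by have := C.two_le; omega⟩
  have h2 : C.q ^ 2 - 1 = (r + 1) * (C.q + 1) := by rw [hr]; apply Nat.sub_eq_of_eq_add; ring
  refine C.minIdx (by omega) (fun ω hω => ?_) hc0 ?_
  · have h1 : ω * (C.q ^ 2 - 1) < b * (C.q ^ 2 - 1) :=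
      Nat.mul_lt_mul_of_pos_right hω (by rw [h2]; positivity)
    rw [hb] at h1
    refine C.num_of hV hH h1 fun a ha h => ?_
    have h3 := hn a ha h
    rw [show C.q - 1 = r + 1 by omega] at h3
    rw [h2] at h1
    exact Nat.lt_of_mul_lt_mul_left (a := r + 1) (by nlinarith)
  · rw [hc, ← hb, show {t : F | t ≠ 0 ∧ C.σ t * t * 0 = 0} = {0}ᶜ by ext; simp, Set.ncard_compl,
      Set.ncard_singleton, Nat.card_eq_fintype_card, C.hF]

end UC

section Final

variable {F : Type*} [Field F] [Fintype F] {q : ℕ} (hF : Fintype.card F = q ^ 2)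

/-- the standard unitary space -/
def stdUC (n : ℕ) : UC F (Fin n → F) := ⟨q, _, hF, rfl, hForm hF n, hForm_nondeg hF n, rfl⟩

include hF in
theorem minIdx_PSU_even (hq : 3 ≤ q) (n : ℕ) (hn : 6 ≤ n) (he : Even n) :
    MinIdx (PSU n F q) ((q ^ n - 1) * (q ^ (n - 1) + 1) / (q ^ 2 - 1)) := by
  obtain ⟨m, rfl⟩ : ∃ m, n = 2 * m + 6 := by obtain ⟨m, rfl⟩ := he; exact ⟨m - 3, by omega⟩
  have h := (stdUC hF (2 * m + 6)).minIdx_iso (by simp) (fun c c' hh =>
    UC.h1_even m _ (by rw [UC.finrank_res hh]; simp))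
    (b := (q ^ (2 * m + 6) - 1) * (q ^ (2 * m + 6 - 1) + 1) / (q ^ 2 - 1)) (by
      rw [UC.ncard_iso, Module.finrank_fin_fun, if_pos he]
      refine Nat.div_mul_cancel (Dvd.dvd.mul_right ?_ _)
      have := Nat.sub_dvd_pow_sub_pow (q ^ 2) 1 (m + 3)
      rwa [one_pow, ← pow_mul] at this) fun a ha h => by
      rw [UC.ncard_iso, UC.ncard_norm _ ha h, Module.finrank_fin_fun, if_pos he, if_pos he]
      change _ ≤ (q - 1) * (q ^ _ * (q ^ _ - 1))
      have : 0 < q ^ (2 * m + 6 - 1) := by positivity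
      rw [mul_comm, ← mul_assoc]
      refine Nat.mul_le_mul_right _ ?_
      change q ^ _ + 1 ≤ _
      have := Nat.mul_le_mul_right (q ^ (2 * m + 6 - 1)) (show 2 ≤ q - 1 by omega)
      omega
  rwa [Module.finrank_fin_fun] at h

theorem minIdx_PSU_two (hF : Fintype.card F = 2 ^ 2) (n : ℕ) (hn : 6 ≤ n) (he : Even n) :
    MinIdx (PSU n F 2) (2 ^ (n - 1) * (2 ^ n - 1) / 3) := by
  obtain ⟨m, rfl⟩ : ∃ m, n = 2 * m + 6 := by obtain ⟨m, rfl⟩ := he; exact ⟨m - 3, by omega⟩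
  set C := stdUC hF (2 * m + 6)
  have hq : C.q = 2 := rfl
  obtain ⟨v, hv⟩ : ∃ v, C.Φ.B v v = 1 := exists_norm_one_herm hF C.Φ C.hΦ rfl
  have hd : 3 ∣ 2 ^ (2 * m + 6 - 1) * (2 ^ (2 * m + 6) - 1) := Dvd.dvd.mul_left (by
    have := Nat.sub_dvd_pow_sub_pow (2 ^ 2) 1 (m + 3)
    rwa [one_pow, ← pow_mul] at this) _
  have h := C.minIdx (by simp) (b := 2 ^ (2 * m + 6 - 1) * (2 ^ (2 * m + 6) - 1) / 3)
    (fun ω hω => by
      have h1 := lt_div_iff_aux hω
      refine C.num_of (by simp) (fun c c' hh => UC.h1_even m _ (by rw [UC.finrank_res hh]; simp))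
        ?_ fun a ha h => ?_
      · rw [UC.ncard_iso, Module.finrank_fin_fun, if_pos he, hq, show 2 ^ 2 - 1 = 3 from rfl]
        nlinarith
      · rw [UC.ncard_norm _ ha h, Module.finrank_fin_fun, if_pos he, hq]
        omega) (v := v) (by rintro rfl; simp at hv) (by
      have h2 : {t : F | t ≠ 0 ∧ C.σ t * t * 1 = 1}.ncard = 3 := by
        refine Eq.trans ?_ (card_norm_eq hF 1 one_ne_zero (one_pow _))
        rw [← Set.coe_ofPred, Nat.card_coe_set_eq]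
        congr 1
        ext t
        simp only [Set.mem_ofPred_eq, mul_one, C.σ_apply, hq, ← pow_succ, and_iff_right_iff_imp]
        rintro h rfl
        simp at h
      rw [hv, h2, Nat.div_mul_cancel hd,
        show {w | w ≠ 0 ∧ C.Φ.B w w = 1} = {w | C.Φ.B w w = 1} by
          ext w
          exact ⟨fun h => h.2, fun h => ⟨by rintro rfl; simp at h, h⟩⟩,
        UC.ncard_norm _ one_ne_zero (map_one _), Module.finrank_fin_fun, if_pos he, hq])
  rwa [Module.finrank_fin_fun] at h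

end Final

end H22
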