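import Cfsg.Agent.H22.LsC
import Cfsg.Agent.H22.MuE

/-!
Lower bounds for the degrees of complex representations of special unitary groups.
-/

set_option autoImplicit false

namespace H22

open Module H23 H23.Form Ls Cfsg

theorem ncard_pow_eq_le {F : Type*} [Field F] {n : ℕ} (hn : 0 < n) (γ : F) :
    {z : F | z ^ n = γ}.ncard ≤ n := by
  classical
  refine le_trans ?_ ((Multiset.toFinset_card_le _).trans (Polynomial.card_nthRoots n γ))
  rw [← Set.ncard_coe_finset]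
  exact Set.ncard_le_ncard fun z hz => by simpa [Polynomial.mem_nthRoots hn] using hz

namespace UC

variable {F V : Type*} [Field F] [Fintype F] [AddCommGroup V] [Module F V] (C : UC F V)

/-- a conjugation invariant character -/
noncomputable def ψ2 : AddChar F ℂ :=
  (ψ1 F).compAddMonoidHom (AddMonoidHom.id F + C.σ.toAddMonoidHom)

theorem ψ2_apply (x : F) : C.ψ2 x = ψ1 F (x + C.σ x) := rfl

theorem hψ2 : ∃ a, C.ψ2 a ≠ 1 := by
  obtain ⟨x, hx⟩ := C.exists_trace (map_one C.σ)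
  exact ⟨x, by rw [ψ2_apply, hx]; exact hψ1⟩

theorem ψ2_σ (x : F) : C.ψ2 (C.σ x) = C.ψ2 x := by rw [ψ2_apply, ψ2_apply, σσ, add_comm]

variable [FiniteDimensional F V]

theorem exists_max_ts : ∃ E : Submodule F V, (∀ u ∈ E, ∀ v ∈ E, C.Φ.B u v = 0) ∧
    finrank F E = finrank F V / 2 := by
  obtain ⟨E, -, hE, hmax⟩ := exists_maximal_totSing _ (totSing_bot (Φ := C.Φ))
  refine ⟨E, hE.1, ?_⟩
  have h1 := C.hΦ.finrank_perp_add E
  have h2 := Submodule.finrank_mono hE.le_perp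
  obtain ⟨T, hT⟩ := Submodule.exists_isCompl E
  have h3 := Submodule.finrank_add_eq_of_isCompl hT
  have h4 := Submodule.finrank_sup_add_finrank_inf_eq T (C.Φ.perp E)
  have h5 : T ⊔ C.Φ.perp E = ⊤ := eq_top_iff.2 (hT.symm.sup_eq_top.ge.trans
    (sup_le_sup_left hE.le_perp _))
  rw [h5, finrank_top] at h4
  by_contra hne
  obtain ⟨u, hu, h0, hs⟩ := exists_sing_of_herm C.σ_ne C.hε (T := T ⊓ C.Φ.perp E) (by omega)
  exact h0 ((Submodule.disjoint_def.1 hT.disjoint) u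
    (mem_of_maximal_totSing hE hmax hu.2 hs.1 hs.2) hu.1)

/-- Eichler transformations in `SU` -/
noncomputable def T' (c e : V) (s : F) : C.G := ⟨C.T c e s, C.T_mem c e s⟩

/-- transvections -/
noncomputable def X (v : V) (x : F) : C.G := C.T' v 0 (x - C.σ x)

/-- the abelian group attached to a totally isotropic subspace -/
noncomputable def AG (E : Submodule F V) : Subgroup C.G := (AE C.Φ E).subgroupOf C.G

theorem conj_X (g : C.G) (v : V) (x : F) : g * C.X v x * g⁻¹ = C.X (g.1.1 v) x :=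
  Subtype.ext ((C.conj_T g.1 v 0 _).trans (by rw [map_zero]; rfl))

theorem X_apply {v : V} (hv : C.Φ.B v v = 0) (x : F) (y : V) :
    (C.X v x).1.1 y = y + ((x - C.σ x) * C.Φ.B v y) • v :=
  T_apply_zero (C.ed_zero hv (by simp)) y

variable {C} {E : Submodule F V} (hE : ∀ u ∈ E, ∀ v ∈ E, C.Φ.B u v = 0)

theorem mem_AG {g : C.G} : g ∈ C.AG E ↔ g.1 ∈ AE C.Φ E := Iff.rfl

theorem AG_comm {g h : C.G} (hg : g ∈ C.AG E) (hh : h ∈ C.AG E) : g * h = h * g :=
  Subtype.ext (AE_comm hg hh)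

theorem AG_ext {g h k : C.G} (hg : g ∈ C.AG E) (hh : h ∈ C.AG E)
    (e : ∀ x, k.1.1 x = g.1.1 x + h.1.1 x - x) : k = g * h :=
  Subtype.ext (O_ext _ fun x => (e x).trans (AE_mul_apply hg hh x).symm)

include hE

theorem T'_apply {c e : V} (hc : c ∈ E) (he : e ∈ E) (y : V) :
    (C.T' c e 0).1.1 y = y + C.Φ.B e y • c - C.Φ.B c y • e := by
  have := T_apply (C := C) (s := 0) ⟨hE c hc c hc, hE c hc e he, by simp [hE e he e he]⟩ y
  rwa [map_zero, zero_mul, sub_zero] at this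

theorem T'_mem {c e : V} (hc : c ∈ E) (he : e ∈ E) : C.T' c e 0 ∈ C.AG E :=
  ⟨fun x => by
    simpa [T'_apply hE hc he, add_sub_assoc] using sub_mem (E.smul_mem _ hc) (E.smul_mem _ he),
    fun y hy => by simp [T'_apply hE hc he, hE c hc y hy, hE e he y hy]⟩

theorem X_mem {v : V} (hv : v ∈ E) (x : F) : C.X v x ∈ C.AG E :=
  ⟨fun y => by simpa [C.X_apply (hE v hv v hv)] using E.smul_mem _ hv,
    fun y hy => by simp [C.X_apply (hE v hv v hv), hE v hv y hy]⟩

variable {W : Type*} [AddCommGroup W] [Module ℂ W] {ρ : Representation ℂ C.G W}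

omit hE in
variable (ρ) in
/-- `H` is the form attached to the weight `χ` -/
def RW (H : E → F) (χ : C.G → ℂ) : Prop :=
  wt ρ (C.AG E) χ ≠ ⊥ ∧ ∀ (v : E) x, χ (C.X v x) = C.ψ2 (H v * x)

theorem exists_RW {χ : C.G → ℂ} (h : wt ρ (C.AG E) χ ≠ ⊥) : ∃ H : E → F, RW ρ H χ := by
  have m := fun (v : E) c => X_mem hE v.2 c
  choose f hf using fun v : E => exists_shift (f := fun c => χ (C.X v c)) C.hψ2
    (by
      rw [show C.X v 0 = 1 from Subtype.ext (by simpa [X, T'] using T_zero v.1)]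
      exact wt_one h (one_mem _))
    fun c d => by
      rw [← wt_mul h (m v c) (m v d) (mul_mem (m v c) (m v d))]
      congr 1
      refine AG_ext (m v c) (m v d) fun y => ?_
      simp only [C.X_apply (hE _ v.2 _ v.2), map_add]
      module
  exact ⟨f, h, hf⟩

omit hE in
theorem RW.conj {H : E → F} {χ : C.G → ℂ} (h : RW ρ H χ) (v : E) : C.σ (H v) = -H v :=
  shift_inj C.hψ2 fun x => by
    rw [← ψ2_σ, map_mul, σσ, ← h.2, neg_mul, ← mul_neg, ← h.2, X, X]
    simp [add_comm, sub_eq_add_neg]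

theorem RW.line {H : E → F} {χ : C.G → ℂ} (h : RW ρ H χ) (y v : E) :
    ∃ b, ∀ t, H (y + t • v) = H y + b * t - C.σ (b * t) + t * C.σ t * H v := by
  have m := fun (v : E) c => X_mem hE v.2 c
  have m' := fun u => T'_mem hE v.2 (E.smul_mem (C.σ u) y.2)
  have ap := fun u => T'_apply hE v.2 (E.smul_mem (C.σ u) y.2)
  obtain ⟨b, hb⟩ := exists_shift (f := fun u => χ (C.T' v (C.σ u • y) 0)) C.hψ2
    (by
      rw [show C.T' v (C.σ 0 • y) 0 = 1 from Subtype.ext (by simpa [T'] using T_zero v.1)]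
      exact wt_one h.1 (one_mem _))
    fun c d => by
      rw [← wt_mul h.1 (m' c) (m' d) (mul_mem (m' c) (m' d))]
      congr 1
      refine AG_ext (m' c) (m' d) fun z => ?_
      simp only [ap, B_smul_left, σσ]
      simp only [map_add]
      module
  refine ⟨b, fun t => shift_inj C.hψ2 fun x => ?_⟩
  have h1 : C.X (y + t • v : E) x =
      C.X y x * C.T' v (C.σ ((x - C.σ x) * t) • y) 0 * C.X v (t * C.σ t * x) := by
    refine AG_ext (mul_mem (m _ _) (m' _)) (m _ _) fun z => ?_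
    rw [Subgroup.coe_mul, AE_mul_apply (mem_AG.1 (m _ _)) (mem_AG.1 (m' _)), ap, C.X_apply (hE _ y.2 _ y.2),
      C.X_apply (hE _ v.2 _ v.2), C.X_apply (hE _ (y + t • v).2 _ (y + t • v).2)]
    simp only [Submodule.coe_add, Submodule.coe_smul, map_add, LinearMap.add_apply, B_smul_left,
      σσ, map_mul, map_sub]
    module
  rw [← h.2, h1, wt_mul h.1 (mul_mem (m _ _) (m' _)) (m _ _) (mul_mem (mul_mem (m _ _) (m' _)) (m _ _)),
    wt_mul h.1 (m _ _) (m' _) (mul_mem (m _ _) (m' _)), h.2, h.2, hb, ← AddChar.map_add_eq_mul,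
    ← AddChar.map_add_eq_mul, ψ2_apply, ψ2_apply]
  congr 1
  simp only [map_add, map_mul, map_sub, σσ]
  ring

omit hE in
theorem RW.comp {H : E → F} {χ : C.G → ℂ} (h : RW ρ H χ) (g : C.G) (k : E → E)
    (hk : ∀ e : E, g.1.1 e = k e) : RW ρ (fun e => H (k e)) fun a => χ (g * a * g⁻¹) := by
  refine ⟨wt_conj h.1 (g := g⁻¹) fun a ha => ?_, fun v x => by simp only [conj_X, hk, h.2]⟩
  rw [inv_inv]
  exact AE_conj (fun e he => by rw [show g.1.1 e = _ from hk ⟨e, he⟩]; exact Subtype.property _) ha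

theorem exists_tv (φ : Dual F E) (v : E) (h : φ v = 0) :
    ∃ g : C.G, ∀ e : E, g.1.1 e = (e + φ e • v : E) := by
  obtain ⟨φ', h1⟩ := LinearMap.exists_extend φ
  obtain ⟨e, h2⟩ := C.hΦ.exists_repr φ'
  have h3 : ∀ y : E, C.Φ.B e y = φ y := fun y => by rw [h2, ← h1]; rfl
  obtain ⟨s, hs⟩ := C.exists_ed (hE _ v.2 _ v.2) (C.Φ.B_eq_zero_symm ((h3 v).trans h))
  exact ⟨C.T' v e s, fun y => (T_apply hs y).trans (by simp [h3, hE _ v.2 _ y.2])⟩

theorem RW.heis [FiniteDimensional ℂ W] {H : E → F} {χ : C.G → ℂ} (h : RW ρ H χ) {y : E}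
    (hy : H y ≠ 0) {w : V} (hw : w ∈ C.Φ.perp E) (hw' : C.Φ.B w w ≠ 0) :
    C.q ≤ finrank ℂ (wt ρ (C.AG E) χ) := by
  have h1 : ∀ a : F, C.Φ.B y (a • w) = 0 := fun a => by rw [map_smul, hw _ y.2, smul_zero]
  choose s hs using fun a : F => C.exists_ed (hE _ y.2 _ y.2) (h1 a)
  have hP : ∀ a, C.T' y (a • w) (s a) ∈ Subgroup.centralizer (C.AG E : Set C.G) := fun a g hg => by
    rw [← mul_inv_eq_iff_eq_mul]
    refine Subtype.ext ((C.conj_T g.1 _ _ _).trans ?_)
    rw [(mem_AG.1 hg).2 _ y.2, AE_perp C.hΦ (mem_AG.1 hg) (Submodule.smul_mem _ _ hw)]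
    rfl
  obtain ⟨x, hx⟩ : ∃ x, C.ψ2 (H y * x) ≠ 1 := by
    by_contra! hc
    exact hy (eq_zero_of_addChar C.hψ2 fun t => by rw [mul_comm, hc])
  have := card_le_sq h.1 (Subgroup.centralizer (C.AG E : Set C.G))
    (fun g hg u hu => mem_wt_of_comm hu hg) _ hP fun i j hij => by
      refine ⟨_, hP (C.σ (-x / ((j - i) * C.Φ.B w w))), C.X y x,
        fun g hg => AG_comm hg (X_mem hE y.2 x), _, hx,
        fun u hu => by rw [hu _ (X_mem hE y.2 x), h.2], Subtype.ext ?_⟩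
      have h2 := (hs i).neg.add (hs j)
      have hz : C.ED y 0 (x - C.σ x) := C.ed_zero (hE _ y.2 _ y.2) (by simp)
      obtain ⟨b, hb⟩ : ∃ b, b = C.σ (-x / ((j - i) * C.Φ.B w w)) := ⟨_, rfl⟩
      rw [← hb]
      have h3 : (C.T y (b • w) (s b)).1 (-(i • w) + j • w) = -(i • w) + j • w + (-x) • y.1 := by
        rw [T_apply (hs _), hb]
        have := sub_ne_zero.2 hij.symm
        simp only [map_add, map_neg, h1, B_smul_left, σσ, B_smul_right, neg_zero, add_zero,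
          mul_zero, sub_zero, zero_smul]
        congr 2
        field_simp
        ring
      have h4 : (C.T y (b • w) (s b)).1 y = y :=
        T_apply_of_perp (hE _ y.2 _ y.2) (C.Φ.B_eq_zero_symm (h1 _))
      have h5 := (C.ed_map (C.T y (b • w) (s b))).2 h2
      rw [h3, h4] at h5
      simp only [T', X, Subgroup.coe_mul, Subgroup.coe_inv]
      rw [T_inv (hs i), T_mul (hs i).neg (hs j), conj_T, h3, h4, T_add_smul h5, T_mul h2 hz]
      simp only [add_zero, map_zero, LinearMap.zero_apply, map_neg]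
      congr 1
      ring
  rw [Nat.card_eq_fintype_card, C.hF] at this
  exact (Nat.pow_le_pow_iff_left two_ne_zero).1 this

theorem su_bound [FiniteDimensional ℂ W]
    (hd : 2 ≤ finrank F E ∨ (finrank F E = 1 ∧ 3 ≤ finrank F V))
    (hN : ∀ N : Subgroup C.G, N.Normal → N ≤ Subgroup.center _ ∨ N = ⊤) (hρ : ¬ ∀ g, ρ g = 1)
    {r : ℕ} (hr : ∀ (H : E → F) χ, RW ρ H χ → ∀ y, H y ≠ 0 → r ≤ finrank ℂ (wt ρ (C.AG E) χ)) :
    r * (C.q ^ (2 * finrank F E) - 1) ≤ (C.q + 1) * finrank ℂ W := by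
  have := finite_O (Φ := C.Φ)
  have := finite_of_fd F E
  have : Nontrivial E := Module.nontrivial_of_finrank_pos (R := F) (by omega)
  obtain ⟨v0, hv0⟩ := exists_ne (0 : E)
  have hv : v0.1 ≠ 0 := fun e => hv0 (Subtype.ext e)
  obtain ⟨x0, hx0⟩ := C.exists_notFixed
  have hc : ρ (C.X v0 x0) ≠ 1 := by
    intro hc
    rcases hN ρ.ker ρ.normal_ker with h | h
    · obtain ⟨c', hc'⟩ := C.exists_hyp' (hE _ v0.2 _ v0.2) hv
      have h3 := congrArg (fun g : C.G => g.1.1 c') (Subgroup.mem_center_iff.1 (h hc) (C.X c' x0))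
      have h4 : C.Φ.B c' v0 = 1 := by rw [← σB, hc'.one, map_one]
      have h5 := congrArg (C.Φ.B v0) h3
      simp [C.X_apply (hE _ v0.2 _ v0.2), C.X_apply hc'.right.1, hc'.one, hc'.right.1, h4,
        hE _ v0.2 _ v0.2, sub_eq_zero, hx0.symm] at h5
    · exact hρ fun g => h.ge (Subgroup.mem_top g)
  obtain ⟨χ, h1, h3⟩ := exists_wt (C.AG E) (fun _ ha _ hb => AG_comm ha hb) (X_mem hE v0.2 x0) hc
  obtain ⟨H0, hH0⟩ := exists_RW hE h1
  have ha : H0 v0 ≠ 0 := fun e => h3 (by rw [hH0.2, e]; simp)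
  let S : Set (E → F) := {H | (∃ y, H y ≠ 0) ∧ ∃ χ, RW ρ H χ}
  have hC : ∀ H ∈ S, ∀ (φ : Dual F E) (v : E), φ v = 0 →
      ∃ H' ∈ S, ∀ x, H' x = H (x + φ x • v) := by
    rintro H ⟨⟨y, hy⟩, χ, hH⟩ φ v h
    obtain ⟨g, hg⟩ := exists_tv hE φ v h
    exact ⟨_, ⟨⟨y - φ y • v, by simpa [h] using hy⟩, _, hH.comp g _ hg⟩, fun _ => rfl⟩
  have h4 := abs_one (F := F) (S := S) (Set.toFinite _) (fun H => H) (a := H0 v0) (r := C.q + 1)
    (fun v hv' => ?_) hC ?_ ?_
  · have h5 := mul_ncard_le (ρ := ρ) (A := C.AG E) (S := S) (Set.toFinite _) (r := r) (RW ρ)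
      (fun H ⟨⟨y, hy⟩, χ, h⟩ => ⟨χ, h, hr H χ h y hy⟩)
      fun H H' χ χ' h h' e => funext fun v => shift_inj C.hψ2 fun c => by
        rw [← h.2, ← h'.2, e _ (X_mem hE v.2 c)]
    rw [C.hF, ← pow_mul] at h4
    calc _ ≤ r * ((C.q + 1) * S.ncard) := Nat.mul_le_mul_left _ h4
      _ = (C.q + 1) * (r * S.ncard) := by ring
      _ ≤ _ := Nat.mul_le_mul_left _ h5
  · rcases hd with hd | hd
    · refine trans_of_tv (P := fun v => ∃ H ∈ S, H v = H0 v0) hd ?_ hv0
        ⟨H0, ⟨⟨v0, ha⟩, χ, hH0⟩, rfl⟩ hv'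
      rintro φ u x h ⟨H, hH, e⟩
      obtain ⟨H', h5, h6⟩ := hC H hH (-φ) u (by simp [h])
      exact ⟨H', h5, by simpa [h6, h] using e⟩
    · obtain ⟨k, hk, h5⟩ := C.exists_SO_one hd.2 (v := v) (fun e => hv' (Subtype.ext e)) hv
        (by rw [hE _ v.2 _ v.2, hE _ v0.2 _ v0.2])
      choose f hf using (finrank_eq_one_iff_of_nonzero' v hv').1 hd.1
      refine ⟨_, ⟨⟨v, ?_⟩, _, hH0.comp ⟨k, hk⟩ (fun e => f e • v0) fun e => ?_⟩, ?_⟩
      · rwa [smul_left_injective F hv' ((hf v).trans (one_smul _ _).symm), one_smul]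
      · conv_lhs => rw [← hf e]
        exact (map_smul k.1 _ _).trans (by rw [h5]; rfl)
      · rw [smul_left_injective F hv' ((hf v).trans (one_smul _ _).symm), one_smul]
  · rintro H ⟨-, χ, hH⟩ v e y
    obtain ⟨b, hb⟩ := hH.line hE y v
    have h5 := hH0.conj v0
    refine le_trans (Set.ncard_le_ncard_of_injOn (fun t => t + C.σ (b / H0 v0)) (fun t ht => ?_)
      fun _ _ _ _ h => add_right_cancel h) (ncard_pow_eq_le (Nat.succ_pos C.q)
        (1 - H y / H0 v0 + C.σ (b / H0 v0) * (b / H0 v0)))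
    have h6 : H (y + t • v) = H0 v0 := ht
    rw [hb, e] at h6
    change _ = _
    rw [pow_succ, ← C.σ_apply]
    rw [map_add, σσ, map_div₀, h5]
    rw [map_mul] at h6
    field_simp
    linear_combination H0 v0 * h6
  · rintro H ⟨-, χ, hH⟩ v e y s s' h
    obtain ⟨b, hb⟩ := hH.line hE y v
    by_contra hne
    obtain ⟨x, hx⟩ := C.exists_trace (map_one C.σ)
    have h5 : C.σ s - C.σ s' ≠ 0 := sub_ne_zero.2 fun e => hne (C.σ.injective e)
    have h6 := sub_ne_zero.2 hne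
    have e0 := h 0
    have e1 := h (x / (C.σ s - C.σ s'))
    simp only [hb, e, map_add, map_mul, map_div₀, map_sub, σσ, zero_add] at e0 e1
    apply ha
    have e2 : H0 v0 * (x / (C.σ s - C.σ s') * (C.σ s - C.σ s') + C.σ x / (s - s') * (s - s')) = 0 := by
      linear_combination e1 - e0
    rwa [div_mul_cancel₀ _ h5, div_mul_cancel₀ _ h6, hx, mul_one] at e2

end UC

theorem su_main {F : Type*} [Field F] [Fintype F] {n q : ℕ} (hn : 3 ≤ n)
    (hF : Fintype.card F = q ^ 2) (hex : ¬ (n = 3 ∧ q = 2)) {W : Type*} [AddCommGroup W]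
    [Module ℂ W] [FiniteDimensional ℂ W] {ρ : Representation ℂ (SU n F q) W} (hρ : ¬ ∀ g, ρ g = 1) :
    (if Even n then q ^ n - 1 else q ^ n - q) ≤ (q + 1) * finrank ℂ W := by
  let C := stdUC hF n
  let e : SU n F q ≃* C.G := suEquiv hF n
  obtain ⟨E, hE, hd⟩ := C.exists_max_ts
  rw [finrank_fin_fun] at hd
  have h := fun r => UC.su_bound hE (r := r) (by rw [finrank_fin_fun]; omega)
    (normal_le_center_or_eq_top_congr e (SU_normal_le_center_or_eq_top hF n hn hex))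
    (comp_ne_one e hρ)
  split_ifs with he
  · have := h 1 fun H χ h _ _ => Submodule.one_le_finrank_iff.2 h.1
    rwa [one_mul, hd, Nat.two_mul_div_two_of_even he] at this
  · obtain ⟨m, rfl⟩ := Nat.not_even_iff_odd.1 he
    obtain ⟨w, hw, hw'⟩ := C.exists_nonsing_perp (Z := E) (by rw [finrank_fin_fun]; omega)
    have := h q fun H χ h _ hy => h.heis hE hy hw hw'
    rwa [hd, show (2 * m + 1) / 2 = m by omega, Nat.mul_sub, show C.q = q from rfl,
      ← pow_succ', mul_one] at this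

end H22
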