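import Cfsg.Agent.H22.LsE

/-!
Lower bound for the degrees of complex representations of special linear groups.
-/

set_option autoImplicit false

namespace H22.Ls

open Module H23 Finset

theorem sl_arith {q a N D d : ℤ} (hq : 2 ≤ q) (ha : q ≤ a) (hN : (q - 1) * N = q * a - 1)
    (hD : D = d + q * a - 1) (hc : ∀ x, IsCoprime x q → IsCoprime x a) (h2 : q = 2 → 8 ≤ a)
    (h : (q ^ 2 * a - 1) * d ^ 2 ≤ D * ((q - 1) * d + (q ^ 2 * a - q) * (d - a + 1)))
    (hd : D ∣ (q ^ 2 * a - 1) * (q * a) * d) : q * N ≤ D := by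
  by_contra! hlt
  obtain ⟨j, rfl⟩ : ∃ j, d = N - j := ⟨N - d, by ring⟩
  have hD' : D = q * N - j := by linear_combination hD - hN
  have hj : 1 ≤ j := by omega
  have hqa : 4 ≤ q * a := by nlinarith
  have hN1 : q + 1 ≤ N := by
    by_contra! h1
    nlinarith
  have h1 : D * q * (a - 1) ≤ (q ^ 2 * a - 1) * (N - j) := by
    refine le_of_mul_le_mul_right (a := q * a - 1) ?_ (by omega)
    have : D - (N - j) = q * a - 1 := by omega
    rw [← this]
    have h3 : q ^ 2 * a - q = q * (D - (N - j)) := by rw [this]; ring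
    have h4 : q - 1 = q ^ 2 * a - 1 - q * (D - (N - j)) := by rw [this]; ring
    rw [h3, h4] at h
    linarith
  have h3 : j * (q * a + 1) ≤ N * (q + 1) := by
    refine le_of_mul_le_mul_right (a := q - 1) ?_ (by omega)
    rw [hD'] at h1
    have : q ^ 2 * a - 1 = (q - 1) * (q * N + 1) := by linear_combination -q * hN
    have h5 : q * a = (q - 1) * N + 1 := by linear_combination -hN
    rw [this, mul_assoc, mul_sub q a, h5] at h1
    rw [h5]
    nlinarith
  have h4 : j * (q - 1) < q + 1 := by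
    refine lt_of_mul_lt_mul_right (a := q * a + 1) ?_ (by omega)
    have := mul_le_mul_of_nonneg_right h3 (show 0 ≤ q - 1 by omega)
    nlinarith
  have h5 : q ^ 2 * a - 1 = (q - 1) * (q * N + 1) := by linear_combination -q * hN
  have h6 : j = 1 ∨ (q = 2 ∧ j = 2) := by
    rcases eq_or_lt_of_le hq with rfl | h7
    · omega
    · left; nlinarith
  rcases h6 with rfl | ⟨rfl, rfl⟩
  · have hcq : IsCoprime D q := ⟨-1, N, by rw [hD']; ring⟩
    have h7 : D ∣ (q ^ 2 * a - 1) * (N - 1) :=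
      (hcq.mul_right (hc D hcq)).dvd_of_dvd_mul_left (by rw [← mul_assoc, mul_comm (q * a)]; exact hd)
    have h8 : D ∣ 2 * (q - 1) ^ 2 := by
      have := Dvd.dvd.mul_left h7 q
      rw [h5] at this
      have h9 : 2 * (q - 1) ^ 2 = D * ((q - 1) * (D + 3 - q)) - q * ((q - 1) * (q * N + 1) * (N - 1)) := by
        rw [hD']; ring
      rw [h9]
      exact dvd_sub (dvd_mul_right _ _) this
    obtain ⟨k, hk⟩ := h8
    have hD1 : q * (q + 1) - 1 ≤ D := by nlinarith
    have hk1 : k = 1 := by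
      have : 0 < k := by
        by_contra! h9
        nlinarith
      by_contra! h9
      have : 2 ≤ k := by omega
      nlinarith
    rw [hk1, mul_one, hD'] at hk
    have h9 : q ∣ 3 := ⟨N - 2 * q + 4, by linear_combination hk⟩
    have := Int.le_of_dvd (by norm_num) h9
    interval_cases q <;> omega
  · have h7 : a - 1 ∣ 6 := by
      have h8 : a - 1 ∣ D := ⟨4, by omega⟩
      have h9 := h8.trans hd
      have h10 : N = 2 * a - 1 := by omega
      have : (6 : ℤ) = (a - 1) * (16 * a ^ 2 - 12 * a - 6) - (2 ^ 2 * a - 1) * (2 * a) * (N - 2) := by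
        rw [h10]; ring
      rw [this]
      exact dvd_sub (dvd_mul_right _ _) h9
    have := Int.le_of_dvd (by norm_num) h7
    have := h2 rfl
    omega

variable {F V : Type*} [Field F] [AddCommGroup V] [Module F V] [FiniteDimensional F V]

/-- transvections in `SL` -/
noncomputable def τ (c : V) (φ : Dual F V) : SLv F V := ⟨LC.t c φ, LC.t_mem c φ⟩

theorem τ_add {c : V} {φ χ : Dual F V} (h : φ c = 0) (h' : χ c = 0) :
    τ c (φ + χ) = τ c φ * τ c χ := Subtype.ext ((LC.A c).add φ h χ h')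

theorem τ_zero (c : V) : τ c (0 : Dual F V) = 1 := Subtype.ext (LC.A c).e_zero

theorem τ_neg {c : V} {φ : Dual F V} (h : φ c = 0) : τ c (-φ) = (τ c φ)⁻¹ :=
  Subtype.ext ((LC.A c).e_neg h)

theorem conj_τ (g : SLv F V) (c : V) (φ : Dual F V) :
    g * τ c φ * g⁻¹ = τ (g.1 c) (φ ∘ₗ (g.1⁻¹).toLinearMap) := Subtype.ext (LC.conj_t _ _ _)

theorem τ_smul {c : V} {φ : Dual F V} (h : φ c = 0) (a : F) : τ (a • c) φ = τ c (a • φ) :=
  Subtype.ext (LinearEquiv.ext fun x => by
    change LC.t _ _ x = LC.t _ _ x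
    rw [LC.t_apply (by simp [h]), LC.t_apply (by simp [h])]
    simp [smul_smul, mul_comm])

theorem τ_apply {c : V} {φ : Dual F V} (h : φ c = 0) (x : V) : (τ c φ).1 x = x + φ x • c :=
  LC.t_apply h x

/-- elements acting as the same scalar on two vectors -/
def KK (c v : V) : Subgroup (SLv F V) where
  carrier := {g | ∃ a : F, a ≠ 0 ∧ g.1 c = a • c ∧ g.1 v = a • v}
  one_mem' := ⟨1, by simp⟩
  mul_mem' := by
    rintro g h ⟨a, ha, h1, h2⟩ ⟨b, hb, h3, h4⟩
    exact ⟨b * a, mul_ne_zero hb ha, by simp [h1, h3, smul_smul], by simp [h2, h4, smul_smul]⟩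
  inv_mem' := by
    rintro g ⟨a, ha, h1, h2⟩
    refine ⟨a⁻¹, inv_ne_zero ha, g.1.injective ?_, g.1.injective ?_⟩ <;> simp [h1, h2, ha]

theorem τ_mem_KK {c v u : V} {φ : Dual F V} (h1 : φ c = 0) (h2 : φ v = 0) : τ u φ ∈ KK c v :=
  ⟨1, one_ne_zero, (LC.t_apply_of h1).trans (one_smul _ _).symm,
    (LC.t_apply_of h2).trans (one_smul _ _).symm⟩

theorem exists_comm_of_dil {c v u : V} {φ : Dual F V} (h1 : φ c = 0) (h2 : φ v = 0) (h3 : φ u = 0)
    {g : SLv F V} (hg : g ∈ KK c v) {α β : F} (h4 : g.1 u = α • u) (h5 : ∀ x, φ x = β * φ (g.1 x))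
    (h6 : α * β ≠ 1) : ∃ g ∈ KK c v, ∃ h ∈ KK c v, g * h * g⁻¹ = h * τ u φ := by
  refine ⟨g, hg, τ u ((α * β - 1)⁻¹ • φ), τ_mem_KK (by simp [h1]) (by simp [h2]), ?_⟩
  have h7 : ∀ x, φ (g.1⁻¹ x) = β * φ x := fun x => by rw [h5]; simp
  rw [conj_τ, h4, τ_smul (show (α * β - 1)⁻¹ * φ (g.1⁻¹ u) = 0 by rw [h7, h3, mul_zero, mul_zero]),
    ← τ_add (by simp [h3]) h3]
  congr 1
  ext x
  have := sub_ne_zero.2 h6
  simp only [LinearMap.smul_apply, LinearMap.comp_apply, LinearEquiv.coe_coe, h7, smul_eq_mul,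
    LinearMap.add_apply]
  field_simp
  ring

theorem exists_comm {c v u : V} {φ : Dual F V} (h1 : φ c = 0) (h2 : φ v = 0) (h3 : φ u = 0)
    (hn : 3 ≤ finrank F V) (e3 : finrank F V = 3 → ∃ a : F, a ≠ 0 ∧ a ^ 3 ≠ 1)
    (e4 : finrank F V = 4 → ∃ a : F, a ≠ 0 ∧ a ^ 2 ≠ 1) :
    ∃ g ∈ KK c v, ∃ h ∈ KK c v, g * h * g⁻¹ = h * τ u φ := by
  by_cases h0 : φ = 0
  · exact ⟨1, one_mem _, 1, one_mem _, by simp [h0, τ_zero]⟩
  by_cases hex : ∃ w, φ w = 0 ∧ w ∉ Submodule.span F {c, v, u}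
  · obtain ⟨w, hw, hw'⟩ := hex
    obtain ⟨χ, h4, h5⟩ := exists_dual_eq_one hw'
    have h6 : χ u = 0 := h4 u (Submodule.subset_span (by simp))
    refine ⟨τ w (-φ), τ_mem_KK (by simp [h1]) (by simp [h2]), τ u χ,
      τ_mem_KK (h4 c (Submodule.subset_span (by simp))) (h4 v (Submodule.subset_span (by simp))), ?_⟩
    rw [conj_τ, ← τ_add h6 h3, τ_apply (by simp [hw]), ← Subgroup.coe_inv, ← τ_neg (by simp [hw])]
    congr 1
    · simp [h3]
    · ext x
      simp [τ_apply hw, h5]
  push Not at hex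
  obtain ⟨w, hw⟩ : ∃ w, φ w = 1 := by
    obtain ⟨w, hw⟩ := DFunLike.ne_iff.1 h0
    exact ⟨(φ w)⁻¹ • w, by simpa using inv_mul_cancel₀ hw⟩
  have h4 := Module.Dual.finrank_ker_add_one_of_ne_zero h0
  have h5 := Submodule.finrank_mono (show LinearMap.ker φ ≤ _ from hex)
  by_cases hn3 : finrank F V = 3
  · obtain ⟨a, ha, ha'⟩ := e3 hn3
    obtain ⟨g, hg, hg'⟩ := exists_dilation hw (inv_ne_zero (pow_ne_zero 3 ha))
    refine exists_comm_of_dil h1 h2 h3 (α := a) (β := a ^ 2)
      (g := ⟨LinearEquiv.smulOfNeZero F V a ha * g, ?_⟩) ⟨a, ha, ?_, ?_⟩ ?_ (fun x => ?_)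
      (by rwa [← pow_succ'])
    · rw [mem_SLv, show (LinearEquiv.smulOfNeZero F V a ha * g).toLinearMap = a • g.toLinearMap from
        rfl, LinearMap.det_smul, hg, hn3, mul_inv_cancel₀ (pow_ne_zero 3 ha)]
    · simp [hg', h1]
    · simp [hg', h2]
    · simp [hg', h3]
    · simp only [LinearEquiv.mul_apply, hg', LinearEquiv.smulOfNeZero_apply, map_smul, map_add, hw,
        smul_eq_mul]
      field_simp
      ring
  · have h6 : finrank F (Submodule.span F {c, v, u}) ≤ 3 := by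
      classical
      have := (finrank_span_finset_le_card (R := F) ({c, v, u} : Finset V)).trans
        Finset.card_le_three
      rwa [Set.finrank, coe_insert, coe_pair] at this
    obtain ⟨a, ha, ha'⟩ := e4 (by omega)
    have hu : u ∉ Submodule.span F {c, v} := fun h => by
      have h7 : Submodule.span F {c, v, u} ≤ Submodule.span F {c, v} :=
        Submodule.span_le.2 (by
          rintro _ (rfl | rfl | rfl)
          exacts [Submodule.subset_span (by simp), Submodule.subset_span (by simp), h])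
      have h8 := Submodule.finrank_mono h7
      have h9 : finrank F (Submodule.span F {c, v}) ≤ 2 := by
        classical
        have := (finrank_span_finset_le_card (R := F) ({c, v} : Finset V)).trans
          Finset.card_le_two
        rwa [Set.finrank, coe_pair] at this
      omega
    obtain ⟨χ, h7, h8⟩ := exists_dual_eq_one hu
    have h9 : χ c = 0 := h7 c (Submodule.subset_span (by simp))
    have h10 : χ v = 0 := h7 v (Submodule.subset_span (by simp))
    obtain ⟨g, hg, hg'⟩ := exists_dilation h8 ha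
    obtain ⟨k, hk, hk'⟩ := exists_dilation (φ := φ) (u := w) hw (inv_ne_zero ha)
    refine exists_comm_of_dil h1 h2 h3 (α := a) (β := a) (g := ⟨g * k, ?_⟩) ⟨1, one_ne_zero, ?_, ?_⟩
      ?_ (fun x => ?_) (by rwa [← sq])
    · rw [mem_SLv, show (g * k).toLinearMap = g.toLinearMap * k.toLinearMap from rfl, map_mul, hg,
        hk, mul_inv_cancel₀ ha]
    · simp [hg', hk', h1, h9]
    · simp [hg', hk', h2, h10]
    · simp [hg', hk', h3, h8, sub_smul]
    · simp only [LinearEquiv.mul_apply, hg', hk', map_smul, map_add, hw, h3, smul_eq_mul]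
      field_simp
      ring

end H22.Ls
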