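import Cfsg.Agent.H22.LsF

/-!
Lower bound for the degrees of complex representations of special linear groups, part two.
-/

set_option autoImplicit false

namespace H22.Ls

open Module H23 Finset LinearMap

variable {F V : Type*} [Field F] [AddCommGroup V] [Module F V] [Fintype (Dual F V)]

open Classical in
/-- the annihilator as a finite set -/
noncomputable def an (U : Submodule F V) : Finset (Dual F V) := univ.filter fun φ => ∀ u ∈ U, φ u = 0

theorem mem_an {U : Submodule F V} {φ : Dual F V} : φ ∈ an U ↔ ∀ u ∈ U, φ u = 0 := by simp [an]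

theorem mem_an_one {c : V} {φ : Dual F V} : φ ∈ an (F ∙ c) ↔ φ c = 0 :=
  mem_an.trans ⟨fun h => h c (Submodule.mem_span_singleton_self c), fun h u hu => by
    obtain ⟨a, rfl⟩ := Submodule.mem_span_singleton.1 hu
    simp [h]⟩

theorem card_an_ne (U : Submodule F V) : ((an U).card : ℂ) ≠ 0 :=
  Nat.cast_ne_zero.2 (card_ne_zero.2 ⟨0, mem_an.2 fun _ _ => rfl⟩)

theorem sum_an_add {M : Type*} [AddCommMonoid M] {U : Submodule F V} {χ : Dual F V} (h : χ ∈ an U)
    (f : Dual F V → M) : ∑ φ ∈ an U, f (χ + φ) = ∑ φ ∈ an U, f φ :=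
  sum_equiv (Equiv.addLeft χ) (fun φ => by
    simp only [mem_an, Equiv.coe_addLeft, LinearMap.add_apply] at h ⊢
    exact forall₂_congr fun u hu => by rw [h u hu, zero_add]) fun _ _ => rfl

variable [Fintype F] [FiniteDimensional F V]

theorem card_an (U : Submodule F V) :
    (an U).card = Fintype.card F ^ (finrank F V - finrank F U) := by
  rw [← ncard_ann, ← Set.ncard_coe_finset]
  congr 1
  ext φ
  simp [mem_an]

omit [FiniteDimensional F V] in
theorem sum_an_eq_zero {U : Submodule F V} {x : V} (hx : x ∉ U) :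
    ∑ φ ∈ an U, LC.ψ0 F (φ x) = 0 := by
  obtain ⟨χ, h1, h2⟩ := exists_dual_eq_one hx
  obtain ⟨a, ha⟩ := LC.hψ0 (F := F)
  have := sum_an_add (U := U) (χ := a • χ) (mem_an.2 fun u hu => by simp [h1 u hu]) fun φ => LC.ψ0 F (φ x)
  simp only [LinearMap.add_apply, AddChar.map_add_eq_mul, ← mul_sum, LinearMap.smul_apply, h2,
    smul_eq_mul, mul_one] at this
  exact (mul_left_eq_self₀.1 this).resolve_left ha

variable {W : Type*} [AddCommGroup W] [Module ℂ W] (ρ : Representation ℂ (SLv F V) W)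

/-- weight projections -/
noncomputable def pj (c : V) (U : Submodule F V) (v : V) : End ℂ W :=
  ((an U).card : ℂ)⁻¹ • ∑ φ ∈ an U, LC.ψ0 F (-φ v) • ρ (τ c φ)

variable {ρ}

theorem τ_mul_pj {c : V} {U : Submodule F V} (hc : c ∈ U) {φ : Dual F V} (h : φ ∈ an U) (v : V) :
    ρ (τ c φ) * pj ρ c U v = LC.ψ0 F (φ v) • pj ρ c U v := by
  rw [pj, mul_smul_comm, smul_comm (LC.ψ0 F _)]
  congr 1
  rw [mul_sum, smul_sum, ← sum_an_add h fun χ => LC.ψ0 F (φ v) • LC.ψ0 F (-χ v) • ρ (τ c χ)]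
  refine sum_congr rfl fun χ hχ => ?_
  rw [τ_add (mem_an.1 h c hc) (mem_an.1 hχ c hc), map_mul, mul_smul_comm, smul_smul,
    ← AddChar.map_add_eq_mul]
  simp

theorem pj_mul {c : V} {U U' : Submodule F V} (hc : c ∈ U) (h : U ≤ U') (v v' : V) :
    pj ρ c U' v' * pj ρ c U v =
      (((an U').card : ℂ)⁻¹ * ∑ φ ∈ an U', LC.ψ0 F (φ (v - v'))) • pj ρ c U v := by
  rw [pj, smul_mul_assoc, sum_mul, mul_smul, sum_smul]
  congr 1
  refine sum_congr rfl fun φ hφ => ?_
  rw [smul_mul_assoc, τ_mul_pj hc (mem_an.2 fun u hu => mem_an.1 hφ u (h hu)), smul_smul,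
    ← AddChar.map_add_eq_mul, map_sub, neg_add_eq_sub]

theorem pj_mul_of_mem {c : V} {U U' : Submodule F V} (hc : c ∈ U) (h : U ≤ U') {v v' : V}
    (hv : v - v' ∈ U') : pj ρ c U' v' * pj ρ c U v = pj ρ c U v := by
  rw [pj_mul hc h, sum_congr rfl fun φ hφ => by rw [mem_an.1 hφ _ hv]]
  simp [inv_mul_cancel₀ (card_an_ne U')]

theorem pj_mul_of_notMem {c : V} {U U' : Submodule F V} (hc : c ∈ U) (h : U ≤ U') {v v' : V}
    (hv : v - v' ∉ U') : pj ρ c U' v' * pj ρ c U v = 0 := by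
  rw [pj_mul hc h, sum_an_eq_zero hv, mul_zero, zero_smul]

theorem pj_idem {c : V} {U : Submodule F V} (hc : c ∈ U) (v : V) :
    pj ρ c U v * pj ρ c U v = pj ρ c U v := pj_mul_of_mem hc le_rfl (by simp)

theorem pj_congr {c : V} {U : Submodule F V} {v v' : V} (h : v - v' ∈ U) :
    pj ρ c U v = pj ρ c U v' := by
  rw [pj, pj]
  congr 1
  refine sum_congr rfl fun φ hφ => ?_
  rw [sub_eq_zero.1 ((map_sub φ v v').symm.trans (mem_an.1 hφ _ h))]

theorem pj_sa {c : V} {U : Submodule F V} (hc : c ∈ U) : SA ρ (pj ρ c U 0) := by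
  have := (SA.sum (ρ := ρ) (an U) (τ c) (fun φ => LC.ψ0 F (-φ 0)) (Equiv.neg _)
    (fun φ => by simp [mem_an]) (fun φ hφ => τ_neg (mem_an.1 hφ c hc)) (by simp)).smul
    ((an U).card : ℝ)⁻¹
  rwa [Complex.ofReal_inv, Complex.ofReal_natCast] at this

theorem conj_pj (g : SLv F V) (c : V) {U U' : Submodule F V} (h : ∀ x, x ∈ U ↔ g.1 x ∈ U') (v : V) :
    ρ g * pj ρ c U v = pj ρ (g.1 c) U' (g.1 v) * ρ g := by
  have h1 : ∀ φ, φ ∈ an U ↔ (g.1⁻¹).dualMap φ ∈ an U' := fun φ => by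
    simp only [mem_an, LinearEquiv.dualMap_apply]
    exact ⟨fun h1 u hu => h1 _ ((h _).2 (by simpa using hu)),
      fun h1 u hu => by simpa using h1 _ ((h _).1 hu)⟩
  rw [pj, pj, mul_smul_comm, smul_mul_assoc, mul_sum, sum_mul,
    card_equiv (g.1⁻¹).dualMap.toEquiv h1]
  congr 1
  refine sum_equiv (g.1⁻¹).dualMap.toEquiv h1 fun φ _ => ?_
  rw [mul_smul_comm, smul_mul_assoc, ← map_mul, ← map_mul, mul_inv_eq_iff_eq_mul.1 (conj_τ g c φ)]
  simp
  rfl

theorem pj_smul {c : V} {U : Submodule F V} (hc : c ∈ U) {a : F} (ha : a ≠ 0) (v : V) :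
    pj ρ (a • c) U (a • v) = pj ρ c U v := by
  rw [pj, pj]
  congr 1
  refine sum_equiv (LinearEquiv.smulOfNeZero F _ a ha).toEquiv (fun φ => by simp [mem_an, ha])
    fun φ hφ => ?_
  rw [τ_smul (mem_an.1 hφ c hc)]
  simp

variable (ρ) in
/-- projections on the weight spaces of the transvection group with centre `c` -/
noncomputable abbrev pc (c v : V) : End ℂ W := pj ρ c (F ∙ c) v

theorem conj_pc (g : SLv F V) (c v : V) : ρ g * pc ρ c v = pc ρ (g.1 c) (g.1 v) * ρ g :=
  conj_pj g c (fun x => by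
    simp only [Submodule.mem_span_singleton, ← map_smul, EmbeddingLike.apply_eq_iff_eq]) v

theorem pc_smul (c v : V) {a : F} (ha : a ≠ 0) : pc ρ (a • c) (a • v) = pc ρ c v := by
  rw [pc, Submodule.span_singleton_smul_eq ha.isUnit,
    pj_smul (Submodule.mem_span_singleton_self c) ha]

theorem pc_idem (c v : V) : pc ρ c v * pc ρ c v = pc ρ c v :=
  pj_idem (Submodule.mem_span_singleton_self c) v

theorem sum_pc [Fintype V] {c : V} (h0 : c ≠ 0) : ∑ v, pc ρ c v = (Fintype.card F : ℂ) • 1 := by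
  simp only [pc, pj, ← smul_sum]
  rw [sum_comm, sum_eq_single 0 (fun φ _ hφ => ?_) fun h => absurd (mem_an_one.2 rfl) h]
  · have : Nontrivial V := ⟨c, 0, h0⟩
    have h1 := card_an_ne (F ∙ c)
    simp only [LinearMap.zero_apply, neg_zero, AddChar.map_zero_eq_one, one_smul, τ_zero, map_one,
      sum_const, card_univ, ← Nat.cast_smul_eq_nsmul ℂ, smul_smul]
    rw [← Nat.card_eq_fintype_card, LC.card_V (F := F), pow_eq_mul_pred finrank_pos,
      ← finrank_span_singleton (K := F) h0, ← card_an, Nat.cast_mul, mul_comm,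
      mul_inv_cancel_right₀ h1]
  · rw [← sum_smul, show ∑ v, LC.ψ0 F (-φ v) = 0 from sum_char LC.hψ0 (neg_ne_zero.2 hφ), zero_smul]

theorem comm_pc {c v : V} {g : SLv F V} (hg : g ∈ KK c v) : ρ g * pc ρ c v = pc ρ c v * ρ g := by
  obtain ⟨a, ha, h1, h2⟩ := hg
  rw [conj_pc, h1, h2, pc_smul _ _ ha]

variable [FiniteDimensional ℂ W]

theorem tr_idem {p : End ℂ W} (h : p * p = p) : trace ℂ W p = finrank ℂ (range p) :=
  (IsIdempotentElem.isProj_range p h).trace

theorem fix_pc {c v : V} (h : finrank ℂ (range (pc ρ c v)) = 1) {k : SLv F V}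
    (hk : ∃ g ∈ KK c v, ∃ h ∈ KK c v, g * h * g⁻¹ = h * k) : ρ k * pc ρ c v = pc ρ c v := by
  obtain ⟨w, -, hw⟩ := finrank_eq_one_iff'.1 h
  have h1 : ∀ g ∈ KK c v, ∃ s : ℂ, ρ g * pc ρ c v = s • pc ρ c v := fun g hg => by
    obtain ⟨x, hx⟩ := w.2
    obtain ⟨s, hs⟩ := hw ⟨ρ g w, ρ g x, by
      rw [← hx, ← Module.End.mul_apply, ← comm_pc hg, Module.End.mul_apply]⟩
    refine ⟨s, LinearMap.ext fun y => ?_⟩
    obtain ⟨t, ht⟩ := hw ⟨_, mem_range_self _ y⟩
    have h2 : t • w.1 = pc ρ c v y := congrArg Subtype.val ht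
    have h3 : s • w.1 = ρ g w := congrArg Subtype.val hs
    rw [Module.End.mul_apply, LinearMap.smul_apply, ← h2, map_smul, ← h3, smul_comm]
  obtain ⟨g, hg, h, hh, e⟩ := hk
  obtain ⟨s, hs⟩ := h1 g⁻¹ (inv_mem hg)
  obtain ⟨t, ht⟩ := h1 h hh
  have h2 : ρ (h * k) * pc ρ c v = ρ h * pc ρ c v := by
    rw [← e, map_mul, map_mul, mul_assoc, mul_assoc, hs, mul_smul_comm, ht, smul_comm, ← hs,
      mul_smul_comm, ← mul_assoc, ← map_mul, mul_inv_cancel, map_one, one_mul]
  have := congrArg (ρ h⁻¹ * ·) h2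
  simpa only [← mul_assoc, ← map_mul, inv_mul_cancel, map_one, one_mul] using this

theorem tr_pc_eq (hn : 3 ≤ finrank F V) {c v v' : V} (h0 : c ≠ 0) (hv : v ∉ F ∙ c)
    (hv' : v' ∉ F ∙ c) : trace ℂ W (pc ρ c v) = trace ℂ W (pc ρ c v') := by
  obtain ⟨g, hg, h⟩ := exists_SLv_map_family (linearIndependent_pair_of_notMem h0 hv)
    (linearIndependent_pair_of_notMem h0 hv') (by simp; omega)
  have h1 := conj_pc (ρ := ρ) ⟨g, hg⟩ c v
  rw [show g c = c from h 0, show g v = v' from h 1] at h1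
  have h2 := congrArg (fun x => trace ℂ W (ρ (⟨g, hg⟩ : SLv F V)⁻¹ * x)) h1
  rwa [← mul_assoc, ← map_mul, inv_mul_cancel, map_one, one_mul, trace_mul_comm, mul_assoc,
    ← map_mul, mul_inv_cancel, map_one, mul_one] at h2

theorem tr_pc_zero (hn : 2 ≤ finrank F V) {c c' : V} (h0 : c ≠ 0) (h0' : c' ≠ 0) :
    trace ℂ W (pc ρ c 0) = trace ℂ W (pc ρ c' 0) := by
  obtain ⟨g, hg, h⟩ := exists_SLv_map_one hn h0 h0'
  have h1 := conj_pc (ρ := ρ) ⟨g, hg⟩ c 0
  rw [show g c = c' from h, map_zero] at h1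
  have h2 := congrArg (fun x => trace ℂ W (ρ (⟨g, hg⟩ : SLv F V)⁻¹ * x)) h1
  rwa [← mul_assoc, ← map_mul, inv_mul_cancel, map_one, one_mul, trace_mul_comm, mul_assoc,
    ← map_mul, mul_inv_cancel, map_one, mul_one] at h2

omit [Fintype (Dual F V)] in
open Classical in
theorem sum_split {M : Type*} [AddCommMonoid M] [Fintype V] {c : V} (h0 : c ≠ 0) {f : V → M} {a : M}
    (h : ∀ v ∈ F ∙ c, f v = a) :
    ∑ v, f v = Fintype.card F • a + ∑ v ∈ univ.filter fun v => v ∉ F ∙ c, f v := by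
  rw [← sum_filter_add_sum_filter_not univ (· ∈ F ∙ c), sum_congr rfl fun v hv => h v (by simpa using hv),
    sum_const]
  congr 2
  have := ncard_submodule (F ∙ c)
  rw [finrank_span_singleton h0, pow_one] at this
  rw [← this, ← Set.ncard_coe_finset]
  congr 1
  ext; simp

/-- the trace of a transvection with another centre on the fixed space -/
theorem tr_τ_pc [Fintype V] (hn : 3 ≤ finrank F V)
    (e3 : finrank F V = 3 → ∃ a : F, a ≠ 0 ∧ a ^ 3 ≠ 1)
    (e4 : finrank F V = 4 → ∃ a : F, a ≠ 0 ∧ a ^ 2 ≠ 1) {c c' : V} (h0 : c ≠ 0) (hc' : c' ∉ F ∙ c)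
    (hm : ∀ v ∉ F ∙ c, finrank ℂ (range (pc ρ c v)) = 1) {φ : Dual F V} (hφ : φ ≠ 0)
    (h1 : φ c = 0) (h2 : φ c' = 0) : trace ℂ W (ρ (τ c' φ) * pc ρ c 0) =
      trace ℂ W (pc ρ c 0) - (Fintype.card F : ℂ) ^ (finrank F V - 2) := by
  classical
  have hq : (Fintype.card F : ℂ) ≠ 0 := Nat.cast_ne_zero.2 Fintype.card_ne_zero
  have hcc := Submodule.mem_span_singleton_self (R := F) c
  have h3 : trace ℂ W (ρ (τ c' φ)) = trace ℂ W (ρ (τ c φ)) := by
    obtain ⟨χ, h4, h5⟩ := exists_dual_pair (F := F) (u := c' - c) (x := c) fun h => by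
      obtain ⟨t, ht⟩ := Submodule.mem_span_singleton.1 h
      have h6 : t ≠ 0 := by rintro rfl; exact h0 (by simpa using ht.symm)
      refine hc' (Submodule.mem_span_singleton.2 ⟨1 + t⁻¹, smul_right_injective V h6 ?_⟩)
      simp only [add_smul, smul_add, smul_inv_smul₀ h6, one_smul]
      linear_combination (norm := module) -ht
    have h6 := conj_τ (τ (c' - c) χ) c φ
    rw [τ_apply h4, h5, one_smul, add_sub_cancel, ← Subgroup.coe_inv, ← τ_neg h4,
      show φ ∘ₗ (τ (c' - c) (-χ)).1.toLinearMap = φ from LinearMap.ext fun x => by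
        simp [τ_apply (show (-χ) (c' - c) = 0 by simp [h4]), h1, h2], τ_neg h4] at h6
    rw [← h6, map_mul ρ, map_mul ρ, trace_mul_comm, ← mul_assoc, ← map_mul, inv_mul_cancel, map_one,
      one_mul]
  have h4 : ∀ x : End ℂ W, (Fintype.card F : ℂ) * trace ℂ W x = ∑ v, trace ℂ W (x * pc ρ c v) := by
    intro x
    rw [← map_sum, ← mul_sum, sum_pc h0, mul_smul_comm, mul_one, map_smul, smul_eq_mul]
  have h5 := h4 (ρ (τ c φ))
  have h6 := h4 (ρ (τ c' φ))
  have h7 : ∀ v ∉ F ∙ c, trace ℂ W (pc ρ c v) = 1 := fun v hv => by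
    rw [tr_idem (pc_idem c v), hm v hv, Nat.cast_one]
  have h8 := sum_char LC.hψ0 hφ
  rw [sum_split h0 (a := 1) fun v hv => by rw [mem_an.1 (mem_an_one.2 h1) v hv]; simp] at h8
  rw [sum_split h0 (a := trace ℂ W (pc ρ c 0)) fun v hv => by
      rw [τ_mul_pj hcc (mem_an_one.2 h1), mem_an.1 (mem_an_one.2 h1) v hv,
        AddChar.map_zero_eq_one, one_smul, pj_congr (v' := 0) (by simpa using hv)],
    sum_congr rfl (g := fun v => LC.ψ0 F (φ v)) fun v hv => by
      rw [τ_mul_pj hcc (mem_an_one.2 h1), map_smul, h7 v (by simpa using hv), smul_eq_mul,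
        mul_one]] at h5
  have h9 : ∑ v, (if φ v = 0 then (1 : ℂ) else 0) = (Fintype.card F : ℂ) ^ (finrank F V - 1) := by
    have := ncard_submodule (ker φ)
    rw [← Module.Dual.finrank_ker_add_one_of_ne_zero hφ, Nat.add_sub_cancel, sum_boole,
      ← Nat.cast_pow, ← this, ← Set.ncard_coe_finset]
    congr 2
    ext; simp
  rw [sum_split h0 (a := 1) fun v hv => by rw [mem_an.1 (mem_an_one.2 h1) v hv]; simp] at h9
  rw [sum_split h0 (a := trace ℂ W (ρ (τ c' φ) * pc ρ c 0)) fun v hv => by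
      rw [pc, pj_congr (v' := 0) (by simpa using hv)],
    sum_congr rfl (g := fun v => if φ v = 0 then (1 : ℂ) else 0) fun v hv => ?_] at h6
  · apply mul_left_cancel₀ hq
    rw [mul_sub, ← pow_succ', show finrank F V - 2 + 1 = finrank F V - 1 by omega]
    simp only [nsmul_eq_mul] at h5 h6 h8 h9
    linear_combination h5 - h6 + h8 - h9 + Fintype.card F * h3
  · have hv' : v ∉ F ∙ c := by simpa using hv
    split_ifs with h
    · rw [fix_pc (hm v hv') (exists_comm h1 h h2 hn e3 e4), h7 v hv']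
    · rw [← pc_idem, ← mul_assoc, conj_pc, trace_mul_comm, ← mul_assoc, τ_apply h2, τ_apply h2, h1,
        zero_smul, add_zero, pj_mul_of_notMem hcc le_rfl, zero_mul, map_zero]
      intro h10
      exact hc' (by simpa [h] using Submodule.smul_mem _ (φ v)⁻¹ h10)

theorem tr_pc_pc [Fintype V] (hn : 3 ≤ finrank F V)
    (e3 : finrank F V = 3 → ∃ a : F, a ≠ 0 ∧ a ^ 3 ≠ 1)
    (e4 : finrank F V = 4 → ∃ a : F, a ≠ 0 ∧ a ^ 2 ≠ 1) {c c' : V} (h0 : c ≠ 0) (hc' : c' ∉ F ∙ c)
    (hm : ∀ v ∉ F ∙ c, finrank ℂ (range (pc ρ c v)) = 1) :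
    (trace ℂ W (pc ρ c 0 * pc ρ c' 0)).re ≤
      finrank ℂ (range (pc ρ c 0)) - (Fintype.card F : ℝ) ^ (finrank F V - 2) + 1 := by
  classical
  have : Finite (V ≃ₗ[F] V) := Finite.of_injective _ DFunLike.coe_injective
  have h1 : c ∈ Submodule.span F {c, c'} := Submodule.subset_span (by simp)
  have h2 : c' ∈ Submodule.span F {c, c'} := Submodule.subset_span (by simp)
  have h3 : pc ρ c 0 * pj ρ c' (Submodule.span F {c, c'}) 0 =
      pj ρ c' (Submodule.span F {c, c'}) 0 * pc ρ c 0 := by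
    rw [pj, mul_smul_comm, smul_mul_assoc, mul_sum, sum_mul]
    congr 1
    refine sum_congr rfl fun φ hφ => ?_
    rw [mul_smul_comm, smul_mul_assoc, comm_pc (τ_mem_KK (mem_an.1 hφ c h1) (map_zero φ))]
  rw [pc.eq_1 ρ c', ← pj_mul_of_mem (ρ := ρ) (Submodule.mem_span_singleton_self c')
    ((Submodule.span_singleton_le_iff_mem _ _).2 h2) (v := 0) (v' := 0) (by simp), ← mul_assoc]
  refine (trace_mul_le (ρ := ρ) ?_ (pc_idem c' 0)
    ((pj_sa (Submodule.mem_span_singleton_self c)).mul (pj_sa h2) h3)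
    (pj_sa (Submodule.mem_span_singleton_self c'))).trans (le_of_eq ?_)
  · rw [mul_assoc, ← mul_assoc _ (pc ρ c 0), ← h3, mul_assoc, pj_idem h2, ← mul_assoc, pc_idem]
  · have h4 := card_an_ne (Submodule.span F {c, c'})
    have h5 := card_an (Submodule.span F {c, c'})
    rw [LC.finrank_span_two h0 hc'] at h5
    have h6 : (0 : Dual F V) ∈ an (Submodule.span F {c, c'}) := mem_an.2 fun _ _ => rfl
    rw [h3, pj, smul_mul_assoc, sum_mul, map_smul, map_sum, ← add_sum_erase _ _ h6,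
      sum_congr rfl fun φ hφ => by
        rw [map_zero, neg_zero, AddChar.map_zero_eq_one, one_smul, tr_τ_pc hn e3 e4 h0 hc' hm
          (ne_of_mem_erase hφ) (mem_an.1 (mem_of_mem_erase hφ) c h1)
          (mem_an.1 (mem_of_mem_erase hφ) c' h2)],
      sum_const, card_erase_of_mem h6, τ_zero, map_one, nsmul_eq_mul,
      Nat.cast_pred (card_pos.2 ⟨_, h6⟩), ← Nat.cast_pow, ← h5, tr_idem (pc_idem c 0),
      ← Nat.cast_pow, ← h5]
    simp only [LinearMap.zero_apply, neg_zero, AddChar.map_zero_eq_one, one_smul, one_mul,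
      tr_idem (pc_idem c 0), smul_eq_mul]
    rw [← Complex.ofReal_re (_ - _ + _)]
    congr 1
    push_cast
    field_simp
    ring

theorem sl_bound (hρ : ρ.IsIrreducible) (hW : 2 ≤ finrank ℂ W) (hn : 3 ≤ finrank F V)
    (e3 : finrank F V = 3 → ∃ a : F, a ≠ 0 ∧ a ^ 3 ≠ 1)
    (e4 : finrank F V = 4 → ∃ a : F, a ≠ 0 ∧ a ^ 2 ≠ 1) :
    Fintype.card F ^ finrank F V - Fintype.card F ≤ (Fintype.card F - 1) * finrank ℂ W := by
  classical
  have := finite_of_fd F V
  have := Fintype.ofFinite V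
  have : Finite (V ≃ₗ[F] V) := Finite.of_injective _ DFunLike.coe_injective
  have : Nontrivial V := Module.nontrivial_of_finrank_pos (R := F) (by omega)
  have : Nontrivial W := Module.nontrivial_of_finrank_pos (R := ℂ) (by omega)
  have hq : 2 ≤ Fintype.card F := Fintype.one_lt_card
  have hq' : (Fintype.card F : ℂ) ≠ 0 := Nat.cast_ne_zero.2 Fintype.card_ne_zero
  obtain ⟨c, h0⟩ := exists_ne (0 : V)
  have hcc := Submodule.mem_span_singleton_self (R := F) c
  obtain ⟨v1, hv1⟩ : ∃ v, v ∉ F ∙ c := by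
    by_contra! h
    have h1 := finrank_span_singleton (K := F) h0
    rw [Submodule.eq_top_iff'.2 h, finrank_top] at h1
    omega
  have hm : ∀ v ∉ F ∙ c, finrank ℂ (range (pc ρ c v)) = finrank ℂ (range (pc ρ c v1)) :=
    fun v hv => by
      have := tr_pc_eq (ρ := ρ) hn h0 hv hv1
      rw [tr_idem (pc_idem c v), tr_idem (pc_idem c v1)] at this
      exact_mod_cast this
  have hcard : (univ.filter fun v => v ∉ F ∙ c).card =
      Fintype.card F ^ finrank F V - Fintype.card F := by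
    rw [← ncard_notMem h0, ← Set.ncard_coe_finset]
    congr 1
    ext; simp
  have h1 : Fintype.card F * finrank ℂ W = Fintype.card F * finrank ℂ (range (pc ρ c 0)) +
      (Fintype.card F ^ finrank F V - Fintype.card F) * finrank ℂ (range (pc ρ c v1)) := by
    have := congrArg (trace ℂ W) (sum_pc (ρ := ρ) h0)
    rw [map_sum, sum_split (f := fun v => trace ℂ W (pc ρ c v)) h0
      (a := finrank ℂ (range (pc ρ c 0))) fun v hv => by
        rw [pc, pj_congr (v' := 0) (by simpa using hv), tr_idem (pc_idem c 0)],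
      sum_congr rfl fun v hv => by rw [tr_idem (pc_idem c v), hm v (by simpa using hv)],
      sum_const, hcard, map_smul, trace_one] at this
    simp only [nsmul_eq_mul, smul_eq_mul] at this
    exact_mod_cast this.symm
  rcases Nat.lt_trichotomy (finrank ℂ (range (pc ρ c v1))) 1 with h | h | h
  · exfalso
    have h2 : ∀ φ : Dual F V, φ c = 0 → ρ (τ c φ) = 1 := fun φ hφ => by
      apply smul_right_injective _ hq'
      simp only
      rw [← mul_one (ρ _), ← mul_smul_comm, ← sum_pc h0, mul_sum]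
      refine sum_congr rfl fun v _ => ?_
      rw [τ_mul_pj hcc (mem_an_one.2 hφ)]
      by_cases hv : v ∈ F ∙ c
      · rw [mem_an.1 (mem_an_one.2 hφ) v hv, AddChar.map_zero_eq_one, one_smul]
      · have h3 : pc ρ c v = 0 :=
          range_eq_bot.1 (Submodule.finrank_eq_zero.1 (by rw [hm v hv]; omega))
        rw [show pj ρ c (F ∙ c) v = 0 from h3, smul_zero, h3]
    refine ne_one_of_irr hρ hW fun g => ?_
    refine (Subgroup.mem_map_iff_mem (SLv F V).subtype_injective).1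
      (SLv_le_of_tv (H := ρ.ker.map (SLv F V).subtype) (fun φ u hu => ?_) g.2)
    refine ⟨τ u φ, ?_, LC.t_eq hu⟩
    by_cases hu0 : u = 0
    · rw [show τ u φ = 1 from Subtype.ext (LinearEquiv.ext fun x => by rw [τ_apply hu, hu0]; simp)]
      exact one_mem _
    obtain ⟨k, hk, hk'⟩ := exists_SLv_map_one (F := F) (by omega) hu0 h0
    have h5 := conj_τ ⟨k, hk⟩ u φ
    rw [show k u = c from hk'] at h5
    have h6 := ρ.normal_ker.conj_mem _ (h5 ▸ h2 _ (by simp [← hk', hu])) (⟨k, hk⟩ : SLv F V)⁻¹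
    simpa [mul_assoc] using h6
  swap
  · refine Nat.le_of_mul_le_mul_left ?_ (show 0 < Fintype.card F by omega)
    rw [mul_left_comm, h1]
    obtain ⟨q, hq⟩ := Nat.exists_eq_add_of_le hq
    generalize Fintype.card F ^ finrank F V - Fintype.card F = A
    rw [hq, show 2 + q - 1 = q + 1 by omega]
    have h2 := Nat.mul_le_mul_left ((q + 1) * A) (show 2 ≤ _ from h)
    nlinarith [Nat.zero_le (A * q), Nat.zero_le ((q + 1) * (2 + q) * finrank ℂ (range (pc ρ c 0)))]
  rw [h] at hm h1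
  obtain ⟨l, hl⟩ := H17.schur_scalar ρ (∑ u ∈ univ.erase 0, pc ρ u 0) fun g => by
    rw [← Module.End.mul_eq_comp, ← Module.End.mul_eq_comp, mul_sum, sum_mul]
    exact (sum_equiv g.1.toEquiv (by simp) fun u _ => by rw [conj_pc, map_zero]; rfl).symm
  have hc2 : (univ.erase (0 : V)).card = Fintype.card F ^ finrank F V - 1 := by
    rw [card_erase_of_mem (mem_univ _), card_univ, ← Nat.card_eq_fintype_card, LC.card_V (F := F)]
  have h2 : l * finrank ℂ W = ((Fintype.card F ^ finrank F V - 1 : ℕ) : ℂ) *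
      finrank ℂ (range (pc ρ c 0)) := by
    have := congrArg (trace ℂ W) hl
    rw [map_sum, sum_congr rfl fun u hu => tr_pc_zero (by omega) (ne_of_mem_erase hu) h0,
      sum_const, hc2, tr_idem (pc_idem c 0), map_smul, trace_id, nsmul_eq_mul] at this
    exact this.symm
  have h3 : ∑ x ∈ (univ.erase (0 : V)).sigma fun u => an (F ∙ u), ρ (τ x.1 x.2) =
      ((Fintype.card F ^ (finrank F V - 1) : ℕ) * l) • 1 := by
    rw [sum_sigma, mul_smul, Module.End.one_eq_id, ← hl, smul_sum]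
    refine sum_congr rfl fun u hu => ?_
    rw [← finrank_span_singleton (K := F) (ne_of_mem_erase hu), ← card_an, pc, pj,
      smul_inv_smul₀ (card_an_ne _)]
    simp
  have h4 := dvd_of_sum_eq _ _ h3 (a := (Fintype.card F ^ finrank F V - 1) *
      Fintype.card F ^ (finrank F V - 1) * finrank ℂ (range (pc ρ c 0))) (by
    rw [h3, map_smul, trace_one, smul_eq_mul, mul_assoc, h2]
    push_cast
    ring)
  have h5 : (l * finrank ℂ (range (pc ρ c 0))).re ≤
      ((Fintype.card F : ℝ) - 1) * finrank ℂ (range (pc ρ c 0)) +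
        ((Fintype.card F ^ finrank F V - Fintype.card F : ℕ) : ℝ) *
        (finrank ℂ (range (pc ρ c 0)) - (Fintype.card F : ℝ) ^ (finrank F V - 2) + 1) := by
    have h6 := congrArg (fun x => (trace ℂ W (pc ρ c 0 * x)).re) hl
    simp only [mul_sum, map_sum, Complex.re_sum, mul_smul_comm, ← Module.End.one_eq_id, mul_one,
      map_smul, tr_idem (pc_idem c 0), smul_eq_mul] at h6
    let g : V → ℝ := fun u => if u ∈ F ∙ c then finrank ℂ (range (pc ρ c 0)) else
      finrank ℂ (range (pc ρ c 0)) - (Fintype.card F : ℝ) ^ (finrank F V - 2) + 1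
    have h7 := sum_split (f := g) h0 fun v hv => if_pos hv
    rw [← add_sum_erase _ _ (mem_univ 0), sum_congr rfl (s₁ := filter _ _) fun v hv =>
      if_neg (by simpa using hv), sum_const, hcard] at h7
    simp only [g, zero_mem, if_true, nsmul_eq_mul] at h7
    rw [← h6, sub_mul, one_mul, sub_add_eq_add_sub, ← h7, add_sub_cancel_left]
    refine sum_le_sum fun u hu => ?_
    split_ifs with h8
    · obtain ⟨a, rfl⟩ := Submodule.mem_span_singleton.1 h8
      have ha : a ≠ 0 := by rintro rfl; simp at hu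
      have h9 := pc_smul (ρ := ρ) c 0 ha
      rw [smul_zero] at h9
      rw [h9, pc_idem, tr_idem (pc_idem c 0), Complex.natCast_re]
    · exact tr_pc_pc hn e3 e4 h0 h8 hm
  have h6 := mul_le_mul_of_nonneg_left h5 (Nat.cast_nonneg (α := ℝ) (finrank ℂ W))
  rw [← Complex.natCast_re, ← Complex.re_ofReal_mul, Complex.natCast_re, Complex.ofReal_natCast,
    ← mul_assoc, mul_comm _ l, h2, ← Nat.cast_mul, ← Nat.cast_mul, Complex.natCast_re] at h6
  have h7 : Fintype.card F = 2 → 5 ≤ finrank F V := fun h => by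
    have h8 : ∀ a : F, a ≠ 0 → a = 1 := fun a ha => by
      simpa [h] using FiniteField.pow_card_sub_one_eq_one a ha
    by_contra h9
    rcases (by omega : finrank F V = 3 ∨ finrank F V = 4) with h | h
    · obtain ⟨a, ha, ha'⟩ := e3 h
      simp [h8 a ha] at ha'
    · obtain ⟨a, ha, ha'⟩ := e4 h
      simp [h8 a ha] at ha'
  generalize finrank ℂ (range (pc ρ c 0)) = d at *
  generalize finrank ℂ W = D at *
  generalize Fintype.card F = q at *
  obtain ⟨n, hn'⟩ : ∃ n, finrank F V = n + 3 := ⟨finrank F V - 3, by omega⟩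
  rw [hn'] at h1 h4 h6 h7 ⊢
  have h8 : q ≤ q ^ (n + 3) := Nat.le_self_pow (by omega) _
  have h9 : 1 ≤ q ^ (n + 3) := by omega
  have := sl_arith (q := q) (a := q ^ (n + 1)) (N := ∑ i ∈ range (n + 2), (q : ℤ) ^ i) (D := D)
    (d := d) (by omega) (le_self_pow₀ (by omega) (by omega))
    (by rw [mul_comm, geom_sum_mul]; ring) ?_ (fun x h => h.pow_right) ?_ ?_ ?_
  · zify [h8, show 1 ≤ q by omega]
    have h10 := geom_sum_mul (q : ℤ) (n + 2)
    have h11 := mul_le_mul_of_nonneg_left this (show (0 : ℤ) ≤ q - 1 by omega)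
    calc _ = ((q : ℤ) - 1) * (q * ∑ i ∈ range (n + 2), (q : ℤ) ^ i) := by
          linear_combination -q * h10
      _ ≤ _ := h11
  · zify [h8] at h1
    apply mul_left_cancel₀ (show (q : ℤ) ≠ 0 by omega)
    linear_combination h1
  · intro h
    obtain rfl : q = 2 := by omega
    exact_mod_cast Nat.pow_le_pow_right two_pos (show 3 ≤ n + 1 by have := h7 rfl; omega)
  · rw [show n + 3 - 2 = n + 1 from rfl] at h6
    push_cast [h8, h9] at h6
    have : (((q : ℤ) ^ 2 * q ^ (n + 1) - 1) * d ^ 2 : ℝ) ≤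
        (D : ℤ) * (((q : ℤ) - 1) * d + ((q : ℤ) ^ 2 * q ^ (n + 1) - q) * (d - q ^ (n + 1) + 1)) := by
      push_cast
      rwa [← pow_add, show 2 + (n + 1) = n + 3 by omega, sq (d : ℝ), ← mul_assoc]
    exact_mod_cast this
  · rw [show n + 3 - 1 = n + 2 from rfl] at h4
    zify [h9] at h4
    convert h4 using 1
    ring

end H22.Ls
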