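import Cfsg.Agent.H22.LsG
import Cfsg.Agent.H17.Inner

/-!
Decomposition of a permutation character with a commuting free abelian group whose orbits are
permuted doubly transitively; the permutation character of `SL` on non-zero vectors.
-/

set_option autoImplicit false

namespace H22.Ls

open Module Finset LinearMap Cfsg H23 H17

theorem char_sub {G W : Type*} [Group G] [AddCommGroup W] [Module ℂ W] [FiniteDimensional ℂ W]
    {ρ : Representation ℂ G W} (S : Subrepresentation ρ) {p : End ℂ W}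
    (hp : IsProj S.toSubmodule p) (g : G) :
    S.toRepresentation.character g = trace ℂ W (ρ g * p) := by
  have : ρ g * p = S.toSubmodule.subtype ∘ₗ (S.toRepresentation g ∘ₗ hp.codRestrict) := rfl
  rw [this, trace_comp_comm', comp_assoc, show hp.codRestrict ∘ₗ S.toSubmodule.subtype = LinearMap.id from
    LinearMap.ext hp.codRestrict_apply_cod, comp_id]
  rfl

theorem irr_sub {G W : Type*} [Group G] [Finite G] [AddCommGroup W] [Module ℂ W]
    {ρ : Representation ℂ G W} (S : Subrepresentation ρ) (h0 : S.toSubmodule ≠ ⊥)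
    {p : End ℂ W} (hp : IsProj S.toSubmodule p) (hpg : ∀ g, p * ρ g = ρ g * p)
    (h : ∀ T : End ℂ W, (∀ g, T * ρ g = ρ g * T) → ∃ c : ℂ, ∀ w ∈ S.toSubmodule, T w = c • w) :
    S.toRepresentation.IsIrreducible := by
  have : Nontrivial S.toSubmodule := Submodule.nontrivial_iff_ne_bot.2 h0
  refine irr_of_commutant fun T hT => ?_
  obtain ⟨c, hc⟩ := h (S.toSubmodule.subtype ∘ₗ T ∘ₗ hp.codRestrict) fun g => by
    ext x
    have h1 : hp.codRestrict (ρ g x) = S.toRepresentation g (hp.codRestrict x) :=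
      Subtype.ext (LinearMap.congr_fun (hpg g) x)
    simp only [Module.End.mul_apply, comp_apply, Submodule.subtype_apply, h1]
    exact congrArg Subtype.val (LinearMap.congr_fun (hT g) (hp.codRestrict x))
  refine ⟨c, LinearMap.ext fun w => Subtype.ext ?_⟩
  have h2 := hc w w.2
  simp only [comp_apply, Submodule.subtype_apply] at h2
  rwa [hp.codRestrict_apply_cod] at h2

theorem char_ne {G W : Type*} [Group G] [Finite G] [AddCommGroup W] [Module ℂ W]
    [FiniteDimensional ℂ W] {ρ : Representation ℂ G W} {S S' : Subrepresentation ρ}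
    (hS : S.toRepresentation.IsIrreducible) (hd : Disjoint S.toSubmodule S'.toSubmodule)
    {p : End ℂ W} (hp : IsProj S.toSubmodule p) (hpg : ∀ g, p * ρ g = ρ g * p)
    (h : ∀ T : End ℂ W, (∀ g, T * ρ g = ρ g * T) → ∃ c : ℂ, ∀ w ∈ S.toSubmodule, T w = c • w) :
    S.toRepresentation.character ≠ S'.toRepresentation.character := by
  intro e
  have := Fintype.ofFinite G
  have h1 := H17.classInner_character_eq_finrank S.toRepresentation S'.toRepresentation
  rw [← e, (H17.isIrr_character _).inner_self] at h1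
  have : Nontrivial (S.toRepresentation.IntertwiningMap S'.toRepresentation) :=
    Module.nontrivial_of_finrank_pos (R := ℂ) (Nat.pos_of_ne_zero fun h => by simp [h] at h1)
  obtain ⟨f, hf⟩ := exists_ne (0 : S.toRepresentation.IntertwiningMap S'.toRepresentation)
  obtain ⟨c, hc⟩ := h (S'.toSubmodule.subtype ∘ₗ f.toLinearMap ∘ₗ hp.codRestrict) fun g => by
    ext x
    have h1 : hp.codRestrict (ρ g x) = S.toRepresentation g (hp.codRestrict x) :=
      Subtype.ext (LinearMap.congr_fun (hpg g) x)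
    simp only [Module.End.mul_apply, comp_apply, Submodule.subtype_apply, h1]
    exact congrArg Subtype.val (f.isIntertwining _ _ g (hp.codRestrict x))
  refine hf (DFunLike.ext _ _ fun w => Subtype.ext ?_)
  have h2 := hc w w.2
  simp only [comp_apply, Submodule.subtype_apply] at h2
  rw [hp.codRestrict_apply_cod] at h2
  exact Submodule.disjoint_def.1 hd _ (h2 ▸ Submodule.smul_mem _ c w.2) (f.toLinearMap w).2

theorem trace_funLeft {X : Type*} [Fintype X] [DecidableEq X] (e : X → X) :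
    trace ℂ (X → ℂ) (funLeft ℂ ℂ e) = (univ.filter fun x => e x = x).card := by
  rw [trace_eq_matrix_trace ℂ (Pi.basisFun ℂ X), Matrix.trace, card_filter]
  simp [toMatrix_apply, Pi.single_apply]

variable (G : Type*) (X : Type*) [Group G] [MulAction G X]

/-- the permutation representation on functions -/
def fnRep : Representation ℂ G (X → ℂ) where
  toFun g := funLeft ℂ ℂ fun x => g⁻¹ • x
  map_one' := by ext; simp
  map_mul' g h := by ext; simp [mul_smul]

variable {G X}

@[simp] theorem fnRep_apply (g : G) (f : X → ℂ) (x : X) : fnRep G X g f x = f (g⁻¹ • x) := rfl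

variable {T : Type*} [CommGroup T] [Fintype T] [MulAction T X] [SMulCommClass G T X] [Fintype X]

variable (G X) in
/-- the isotypic pieces -/
def fnU (θ : AddChar (Additive T) ℂ) : Subrepresentation (fnRep G X) where
  toSubmodule :=
    { carrier := {f | (∀ (t : T) x, f (t • x) = θ (.ofMul t) * f x) ∧ ∑ x, f x = 0}
      zero_mem' := by simp
      add_mem' := fun {f g} hf hg => ⟨fun t x => by simp [hf.1, hg.1, mul_add],
        by simp [sum_add_distrib, hf.2, hg.2]⟩
      smul_mem' := fun c f hf => ⟨fun t x => by simp [hf.1, mul_left_comm],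
        by simp [← mul_sum, hf.2]⟩ }
  apply_mem_toSubmodule g f hf := ⟨fun t x => by simp only [fnRep_apply, smul_comm g⁻¹ t, hf.1],
    (Fintype.sum_equiv (MulAction.toPerm g⁻¹) _ _ fun _ => rfl).trans hf.2⟩

variable (X) in
/-- subtracting the mean value -/
noncomputable def fnJ : End ℂ (X → ℂ) :=
  1 - (Fintype.card X : ℂ)⁻¹ • LinearMap.pi fun _ => ∑ x, proj x

theorem fnJ_apply (f : X → ℂ) (x : X) :
    fnJ X f x = f x - (Fintype.card X : ℂ)⁻¹ * ∑ y, f y := by simp [fnJ]

variable (X) in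
/-- the projections -/
noncomputable def fnP (θ : AddChar (Additive T) ℂ) : End ℂ (X → ℂ) :=
  ((Fintype.card T : ℂ)⁻¹ • ∑ t : T, θ (.ofMul t⁻¹) • funLeft ℂ ℂ fun x => t • x) * fnJ X

theorem fnP_apply (θ : AddChar (Additive T) ℂ) (f : X → ℂ) (x : X) : fnP X θ f x =
    (Fintype.card T : ℂ)⁻¹ * ∑ t : T, θ (.ofMul t⁻¹) * fnJ X f (t • x) := by
  simp [fnP]

theorem isProj_fnP [Nonempty X] (θ : AddChar (Additive T) ℂ) :
    IsProj (fnU G X θ).toSubmodule (fnP X θ) := by
  have hT : (Fintype.card T : ℂ) ≠ 0 := Nat.cast_ne_zero.2 Fintype.card_ne_zero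
  have hX : (Fintype.card X : ℂ) ≠ 0 := Nat.cast_ne_zero.2 Fintype.card_ne_zero
  refine ⟨fun f => ⟨fun s x => ?_, ?_⟩, fun f hf => funext fun x => ?_⟩
  · simp only [fnP_apply]
    rw [mul_left_comm, mul_sum _ _ (θ _)]
    congr 1
    refine Fintype.sum_equiv (Equiv.mulRight s) _ _ fun t => ?_
    rw [← mul_assoc, ← AddChar.map_add_eq_mul, ← ofMul_mul, Equiv.coe_mulRight, mul_smul]
    simp
  · have h1 : ∀ t : T, ∑ x, fnJ X f (t • x) = 0 := fun t => by
      rw [Fintype.sum_equiv (MulAction.toPerm t) (fun x => fnJ X f (t • x)) (fnJ X f) fun _ => rfl]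
      simp [fnJ_apply, hX]
    simp only [fnP_apply, ← mul_sum]
    rw [sum_comm]
    simp [← mul_sum, h1]
  · simp only [fnP_apply, fnJ_apply, hf.1, hf.2, mul_zero, sub_zero, ← mul_assoc,
      ← AddChar.map_add_eq_mul, ← ofMul_mul, inv_mul_cancel]
    simp [hT]

theorem fnP_comm (θ : AddChar (Additive T) ℂ) (g : G) :
    fnP X θ * fnRep G X g = fnRep G X g * fnP X θ := by
  refine LinearMap.ext fun f => funext fun x => ?_
  simp only [Module.End.mul_apply, fnRep_apply, fnP_apply, fnJ_apply, smul_comm g⁻¹]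
  rw [Fintype.sum_equiv (MulAction.toPerm g⁻¹) (fun y => f (g⁻¹ • y)) f fun _ => rfl]

theorem sum_fnP : ∑ θ : AddChar (Additive T) ℂ, fnP X θ = fnJ X := by
  classical
  have hT : (Fintype.card T : ℂ) ≠ 0 := Nat.cast_ne_zero.2 Fintype.card_ne_zero
  refine LinearMap.ext fun f => funext fun x => ?_
  simp only [LinearMap.sum_apply, Finset.sum_apply, fnP_apply, ← mul_sum]
  rw [sum_comm]
  simp [← sum_mul, AddChar.sum_apply_eq_ite, hT]

theorem trace_fnJ [Nonempty X] [DecidableEq X] (e : Equiv.Perm X) :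
    trace ℂ _ (funLeft ℂ ℂ e * fnJ X) = (univ.filter fun x => e x = x).card - 1 := by
  have hX : (Fintype.card X : ℂ) ≠ 0 := Nat.cast_ne_zero.2 Fintype.card_ne_zero
  rw [fnJ, mul_sub, mul_one, map_sub, trace_funLeft, mul_smul_comm, map_smul,
    trace_eq_matrix_trace ℂ (Pi.basisFun ℂ X), Matrix.trace]
  simp [toMatrix_apply, hX]

theorem fn_commutant (hfree : ∀ (t : T) (x : X), t • x = x → t = 1)
    (h1 : ∀ x y : X, ∃ g : G, g • x = y)
    (h2 : ∀ x y x' y' : X, (∀ t : T, y ≠ t • x) → (∀ t : T, y' ≠ t • x') →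
      ∃ g : G, g • x = x' ∧ g • y = y') {x0 y0 : X} (h3 : ∀ t : T, y0 ≠ t • x0)
    (θ : AddChar (Additive T) ℂ) (A : End ℂ (X → ℂ)) (hA : ∀ g, A * fnRep G X g = fnRep G X g * A) :
    ∃ c : ℂ, ∀ f ∈ (fnU G X θ).toSubmodule, A f = c • f := by
  classical
  let k : X → X → ℂ := fun x y => A (Pi.single y 1) x
  have hk : ∀ (g : G) x y, k (g • x) (g • y) = k x y := fun g x y => by
    have := congrFun (LinearMap.congr_fun (hA g) (Pi.single y 1)) (g • x)
    simp only [Module.End.mul_apply, fnRep_apply, inv_smul_smul] at this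
    rw [← show _ = k x y from this]
    refine congrFun (congrArg A (funext fun z => ?_)) _
    simp [Pi.single_apply, inv_smul_eq_iff]
  have hinj : ∀ x : X, Function.Injective fun t : T => t • x := fun x s t e =>
    (inv_mul_eq_one.1 (hfree _ x (by rw [mul_smul, inv_smul_eq_iff]; exact e.symm)))
  refine ⟨∑ t : T, (k x0 (t • x0) - k x0 y0) * θ (.ofMul t), fun f hf => funext fun x => ?_⟩
  have h4 : A f x = ∑ y, (k x y - k x0 y0) * f y := by
    conv_lhs => rw [pi_eq_sum_univ' f]
    simp only [sub_mul, sum_sub_distrib, ← mul_sum, hf.2, mul_zero, sub_zero]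
    simp [k, mul_comm]
  rw [h4, ← sum_subset (subset_univ (univ.image fun t : T => t • x)) fun y _ hy => ?_,
    sum_image fun s _ t _ e => hinj x e, Pi.smul_apply, smul_eq_mul, sum_mul]
  · obtain ⟨g, rfl⟩ := h1 x0 x
    exact sum_congr rfl fun t _ => by rw [hf.1, ← smul_comm, hk, mul_assoc]
  · obtain ⟨g, rfl, rfl⟩ := h2 x0 y0 x y h3 fun t e => hy (by simp [e])
    rw [hk, sub_self, zero_mul]

theorem perm_decomp [Finite G] (hfree : ∀ (t : T) (x : X), t • x = x → t = 1)
    (h1 : ∀ x y : X, ∃ g : G, g • x = y)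
    (h2 : ∀ x y x' y' : X, (∀ t : T, y ≠ t • x) → (∀ t : T, y' ≠ t • x') →
      ∃ g : G, g • x = x' ∧ g • y = y') {x0 y0 : X} (h3 : ∀ t : T, y0 ≠ t • x0) :
    ∃ χ : AddChar (Additive T) ℂ → G → ℂ, (∀ θ, IsIrrCharacter G (χ θ)) ∧ Function.Injective χ ∧
      (∀ g : G, (Nat.card {x : X // g • x = x} : ℂ) = 1 + ∑ θ, χ θ g) ∧
      Fintype.card T * (χ 0 1 + 1) = Fintype.card X := by
  classical
  have : Nonempty X := ⟨x0⟩
  have hT : (Fintype.card T : ℂ) ≠ 0 := Nat.cast_ne_zero.2 Fintype.card_ne_zero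
  have htr : ∀ θ : AddChar (Additive T) ℂ, Fintype.card T * trace ℂ _ (fnP X θ) =
      Fintype.card X - if θ = 0 then (Fintype.card T : ℂ) else 0 := fun θ => by
    rw [fnP, smul_mul_assoc, map_smul, smul_eq_mul, mul_inv_cancel_left₀ hT, sum_mul, map_sum,
      sum_congr rfl fun t _ => by
        rw [smul_mul_assoc, map_smul, show trace ℂ _ (funLeft ℂ ℂ (fun x : X => t • x) * fnJ X) = _
          from trace_fnJ (MulAction.toPerm t), smul_eq_mul, mul_sub, mul_one],
      sum_sub_distrib, sum_eq_single 1 (fun t _ ht => by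
        rw [filter_false_of_mem (p := fun x => MulAction.toPerm t x = x)
          fun x _ e => ht (hfree t x e)]; simp) (by simp),
      ← Fintype.card_additive T, ← AddChar.sum_eq_ite]
    congr 1
    · simp
    · exact Fintype.sum_equiv ((Equiv.inv T).trans Additive.ofMul) _ _ fun _ => rfl
  have hne : ∀ θ : AddChar (Additive T) ℂ, (fnU G X θ).toSubmodule ≠ ⊥ := fun θ e => by
    have h4 := htr θ
    rw [(isProj_fnP (G := G) θ).trace, e, finrank_bot, Nat.cast_zero, mul_zero, eq_comm,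
      sub_eq_zero] at h4
    split_ifs at h4
    · obtain ⟨t, ht⟩ := ((Fintype.bijective_iff_injective_and_card fun t : T => t • x0).2
        ⟨fun s t e => (inv_mul_eq_one.1 (hfree _ x0 (by
          rw [mul_smul, inv_smul_eq_iff]; exact e.symm))), by exact_mod_cast h4.symm⟩).2 y0
      exact h3 t ht.symm
    · exact Fintype.card_ne_zero (by exact_mod_cast h4)
  have hirr := fun θ => irr_sub _ (hne θ) (isProj_fnP θ) (fnP_comm θ)
    (fn_commutant hfree h1 h2 h3 θ)
  refine ⟨fun θ => (fnU G X θ).toRepresentation.character,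
    fun θ => H17.isIrr_character _ (h := hirr θ), fun θ θ' e => ?_, fun g => ?_, ?_⟩
  · by_contra hn
    refine char_ne (hirr θ) (Submodule.disjoint_def.2 fun f hf hf' => funext fun x => ?_)
      (isProj_fnP θ) (fnP_comm θ) (fn_commutant hfree h1 h2 h3 θ) e
    obtain ⟨t, ht⟩ := DFunLike.ne_iff.1 hn
    exact (mul_eq_mul_right_iff.1 ((hf.1 t.toMul x).symm.trans (hf'.1 t.toMul x))).resolve_left ht
  · simp only [char_sub _ (isProj_fnP _), ← map_sum, ← mul_sum, sum_fnP]
    rw [show trace ℂ _ (fnRep G X g * fnJ X) = _ from trace_fnJ (MulAction.toPerm g⁻¹),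
      add_sub_cancel, Nat.card_eq_fintype_card, Fintype.card_subtype]
    congr 2
    ext x
    simp [inv_smul_eq_iff, eq_comm (a := x)]
  · simp only [char_sub _ (isProj_fnP _), map_one, one_mul, mul_add, htr, if_true, mul_one,
      sub_add_cancel]

section SL

variable {F V : Type*} [Field F] [AddCommGroup V] [Module F V]

instance nzG : MulAction (SLv F V) {v : V // v ≠ 0} where
  smul g v := ⟨g.1 v, by simpa using v.2⟩
  one_smul _ := rfl
  mul_smul _ _ _ := rfl

instance nzT : MulAction Fˣ {v : V // v ≠ 0} where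
  smul t v := ⟨t • v.1, (smul_ne_zero_iff_ne t).2 v.2⟩
  one_smul _ := Subtype.ext (one_smul _ _)
  mul_smul _ _ _ := Subtype.ext (mul_smul _ _ _)

instance : SMulCommClass (SLv F V) Fˣ {v : V // v ≠ 0} :=
  ⟨fun g t v => Subtype.ext (map_smul g.1 t.1 v.1)⟩

theorem sl_decomp [Fintype F] [DecidableEq F] [FiniteDimensional F V] (hn : 3 ≤ finrank F V) :
    ∃ χ : AddChar (Additive Fˣ) ℂ → SLv F V → ℂ, (∀ θ, IsIrrCharacter _ (χ θ)) ∧
      Function.Injective χ ∧
      (∀ g : SLv F V, (Nat.card {x : V // x ≠ 0 ∧ g.1 x = x} : ℂ) = 1 + ∑ θ, χ θ g) ∧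
      ((Fintype.card F - 1 : ℕ) : ℂ) * (χ 0 1 + 1) = (Fintype.card F ^ finrank F V - 1 : ℕ) := by
  have := finite_of_fd F V
  have : Finite (V ≃ₗ[F] V) := Finite.of_injective _ DFunLike.coe_injective
  have := Fintype.ofFinite {v : V // v ≠ 0}
  have : Nontrivial V := Module.nontrivial_of_finrank_pos (R := F) (by omega)
  obtain ⟨c, h0⟩ := exists_ne (0 : V)
  obtain ⟨v, hv⟩ : ∃ v, v ∉ F ∙ c := by
    by_contra! h
    have h1 := finrank_span_singleton (K := F) h0
    rw [Submodule.eq_top_iff'.2 h, finrank_top] at h1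
    omega
  have key : ∀ x y : {v : V // v ≠ 0}, (∀ t : Fˣ, y ≠ t • x) → y.1 ∉ F ∙ x.1 := fun x y h hy => by
    obtain ⟨a, ha⟩ := Submodule.mem_span_singleton.1 hy
    exact h (Units.mk0 a (by rintro rfl; exact y.2 (by simpa using ha.symm))) (Subtype.ext ha.symm)
  obtain ⟨χ, h1, h2, h3, h4⟩ := perm_decomp (G := SLv F V) (T := Fˣ) (X := {v : V // v ≠ 0})
    (fun t x e => Units.ext (smul_left_injective F x.2
      ((congrArg Subtype.val e).trans (one_smul F x.1).symm)))
    (fun x y => let ⟨g, hg, h⟩ := exists_SLv_map_one (F := F) (by omega) x.2 y.2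
      ⟨⟨g, hg⟩, Subtype.ext h⟩)
    (fun x y x' y' h h' => by
      obtain ⟨g, hg, h⟩ := exists_SLv_map_family (linearIndependent_pair_of_notMem x.2 (key x y h))
        (linearIndependent_pair_of_notMem x'.2 (key x' y' h')) (by simp; omega)
      exact ⟨⟨g, hg⟩, Subtype.ext (h 0), Subtype.ext (h 1)⟩)
    (x0 := ⟨c, h0⟩) (y0 := ⟨v, by rintro rfl; exact hv (zero_mem _)⟩)
    fun t e => hv (Submodule.mem_span_singleton.2 ⟨t, (congrArg Subtype.val e).symm⟩)
  refine ⟨χ, h1, h2, fun g => ?_, ?_⟩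
  · rw [← h3]
    congr 1
    exact Nat.card_congr ⟨fun x => ⟨⟨x.1, x.2.1⟩, Subtype.ext x.2.2⟩,
      fun x => ⟨x.1.1, x.1.2, congrArg Subtype.val x.2⟩, fun _ => rfl, fun _ => rfl⟩
  · rw [← Fintype.card_units, h4, ← ncard_ne_zero, ← Nat.card_eq_fintype_card]
    rfl

/-- `SL` as a group of linear automorphisms -/
noncomputable def slE (n : ℕ) (F : Type*) [Field F] :
    Matrix.SpecialLinearGroup (Fin n) F ≃* SLv F (Fin n → F) :=
  slEquivKer.trans (((glE (Fin n) F).subgroupMap _).trans (MulEquiv.subgroupCongr (by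
    ext g
    obtain ⟨g, rfl⟩ := (glE (Fin n) F).surjective g
    rw [← mem_specialLinear_iff]
    exact Subgroup.mem_map_iff_mem (glE (Fin n) F).injective)))

theorem slE_apply {n : ℕ} (g : Matrix.SpecialLinearGroup (Fin n) F) (v : Fin n → F) :
    (slE n F g).1 v = g.1.mulVec v := rfl

end SL

end H22.Ls
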