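import Cfsg.Agent.H22.MuC

/-!
Minimal degree of the unitary groups, part four: the regular case and the orbit theorem.
-/

set_option autoImplicit false

namespace H22

open H23 H23.Form Module Pointwise Cfsg

namespace UC

variable {F V : Type*} [Field F] [Fintype F] [AddCommGroup V] [Module F V] [FiniteDimensional F V]
  {C : UC F V} {X : Type*} [MulAction C.Φ.O X]

variable (C) in
def Rel (c : V) (x : X) (g : C.Φ.O) (e : V) : Prop := ∃ s, C.ED c e s ∧ (C.T c e s * g) • x = x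

theorem Rel.mul {c : V} {x : X} {g g' : C.Φ.O} {e e' : V} (h : C.Rel c x g e)
    (h' : C.Rel c x g' e') {t : F} (ht : t ≠ 0) (hg : g.1 c = t • c) :
    C.Rel c x (g * g') (e + C.σ t • g.1 e') := by
  obtain ⟨s, h1, h2⟩ := h
  obtain ⟨s', h3, h4⟩ := h'
  have h5 := (C.ed_map g).2 h3
  have h6 := C.conj_T g c e' s'
  rw [hg] at h5 h6
  rw [T_smul ht] at h6
  refine ⟨_, h1.add (h5.of_smul ht), ?_⟩
  rw [← T_mul h1 (h5.of_smul ht), ← h6, show C.T c e s * (g * C.T c e' s' * g⁻¹) * (g * g') =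
    C.T c e s * g * (C.T c e' s' * g') by group, mul_smul, h4, h2]

section Reg

variable {Ω : Set X} (hΩ : C.GInv Ω) (hN : C.Num Ω.ncard)
  (hR : ∀ y ∈ Ω, ∀ c, C.Φ.B c c = 0 → c ≠ 0 → ¬ C.TA c y)
include hΩ hN hR

theorem exists_rel {c : V} (hc : C.Φ.B c c = 0) (h0 : c ≠ 0) {x : X} (hx : x ∈ Ω) {g : C.Φ.O}
    (hg : g ∈ C.G) : ∃ e, C.Rel c x g e := by
  obtain ⟨c', h⟩ := C.exists_hyp' hc h0
  have hgx := hΩ.2 g hg x hx
  have h1 := fun y hy => (reg hΩ h (by have := hN.dim; omega) hN.h1 (hN.hH _ _ h) hy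
    (hR y hy c hc h0)).2
  by_cases h3 : x ∈ gorb (τ h).range (g • x)
  · obtain ⟨_, ⟨a, rfl⟩, h4⟩ := h3
    exact ⟨a.1.1, a.1.2, ed_of_mem hc _ a.2, by rw [mul_smul]; exact h4⟩
  · have h2 := fun y => orb_subset hΩ h (y := y)
    have h4 := Set.ncard_le_ncard (Set.union_subset (h2 _ hgx) (h2 _ hx)) hΩ.1
    rw [Set.ncard_union_eq (gorb_disjoint h3) (hΩ.1.subset (h2 _ hgx))
      (hΩ.1.subset (h2 _ hx)), h1 _ hgx, h1 _ hx] at h4
    have := hN.h1
    have := C.two_le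
    nlinarith

theorem Rel.uniq {c : V} (hc : C.Φ.B c c = 0) (h0 : c ≠ 0) {x : X} (hx : x ∈ Ω) {g : C.Φ.O}
    (hg : g ∈ C.G) {e e' : V} (h : C.Rel c x g e) (h' : C.Rel c x g e') : e - e' ∈ F ∙ c := by
  obtain ⟨s, h1, h2⟩ := h
  obtain ⟨s', h3, h4⟩ := h'
  have hgx := hΩ.2 g hg x hx
  by_contra h5
  refine not_nz' hΩ hN hc h0 hgx (hR _ hgx c hc h0) ⟨-e' + e, by rwa [neg_add_eq_sub], _,
    h3.neg.add h1, ?_⟩
  rw [← T_mul h3.neg h1, ← T_inv h3, mul_smul, ← mul_smul _ g, h2, inv_smul_eq_iff, ← mul_smul, h4]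

theorem eq_zero_of_reg {c : V} (hc : C.Φ.B c c = 0) (h0 : c ≠ 0) {x : X} (hx : x ∈ Ω) {s : F}
    (hs : s + C.σ s = 0) (h1 : C.T c 0 s • x = x) : s = 0 :=
  let ⟨_, h⟩ := C.exists_hyp' hc h0
  (reg hΩ h (by have := hN.dim; omega) hN.h1 (hN.hH _ _ h) hx (hR x hx c hc h0)).1 s hs h1

theorem no_reg {x : X} (hx : x ∈ Ω) : False := by
  have hV := hN.dim
  obtain ⟨c, hc, h0⟩ := C.exists_sing (by omega)
  obtain ⟨c', h⟩ := C.exists_hyp' hc h0
  obtain ⟨y, hy, hy0, hyy⟩ := exists_sing_of_herm C.σ_ne C.hε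
    (T := C.Φ.perp (Submodule.span F {c, c'})) (by rw [finrank_res h]; omega)
  obtain ⟨hcy, hcy'⟩ := mem_perp_pair.1 hy
  replace hyy := hyy.1
  have hyc := C.Φ.B_eq_zero_symm hcy
  have hyc' : y ∉ F ∙ c := fun e => hy0 (Submodule.disjoint_def.1 h.disjoint y
    (Submodule.span_mono (by simp) e) hy)
  obtain ⟨s, hs0, hs⟩ := C.exists_Zs
  set g := C.T y 0 s with hg
  have hg1 : ∀ v, g.1 v = v + (s * C.Φ.B y v) • y := T_apply_zero (C.ed_zero hyy hs)
  have hgc : g.1 c = (1 : F) • c := by simp [hg1, hyc]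
  obtain ⟨e, he⟩ := exists_rel hΩ hN hR hc h0 hx (C.T_mem y 0 s)
  have hcm : c ∈ Submodule.span F {c, y} := Submodule.subset_span (by simp)
  have hym : y ∈ Submodule.span F {c, y} := Submodule.subset_span (by simp)
  have key : ∀ k ∈ C.G, ∀ t : F, t ≠ 0 → k.1 c = t • c → k.1 y = y →
      e - C.σ t • k.1 e ∈ Submodule.span F {c, y} := by
    intro k hk t ht h1 h2
    obtain ⟨e', he'⟩ := exists_rel hΩ hN hR hc h0 hx hk
    have h3 := he'.mul he ht h1
    have h4 : k * C.T y 0 s = g * k := by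
      rw [← mul_inv_eq_iff_eq_mul, conj_T, h2, map_zero]
    rw [h4] at h3
    have h5 := Submodule.span_mono (show ({c} : Set V) ⊆ {c, y} by simp) (Rel.uniq hΩ hN hR hc h0 hx
      (mul_mem (C.T_mem y 0 s) hk) (he.mul he' one_ne_zero hgc) h3)
    have h6 := sub_mem h5 (Submodule.smul_mem _ (s * C.Φ.B y e') hym)
    convert h6 using 1
    rw [hg1, map_one]
    module
  obtain ⟨s0, h1, h2⟩ := id he
  have h3 : e ∈ Submodule.span F {c, y} := by
    by_cases h4 : (2 : F) = 0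
    · have hgg : g * g = 1 := by
        rw [hg, T_mul (C.ed_zero hyy hs) (C.ed_zero hyy hs), ← T_zero y]
        congr 1
        · simp
        · simp [← two_mul, h4]
      have h5 := he.mul he one_ne_zero hgc
      rw [hgg] at h5
      have h6 := Rel.uniq hΩ hN hR hc h0 hx (one_mem _) h5
        ⟨0, C.ed_zero hc (by simp), by rw [T_zero, mul_one, one_smul]⟩
      rw [map_one, one_smul, sub_zero, hg1, ← add_assoc, ← two_smul F e, h4, zero_smul,
        zero_add] at h6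
      have h7 : C.Φ.B y e = 0 := by
        by_contra h7
        have := (F ∙ c).smul_mem (s * C.Φ.B y e)⁻¹ h6
        rw [inv_smul_smul₀ (mul_ne_zero hs0 h7)] at this
        exact hyc' this
      have h8 : g * C.T c e s0 = C.T c e s0 * g := by
        rw [← mul_inv_eq_iff_eq_mul, conj_T, hgc, one_smul, hg1, h7, mul_zero, zero_smul, add_zero]
      have h9 : (C.T c e s0 * g * (C.T c e s0 * g)) • x = x := by rw [mul_smul, h2, h2]
      rw [mul_assoc, ← mul_assoc g, h8, mul_assoc, hgg, mul_one, T_mul h1 h1, ← two_smul F e,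
        ← two_mul, h4, zero_smul, zero_mul, zero_add] at h9
      have hee := eq_zero_of_reg hΩ hN hR hc h0 hx (by rw [σB, ← two_mul, h4, zero_mul]) h9
      by_contra h10
      obtain ⟨z, hz, -, k1, k2⟩ := C.hΦ.exists_partner h10 hee (Q_of_κ C.hκ e) fun z hz =>
        C.Φ.mem_perp'.1 (mem_perp_pair.2 ⟨h1.2.1, h7⟩) z hz
      have k3 := key _ (C.T_mem z 0 s) 1 one_ne_zero
        (by rw [one_smul]; exact T_apply_of_perp (C.Φ.B_eq_zero_symm (k2 c hcm)) (by simp))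
        (T_apply_of_perp (C.Φ.B_eq_zero_symm (k2 y hym)) (by simp))
      have k4 := C.Φ.mem_perp'.1 (mem_perp_pair.2 ⟨h1.2.1, h7⟩) _ k3
      have k5 : C.Φ.B z e = 1 := by rw [← C.σB, k1, map_one]
      simp [T_apply_zero (C.ed_zero hz hs), k5, k1, hs0] at k4
    · obtain ⟨k, hk, hk'⟩ := C.hΦ.exists_hdiag h (a := -1) (b := -1) (by simp)
      have k1 := key k (mem_SO.2 (by rw [hk]; simp)) (-1) (by simp) (by rw [hk', hdiag_left h])
        (by rw [hk', hdiag_perp _ _ hcy hcy'])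
      rw [hk', hdiag_apply, h1.2.1] at k1
      have k2 := Submodule.smul_mem _ (2 : F)⁻¹
        (sub_mem k1 (Submodule.smul_mem _ ((-1 - 1) * C.σ C.Φ.ε * C.Φ.B c' e) hcm))
      convert k2 using 1
      rw [eq_inv_smul_iff₀ h4, map_neg, map_one]
      module
  obtain ⟨m, l, rfl⟩ := Submodule.mem_span_pair.1 h3
  rw [add_comm] at h1 h2
  rw [T_add_smul h1] at h2
  replace h1 := h1.of_add_smul
  generalize s0 - m + C.σ m = s1 at h1 h2
  have h4 : C.σ s1 = -s1 := by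
    have := h1.2.2
    simp only [B_smul_left, B_smul_right, hyy] at this
    linear_combination -this
  have h5 : C.σ s = -s := by linear_combination hs
  obtain ⟨r, hr⟩ := C.exists_norm (a := l / s * C.σ (l / s) - s1 / s) (by
    simp only [map_sub, map_mul, map_div₀, map_neg, σσ, h4, h5]; ring)
  obtain ⟨m, rfl⟩ : ∃ m, r = m + C.σ (l / s) := ⟨r - C.σ (l / s), by ring⟩
  have h6 : s * (m * C.σ m) + m * l - C.σ m * C.σ l + s1 = 0 := by
    simp only [map_add, map_div₀, map_neg, neg_neg, σσ, h5] at hr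
    field_simp at hr
    apply mul_left_cancel₀ hs0
    linear_combination hr
  have h7 : C.Φ.B (m • c + y) (m • c + y) = 0 := by simp [hc, hcy, hyc, hyy]
  have h8 : m • c + y ≠ 0 := fun e => hyc' (by
    rw [eq_neg_of_add_eq_zero_right e]
    exact neg_mem (Submodule.smul_mem _ _ (Submodule.mem_span_singleton_self c)))
  have h9 : C.ED (m • c + y) ((s * m - C.σ l) • c) s :=
    ⟨h7, by simp [hc, hyc], by simp [hc, hs]⟩
  have h10 : C.T c (l • y) s1 * g = C.T (m • c + y) ((s * m - C.σ l) • c) s := O_ext _ fun v => by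
    rw [O_mul_apply, T_apply h1, T_apply h9, hg1]
    simp only [map_add, map_sub, map_mul, LinearMap.add_apply, B_smul_left, B_smul_right, hcy, hyy,
      σσ, h4, h5]
    linear_combination (norm := module) (C.Φ.B c v * h6) • c
  rw [h10] at h2
  have h11 : s * m - C.σ l = 0 := by
    by_contra h11
    refine not_nz' hΩ hN h7 h8 hx (hR x hx _ h7 h8) ⟨_, fun h12 => ?_, s, h9, h2⟩
    obtain ⟨t, ht⟩ := Submodule.mem_span_singleton.1 h12
    have := LinearIndependent.pair_iff.1 (linearIndependent_pair_of_notMem h0 hyc')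
      (t * m - (s * m - C.σ l)) t (by linear_combination (norm := module) ht)
    exact h11 (by linear_combination m * this.2 - this.1)
  rw [h11, zero_smul] at h2
  exact hs0 (eq_zero_of_reg hΩ hN hR h7 h8 hx hs h2)

end Reg

theorem fix_of_num {x : X} (hfin : (gorb C.G x).Finite) (hN : C.Num (gorb C.G x).ncard)
    {g : C.Φ.O} (hg : g ∈ C.G) : g • x = x := by
  by_cases hR : ∀ y ∈ gorb C.G x, ∀ c, C.Φ.B c c = 0 → c ≠ 0 → ¬ C.TA c y
  · exact (no_reg (gInv_gorb hfin) hN hR (self_mem_gorb x)).elim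
  push Not at hR
  obtain ⟨y, hy, c, hc, h0, h1⟩ := hR
  have h2 := fun g => fix_of_aa (x := y) (by rwa [gorb_eq_of_mem hy]) (by rwa [gorb_eq_of_mem hy])
    h0 ⟨hc, h1⟩ (g := g)
  obtain ⟨k, hk, e⟩ : x ∈ gorb C.G y := by rw [gorb_eq_of_mem hy]; exact self_mem_gorb x
  obtain rfl : y = x := (h2 k hk).symm.trans e
  exact h2 g hg

variable (C)

theorem le_index {b : ℕ} (hN : ∀ ω < b, C.Num ω) (H : Subgroup C.G) (hH : H ≠ ⊤) :
    b ≤ H.index := by
  have := finite_of_fd F V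
  have : Finite (V ≃ₗ[F] V) := Finite.of_injective _ DFunLike.coe_injective
  exact le_index_of_orbit (MonoidHom.id _) Function.surjective_id
    (fun K x hx g hg => fix_of_num (Set.toFinite _) (hN _ hx) hg) H hH

theorem h1_of_index (hV : 3 ≤ finrank F V)
    (h : ∀ H : Subgroup C.G, H ≠ ⊤ → (C.q + 1) * C.q ^ finrank F V ≤ C.q * H.index) : C.H1 := by
  intro t ht ht0 D hD hI
  have h1 := C.card_iso_le ht ht0 hI
  have h2 : (C.q + 1) * C.q ^ finrank F V ≤ C.q * (gorb C.G D).ncard := by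
    rw [ncard_gorb]
    refine h _ fun h2 => ?_
    have h3 : ∀ g ∈ C.G, ∀ v ∈ D, g.1 v ∈ D := fun g hg v hv => by
      have : g • D = D := (show (⟨g, hg⟩ : C.G) ∈ MulAction.stabilizer C.G D by rw [h2]; trivial)
      rw [← this]
      exact AddSubgroup.smul_mem_pointwise_smul _ _ _ hv
    obtain ⟨⟨v, hv⟩, h0⟩ := AddSubgroup.ne_bot_iff_exists_ne_zero.1 hD
    have hv0 : v ≠ 0 := fun e => h0 (Subtype.ext e)
    obtain ⟨c, hc, hc0⟩ := C.exists_sing (by omega)
    obtain ⟨c', hh⟩ := C.exists_hyp' hc hc0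
    obtain ⟨y, -, hy, hyv⟩ := exists_sing_B_ne (U := ⊤) hh trivial trivial (x := v)
      (by rwa [perp_top _ C.hΦ, Submodule.mem_bot])
    obtain ⟨s, hs0, hs⟩ := C.exists_Zs
    have h4 := sub_mem (h3 _ (C.T_mem y 0 s) v hv) hv
    rw [T_apply_zero (C.ed_zero hy.1 hs), add_sub_cancel_left] at h4
    have h5 : ∀ z, z ≠ 0 → C.Φ.B z z = 0 → z ∈ D := fun z hz0 hz => by
      obtain ⟨g, hg, e⟩ := C.exists_SO_one hV (v := (s * C.Φ.B y v) • y)
        (smul_ne_zero (mul_ne_zero hs0 hyv) (by rintro rfl; simp at hyv)) hz0 (by simp [hz, hy.1])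
      exact e ▸ h3 g hg _ h4
    obtain ⟨a, ha⟩ := C.exists_sub_conj ht ht0
    have h6 := hI c (h5 c hc0 hc) (a • c') (h5 _ (smul_ne_zero (by rintro rfl; simp at ha)
      hh.right_ne) (by simp [hh.right.1]))
    rw [B_smul_left, B_smul_right, hh.one, hh.B_symm, C.hε, mul_one, mul_one, ha] at h6
    exact hψ1 h6
  nlinarith

theorem exists_index (hV : 3 ≤ finrank F V) {v : V} (h0 : v ≠ 0) {b : ℕ}
    (hb : {w | w ≠ 0 ∧ C.Φ.B w w = C.Φ.B v v}.ncard =
      b * {t : F | t ≠ 0 ∧ C.σ t * t * C.Φ.B v v = C.Φ.B v v}.ncard) :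
    ∃ H : Subgroup (C.G ⧸ Subgroup.center C.G), H.index = b := by
  classical
  have := finite_of_fd F V
  have hf := Set.toFinite (gorb C.G (F ∙ v).toAddSubgroup)
  have hsm : ∀ g : C.Φ.O, g • (F ∙ v).toAddSubgroup = (F ∙ g.1 v).toAddSubgroup := fun g =>
    LC.smul_toAdd_eq (g := g.1) (fun u hu => by
      obtain ⟨s, rfl⟩ := Submodule.mem_span_singleton.1 hu
      exact Submodule.mem_span_singleton.2 ⟨s, by simp⟩) (by
        rw [finrank_span_singleton h0, finrank_span_singleton (by simpa using h0)])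
  have h2 : ∀ D ∈ hf.toFinset, {w ∈ {w | w ≠ 0 ∧ C.Φ.B w w = C.Φ.B v v} |
      (F ∙ w).toAddSubgroup = D}.ncard =
      {t : F | t ≠ 0 ∧ C.σ t * t * C.Φ.B v v = C.Φ.B v v}.ncard := by
    intro D hD
    obtain ⟨g, -, rfl⟩ := hf.mem_toFinset.1 hD
    have hg0 : g.1 v ≠ 0 := by simpa using h0
    rw [hsm, ← Set.ncard_image_of_injective _ (smul_left_injective F hg0)]
    congr 1
    ext w
    constructor
    · rintro ⟨hw, e⟩
      obtain ⟨s, rfl⟩ := Submodule.mem_span_singleton.1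
        (show w ∈ (F ∙ g.1 v).toAddSubgroup from e ▸ Submodule.mem_span_singleton_self w)
      refine ⟨s, ⟨by rintro rfl; simp at hw, ?_⟩, rfl⟩
      have := hw.2
      rwa [B_smul_left, B_smul_right, O_B, ← mul_assoc] at this
    · rintro ⟨s, hs, rfl⟩
      exact ⟨⟨smul_ne_zero hs.1 hg0, by rw [B_smul_left, B_smul_right, O_B, ← mul_assoc, hs.2]⟩,
        by rw [Submodule.span_singleton_smul_eq (IsUnit.mk0 s hs.1)]⟩
  have h3 := sum_le_of_fiber (Set.toFinite {w | w ≠ 0 ∧ C.Φ.B w w = C.Φ.B v v})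
    (fun v => (F ∙ v).toAddSubgroup) hf.toFinset _ 1 fun D hD => by rw [one_mul, h2 D hD]
  have h4 := ncard_le_mul_of_cover (Set.toFinite {w | w ≠ 0 ∧ C.Φ.B w w = C.Φ.B v v}) hf.toFinset
    (fun D v => (F ∙ v).toAddSubgroup = D) 1 _ (by
      intro w hw
      obtain ⟨g, hg, rfl⟩ := C.exists_SO_one hV h0 hw.1 hw.2.symm
      exact (Set.ncard_pos (Set.toFinite _)).2 ⟨_, hf.mem_toFinset.2 ⟨g, hg, hsm g⟩, rfl⟩)
    fun D hD => (h2 D hD).le
  rw [Finset.sum_const, smul_eq_mul] at h3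
  rw [hb, one_mul, ← Set.ncard_eq_toFinset_card] at h3 h4
  rw [Nat.eq_of_mul_eq_mul_right ((Set.ncard_pos (Set.toFinite _)).2 ⟨1, by simp⟩)
    (le_antisymm h4 h3)]
  refine exists_index_of_orbit _ (QuotientGroup.mk'_surjective _) _ fun g hg => ?_
  rw [QuotientGroup.ker_mk'] at hg
  obtain ⟨s, hs0, hs⟩ := C.exists_Zs
  obtain ⟨c, hc, hc0⟩ := C.exists_sing (by omega)
  obtain ⟨a, ha⟩ := scalar_of_mem_center C.hΦ ⟨s, hs0, by rwa [C.hε, one_mul], by simp [C.hκ]⟩
    ⟨c, C.sing.2 hc, hc0⟩ C.G (eichSet_le_SO C.hΦ) g hg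
  exact smul_toAdd_eq fun e he => by rw [ha]; exact Submodule.smul_mem _ _ he

end UC

end H22
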