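import Cfsg.Agent.H22.WeB
import Cfsg.Agent.H22.MdL
import Cfsg.Agent.H22.OrthA
import Cfsg.Agent.H23.Nd1

/-!
Geometry of totally singular pairs and triples; generation of pointwise stabilisers in `Ω`.
-/

set_option autoImplicit false
set_option linter.unusedSectionVars false

namespace H22.OC

open Module H23 H23.Form H22.Ls

variable {F V : Type*} [Field F] [AddCommGroup V] [Module F V] [FiniteDimensional F V]
  (C : OC F V) [Fintype F]

/-- independent totally singular pairs -/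
structure Pr (e u : V) : Prop where
  l : C.Φ.Q e = 0
  r : C.Φ.Q u = 0
  b : C.Φ.B e u = 0
  i : ∀ a b : F, a • e + b • u = 0 → a = 0 ∧ b = 0

/-- independent totally singular triples -/
structure Tr (e e' z : V) : Prop where
  q1 : C.Φ.Q e = 0
  q2 : C.Φ.Q e' = 0
  q3 : C.Φ.Q z = 0
  b12 : C.Φ.B e e' = 0
  b13 : C.Φ.B e z = 0
  b23 : C.Φ.B e' z = 0
  i : ∀ a b c : F, a • e + b • e' + c • z = 0 → a = 0 ∧ b = 0 ∧ c = 0

variable {C}

theorem Pr.ne {e u : V} (h : C.Pr e u) : e ≠ 0 := fun h0 => by simpa using h.i 1 0 (by simp [h0])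

theorem Pr.notMem {e u : V} (h : C.Pr e u) : u ∉ F ∙ e := fun h0 => by
  obtain ⟨t, rfl⟩ := Submodule.mem_span_singleton.1 h0
  simpa using h.i t (-1) (by simp)

theorem Pr.symm {e u : V} (h : C.Pr e u) : C.Pr u e :=
  ⟨h.r, h.l, by rw [C.comm, h.b], fun a b e => (h.i b a (by rwa [add_comm])).symm⟩

theorem pr_of {e u : V} (h1 : C.Φ.Q e = 0) (h2 : C.Φ.Q u = 0) (h3 : C.Φ.B e u = 0) (h4 : e ≠ 0)
    (h5 : u ∉ F ∙ e) : C.Pr e u :=
  ⟨h1, h2, h3, LinearIndependent.pair_iff.1 (linearIndependent_pair_of_notMem h4 h5)⟩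

theorem Pr.li {e u : V} (h : C.Pr e u) : LinearIndependent F ![e, u] :=
  LinearIndependent.pair_iff.2 h.i

theorem Pr.map {e u : V} (h : C.Pr e u) (g : C.Φ.O) : C.Pr (g.1 e) (g.1 u) :=
  ⟨by rw [O_Q, h.l], by rw [O_Q, h.r], by rw [O_B, h.b], fun a b e => h.i a b
    (g.1.injective (by simpa using e))⟩

theorem Pr.comb {e u : V} (h : C.Pr e u) {a b c d : F} (hd : a * d - b * c ≠ 0) :
    C.Pr (a • e + b • u) (c • e + d • u) :=
  ⟨by simp [C.Qadd, C.Φ.Q_smul, h.l, h.r, h.b], by simp [C.Qadd, C.Φ.Q_smul, h.l, h.r, h.b],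
    by simp [C.self, h.l, h.r, h.b, h.symm.b], fun x y e => by
      obtain ⟨h1, h2⟩ := h.i (x * a + y * c) (x * b + y * d) (by linear_combination (norm := module) e)
      exact ⟨mul_left_cancel₀ hd (by linear_combination d * h1 - c * h2),
        mul_left_cancel₀ hd (by linear_combination a * h2 - b * h1)⟩⟩

theorem Tr.p13 {e e' z : V} (h : C.Tr e e' z) : C.Pr e z :=
  ⟨h.q1, h.q3, h.b13, fun a b e => by simpa using h.i a 0 b (by simpa using e)⟩

theorem Tr.p23 {e e' z : V} (h : C.Tr e e' z) : C.Pr e' z :=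
  ⟨h.q2, h.q3, h.b23, fun a b e => by simpa using h.i 0 a b (by simpa using e)⟩

theorem Tr.swap {e e' z : V} (h : C.Tr e e' z) : C.Tr e' e z :=
  ⟨h.q2, h.q1, h.q3, by rw [C.comm, h.b12], h.b23, h.b13, fun a b c e => by
    have := h.i b a c (by rwa [add_comm (b • _)])
    tauto⟩

theorem Tr.li {e e' z : V} (h : C.Tr e e' z) : LinearIndependent F ![e, e', z] :=
  Fintype.linearIndependent_iff.2 fun g hg i => by
    have := h.i (g 0) (g 1) (g 2) (by simpa [Fin.sum_univ_three] using hg)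
    fin_cases i <;> simp [this]

theorem Tr.comb {e e' z : V} (h : C.Tr e e' z) {a b c d s : F} (x y : F) (hd : a * d - b * c ≠ 0)
    (hs : s ≠ 0) : C.Tr (a • e + b • e') (c • e + d • e') (s • z + x • e + y • e') := by
  have h21 := h.swap.b12
  have h31 := h.p13.symm.b
  have h32 := h.p23.symm.b
  refine ⟨?_, ?_, ?_, ?_, ?_, ?_, fun p q r e => ?_⟩
  iterate 6 simp [C.Qadd, C.Φ.Q_smul, C.self, h.q1, h.q2, h.q3, h.b12, h.b13, h.b23, h21, h31, h32]
  obtain ⟨h1, h2, h3⟩ := h.i (p * a + q * c + r * x) (p * b + q * d + r * y) (r * s)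
    (by linear_combination (norm := module) e)
  obtain rfl : r = 0 := (mul_eq_zero.1 h3).resolve_right hs
  exact ⟨mul_left_cancel₀ hd (by linear_combination d * h1 - c * h2),
    mul_left_cancel₀ hd (by linear_combination a * h2 - b * h1), rfl⟩

theorem tr_of {e u z : V} (h : C.Pr e u) (h1 : C.Φ.Q z = 0) (h2 : C.Φ.B e z = 0)
    (h3 : C.Φ.B u z = 0) (h4 : ∀ a b : F, z ≠ a • e + b • u) : C.Tr e z u :=
  ⟨h.l, h1, h.r, h2, h.b, by rw [C.comm, h3], fun a b c e => by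
    obtain rfl : b = 0 := by_contra fun hb => h4 (-a / b) (-c / b) (smul_right_injective V hb (by
      simp only [smul_add, smul_smul, mul_div_cancel₀ _ hb]
      linear_combination (norm := module) e))
    simpa using h.i a c (by simpa using e)⟩

variable (C)

theorem sing4 (h7 : 7 ≤ finrank F V) (a b c d : V) : ∃ z, z ≠ 0 ∧ C.Φ.Q z = 0 ∧
    C.Φ.B a z = 0 ∧ C.Φ.B b z = 0 ∧ C.Φ.B c z = 0 ∧ C.Φ.B d z = 0 := by
  obtain ⟨z, hz, h1, h2⟩ := H23.Nd.exists_sing C.hκ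
    (D := C.Φ.perp (Submodule.span F {a, b, c, d})) (by
      have := finrank_span_four_le (F := F) a b c d
      rw [C.hΦ.finrank_perp]
      omega)
  exact ⟨z, h2, h1, mem_perp_four.1 hz⟩

theorem partner {ι : Type*} [DecidableEq ι] {v : ι → V} (hv : LinearIndependent F v) (i : ι)
    (h1 : C.Φ.Q (v i) = 0) (h2 : ∀ j, C.Φ.B (v i) (v j) = 0 ∨ j ≠ i ∧ C.Φ.B (v i) (v j) = 0) :
    ∃ f, Hyp C.Φ (v i) f ∧ ∀ j, j ≠ i → C.Φ.B f (v j) = 0 := by
  obtain ⟨x, hx⟩ := C.hΦ.exists_prescribed hv fun j => if j = i then 1 else 0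
  have h3 : ∀ j, C.Φ.B (v i) (v j) = 0 := fun j => (h2 j).elim id And.right
  have h4 : C.Φ.B x (v i) = 1 := by simp [hx]
  refine ⟨x + (-C.Φ.Q x) • v i, ⟨C.sing.2 h1, C.sing.2 ?_, ?_⟩, fun j hj => ?_⟩
  · simp [C.Qadd, C.Φ.Q_smul, C.Φ.Q_neg, h1, h4]
  · simp [h3, C.comm (v i) x, h4]
  · simp [hx, hj, h3]

variable {C}

theorem Pr.exists_B {e u : V} (h : C.Pr e u) (a b : F) :
    ∃ w, C.Φ.B e w = a ∧ C.Φ.B u w = b := by
  obtain ⟨w, hw⟩ := C.hΦ.exists_prescribed' h.li ![a, b]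
  exact ⟨w, hw 0, hw 1⟩

theorem Pr.nbr (h7 : 7 ≤ finrank F V) {e e' u : V} (h : C.Pr e u) (h' : C.Pr e' u) :
    ∃ z, C.Tr e z u ∧ C.Tr e' z u := by
  by_cases h1 : C.Φ.B e e' = 0
  · by_cases h2 : ∃ a b : F, e' = a • e + b • u
    · obtain ⟨a, b, rfl⟩ := h2
      obtain ⟨f, f1, f2⟩ := h.exists_B 1 0
      obtain ⟨g, g1, g2⟩ := h.exists_B 0 1
      obtain ⟨z, z0, z1, z2, z3, z4, z5⟩ := C.sing4 h7 e u f g
      have key : ∀ a b : F, z ≠ a • e + b • u := by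
        rintro a b rfl
        simp [C.comm f, C.comm g, f1, f2, g1, g2] at z4 z5
        simp [z4, z5] at z0
      exact ⟨z, tr_of h z1 z2 z3 key, tr_of h' z1 (by simp [z2, z3]) z3 fun c d e =>
        key (c * a) (c * b + d) (by rw [e]; module)⟩
    · push Not at h2
      have h3 := tr_of h h'.l h1 h'.symm.b h2
      exact ⟨e + e', by simpa using h3.comb (a := 1) (b := 0) (c := 1) (d := 1) (s := 1) 0 0,
        by simpa using h3.comb (a := 0) (b := 1) (c := 1) (d := 1) (s := 1) 0 0⟩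
  · obtain ⟨g, -, g2⟩ := h.exists_B 0 1
    obtain ⟨z, z0, z1, z2, z3, z4, z5⟩ := C.sing4 h7 e e' u g
    refine ⟨z, tr_of h z1 z2 z4 ?_, tr_of h' z1 z3 z4 ?_⟩
    · rintro a b rfl
      simp [C.comm e' e, h1, h'.b] at z3
      simp [z3, C.comm g u, g2] at z5
      simp [z3, z5] at z0
    · rintro a b rfl
      simp [h1, h.b] at z2
      simp [z2, C.comm g u, g2] at z5
      simp [z2, z5] at z0

theorem nbr0 (h7 : 7 ≤ finrank F V) {x y : V} (hx : C.Φ.Q x = 0) (hy : C.Φ.Q y = 0) (x0 : x ≠ 0)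
    (y0 : y ≠ 0) : ∃ z, C.Pr x z ∧ C.Pr y z := by
  obtain ⟨f, hf⟩ := C.hΦ.exists_ne x0
  obtain ⟨g, hg⟩ := C.hΦ.exists_ne y0
  obtain ⟨z, z0, z1, z2, z3, z4, z5⟩ := C.sing4 h7 x y f g
  refine ⟨z, pr_of hx z1 z2 x0 fun h => ?_, pr_of hy z1 z3 y0 fun h => ?_⟩
  all_goals obtain ⟨t, rfl⟩ := Submodule.mem_span_singleton.1 h
  · simp [C.comm f x, hf] at z4
    simp [z4] at z0
  · simp [C.comm g y, hg] at z5
    simp [z5] at z0

theorem Pr.trans {e u e' u' : V} (h : C.Pr e u) (h' : C.Pr e' u') :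
    ∃ g : C.G, g.1.1 e = e' ∧ g.1.1 u = u' := by
  obtain ⟨g, hg, h1⟩ := exists_omega_two C.hΦ C.hκ C.hV h.ne h'.ne h.notMem h'.notMem
    (h.l.trans h'.l.symm) (h.r.trans h'.r.symm) (h.b.trans h'.b.symm)
  exact ⟨⟨g, hg⟩, h1⟩

theorem Tr.trans (h7 : 7 ≤ finrank F V) {e e' z a a' b : V} (h : C.Tr e e' z) (h' : C.Tr a a' b) :
    ∃ g : C.G, ∃ s : F, s ≠ 0 ∧ g.1.1 e = s • a ∧ g.1.1 e' = s • a' ∧ g.1.1 z = s • b := by
  have hB : ∀ {e e' z : V}, C.Tr e e' z → ∀ i j, C.Φ.B (![e, e', z] i) (![e, e', z] j) = 0 := by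
    intro e e' z h i j
    fin_cases i <;> fin_cases j <;>
      simp [C.self, h.q1, h.q2, h.q3, h.b12, h.b13, h.b23, h.swap.b12, h.p13.symm.b, h.p23.symm.b]
  have hQ : ∀ {e e' z : V}, C.Tr e e' z → ∀ i, C.Φ.Q (![e, e', z] i) = 0 := by
    intro e e' z h i
    fin_cases i <;> simp [h.q1, h.q2, h.q3]
  obtain ⟨g, hg, h1⟩ := C.hΦ.witt_fin h.li h'.li (fun i j => by rw [hB h, hB h'])
    fun i => by rw [hQ h, hQ h']
  let K : Subgroup C.Φ.O :=
    { carrier := {k | ∃ s : F, s ≠ 0 ∧ ∀ i, k.1 (![e, e', z] i) = s • ![e, e', z] i}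
      one_mem' := ⟨1, one_ne_zero, fun i => by simp⟩
      mul_mem' := by
        rintro k l ⟨s, hs, hk⟩ ⟨t, ht, hl⟩
        exact ⟨t * s, mul_ne_zero ht hs, fun i => by rw [O_mul_apply, hl, map_smul, hk, smul_smul]⟩
      inv_mem' := by
        rintro k ⟨s, hs, hk⟩
        refine ⟨s⁻¹, inv_ne_zero hs, fun i => k.1.injective ?_⟩
        rw [O_apply_inv_apply, map_smul, hk, inv_smul_smul₀ hs] }
  have hgen := H23.Nd.genHyp C.hΦ C.hκ (by omega)
  obtain ⟨k, ⟨s, hs, hk⟩, h5⟩ := exists_mul_mem_omega C.hΦ C.hκ hgen K ⟨g, hg⟩ (.inr (by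
      obtain ⟨w, hw, h2⟩ := exists_Q_ne_zero_of_finrank C.hκ C.hΦ
        (Z := Submodule.span F {e, e', z}) (by
          have h1 := finrank_span_triple_le (F := F) e e' z
          have h2 := Submodule.finrank_mono (inf_le_left (a := Submodule.span F {e, e', z})
            (b := C.Φ.perp (Submodule.span F {e, e', z})))
          omega)
      rw [mem_perp_triple] at hw
      refine ⟨refl C.hκ w, ⟨1, one_ne_zero, fun i => ?_⟩, dickson_refl _ _ _ h2⟩
      rw [one_smul, refl_apply_of_perp]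
      fin_cases i <;> simp [C.comm w, hw]))
    (or_iff_not_imp_left.2 fun h2 => by
      obtain ⟨ν, hν⟩ := FiniteField.exists_nonsquare (ringChar_ne_two h2)
      have hν0 : ν ≠ 0 := fun h => hν (h ▸ IsSquare.zero)
      choose f f1 f2 using fun i => C.partner h.li i (hQ h i) fun j => .inl (hB h i j)
      have f3 : ∀ i j, (hsc C.hκ (![e, e', z] i) (f i) ν).1 (![e, e', z] j) =
          (if j = i then ν else 1) • ![e, e', z] j := fun i j => by
        rw [hsc_apply C.hκ (f1 i) hν0, hB h]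
        split_ifs with hj
        · rw [hj, C.comm, (f1 i).one]
          module
        · simp [f2 i j hj]
      refine ⟨hsc C.hκ (![e, e', z] 0) (f 0) ν * hsc C.hκ (![e, e', z] 1) (f 1) ν *
        hsc C.hκ (![e, e', z] 2) (f 2) ν,
        ⟨ν, hν0, fun j => ?_⟩, ?_, ?_⟩
      · simp only [O_mul_apply, f3, map_smul, smul_smul]
        fin_cases j <;> simp
      · simp only [map_mul, dickson_hsc _ _ _ (f1 _) hν0, mul_one]
      · simp only [map_mul, spin_hsc _ _ (f1 _) hν0, sqc_of_not hν]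
        simp)
  have h6 : ∀ i, ((⟨g, hg⟩ : C.Φ.O) * k).1 (![e, e', z] i) = s • ![a, a', b] i := fun i => by
    rw [O_mul_apply, hk, map_smul, h1]
  exact ⟨⟨_, h5⟩, s, hs, h6 0, h6 1, h6 2⟩

theorem Pr.frame {e u : V} (h : C.Pr e u) : ∃ f u', Hyp C.Φ e f ∧ Hyp C.Φ u u' ∧
    C.Φ.B f u = 0 ∧ C.Φ.B u' e = 0 ∧ C.Φ.B u' f = 0 := by
  obtain ⟨f, f1, f2⟩ := C.partner h.li 0 h.l fun j => .inl (by
    fin_cases j <;> simp [C.self, h.l, h.b])
  have f3 : C.Φ.B f u = 0 := f2 1 (by decide)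
  have f4 : C.Φ.B e f = 1 := f1.one
  have hli : LinearIndependent F ![u, e, f] := Fintype.linearIndependent_iff.2 fun g hg i => by
    simp only [Fin.sum_univ_three, Matrix.cons_val] at hg
    have h1 := congrArg (C.Φ.B e) hg
    simp only [map_add, map_smul, h.b, C.self, h.l, f4, smul_eq_mul, mul_zero, map_zero, mul_one,
      zero_add] at h1
    have := h.i (g 1) (g 0) (by simpa [h1, add_comm] using hg)
    fin_cases i <;> simp [this, h1]
  obtain ⟨u', g1, g2⟩ := C.partner hli 0 h.r fun j => .inl (by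
    fin_cases j <;> simp [C.self, h.r, h.symm.b, C.comm u f, f3])
  exact ⟨f, u', f1, g1, f3, g2 1 (by decide), g2 2 (by decide)⟩

theorem Pr.gen (h7 : 7 ≤ finrank F V) {e u : V} (h : C.Pr e u) (hq : ∃ a : F, a ≠ 0 ∧ a ≠ 1)
    (H : Subgroup C.Φ.O) (hH : ∀ x w, C.Φ.Q x = 0 → C.Φ.B x w = 0 → C.Φ.B e x = 0 → C.Φ.B u x = 0 →
      C.Φ.B e w = 0 → C.Φ.B u w = 0 → C.s x w ∈ H) {g : C.Φ.O} (hg : g ∈ C.G) (he : g.1 e = e)
    (hu : g.1 u = u) : g ∈ H := by
  obtain ⟨f, u', f1, g1, f3, g2, g3⟩ := h.frame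
  have a1 := exists_sg_map C.hΦ C.hκ h.l (y := g.1 f) (y' := f) (by rw [O_Q, f1.right.2])
    f1.right.2 (by rw [← he, O_B, f1.one]) f1.one
  have a2 : C.Φ.B u (g.1 f - f) = 0 := by
    rw [map_sub, C.comm u f, f3, ← hu, O_B, C.comm, f3, sub_zero]
  have m1 := hH e _ h.l a1.1 (by simp [C.self, h.l]) h.symm.b a1.1 a2
  refine (H.mul_mem_cancel_left m1).1 ?_
  have hg' := mul_mem (C.s_mem e (g.1 f - f)) hg
  have he' : (C.s e (g.1 f - f) * g).1 e = e := by rw [O_mul_apply, he, C.s_apply_self h.l a1.1]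
  have hu' : (C.s e (g.1 f - f) * g).1 u = u := by
    rw [O_mul_apply, hu, sg_apply_of_perp _ _ h.b (by rw [C.comm, a2])]
  have hf' : (C.s e (g.1 f - f) * g).1 f = f := a1.2
  generalize C.s e (g.1 f - f) * g = g at *
  have b1 := exists_sg_map C.hΦ C.hκ h.r (y := g.1 u') (y' := u') (by rw [O_Q, g1.right.2])
    g1.right.2 (by rw [← hu', O_B, g1.one]) g1.one
  have b2 : C.Φ.B e (g.1 u' - u') = 0 := by
    rw [map_sub, C.comm e u', g2, ← he', O_B, C.comm, g2, sub_zero]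
  have b3 : C.Φ.B f (g.1 u' - u') = 0 := by
    rw [map_sub, C.comm f u', g3, ← hf', O_B, C.comm, g3, sub_zero]
  have m2 := hH u _ h.r b1.1 h.b (by simp [C.self, h.r]) b2 b1.1
  refine (H.mul_mem_cancel_left m2).1 ?_
  have hg'' := mul_mem (C.s_mem u (g.1 u' - u')) hg'
  have c1 : (C.s u (g.1 u' - u') * g).1 e = e := by
    rw [O_mul_apply, he', sg_apply_of_perp _ _ h.symm.b (by rw [C.comm, b2])]
  have c2 : (C.s u (g.1 u' - u') * g).1 u = u := by rw [O_mul_apply, hu', C.s_apply_self h.r b1.1]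
  have c3 : (C.s u (g.1 u' - u') * g).1 f = f := by
    rw [O_mul_apply, hf', sg_apply_of_perp _ _ (by rw [C.comm, f3]) (by rw [C.comm, b3])]
  have c4 : (C.s u (g.1 u' - u') * g).1 u' = u' := b1.2
  generalize C.s u (g.1 u' - u') * g = g at *
  have hd : Disjoint (Submodule.span F {e, f, u, u'}) (C.Φ.perp (Submodule.span F {e, f, u, u'})) := by
    rw [Submodule.disjoint_def]
    intro x hx hx'
    simp only [Submodule.mem_span_insert, Submodule.mem_span_singleton] at hx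
    obtain ⟨a, _, ⟨b, _, ⟨c, _, ⟨d, rfl⟩, rfl⟩, rfl⟩, rfl⟩ := hx
    simp [mem_perp_four, C.self, h.l, h.r, h.b, h.symm.b, f1.one, g1.one, f1.right.2, g1.right.2, f3,
      g2, g3, C.comm e u', C.comm f e, C.comm f u', C.comm u f, C.comm u' u] at hx'
    simp [hx']
  have hU := C.hΦ.isCompl_perp hd
  have hn := C.hΦ.nondeg_restrict_perp hd
  have h3 : 3 ≤ finrank F (C.Φ.perp (Submodule.span F {e, f, u, u'})) := by
    have := finrank_span_four_le (F := F) e f u u'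
    rw [C.hΦ.finrank_perp]
    omega
  obtain ⟨k, rfl⟩ := (mem_range_extendPerp hU (g := g)).2 fun x hx => by
    simp only [Submodule.mem_span_insert, Submodule.mem_span_singleton] at hx
    obtain ⟨a, _, ⟨b, _, ⟨c, _, ⟨d, rfl⟩, rfl⟩, rfl⟩, rfl⟩ := hx
    simp [c1, c2, c3, c4]
  have hκ' : (C.Φ.restrict (C.Φ.perp (Submodule.span F {e, f, u, u'}))).κ = 1 := C.hκ
  have hgen := genHyp_of C.hΦ C.hκ (.inl hq)
  have hgen' := genHyp_of hn hκ' (.inl hq)
  have h4 := mem_omega_iff_of_hom C.hΦ C.hκ hn hκ' hgen hgen' (extendPerp hU) (fun w _ =>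
    ⟨w, rfl, O_ext _ fun x => by
      obtain ⟨y, z, rfl⟩ := exists_add_perp hU x
      rw [extendPerp_apply, refl_apply, refl_apply, map_add, C.Φ.B_eq_zero_symm (w.2 y y.2),
        zero_add, add_sub_assoc]
      rfl⟩) k
  have h5 := (mem_omega_iff C.hΦ C.hκ hgen).1 hg''
  have h6 := (mem_omega_iff hn hκ' hgen').2 ⟨h4.1 ▸ h5.1, h4.2 ▸ h5.2⟩
  rw [commutator_eq_eichGrp hn hκ' hgen' (exists_sing_of_three_le hn hκ' h3) h3] at h6
  refine (Subgroup.closure_le (H.comap (extendPerp hU))).2 (fun k hk => ?_) h6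
  obtain ⟨x, w, hx, hw, rfl⟩ := (mem_eichSet_iff hn hκ').1 hk
  have x1 := mem_perp_four.1 x.2
  have w1 := mem_perp_four.1 w.2
  change extendPerp hU _ ∈ H
  convert hH x w hx hw x1.1 x1.2.2.1 w1.1 w1.2.2.1
  refine O_ext _ fun y => ?_
  obtain ⟨y, z, rfl⟩ := exists_add_perp hU y
  rw [extendPerp_apply, sieg_apply, sg_apply C.hΦ C.hκ (c := x.1) (u := w.1) hx hw, map_add, map_add,
    C.Φ.B_eq_zero_symm (w.2 y y.2), C.Φ.B_eq_zero_symm (x.2 y y.2), zero_add, zero_add,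
    add_assoc y.1, add_sub_assoc y.1]
  rfl

end H22.OC
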