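import Cfsg.Agent.H22.OmA

/-!
Representations of `Ω`: weight spaces of the Siegel subgroups, reduction to the case of
one-dimensional singular weight spaces.
-/

set_option autoImplicit false
set_option linter.unusedSectionVars false

namespace H22

open Module H23 H23.Form H22.Ls
open scoped Classical InnerProductSpace ComplexConjugate

section Eig

variable {W ι κ : Type*} [AddCommGroup W] [Module ℂ W]

/-- joint eigenspace of a family of operators -/
def eig (T : ι → End ℂ W) (χ : ι → ℂ) : Submodule ℂ W where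
  carrier := {w | ∀ i, T i w = χ i • w}
  zero_mem' := by simp
  add_mem' := by
    intro x y hx hy a
    rw [map_add, hx a, hy a, smul_add]
  smul_mem' := by
    intro c x hx a
    rw [map_smul, hx a, smul_comm]

theorem eig_indep (T : ι → End ℂ W) (χ : κ → ι → ℂ) (s : Finset κ)
    (h : ∀ i ∈ s, ∀ j ∈ s, χ i = χ j → i = j) (w : κ → W)
    (hw : ∀ i ∈ s, w i ∈ eig T (χ i)) (h0 : ∑ i ∈ s, w i = 0) : ∀ i ∈ s, w i = 0 := by
  induction s using Finset.induction_on generalizing w with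
  | empty => simp
  | insert j s hj ih =>
    rw [Finset.sum_insert hj] at h0
    have key : ∀ i ∈ s, w i = 0 := by
      intro i hi
      obtain ⟨a, hne⟩ : ∃ a, χ i a ≠ χ j a := by
        by_contra! hc
        exact hj (h i (by simp [hi]) j (by simp) (funext hc) ▸ hi)
      have h1 := ih (fun i hi k hk => h i (by simp [hi]) k (by simp [hk]))
        (fun k => (χ k a - χ j a) • w k)
        (fun k hk => Submodule.smul_mem _ _ (hw k (by simp [hk]))) (by
          have h2 := congrArg (T a) h0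
          rw [map_add, map_sum, map_zero, hw j (by simp) a,
            Finset.sum_congr rfl fun k hk => hw k (by simp [hk]) a] at h2
          simp only [sub_smul, Finset.sum_sub_distrib, ← Finset.smul_sum]
          rw [eq_neg_of_add_eq_zero_right h0, eq_neg_of_add_eq_zero_right h2]
          simp) i hi
      exact (smul_eq_zero.1 h1).resolve_left (sub_ne_zero.2 hne)
    rw [Finset.sum_eq_zero key, add_zero] at h0
    simpa [h0] using key

theorem sum_eig_le [FiniteDimensional ℂ W] (T : ι → End ℂ W) (χ : κ → ι → ℂ) (s : Finset κ)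
    (h : ∀ i ∈ s, ∀ j ∈ s, χ i = χ j → i = j) :
    ∑ i ∈ s, finrank ℂ (eig T (χ i)) ≤ finrank ℂ W := by
  let f : (∀ i : s, eig T (χ i)) →ₗ[ℂ] W := ∑ i : s, (eig T (χ i)).subtype ∘ₗ LinearMap.proj i
  have hf : Function.Injective f := by
    rw [← LinearMap.ker_eq_bot, eq_bot_iff]
    intro x hx
    have hx' : ∑ i : s, (x i : W) = 0 := by simpa [f, LinearMap.sum_apply] using hx
    have := eig_indep T (fun i : s => χ i) Finset.univ
      (fun i _ j _ e => Subtype.ext (h i i.2 j j.2 e)) (fun i => x i) (fun i _ => (x i).2) hx'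
    exact funext fun i => Subtype.ext (this i (Finset.mem_univ _))
  have := LinearMap.finrank_le_finrank_of_injective hf
  rwa [Module.finrank_pi_fintype, Finset.sum_coe_sort s fun i => finrank ℂ (eig T (χ i))] at this

theorem card_le_of_li [FiniteDimensional ℂ W] [Fintype κ] {x : κ → W} (h : LinearIndependent ℂ x)
    {U : Submodule ℂ W} (hU : ∀ i, x i ∈ U) : Fintype.card κ ≤ finrank ℂ U :=
  (LinearIndependent.of_comp U.subtype (v := fun i => (⟨x i, hU i⟩ : U)) h).fintype_card_le_finrank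

theorem li_of_eig [Fintype κ] (T : ι → End ℂ W) {χ : κ → ι → ℂ} (h : Function.Injective χ)
    {x : κ → W} (hx : ∀ i, x i ∈ eig T (χ i)) (h0 : ∀ i, x i ≠ 0) : LinearIndependent ℂ x :=
  Fintype.linearIndependent_iff.2 fun g hg i => (smul_eq_zero.1 (eig_indep T χ Finset.univ
    (fun _ _ _ _ e => h e) _ (fun i _ => Submodule.smul_mem _ _ (hx i)) hg i
      (Finset.mem_univ _))).resolve_right (h0 i)

end Eig

namespace OC

variable {F V : Type*} [Field F] [AddCommGroup V] [Module F V] [FiniteDimensional F V]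
  (C : OC F V) [Fintype F] [Fintype V]

/-- Siegel element of `Ω` -/
noncomputable def S (c u : V) : C.G := ⟨C.s c u, C.s_mem c u⟩

abbrev pe (e : V) : Submodule F V := C.Φ.perp (F ∙ e)

theorem pe_B {e : V} (w : C.pe e) : C.Φ.B e w = 0 := C.Φ.mem_perp_span_singleton.1 w.2

theorem S_add (c : V) {u v : V} (hu : C.Φ.B c u = 0) (hv : C.Φ.B c v = 0) :
    C.S c (u + v) = C.S c u * C.S c v := Subtype.ext (sg_add _ _ c hu hv)

theorem S_conj (g : C.G) (c u : V) : g * C.S c u * g⁻¹ = C.S (g.1.1 c) (g.1.1 u) :=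
  Subtype.ext (conj_sg _ _ g.1 c u)

theorem S_smul {t : F} (ht : t ≠ 0) (c u : V) : C.S (t • c) u = C.S c (t • u) :=
  Subtype.ext (sg_smul _ _ ht c u)

theorem S_self (c : V) (t : F) : C.S c (t • c) = 1 := Subtype.ext (sg_self _ _ c t)

theorem S_zero (c : V) : C.S c 0 = 1 := by simpa using C.S_self c 0

theorem S_apply {c u : V} (hc : C.Φ.Q c = 0) (hu : C.Φ.B c u = 0) (x : V) :
    (C.S c u).1.1 x = x + (C.Φ.B u x - C.Φ.Q u * C.Φ.B c x) • c - C.Φ.B c x • u :=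
  sg_apply _ _ hc hu x

theorem S_apply' {c u x : V} (hc : C.Φ.Q c = 0) (hu : C.Φ.B c u = 0) (hx : C.Φ.B c x = 0) :
    (C.S c u).1.1 x = x + C.Φ.B x u • c := by
  simp [C.S_apply hc hu, hx, C.comm x]

theorem psi_mul (a b : F) : C.ψ a * C.ψ b = C.ψ (a + b) := (C.ψ.map_add_eq_mul a b).symm

theorem psi_conj (a : F) : conj (C.ψ a) = C.ψ (-a) := (C.ψ.map_neg_eq_conj a).symm

theorem sum_psi (a : F) : ∑ c, C.ψ (a * c) = if a = 0 then (Fintype.card F : ℂ) else 0 := by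
  split_ifs with h
  · simp [h]
  · exact sum_char (V := F) C.hψ (φ := a • LinearMap.id) fun e => h (by
      simpa using LinearMap.congr_fun e 1)

theorem exists_sep {e u u' : V} (h0 : e ≠ 0) (h : u - u' ∉ F ∙ e) :
    ∃ w, C.Φ.B e w = 0 ∧ C.ψ (C.Φ.B u w) ≠ C.ψ (C.Φ.B u' w) := by
  obtain ⟨a, ha⟩ := C.hψ
  obtain ⟨w, hw⟩ := C.hΦ.exists_prescribed' (linearIndependent_pair_of_notMem h0 h) ![0, a]
  refine ⟨w, hw 0, fun e => ha ?_⟩
  have h1 : C.Φ.B u w - C.Φ.B u' w = a := by simpa using hw 1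
  rw [← h1, sub_eq_add_neg, ← psi_mul, e, psi_mul, add_neg_cancel, AddChar.map_zero_eq_one]

variable {W : Type*} [NormedAddCommGroup W] [InnerProductSpace ℂ W] [FiniteDimensional ℂ W]
  (ρ : Representation ℂ C.G W)

/-- weight space of a Siegel subgroup -/
noncomputable def Wt (e u : V) : Submodule ℂ W :=
  eig (fun w : C.pe e => ρ (C.S e w)) fun w => C.ψ (C.Φ.B u w)

variable {C ρ}

theorem mem_Wt {e u : V} {x : W} :
    x ∈ C.Wt ρ e u ↔ ∀ w, C.Φ.B e w = 0 → ρ (C.S e w) x = C.ψ (C.Φ.B u w) • x :=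
  ⟨fun h w hw => h ⟨w, C.Φ.mem_perp_span_singleton.2 hw⟩, fun h w => h w (C.pe_B w)⟩

theorem Wt_conj {e u : V} {x : W} (hx : x ∈ C.Wt ρ e u) (g : C.G) :
    ρ g x ∈ C.Wt ρ (g.1.1 e) (g.1.1 u) := mem_Wt.2 fun w hw => by
  obtain ⟨w, rfl⟩ := g.1.1.surjective w
  rw [O_B] at hw ⊢
  rw [← S_conj, rep_mul, inv_mul_cancel_right, ← rep_mul, mem_Wt.1 hx w hw, map_smul]

theorem Wt_smul {s : F} (hs : s ≠ 0) (e u : V) : C.Wt ρ (s • e) (s • u) = C.Wt ρ e u := by
  ext x
  simp only [mem_Wt, C.S_smul hs]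
  refine ⟨fun h w hw => ?_, fun h w hw => ?_⟩
  · simpa [hs] using h (s⁻¹ • w) (by simp [hw])
  · simpa using h (s • w) (by simpa using hw)

theorem finrank_Wt_le {e u e' u' : V} (h0 : e ≠ 0) (h0' : e' ≠ 0) (hv : u ∉ F ∙ e)
    (hv' : u' ∉ F ∙ e') (hc : C.Φ.Q e = C.Φ.Q e') (hQ : C.Φ.Q u = C.Φ.Q u')
    (hB : C.Φ.B e u = C.Φ.B e' u') : finrank ℂ (C.Wt ρ e u) ≤ finrank ℂ (C.Wt ρ e' u') := by
  obtain ⟨g, hg, rfl, rfl⟩ := exists_omega_two C.hΦ C.hκ C.hV h0 h0' hv hv' hc hQ hB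
  refine LinearMap.finrank_le_finrank_of_injective
    (f := (ρ ⟨g, hg⟩).restrict fun x hx => Wt_conj hx ⟨g, hg⟩) fun x y e => Subtype.ext ?_
  have := congrArg (fun z => ρ (⟨g, hg⟩ : C.G)⁻¹ z.1) e
  simpa [rep_mul] using this

theorem ext1 {e : V} {T T' : End ℂ W}
    (h : ∀ u, C.Φ.B e u = 0 → ∀ x ∈ C.Wt ρ e u, T x = T' x) (he : C.Φ.Q e = 0) : T = T' := by
  ext x
  let p : V → W := fun u => ∑ w : C.pe e, C.ψ (-C.Φ.B u w) • ρ (C.S e w) x
  have h1 : ∀ u, p u ∈ C.Wt ρ e u := fun u d => by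
    simp only [p, map_sum, map_smul, rep_mul, ← C.S_add e (C.pe_B _) (C.pe_B _), Finset.smul_sum,
      smul_smul, psi_mul]
    refine Fintype.sum_equiv (Equiv.addLeft d) _ _ fun c => ?_
    simp
  have h2 : ∑ u, p u = (Fintype.card V : ℂ) • x := by
    simp only [p]
    rw [Finset.sum_comm, Finset.sum_eq_single 0 (fun w _ hw => ?_) (by simp)]
    · simp [S_zero, Nat.cast_smul_eq_nsmul]
    · rw [← Finset.sum_smul]
      simp only [C.comm _ w.1]
      rw [show ∑ u, C.ψ (-C.Φ.B w u) = 0 from sum_char C.hψ (φ := -C.Φ.B w) fun e => ?_, zero_smul]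
      obtain ⟨y, hy⟩ := C.hΦ.exists_ne (x := w.1) (by simpa using hw)
      simpa [hy] using LinearMap.congr_fun e y
  have h3 : ∀ u, T (p u) = T' (p u) := fun u => by
    by_cases hu : C.Φ.B e u = 0
    · exact h u hu _ (h1 u)
    · obtain ⟨a, ha⟩ := C.hψ
      have h4 := mem_Wt.1 (h1 u) ((a / C.Φ.B e u) • e) (by simp [C.self, he])
      rw [S_self, map_one, End.one_apply, map_smul, C.comm u, smul_eq_mul, div_mul_cancel₀ _ hu,
        eq_comm, ← sub_eq_zero, ← one_smul ℂ (p u), smul_smul, mul_one, ← sub_smul] at h4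
      simp [(smul_eq_zero.1 h4).resolve_left (sub_ne_zero.2 ha)]
  refine smul_right_injective W (Nat.cast_ne_zero.2 (Fintype.card_ne_zero (α := V)) :
    (Fintype.card V : ℂ) ≠ 0) ?_
  simp only [← map_smul, ← h2, map_sum, h3]

variable (C ρ) in
/-- non-singular weights vanish -/
def NS : Prop := ∀ e u, C.Φ.Q e = 0 → e ≠ 0 → C.Φ.B e u = 0 → C.Φ.Q u ≠ 0 → C.Wt ρ e u = ⊥

variable (C ρ) in
/-- singular weights have multiplicity one -/
def M1 : Prop := ∀ e u, C.Pr e u → finrank ℂ (C.Wt ρ e u) = 1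

theorem sum_Wt_le {e f : V} (h : Hyp C.Φ e f) (T : Finset V)
    (hT : ∀ u ∈ T, C.Φ.B f u = 0) : ∑ u ∈ T, finrank ℂ (C.Wt ρ e u) ≤ finrank ℂ W := by
  refine sum_eig_le _ _ T fun u hu u' hu' e1 => by_contra fun hne => ?_
  obtain ⟨w, hw, h1⟩ := C.exists_sep (u := u) (u' := u') h.left_ne fun hm => by
    obtain ⟨t, ht⟩ := Submodule.mem_span_singleton.1 hm
    have := congrArg (C.Φ.B f) ht
    simp [hT u hu, hT u' hu', C.comm f e, h.one] at this
    exact hne (by simpa [this, sub_eq_zero] using ht.symm)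
  exact h1 (congrFun e1 ⟨w, C.Φ.mem_perp_span_singleton.2 hw⟩)

theorem red (h7 : 7 ≤ finrank F V) {r : F} (r0 : r ≠ 0) (r1 : r ^ 2 ≠ 1) (hρ : ∃ g, ρ g ≠ 1) :
    2 * ((Fintype.card F - 1) * Fintype.card F ^ (finrank F V - 4)) ≤ finrank ℂ W ∨
      C.NS ρ ∧ C.M1 ρ := by
  have key : ∀ e, C.Φ.Q e = 0 → e ≠ 0 → ∃ T : F → Finset V, (∀ a, (T a).card =
      (Fintype.card F - 1) * Fintype.card F ^ (finrank F V - 4)) ∧
      (∀ a, ∀ u ∈ T a, C.Φ.Q u = a ∧ C.Φ.B e u = 0 ∧ u ∉ F ∙ e) ∧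
      ∀ a b, ∑ u ∈ T a ∪ T b, finrank ℂ (C.Wt ρ e u) ≤ finrank ℂ W := by
    intro e h1 h2
    obtain ⟨z, hz, -⟩ := nbr0 h7 h1 h1 h2 h2
    obtain ⟨f, u', f1, f2, f3, f4, f5⟩ := hz.frame
    have h3 := fun a => ncard_Q_eq_not_perp' C.hΦ C.hκ (U := C.Φ.perp (Submodule.span F {e, f})) f2
      (mem_perp_pair.2 ⟨hz.b, f3⟩) (mem_perp_pair.2 ⟨by rw [C.comm, f4], by rw [C.comm, f5]⟩) a
    have h4 := finrank_inf_perp_hyp C.hΦ (U := ⊤) f1 trivial trivial
    rw [top_inf_eq, finrank_top] at h4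
    refine ⟨fun a => {v | v ∈ C.Φ.perp (Submodule.span F {e, f}) ∧ C.Φ.Q v = a ∧ C.Φ.B z v ≠ 0},
      fun a => ?_, fun a u hu => ?_, fun a b => sum_Wt_le f1 _ fun u hu => ?_⟩
    · rw [← h4, show ∀ n : ℕ, n + 2 - 4 = n - 2 by omega, ← h3 a, Set.ncard_eq_toFinset_card']
      simp
    · simp only [Finset.mem_filter, Finset.mem_univ, true_and, mem_perp_pair] at hu
      refine ⟨hu.2.1, hu.1.1, fun hm => ?_⟩
      obtain ⟨t, rfl⟩ := Submodule.mem_span_singleton.1 hm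
      simp [hz.symm.b] at hu
    · simp only [Finset.mem_union, Finset.mem_filter, Finset.mem_univ, true_and, mem_perp_pair] at hu
      tauto
  refine or_iff_not_imp_left.2 fun hd => ?_
  have hNS : C.NS ρ := fun e u h1 h2 h3 h4 => by_contra fun hne => hd (by
    obtain ⟨T, t1, t2, t3⟩ := key e h1 h2
    have hu : u ∉ F ∙ e := fun hm => by
      obtain ⟨t, rfl⟩ := Submodule.mem_span_singleton.1 hm
      simp [C.Φ.Q_smul, h1] at h4
    have h5 : 1 ≤ finrank ℂ (C.Wt ρ e u) := Submodule.one_le_finrank_iff.2 hne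
    refine le_trans ?_ (t3 (C.Φ.Q u) (C.Φ.Q u / r ^ 2))
    rw [Finset.sum_union (Finset.disjoint_left.2 fun x x1 x2 => r1 ?_), two_mul]
    · refine add_le_add ?_ ?_
      · rw [← t1 (C.Φ.Q u), Finset.card_eq_sum_ones]
        exact Finset.sum_le_sum fun x hx => h5.trans (finrank_Wt_le h2 h2 hu (t2 _ x hx).2.2 rfl
          (t2 _ x hx).1.symm (h3.trans (t2 _ x hx).2.1.symm))
      · rw [← t1 (C.Φ.Q u / r ^ 2), Finset.card_eq_sum_ones]
        refine Finset.sum_le_sum fun x hx => h5.trans ?_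
        obtain ⟨x1, x2, x3⟩ := t2 _ x hx
        rw [← Wt_smul r0 e x]
        refine finrank_Wt_le h2 (smul_ne_zero r0 h2) hu (fun hm => x3 ?_)
          (by simp [C.Φ.Q_smul, h1]) (by simp [C.Φ.Q_smul, x1]; field_simp) (by simp [x2, h3])
        rwa [Submodule.span_singleton_smul_eq r0.isUnit, Submodule.smul_mem_iff _ r0] at hm
    · have := (t2 _ x x1).1.symm.trans (t2 _ x x2).1
      field_simp at this
      exact this)
  refine ⟨hNS, fun e u h => le_antisymm (not_lt.1 fun h2 => hd ?_) (not_lt.1 fun h2 => ?_)⟩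
  · obtain ⟨T, t1, t2, t3⟩ := key e h.l h.ne
    refine le_trans ?_ (t3 0 0)
    rw [Finset.union_self, ← t1 0, mul_comm, ← smul_eq_mul, ← Finset.sum_const]
    exact Finset.sum_le_sum fun x hx => (Nat.succ_le_of_lt h2).trans (finrank_Wt_le h.ne h.ne
      h.notMem (t2 _ x hx).2.2 rfl (h.r.trans (t2 _ x hx).1.symm) (h.b.trans (t2 _ x hx).2.1.symm))
  · obtain ⟨g, hg⟩ := hρ
    have h3 : ∀ c w, C.Φ.Q c = 0 → C.Φ.B c w = 0 → ρ (C.S c w) = 1 := fun c w c1 c2 => by
      by_cases c0 : c = 0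
      · rw [← map_one ρ]
        exact congrArg ρ (Subtype.ext (O_ext _ fun x => by simp [c0, C.S_apply (c0 ▸ c1) (c0 ▸ c2)]))
      refine ext1 (ρ := ρ) (fun y hy x hx => ?_) c1
      by_cases y1 : C.Φ.Q y = 0
      · by_cases y2 : y ∈ F ∙ c
        · obtain ⟨t, rfl⟩ := Submodule.mem_span_singleton.1 y2
          simp [mem_Wt.1 hx w c2, c2]
        · have := finrank_Wt_le (ρ := ρ) c0 h.ne y2 h.notMem (c1.trans h.l.symm)
            (y1.trans h.r.symm) (hy.trans h.b.symm)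
          rw [Submodule.finrank_eq_zero.1 (show finrank ℂ (C.Wt ρ c y) = 0 by omega)] at hx
          simp [(Submodule.mem_bot ℂ).1 hx]
      · rw [hNS c y c1 c0 hy y1] at hx
        simp [(Submodule.mem_bot ℂ).1 hx]
    have h4 : C.G ≤ ρ.ker.map C.G.subtype := by
      refine (commutator_eq_eichGrp_of_five_le C.hΦ C.hκ (by omega)).le.trans
        ((Subgroup.closure_le _).2 fun k hk => ?_)
      obtain ⟨c, w, c1, c2, rfl⟩ := (mem_eichSet_iff C.hΦ C.hκ).1 hk
      exact ⟨C.S c w, h3 c w c1 c2, sg_eq _ _ c1 c2⟩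
    obtain ⟨k, hk, e⟩ := h4 g.2
    exact hg (Subtype.ext e ▸ hk)

end OC

end H22
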