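import Cfsg.Agent.H22.OmB

/-!
Representations of `Ω` with one-dimensional singular weight spaces: equivariant weight vectors
and their inner products.
-/

set_option autoImplicit false
set_option linter.unusedSectionVars false

namespace H22.OC

open Module H23 H23.Form H22.Ls
open scoped Classical InnerProductSpace ComplexConjugate

variable {F V : Type*} [Field F] [AddCommGroup V] [Module F V] [FiniteDimensional F V]
  {C : OC F V} [Fintype F] [Fintype V]
  {W : Type*} [NormedAddCommGroup W] [InnerProductSpace ℂ W] [FiniteDimensional ℂ W]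
  {ρ : Representation ℂ C.G W}

theorem rep_inj (g : C.G) {x y : W} (h : ρ g x = ρ g y) : x = y := by
  simpa [rep_mul] using congrArg (ρ g⁻¹) h

theorem M1.exists_smul (H : C.M1 ρ) {e u : V} (h : C.Pr e u) {x y : W} (hx : x ∈ C.Wt ρ e u)
    (hy : y ∈ C.Wt ρ e u) (x0 : x ≠ 0) : ∃ c : ℂ, y = c • x := by
  obtain ⟨c, hc⟩ := (finrank_eq_one_iff_of_nonzero' (⟨x, hx⟩ : C.Wt ρ e u) (by simpa using x0)).1
    (H e u h) ⟨y, hy⟩
  exact ⟨c, (congrArg Subtype.val hc).symm⟩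

theorem M1.comm_on (H : C.M1 ρ) {e u : V} (h : C.Pr e u) {t k : C.G} {s : F} (hs : s ≠ 0)
    (te : t.1.1 e = s • e) (tu : t.1.1 u = s • u) (ke : k.1.1 e = e) (ku : k.1.1 u = u) {x : W}
    (hx : x ∈ C.Wt ρ e u) : ρ (t * k * t⁻¹) x = ρ k x := by
  by_cases x0 : x = 0
  · simp [x0]
  obtain ⟨c, hc⟩ := H.exists_smul h hx (y := ρ t x)
    (by simpa [te, tu, Wt_smul hs] using Wt_conj hx t) x0
  obtain ⟨d, hd⟩ := H.exists_smul h hx (y := ρ k x) (by simpa [ke, ku] using Wt_conj hx k) x0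
  have c0 : c ≠ 0 := fun e => x0 (rep_inj (ρ := ρ) t (by simp [hc, e]))
  refine smul_right_injective W c0 ?_
  simp only
  rw [← map_smul, ← hc, rep_mul, inv_mul_cancel_right, ← rep_mul, hd, map_smul, hc, smul_comm]

theorem M1.fix_S (H : C.M1 ρ) {r : F} (r0 : r ≠ 0) (r1 : r ^ 2 ≠ 1) {e u : V} (h : C.Pr e u)
    {x w : V} (h1 : C.Φ.Q x = 0) (h2 : C.Φ.B x w = 0) (h3 : C.Φ.B e x = 0) (h4 : C.Φ.B u x = 0)
    (h5 : C.Φ.B e w = 0) (h6 : C.Φ.B u w = 0) {v : W} (hv : v ∈ C.Wt ρ e u) :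
    ρ (C.S x w) v = v := by
  have r2 : r ^ 2 ≠ 0 := pow_ne_zero _ r0
  obtain ⟨y, rfl⟩ : ∃ y, w = (r ^ 2 - 1) • y := ⟨(r ^ 2 - 1)⁻¹ • w, by
    rw [smul_inv_smul₀ (sub_ne_zero.2 r1)]⟩
  simp only [map_smul, smul_eq_mul, mul_eq_zero, sub_ne_zero.2 r1, false_or] at h2 h5 h6
  have key : ∀ (t : C.G) (s α β : F), s ≠ 0 → t.1.1 e = s • e → t.1.1 u = s • u →
      t.1.1 x = r ^ 2 • x → t.1.1 y = y + α • e + β • x → ρ (C.S x ((r ^ 2 - 1) • y)) v = v := by
    intro t s α β hs te tu tx ty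
    have h7 := H.comm_on h hs te tu (k := C.S x y)
      (sg_apply_of_perp _ _ (by rw [C.comm, h3]) (by rw [C.comm, h5]))
      (sg_apply_of_perp _ _ (by rw [C.comm, h4]) (by rw [C.comm, h6])) hv
    have h8 : C.S x ((r ^ 2 * α) • e) = C.S e (-(r ^ 2 * α) • x) :=
      Subtype.ext (sg_swap _ _ h.l h1 h3 _)
    rw [S_conj, tx, ty, C.S_smul r2, show r ^ 2 • (y + α • e + β • x) =
      y + ((r ^ 2 - 1) • y + ((r ^ 2 * α) • e + (r ^ 2 * β) • x)) by module,
      C.S_add x h2 (by simp [h2, C.comm x e, h3, C.self, h1]),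
      C.S_add x (by simp [h2]) (by simp [C.comm x e, h3, C.self, h1]),
      C.S_add x (by simp [C.comm x e, h3]) (by simp [C.self, h1]), S_self, mul_one, h8, ← rep_mul,
      ← rep_mul, mem_Wt.1 hv _ (by simp [h3])] at h7
    simpa [h4] using rep_inj _ h7
  by_cases hx : ∃ a b : F, x = a • e + b • u
  · obtain ⟨a, b, hx⟩ := hx
    by_cases hb : b = 0
    · by_cases ha : a = 0
      · rw [show C.S x ((r ^ 2 - 1) • y) = 1 from Subtype.ext (O_ext _ fun z => by
          rw [C.S_apply h1 (by simp [h2])]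
          simp [hx, ha, hb])]
        simp
      · rw [hx, hb, zero_smul, add_zero, C.S_smul ha, mem_Wt.1 hv _ (by simp [h5])]
        simp [h6]
    · have h7 : C.Pr e x := by
        simpa [hx] using h.comb (a := 1) (b := 0) (c := a) (d := b) (by simpa using hb)
      obtain ⟨f, x', f1, f2, f3, f4, f5⟩ := h7.frame
      let t : C.G := ⟨_, mul_mem (C.tor_mem f1 r0) (C.tor_mem f2 r0)⟩
      have te : t.1.1 e = r ^ 2 • e := by
        simp only [t, O_mul_apply]
        rw [C.tor_of_perp f2 r2 h7.symm.b f4, C.tor_left f1 r2]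
      have tx : t.1.1 x = r ^ 2 • x := by
        simp only [t, O_mul_apply]
        rw [C.tor_left f2 r2, map_smul, C.tor_of_perp f1 r2 h3 f3]
      refine key t (r ^ 2) ((r ^ 2 - 1) * C.Φ.B f y) ((r ^ 2 - 1) * C.Φ.B x' y) r2 te
        (smul_right_injective V hb ?_) tx ?_
      · rw [hx, map_add, map_smul, map_smul, te] at tx
        linear_combination (norm := module) tx
      · simp only [t, O_mul_apply]
        rw [C.tor_apply f2 r2, h2, mul_zero, zero_smul, add_zero, map_add, map_smul,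
          C.tor_of_perp f1 r2 h3 f3, C.tor_apply f1 r2, h5, mul_zero, zero_smul, add_zero]
  · push Not at hx
    have h7 := tr_of h h1 h3 h4 hx
    obtain ⟨x', f1, f2⟩ := C.partner h7.li 1 h1 fun j => .inl (by
      fin_cases j <;> simp [C.self, h1, C.comm x e, h3, C.comm x u, h4])
    refine key ⟨_, C.tor_mem f1 r0⟩ 1 0 ((r ^ 2 - 1) * C.Φ.B x' y) one_ne_zero ?_ ?_
      (C.tor_left f1 r2) ?_
    · rw [one_smul]
      exact C.tor_of_perp f1 r2 h7.swap.b12 (f2 0 (by decide))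
    · rw [one_smul]
      exact C.tor_of_perp f1 r2 h7.b23 (f2 2 (by decide))
    · simpa [h2] using C.tor_apply f1 r2 y

variable (C ρ) in
/-- the standing hypotheses -/
structure Hy : Prop where
  h7 : 7 ≤ finrank F V
  hr : ∃ r : F, r ≠ 0 ∧ r ^ 2 ≠ 1
  inv : ∀ g x y, ⟪ρ g x, ρ g y⟫_ℂ = ⟪x, y⟫_ℂ
  ns : C.NS ρ
  m1 : C.M1 ρ
  nofix : ∀ x, (∀ g, ρ g x = x) → x = 0

theorem Hy.fix (H : C.Hy ρ) {e u : V} (h : C.Pr e u) {g : C.G} (he : g.1.1 e = e)
    (hu : g.1.1 u = u) {v : W} (hv : v ∈ C.Wt ρ e u) : ρ g v = v := by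
  obtain ⟨r, r0, r1⟩ := H.hr
  let K : Subgroup C.G :=
    { carrier := {k | ρ k v = v}
      one_mem' := by simp
      mul_mem' := fun {a b} ha hb => by
        change ρ (a * b) v = v
        rw [← rep_mul, hb, ha]
      inv_mem' := fun {a} ha => rep_inj a (by rw [rep_mul, mul_inv_cancel, ha]; simp) }
  obtain ⟨k, hk, e1⟩ := h.gen H.h7 ⟨r ^ 2, pow_ne_zero _ r0, r1⟩ (K.map C.G.subtype)
    (fun x w h1 h2 h3 h4 h5 h6 => ⟨C.S x w, H.m1.fix_S r0 r1 h h1 h2 h3 h4 h5 h6 hv, rfl⟩) g.2 he hu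
  exact Subtype.ext e1 ▸ hk

theorem exists_pr (h7 : 7 ≤ finrank F V) : ∃ e u, C.Pr e u := by
  obtain ⟨e, e0, e1, -⟩ := C.sing4 h7 0 0 0 0
  obtain ⟨z, hz, -⟩ := nbr0 h7 e1 e1 e0 e0
  exact ⟨e, z, hz⟩

variable (C ρ) in
/-- equivariant unit weight vectors -/
structure Vv (v : V → V → W) : Prop extends C.Hy ρ where
  mem : ∀ {e u}, C.Pr e u → v e u ∈ C.Wt ρ e u
  one : ∀ {e u}, C.Pr e u → ⟪v e u, v e u⟫_ℂ = 1
  map : ∀ {e u}, C.Pr e u → ∀ g, ρ g (v e u) = v (g.1.1 e) (g.1.1 u)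

theorem Hy.exists_v (H : C.Hy ρ) : ∃ v, C.Vv ρ v := by
  obtain ⟨e0, u0, h0⟩ := exists_pr (C := C) H.h7
  obtain ⟨x, hx, x0⟩ := Submodule.exists_mem_ne_zero_of_ne_bot (p := C.Wt ρ e0 u0)
    (Submodule.one_le_finrank_iff.1 (H.m1 e0 u0 h0).ge)
  have hy := Submodule.smul_mem _ ((‖x‖ : ℂ)⁻¹) hx
  have y1 : ⟪(‖x‖ : ℂ)⁻¹ • x, (‖x‖ : ℂ)⁻¹ • x⟫_ℂ = 1 := by
    rw [inner_self_eq_norm_sq_to_K, norm_smul]
    simp [x0]
  generalize (‖x‖ : ℂ)⁻¹ • x = y at hy y1
  choose! g g1 g2 using fun e u (h : C.Pr e u) => h0.trans h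
  refine ⟨fun e u => ρ (g e u) y, H, fun {e u} h => ?_, fun h => by rw [H.inv, y1],
    fun {e u} h k => ?_⟩
  · simpa [g1 e u h, g2 e u h] using Wt_conj hy (g e u)
  · have h1 := h.map k.1
    refine rep_inj (ρ := ρ) (g (k.1.1 e) (k.1.1 u))⁻¹ ?_
    rw [rep_mul, rep_mul, rep_mul, inv_mul_cancel, map_one, End.one_apply]
    refine H.fix h0 ?_ ?_ hy
    all_goals refine (g (k.1.1 e) (k.1.1 u)).1.1.injective ((O_apply_inv_apply _ _ _).trans ?_)
    · exact (congrArg k.1.1 (g1 e u h)).trans (g1 _ _ h1).symm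
    · exact (congrArg k.1.1 (g2 e u h)).trans (g2 _ _ h1).symm

theorem Hy.orth (H : C.Hy ρ) {e u u' : V} (h0 : e ≠ 0) (h : u - u' ∉ F ∙ e) {x y : W}
    (hx : x ∈ C.Wt ρ e u) (hy : y ∈ C.Wt ρ e u') : ⟪x, y⟫_ℂ = 0 := by
  obtain ⟨w, hw, h1⟩ := C.exists_sep h0 h
  have := H.inv (C.S e w) x y
  rw [mem_Wt.1 hx w hw, mem_Wt.1 hy w hw, inner_smul_left, inner_smul_right, ← mul_assoc, psi_conj,
    psi_mul] at this
  refine (mul_left_eq_self₀.1 this).resolve_left fun e1 => h1 ?_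
  rw [← mul_one (C.ψ _), ← e1, psi_mul, add_neg_cancel_left]

variable {v : V → V → W} (H : C.Vv ρ v)
include H

theorem Vv.ne {e u : V} (h : C.Pr e u) : v e u ≠ 0 := fun e1 => by simpa [e1] using H.one h

theorem Vv.add {e u : V} (h : C.Pr e u) (β : F) : v e (u + β • e) = C.ψ β • v e u := by
  obtain ⟨w, w1, w2⟩ := h.exists_B 0 β
  have := H.map h (C.S e w)
  rw [mem_Wt.1 (H.mem h) w w1, C.S_apply' h.l w1 h.b, C.S_apply' h.l w1 (by simp [C.self, h.l]),
    w1, w2] at this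
  simpa using this.symm

theorem Vv.smul {e u e' u' : V} (h : C.Pr e u) (h' : C.Pr e' u') {s : F} (hs : s ≠ 0) :
    ⟪v (s • e) (s • u), v (s • e') (s • u')⟫_ℂ = ⟪v e u, v e' u'⟫_ℂ := by
  have h1 : C.Pr (s • e) (s • u) := by
    simpa using h.comb (a := s) (b := 0) (c := 0) (d := s) (by simpa using hs)
  obtain ⟨c, hc⟩ := H.m1.exists_smul h (H.mem h) (Wt_smul (ρ := ρ) hs e u ▸ H.mem h1) (H.ne h)
  obtain ⟨g, rfl, rfl⟩ := h.trans h'
  have h2 := H.one h1
  rw [hc, inner_smul_left, inner_smul_right, H.one h, mul_one] at h2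
  rw [← map_smul, ← map_smul, ← H.map h1, hc, map_smul, H.map h, inner_smul_left, inner_smul_right,
    ← mul_assoc, h2, one_mul]

theorem Vv.tr {e e' z a a' b : V} (h : C.Tr e e' z) (h' : C.Tr a a' b) :
    ⟪v e z, v e' z⟫_ℂ = ⟪v a b, v a' b⟫_ℂ := by
  obtain ⟨g, s, hs, g1, g2, g3⟩ := h.trans H.h7 h'
  rw [← H.inv g, H.map h.p13, H.map h.p23, g1, g2, g3, H.smul h'.p13 h'.p23 hs]

theorem Vv.shift {e e' z x y w : V} (h : C.Tr e e' z) (h' : C.Tr x y w) (α γ : F) :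
    ⟪v x w, v y (w + α • x + γ • y)⟫_ℂ = C.ψ (α + γ) * ⟪v e z, v e' z⟫_ℂ := by
  have h1 : C.Tr x y (w + α • x) := by
    simpa using h'.comb (a := 1) (b := 0) (c := 0) (d := 1) (s := 1) α 0
  rw [H.add h1.p23, H.tr h h1, H.add h'.p13, inner_smul_left, inner_smul_right, ← mul_assoc, psi_conj,
    psi_mul, add_comm α, add_neg_cancel_right]

theorem Vv.pair {e e' z : V} (h : C.Tr e e' z) (x : W) :
    ∑ t : F, ∑ β : F, C.ψ (-β) * ⟪x, v (e' + t • e) (z + β • e)⟫_ℂ =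
      (Fintype.card F : ℂ) ^ 2 * ⟪v e z, v e' z⟫_ℂ * ⟪x, v e z⟫_ℂ := by
  have h1 : ∀ t β : F, C.Tr e (e' + t • e) (z + β • e) := fun t β => by
    simpa [add_comm] using h.comb (a := 1) (b := 0) (c := t) (d := 1) (s := 1) β 0
  let m := ∑ p : F × F, C.ψ (-p.2) • v (e' + p.1 • e) (z + p.2 • e)
  have h2 : ∀ x, ⟪x, m⟫_ℂ = ∑ t : F, ∑ β : F, C.ψ (-β) * ⟪x, v (e' + t • e) (z + β • e)⟫_ℂ :=
    fun x => by simp only [m, inner_sum, inner_smul_right, Fintype.sum_prod_type]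
  obtain ⟨c, hc⟩ := H.m1.exists_smul h.p13 (H.mem h.p13) (y := m) (mem_Wt.2 fun w hw => by
    simp only [m, map_sum, map_smul, H.map (h1 _ _).p23, C.S_apply' h.q1 hw (h1 _ 0).b12,
      C.S_apply' h.q1 hw (h1 0 _).b13, Finset.smul_sum, smul_smul, psi_mul]
    refine Fintype.sum_equiv (Equiv.addRight (C.Φ.B e' w, C.Φ.B z w)) _ _ fun p => ?_
    simp [hw, add_smul, add_assoc]) (H.ne h.p13)
  have h3 := h2 (v e z)
  rw [hc, inner_smul_right, H.one h.p13, mul_one] at h3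
  rw [← h2, hc, inner_smul_right, h3]
  congr 1
  have h4 : ∀ t β : F, C.ψ (-β) * ⟪v e z, v (e' + t • e) (z + β • e)⟫_ℂ = ⟪v e z, v e' z⟫_ℂ :=
    fun t β => by
      have := H.shift h (h1 t 0) β 0
      simp only [zero_smul, add_zero] at this
      rw [this, ← mul_assoc, psi_mul]
      simp
  simp [h4, sq, mul_assoc]

theorem Vv.inner_tr {e e' z : V} (h : C.Tr e e' z) :
    ⟪v e z, v e' z⟫_ℂ = (Fintype.card F : ℂ)⁻¹ := by
  have q0 : (Fintype.card F : ℂ) ≠ 0 := Nat.cast_ne_zero.2 Fintype.card_ne_zero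
  have h1 := H.pair h (v e' z)
  rw [← H.tr h h.swap, Finset.sum_eq_single 0 (fun t _ ht => ?_) (by simp),
    Finset.sum_eq_single 0 (fun β _ hβ => ?_) (by simp)] at h1
  · obtain ⟨r, r0, r1⟩ := H.hr
    have b0 : r ^ 2 ≠ 0 := pow_ne_zero _ r0
    generalize r ^ 2 = b at r1 b0
    have h2 := H.pair h (v (e + b • e') z)
    have h3 : ∀ t : F, 1 - b * t ≠ 0 → ∑ β : F, C.ψ (-β) * ⟪v (e + b • e') z,
        v (e' + t • e) (z + β • e)⟫_ℂ = if t = 1 then Fintype.card F * ⟪v e z, v e' z⟫_ℂ else 0 := by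
      intro t ht
      have h4 : C.Tr (e + b • e') (e' + t • e) z := by
        simpa [add_comm] using h.comb (a := 1) (b := b) (c := t) (d := 1) (s := 1) 0 0
          (by simpa using ht)
      have h5 : ∀ β : F, C.ψ (-β) * ⟪v (e + b • e') z, v (e' + t • e) (z + β • e)⟫_ℂ =
          C.ψ (b * (t - 1) / (1 - b * t) * β) * ⟪v e z, v e' z⟫_ℂ := fun β => by
        rw [show z + β • e = z + (β / (1 - b * t)) • (e + b • e') +
          (-b * β / (1 - b * t)) • (e' + t • e) by match_scalars <;> field_simp <;> ring,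
          H.shift h h4, ← mul_assoc, psi_mul]
        congr 2
        field_simp
        ring
      simp only [h5, ← Finset.sum_mul, sum_psi]
      simp [b0, ht, sub_eq_zero]
    rw [← H.tr h (a := e + b • e') (a' := e) (b := z) (by
      simpa using h.comb (a := 1) (b := b) (c := 1) (d := 0) (s := 1) 0 0 (by simpa using b0)),
      Finset.sum_eq_single 1 (fun t _ ht => ?_) (by simp), h3 1 (by simpa [sub_eq_zero] using r1.symm),
      if_pos rfl] at h2
    · simp only [zero_smul, add_zero, H.one h.p23, neg_zero, AddChar.map_zero_eq_one, mul_one] at h1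
      field_simp
      linear_combination h2 - h1
    · by_cases h4 : 1 - b * t = 0
      · refine Finset.sum_eq_zero fun β _ => ?_
        have h5 : C.Tr e (e' + t • e) (z + β • e) := by
          simpa [add_comm] using h.comb (a := 1) (b := 0) (c := t) (d := 1) (s := 1) β 0
        have h6 := H.mem h5.p23
        rw [← Wt_smul b0, show b • (e' + t • e) = e + b • e' by
          linear_combination (norm := module) (-h4) • e] at h6
        have h7 : C.Pr (e + b • e') z := by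
          simpa using (h.comb (a := 1) (b := b) (c := 0) (d := 1) (s := 1) 0 0 (by simp)
            one_ne_zero).p13
        rw [H.orth h7.ne (fun hm => ?_) (H.mem h7) h6, mul_zero]
        obtain ⟨c, hc⟩ := Submodule.mem_span_singleton.1 hm
        exact r1 (sub_eq_zero.1 (h.i (c + b * β) (c * b) (b - 1)
          (by linear_combination (norm := module) hc)).2.2)
      · rw [h3 t h4, if_neg ht]
  · have h5 : C.Tr e e' (z + β • e) := by
      simpa using h.comb (a := 1) (b := 0) (c := 0) (d := 1) (s := 1) β 0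
    rw [zero_smul, add_zero, H.orth h.p23.ne (fun hm => ?_) (H.mem h.p23) (H.mem h5.p23), mul_zero]
    obtain ⟨c, hc⟩ := Submodule.mem_span_singleton.1 hm
    exact hβ (h.i β c 0 (by linear_combination (norm := module) hc)).1
  · have h4 : C.Tr e' (e' + t • e) z := by
      simpa [add_comm] using h.comb (a := 0) (b := 1) (c := t) (d := 1) (s := 1) 0 0
        (by simpa using ht)
    have h5 : ∀ β : F, C.ψ (-β) * ⟪v e' z, v (e' + t • e) (z + β • e)⟫_ℂ =
        C.ψ (-1 * β) * ⟪v e z, v e' z⟫_ℂ := fun β => by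
      rw [show z + β • e = z + (-β / t) • e' + (β / t) • (e' + t • e) by
        match_scalars <;> field_simp <;> ring, H.shift h h4]
      simp [neg_div]
    simp only [h5, ← Finset.sum_mul, sum_psi]
    simp

end H22.OC
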