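import Cfsg.Agent.H22.OmC

/-!
Representations of `Ω` with one-dimensional singular weight spaces: vectors attached to
singular points and their linear independence.
-/

set_option autoImplicit false
set_option linter.unusedSectionVars false

namespace H22.OC

open Module H23 H23.Form H22.Ls
open scoped Classical InnerProductSpace ComplexConjugate LinearAlgebra.Projectivization

theorem re_pos {W : Type*} [NormedAddCommGroup W] [InnerProductSpace ℂ W] {a b z : W} {M c : ℝ}
    (ha : ⟪a, a⟫_ℂ = M) (hb : ⟪b, b⟫_ℂ = M) (hz : ⟪z, z⟫_ℂ = M) (h1 : ⟪a, z⟫_ℂ = c * M)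
    (h2 : ⟪b, z⟫_ℂ = c * M) (hM : 0 < M) (hc : 1 < 2 * c ^ 2) : 0 < (⟪a, b⟫_ℂ).re := by
  have h3 := inner_self_nonneg (𝕜 := ℂ) (x := a + b - (2 * c : ℂ) • z)
  have h4 : ⟪z, a⟫_ℂ = c * M := by rw [← inner_conj_symm, h1]; simp
  have h5 : ⟪z, b⟫_ℂ = c * M := by rw [← inner_conj_symm, h2]; simp
  have h6 : (⟪b, a⟫_ℂ).re = (⟪a, b⟫_ℂ).re := by rw [← inner_conj_symm, Complex.conj_re]
  simp only [inner_sub_left, inner_sub_right, inner_add_left, inner_add_right, inner_smul_left,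
    inner_smul_right, ha, hb, hz, h1, h2, h4, h5] at h3
  simp [h6] at h3
  nlinarith

variable {F V : Type*} [Field F] [AddCommGroup V] [Module F V] [FiniteDimensional F V]
  {C : OC F V} [Fintype F] [Fintype V]
  {W : Type*} [NormedAddCommGroup W] [InnerProductSpace ℂ W] [FiniteDimensional ℂ W]
  {ρ : Representation ℂ C.G W}

theorem four_le {r : F} (r0 : r ≠ 0) (r1 : r ^ 2 ≠ 1) : 4 ≤ Fintype.card F := by
  have h1 : r ≠ 1 := fun e => r1 (by simp [e])
  have h2 : r ≠ r⁻¹ := fun e => r1 (by rw [sq]; nth_rw 2 [e]; exact mul_inv_cancel₀ r0)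
  have := Finset.card_le_univ ({0, 1, r, r⁻¹} : Finset F)
  rwa [Finset.card_insert_of_notMem (by simp [r0.symm, r0]), Finset.card_insert_of_notMem
    (by simp [h1.symm, h1]), Finset.card_pair h2] at this

variable (C) in
/-- the vector attached to a singular vector -/
noncomputable def dl (v : V → V → W) (u : V) : W := ∑ e with C.Pr e u, v e u

variable (C) in
/-- singular vectors orthogonal to `e` -/
noncomputable abbrev Z (e : V) : Finset (C.pe e) := Finset.univ.filter fun w => C.Φ.Q w.1 = 0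

variable {v : V → V → W} (H : C.Vv ρ v)
include H

theorem Vv.dl_map (g : C.G) (u : V) : ρ g (C.dl v u) = C.dl v (g.1.1 u) := by
  rw [dl, map_sum]
  refine Finset.sum_equiv g.1.1.toEquiv (fun e => ?_) fun e he => H.map (by simpa using he) g
  simp only [Finset.mem_filter, Finset.mem_univ, true_and]
  exact ⟨fun h => h.map g.1, fun h => by simpa using h.map g.1⁻¹⟩

theorem Vv.dl_ne {u : V} (h1 : C.Φ.Q u = 0) (h0 : u ≠ 0) : C.dl v u ≠ 0 := by
  intro hd
  let y : V → W := fun e => ∑ s : Fˣ, v (s.1 • e) u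
  have hs : ∀ {e u}, C.Pr e u → ∀ s : Fˣ, C.Pr (s.1 • e) u := fun h s => by
    simpa using h.comb (a := s.1) (b := 0) (c := 0) (d := 1)
  have h2 : ∑ e with C.Pr e u, y e = 0 := by
    rw [Finset.sum_comm]
    refine Finset.sum_eq_zero fun s _ => Eq.trans ?_ hd
    refine Finset.sum_equiv (MulAction.toPerm s) (fun e => ?_) fun e _ => rfl
    simp only [Finset.mem_filter, Finset.mem_univ, true_and]
    exact ⟨fun h => hs h s, fun h => by simpa [Units.smul_def, smul_smul] using hs h s⁻¹⟩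
  obtain ⟨r, r0, r1⟩ := H.hr
  have q4 : (4 : ℝ) ≤ Fintype.card F := by exact_mod_cast four_le r0 r1
  have hc : (Fintype.card Fˣ : ℂ) = ((Fintype.card F - 1 : ℝ) : ℂ) := by
    rw [Fintype.card_units, Nat.cast_sub Fintype.card_pos]
    simp
  have h3 : ∀ {e}, C.Pr e u → ⟪y e, y e⟫_ℂ = (Fintype.card F - 1 : ℝ) := fun {e} h => by
    simp only [y, sum_inner, inner_sum]
    rw [← hc, Finset.sum_congr rfl fun s _ => (Finset.sum_eq_single s (fun t _ ht => ?_)
      (by simp)).trans (H.one (hs h s))]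
    · simp
    · have h4 := H.mem (hs h s)
      rw [← Wt_smul (s := t.1 / s.1) (by simp), smul_smul, div_mul_cancel₀ _ s.ne_zero] at h4
      refine H.orth (hs h t).ne (fun hm => ht ?_) (H.mem (hs h t)) h4
      obtain ⟨c, hc⟩ := Submodule.mem_span_singleton.1 hm
      have := (h.i (c * t) (t / s - 1) (by linear_combination (norm := module) hc)).2
      exact Units.ext ((div_eq_one_iff_eq s.ne_zero).1 (sub_eq_zero.1 this))
  have h4 : ∀ {e z}, C.Tr e z u → ⟪y e, y z⟫_ℂ =
      ((Fintype.card F - 1) / Fintype.card F : ℝ) * (Fintype.card F - 1 : ℝ) := fun {e z} h => by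
    have : ∀ s t : Fˣ, ⟪v (s.1 • e) u, v (t.1 • z) u⟫_ℂ = (Fintype.card F : ℂ)⁻¹ := fun s t =>
      H.inner_tr (by simpa using h.comb (a := s.1) (b := 0) (c := 0) (d := t.1) (s := 1) 0 0)
    simp only [y, sum_inner, inner_sum, this, Finset.sum_const, Finset.card_univ, nsmul_eq_mul, hc]
    push_cast
    ring
  have h5 : 0 < (⟪∑ e with C.Pr e u, y e, ∑ e with C.Pr e u, y e⟫_ℂ).re := by
    obtain ⟨z, hz, -⟩ := nbr0 H.h7 h1 h1 h0 h0
    have hne : (Finset.univ.filter fun e => C.Pr e u).Nonempty := ⟨z, by simpa using hz.symm⟩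
    simp only [sum_inner, inner_sum, Complex.re_sum]
    refine Finset.sum_pos (fun e he => Finset.sum_pos (fun e' he' => ?_) hne) hne
    simp only [Finset.mem_filter, Finset.mem_univ, true_and] at he he'
    obtain ⟨z, z1, z2⟩ := he'.nbr H.h7 he
    refine re_pos (h3 he') (h3 he) (h3 z1.p23) (h4 z1) (h4 z2) (by linarith) ?_
    rw [div_pow, ← mul_div_assoc, one_lt_div (by positivity)]
    nlinarith
  simp [h2] at h5

omit H in
theorem sum_Z {e u : V} (h1 : C.Φ.Q u = 0) (h2 : C.Φ.B e u = 0) :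
    (Fintype.card F : ℂ) * ∑ w ∈ C.Z e, C.ψ (C.Φ.B u w) =
      Fintype.card F * (C.Z e).card -
        Fintype.card (C.pe e) + ∑ w : C.pe e, C.ψ (C.Φ.B u w) := by
  have key : ∀ u, C.Φ.Q u = 0 → C.Φ.B e u = 0 →
      (Fintype.card F : ℂ) * ∑ w ∈ C.Z e, C.ψ (C.Φ.B u w) =
      ∑ w : C.pe e, C.ψ (C.Φ.B u w) + ∑ t ∈ Finset.univ.erase (0 : F), ∑ w : C.pe e,
        C.ψ (C.Φ.Q w * t) := fun u h1 h2 => by
    have h3 : ∑ t : F, ∑ w : C.pe e, C.ψ (C.Φ.Q w * t) * C.ψ (C.Φ.B u w) =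
        (Fintype.card F : ℂ) * ∑ w ∈ C.Z e, C.ψ (C.Φ.B u w) := by
      rw [Finset.sum_comm, Finset.sum_filter, Finset.mul_sum]
      simp [← Finset.sum_mul, sum_psi]
    rw [← h3, ← Finset.add_sum_erase _ _ (Finset.mem_univ 0)]
    simp only [mul_zero, AddChar.map_zero_eq_one, one_mul, add_right_inj]
    refine Finset.sum_congr rfl fun t ht => Fintype.sum_equiv (Equiv.addRight
      ⟨t⁻¹ • u, C.Φ.mem_perp_span_singleton.2 (by simp [h2])⟩) _ _ fun w => ?_
    simp [psi_mul, C.Qadd, C.Φ.Q_smul, h1, C.comm u, add_mul, mul_comm t⁻¹,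
      (Finset.mem_erase.1 ht).1]
  have := key 0 (by simp) (by simp)
  simp only [map_zero, LinearMap.zero_apply, AddChar.map_zero_eq_one, Finset.sum_const,
    Finset.card_univ, nsmul_eq_mul, mul_one] at this
  rw [key u h1 h2, this]
  ring

theorem Vv.psd {e : V} (he : C.Φ.Q e = 0)
    (hZ : Fintype.card (C.pe e) ≤
      Fintype.card F * (C.Z e).card) (x : W) :
    0 ≤ (∑ w ∈ C.Z e, ⟪x, ρ (C.S e w) x⟫_ℂ).re := by
  by_cases e0 : e = 0
  · refine Complex.re_sum _ _ ▸ Finset.sum_nonneg fun w _ => ?_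
    rw [show C.S e w = 1 from Subtype.ext (O_ext _ fun z => by
      rw [C.S_apply he (C.pe_B w)]
      simp [e0])]
    simpa using inner_self_nonneg (𝕜 := ℂ) (x := x)
  have h1 : (Fintype.card F : ℂ) • ∑ w ∈ C.Z e, ρ (C.S e w) =
      ((Fintype.card F * (C.Z e).card -
        Fintype.card (C.pe e) : ℝ) : ℂ) • 1 + ∑ w : C.pe e, ρ (C.S e w) := by
    refine ext1 (ρ := ρ) (fun u hu x hx => ?_) he
    by_cases h2 : C.Φ.Q u = 0
    · simp only [LinearMap.smul_apply, LinearMap.add_apply, LinearMap.sum_apply, End.one_apply,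
        mem_Wt.1 hx _ (C.pe_B _), ← Finset.sum_smul, smul_smul, sum_Z h2 hu, add_smul]
      simp
    · rw [H.ns e u he e0 hu h2] at hx
      simp [(Submodule.mem_bot ℂ).1 hx]
  have h2 : 0 ≤ (⟪x, ∑ w : C.pe e, ρ (C.S e w) x⟫_ℂ).re := by
    have h3 : ∀ w : C.pe e, ⟪ρ (C.S e w) x, ∑ w : C.pe e, ρ (C.S e w) x⟫_ℂ =
        ⟪x, ∑ w : C.pe e, ρ (C.S e w) x⟫_ℂ := fun w => by
      rw [← H.inv (C.S e w) x]
      congr 1
      simp only [map_sum, rep_mul, ← C.S_add e (C.pe_B _) (C.pe_B _)]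
      exact (Fintype.sum_equiv (Equiv.addLeft w) _ _ fun c => rfl).symm
    have h4 := inner_self_nonneg (𝕜 := ℂ) (x := ∑ w : C.pe e, ρ (C.S e w) x)
    rw [sum_inner] at h4
    simp only [h3, Finset.sum_const, Finset.card_univ, nsmul_eq_mul, RCLike.re_to_complex,
      Complex.mul_re, Complex.natCast_re, Complex.natCast_im, zero_mul, sub_zero] at h4
    exact nonneg_of_mul_nonneg_right h4 (by exact_mod_cast Fintype.card_pos) |> fun h => by
      nlinarith [h4, (Nat.cast_pos.2 Fintype.card_pos : (0 : ℝ) < Fintype.card (C.pe e))]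
  have h3 := congrArg (fun T => (⟪x, T x⟫_ℂ).re) h1
  simp only [LinearMap.smul_apply, LinearMap.add_apply, LinearMap.sum_apply, End.one_apply,
    inner_add_right, inner_smul_right, Complex.add_re, Complex.mul_re, Complex.natCast_re,
    Complex.natCast_im, Complex.ofReal_re, Complex.ofReal_im, zero_mul, sub_zero] at h3
  rw [← inner_sum]
  have h4 : 0 ≤ (⟪x, x⟫_ℂ).re := inner_self_nonneg (𝕜 := ℂ)
  have h5 : (Fintype.card (C.pe e) : ℝ) ≤ _ := Nat.cast_le.2 hZ
  push_cast at h5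
  exact nonneg_of_mul_nonneg_right (h3 ▸ add_nonneg (mul_nonneg (sub_nonneg.2 h5) h4) h2)
    (by exact_mod_cast Fintype.card_pos) |> fun h => h

omit H in
theorem card_Z (h7 : 7 ≤ finrank F V) (hN : Fintype.card F ^ (finrank F V - 1) ≤ C.N 0) {e f : V}
    (h : Hyp C.Φ e f) : Fintype.card (C.pe e) = Fintype.card F * Fintype.card F ^ (finrank F V - 2) ∧
    Fintype.card F ^ (finrank F V - 2) ≤ (C.Z e).card := by
  obtain ⟨m, hm⟩ : ∃ m, finrank F V = m + 2 := ⟨finrank F V - 2, by omega⟩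
  have h1 := ncard_Q_eq_not_perp' C.hΦ C.hκ (U := ⊤) h trivial trivial 0
  rw [finrank_top] at h1
  rw [hm] at h1 hN ⊢
  refine ⟨?_, ?_⟩
  · rw [← Nat.card_eq_fintype_card, card_submodule, C.hΦ.finrank_perp,
      finrank_span_singleton h.left_ne, hm, ← pow_succ']
    rfl
  · have h2 : C.N 0 ≤ (C.Z e).card +
        {v | v ∈ (⊤ : Submodule F V) ∧ C.Φ.Q v = 0 ∧ C.Φ.B e v ≠ 0}.ncard := by
      rw [← Finset.card_map (Function.Embedding.subtype _), ← Set.ncard_coe_finset]
      refine le_trans (Set.ncard_le_ncard fun x hx => ?_) (Set.ncard_union_le _ _)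
      by_cases h3 : C.Φ.B e x = 0
      · exact .inl (by simpa [h3, C.Φ.mem_perp_span_singleton] using hx)
      · exact .inr ⟨trivial, hx, h3⟩
    obtain ⟨k, hk⟩ : ∃ k, Fintype.card F = k + 1 := ⟨_, (Nat.succ_pred Fintype.card_ne_zero).symm⟩
    rw [h1, hk] at h2
    simp only [hk, Nat.add_sub_cancel, show m + 2 - 1 = m + 1 from rfl, pow_succ] at h2 hN ⊢
    nlinarith

theorem Vv.li (hN : Fintype.card F ^ (finrank F V - 1) ≤ C.N 0) {E : Submodule F V}
    (hE : C.Φ.TotSing E) (hn : finrank F E + 3 ≤ finrank F V) :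
    LinearIndependent ℂ fun p : ℙ F E => C.dl v p.rep.1 := by
  have := Fintype.ofFinite (ℙ F E)
  obtain ⟨e, z, hz⟩ := exists_pr (C := C) H.h7
  obtain ⟨f, -, f1, -⟩ := hz.frame
  have hN1 : ∀ x, C.Φ.Q x = 0 → x ≠ 0 → ⟪C.dl v x, C.dl v x⟫_ℂ = ⟪C.dl v e, C.dl v e⟫_ℂ :=
    fun x x1 x0 => by
      obtain ⟨g, hg, rfl⟩ := exists_omega_one C.hΦ C.hκ (by have := H.h7; omega) hz.ne x0
        (hz.l.trans x1.symm)
      rw [← H.dl_map ⟨g, hg⟩, H.inv]
  have ha : ∀ x y, C.Pr x y → ⟪C.dl v x, C.dl v y⟫_ℂ = ⟪C.dl v e, C.dl v z⟫_ℂ := fun x y h => by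
    obtain ⟨g, rfl, rfl⟩ := hz.trans h
    rw [← H.dl_map, ← H.dl_map, H.inv]
  have hpos : 0 < (⟪C.dl v e, C.dl v e⟫_ℂ).re :=
    re_inner_self_pos (𝕜 := ℂ) |>.2 (H.dl_ne hz.l hz.ne)
  generalize ⟪C.dl v e, C.dl v e⟫_ℂ = N at *
  generalize ⟪C.dl v e, C.dl v z⟫_ℂ = a at *
  have h1 : N - a ≠ 0 := fun e1 => H.dl_ne hz.l hz.ne (H.nofix _ fun g => by
    have key : ∀ x y, C.Pr x y → C.dl v x = C.dl v y := fun x y h => by
      rw [← sub_eq_zero, ← inner_self_eq_zero (𝕜 := ℂ), inner_sub_left, inner_sub_right,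
        inner_sub_right, hN1 x h.l h.ne, hN1 y h.r h.symm.ne, ha x y h, ha y x h.symm]
      linear_combination 2 * e1
    obtain ⟨y, y1, y2⟩ := nbr0 H.h7 hz.l (hz.map g.1).l hz.ne (hz.map g.1).ne
    rw [H.dl_map, key _ _ y1, key _ _ y2])
  have h2 : N - a + Fintype.card (ℙ F E) * a ≠ 0 := fun e1 => by
    obtain ⟨c1, c2⟩ := card_Z H.h7 hN f1
    have h3 := H.psd hz.l (c1 ▸ Nat.mul_le_mul_left _ c2) (C.dl v f)
    have h4 : ∀ w : C.pe e, C.Φ.Q w = 0 → ⟪C.dl v f, ρ (C.S e w) (C.dl v f)⟫_ℂ =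
        a + if w.1 ∈ F ∙ e then N - a else 0 := fun w hw => by
      rw [H.dl_map]
      split_ifs with h5
      · obtain ⟨t, ht⟩ := Submodule.mem_span_singleton.1 h5
        rw [← ht, S_self, add_sub_cancel]
        exact hN1 f f1.right.2 f1.right_ne
      · rw [add_zero]
        refine ha _ _ (pr_of f1.right.2 (by rw [O_Q, f1.right.2]) ?_ f1.right_ne fun h6 => h5 ?_)
        · simp [C.S_apply hz.l (C.pe_B w), hw, f1.one, f1.right.1, C.comm f]
        · obtain ⟨t, ht⟩ := Submodule.mem_span_singleton.1 h6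
          have h7 := congrArg (C.Φ.B e) ht
          simp only [C.S_apply hz.l (C.pe_B w), hw, f1.one] at ht h7
          simp [f1.one, f1.left.1, C.pe_B w] at h7
          exact Submodule.mem_span_singleton.2 ⟨C.Φ.B w f, by
            linear_combination (norm := module) -ht + h7 • f⟩
    rw [Finset.sum_congr rfl fun w hw => h4 w (by simpa using hw), Finset.sum_add_distrib,
      ← Finset.sum_filter, Finset.sum_const, Finset.sum_const] at h3
    have h5 := Finset.card_le_card_of_injOn (s := (C.Z e).filter fun w => w.1 ∈ F ∙ e) (t := Finset.univ) (fun w => C.Φ.B w f)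
      (fun _ _ => by simp) fun w hw w' hw' e2 => by
        simp only [Finset.coe_filter, Set.mem_ofPred_eq, Submodule.mem_span_singleton] at hw hw'
        obtain ⟨-, t, ht⟩ := hw
        obtain ⟨-, t', ht'⟩ := hw'
        simp only [← ht, ← ht', B_smul_left, f1.one, RingHom.id_apply, mul_one] at e2
        exact Subtype.ext (by rw [← ht, ← ht', e2])
    have h6 : Fintype.card F * Fintype.card (ℙ F E) < Fintype.card F ^ (finrank F V - 2) := by
      have h7 := Projectivization.card' F E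
      rw [card_submodule, Nat.card_eq_fintype_card, Nat.card_eq_fintype_card] at h7
      have h8 : 1 < Fintype.card F := Fintype.one_lt_card
      refine lt_of_lt_of_le ?_ (Nat.pow_le_pow_right h8.le (show finrank F E + 1 ≤ _ by omega))
      rw [pow_succ', h7]
      exact Nat.mul_lt_mul_of_pos_left (Nat.lt_succ_of_le (Nat.le_mul_of_pos_right _ (by omega)))
        (by omega)
    have h7 := congrArg Complex.re e1
    have h8 : (_ : ℝ) < _ := Nat.cast_lt.2 (((Nat.mul_le_mul_right _ h5).trans_lt h6).trans_le c2)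
    have h9 : (1 : ℝ) ≤ Fintype.card (ℙ F E) := by
      refine Nat.one_le_cast.2 (Nat.pos_of_ne_zero fun e2 => h1 ?_)
      simpa [e2] using e1
    simp only [nsmul_eq_mul, Complex.add_re, Complex.mul_re, Complex.natCast_re, Complex.sub_re,
      Complex.natCast_im, zero_mul, sub_zero, Complex.zero_re, Nat.cast_mul] at h3 h7 h8
    have h10 : a.re < 0 := by nlinarith
    rw [show N.re - a.re = -(Fintype.card (ℙ F E) * a.re) by linarith] at h3
    nlinarith
  refine Fintype.linearIndependent_iff.2 fun g hg => ?_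
  have h3 : ∀ i, (N - a) * g i + a * ∑ j, g j = 0 := fun i => by
    have h4 := congrArg (fun x => ⟪C.dl v i.rep.1, x⟫_ℂ) hg
    have h5 : ∀ j : ℙ F E, ⟪C.dl v i.rep.1, C.dl v j.rep.1⟫_ℂ = a + if j = i then N - a else 0 := by
      intro j
      have h0 : i.rep.1 ≠ 0 := by simpa using i.rep_nonzero
      split_ifs with h6
      · rw [h6, hN1 _ (hE.2 _ i.rep.2) h0, add_sub_cancel]
      · rw [add_zero]
        refine ha _ _ (pr_of (hE.2 _ i.rep.2) (hE.2 _ j.rep.2) (hE.1 _ i.rep.2 _ j.rep.2) h0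
          fun hm => h6 ?_)
        obtain ⟨t, ht⟩ := Submodule.mem_span_singleton.1 hm
        rw [← j.mk_rep, ← i.mk_rep, Projectivization.mk_eq_mk_iff']
        exact ⟨t, Subtype.ext ht⟩
    simp only [inner_sum, inner_smul_right, h5, mul_add, Finset.sum_add_distrib, ← Finset.sum_mul,
      inner_zero_right, mul_ite, mul_zero, Finset.sum_ite_eq', Finset.mem_univ, if_true] at h4
    linear_combination h4
  have h4 : ∑ j, g j = 0 := by
    have := Finset.sum_eq_zero (s := Finset.univ) fun i _ => h3 i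
    rw [Finset.sum_add_distrib, ← Finset.mul_sum, Finset.sum_const, nsmul_eq_mul, ← mul_assoc,
      ← add_mul] at this
    exact (mul_eq_zero.1 this).resolve_left h2
  exact fun i => by simpa [h4, h1] using h3 i

end H22.OC
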