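import Cfsg.Agent.H22.OmD

/-!
Lower bound for the degrees of complex representations of `Ω`: the final count.
-/

set_option autoImplicit false
set_option linter.unusedSectionVars false

namespace H22.OC

open Module H23 H23.Form H22.Ls
open scoped Classical InnerProductSpace ComplexConjugate LinearAlgebra.Projectivization

theorem exists_core {G W : Type*} [Group G] [Finite G] [AddCommGroup W] [Module ℂ W]
    [FiniteDimensional ℂ W] (ρ : Representation ℂ G W) : ∃ c : InnerProductSpace.Core ℂ W,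
    ∀ g x y, c.inner (ρ g x) (ρ g y) = c.inner x y := by
  have := Fintype.ofFinite G
  let B := Module.finBasis ℂ W
  let b : W →ₗ⋆[ℂ] W →ₗ[ℂ] ℂ := LinearMap.mk₂'ₛₗ _ _
    (fun x y => ∑ g : G, ∑ i, starRingEnd ℂ (B.repr (ρ g x) i) * B.repr (ρ g y) i)
    (by intros; simp [add_mul, Finset.sum_add_distrib])
    (by intros; simp [Finset.mul_sum, mul_assoc])
    (by intros; simp [mul_add, Finset.sum_add_distrib])
    (by intros; simp [Finset.mul_sum, mul_left_comm])
  have hb0 : ∀ x y, b x y =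
    ∑ g : G, ∑ i, starRingEnd ℂ (B.repr (ρ g x) i) * B.repr (ρ g y) i := fun _ _ => rfl
  have hb : ∀ g x y, b (ρ g x) (ρ g y) = b x y := by
    intro g x y
    simp only [hb0, rep_mul]
    exact Fintype.sum_equiv (Equiv.mulRight g) _ _ fun _ => rfl
  have hre : ∀ x, b x x = ((∑ g : G, ∑ i, Complex.normSq (B.repr (ρ g x) i) : ℝ) : ℂ) := by
    intro x
    simp [hb0, Complex.normSq_eq_conj_mul_self]
  let c : InnerProductSpace.Core ℂ W :=
    { inner := fun x y => b x y
      conj_inner_symm := by intro x y; simp [hb0, mul_comm]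
      re_inner_nonneg := by
        intro x
        rw [hre, RCLike.re_to_complex, Complex.ofReal_re]
        exact Finset.sum_nonneg fun _ _ => Finset.sum_nonneg fun _ _ => Complex.normSq_nonneg _
      add_left := by intros; simp
      smul_left := by intros; simp
      definite := by
        intro x hx
        rw [hre, Complex.ofReal_eq_zero, Finset.sum_eq_zero_iff_of_nonneg
          fun _ _ => Finset.sum_nonneg fun _ _ => Complex.normSq_nonneg _] at hx
        have h1 := hx 1 (Finset.mem_univ _)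
        rw [Finset.sum_eq_zero_iff_of_nonneg fun _ _ => Complex.normSq_nonneg _] at h1
        exact B.ext_elem fun i => by simpa using h1 i (Finset.mem_univ _) }
  exact ⟨c, hb⟩

section Wedge

variable {F E : Type*} [Field F] [AddCommGroup E] [Module F E]

/-- the alternating form of two functionals -/
def wedge (p : Dual F E × Dual F E) : E →ₗ[F] Dual F E := p.2.smulRight p.1 - p.1.smulRight p.2

theorem wedge_apply (p : Dual F E × Dual F E) (a b : E) :
    wedge p a b = p.2 a * p.1 b - p.1 a * p.2 b := by simp [wedge]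

theorem exists_eval {θ : Dual F E} (h : θ ≠ 0) : ∃ a, θ a = 1 := by
  obtain ⟨a, ha⟩ : ∃ a, θ a ≠ 0 := by
    by_contra! hc
    exact h (LinearMap.ext hc)
  exact ⟨(θ a)⁻¹ • a, by simp [ha]⟩

theorem exists_eval2 {θ φ : Dual F E} (h : θ ≠ 0) (h' : φ ∉ F ∙ θ) : ∃ e, φ e = 1 ∧ θ e = 0 := by
  obtain ⟨a, ha⟩ := exists_eval h
  by_contra! hc
  refine h' (Submodule.mem_span_singleton.2 ⟨φ a, LinearMap.ext fun x => by_contra fun hx => ?_⟩)
  have h1 : φ x - θ x * φ a ≠ 0 := fun e => hx (by simp [← sub_eq_zero.1 e, mul_comm])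
  exact hc ((φ x - θ x * φ a)⁻¹ • (x - θ x • a)) (by simp [h1]) (by simp [ha])

theorem card_wedge [Fintype F] [DecidableEq (E →ₗ[F] Dual F E)] (s : Finset (Dual F E × Dual F E))
    (hs : ∀ p ∈ s, p.1 ≠ 0 ∧ p.2 ∉ F ∙ p.1) :
    s.card ≤ (Fintype.card F ^ 2 - 1) * Fintype.card F * (s.image wedge).card := by
  refine Finset.card_le_mul_card_image s _ fun H hH => ?_
  obtain ⟨p, hp, rfl⟩ := Finset.mem_image.1 hH
  choose! a ha using fun (θ : Dual F E) (h : θ ≠ 0) => exists_eval h
  let Y := (Finset.univ.image fun c : F × F => c.1 • p.1 + c.2 • p.2).erase 0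
  have hY : Y.card ≤ Fintype.card F ^ 2 - 1 := by
    rw [Finset.card_erase_of_mem (Finset.mem_image.2 ⟨0, by simp, by simp⟩)]
    exact Nat.sub_le_sub_right (Finset.card_image_le.trans (by simp [sq])) 1
  refine le_trans (Finset.card_le_card_of_injOn (t := Y ×ˢ Finset.univ)
    (fun x => (x.1, x.2 (a x.1))) (fun x hx => ?_) fun x hx y hy e => ?_) (by
      rw [Finset.card_product]; exact Nat.mul_le_mul_right _ hY)
  · simp only [Finset.coe_filter, Set.mem_ofPred_eq] at hx
    obtain ⟨e, e1, e2⟩ := exists_eval2 (hs x hx.1).1 (hs x hx.1).2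
    simp only [Finset.coe_product, Finset.coe_univ, Set.mem_prod, Set.mem_univ, and_true,
      Finset.mem_coe, Y, Finset.mem_erase, Finset.mem_image, Finset.mem_univ, true_and]
    refine ⟨(hs x hx.1).1, (p.2 e, -p.1 e), LinearMap.ext fun b => ?_⟩
    have := congrArg (fun H => H e b) hx.2
    simp only [wedge_apply, e1, e2] at this
    simp only [LinearMap.add_apply, LinearMap.smul_apply, smul_eq_mul]
    linear_combination -this
  · simp only [Finset.coe_filter, Set.mem_ofPred_eq] at hx hy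
    obtain ⟨e1, e2⟩ := Prod.ext_iff.1 e
    simp only at e1 e2
    refine Prod.ext e1 (LinearMap.ext fun b => ?_)
    have := congrArg (fun H => H b (a x.1)) (hx.2.trans hy.2.symm)
    rw [← e1] at e2
    simpa [wedge_apply, ← e1, e2, ha _ (hs x hx.1).1] using this

end Wedge

variable {F V : Type*} [Field F] [AddCommGroup V] [Module F V] [FiniteDimensional F V]
  {C : OC F V} [Fintype F] [Fintype V]
  {W : Type*} [NormedAddCommGroup W] [InnerProductSpace ℂ W] [FiniteDimensional ℂ W]
  {ρ : Representation ℂ C.G W} {v : V → V → W} (H : C.Vv ρ v)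
include H

theorem Vv.exists_x {E : Submodule F V} (hE : C.Φ.TotSing E) {θ φ : Dual F E} {e a0 : E}
    (h1 : φ e = 1) (h2 : θ e = 0) (h3 : θ a0 = 1) {u : V} (hu : C.Φ.Q u = 0)
    (hθ : ∀ a : E, C.Φ.B u a = θ a) : ∃ x, x ≠ 0 ∧
      (∀ a b : E, ρ (C.S a b) x = C.ψ (wedge (θ, φ) a b) • x) ∧
      ∀ w ∈ C.Φ.perp E, ρ (C.S e w) x = C.ψ (C.Φ.B u w) • x := by
  have hB : ∀ a b : E, C.Φ.B a b = 0 := fun a b => hE.1 _ a.2 _ b.2
  have hQ : ∀ a : E, C.Φ.Q a = 0 := fun a => hE.2 _ a.2
  have e0 : e.1 ≠ 0 := fun h => by simp [show e = 0 from Subtype.ext h] at h1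
  have hp : ∀ y : LinearMap.ker θ, C.Pr e (u + y.1.1) := fun y => pr_of (hQ e)
    (by simpa [C.Qadd, hu, hQ, hθ] using y.2) (by simp [hB, C.comm e u, hθ, h2]) e0 fun hm => by
      obtain ⟨t, ht⟩ := Submodule.mem_span_singleton.1 hm
      simpa [hB, hθ, h3] using congrArg (fun x => C.Φ.B x a0) ht
  refine ⟨∑ y : LinearMap.ker θ, C.ψ (-φ y) • v e (u + y.1.1), fun h0 => ?_, fun a b => ?_,
    fun w hw => ?_⟩
  · have h4 := congrArg (fun x => ⟪v e u, x⟫_ℂ) h0
    have h5 : C.Pr e u := by simpa using hp 0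
    have h6 : ∀ y : LinearMap.ker θ, C.ψ (-φ y) * ⟪v e u, v e (u + y.1.1)⟫_ℂ =
        if y.1.1 ∈ F ∙ e.1 then 1 else 0 := fun y => by
      split_ifs with h7
      · obtain ⟨t, ht⟩ := Submodule.mem_span_singleton.1 h7
        rw [← ht, H.add h5, inner_smul_right, H.one h5, mul_one, psi_mul,
          show y.1 = t • e from Subtype.ext ht.symm]
        simp [h1]
      · rw [H.orth e0 (by simpa using h7) (H.mem h5) (H.mem (hp y)), mul_zero]
    simp only [inner_sum, inner_smul_right, h6, Finset.sum_boole, inner_zero_right,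
      Nat.cast_eq_zero, Finset.card_eq_zero, Finset.filter_eq_empty_iff] at h4
    exact h4 (Finset.mem_univ 0) (by simp)
  · simp only [map_sum, map_smul, H.map (hp _), C.S_apply (hQ a) (hB a b), Finset.smul_sum,
      smul_smul, psi_mul]
    refine Fintype.sum_equiv (Equiv.addRight ⟨θ b • a - θ a • b, by simp [mul_comm]⟩) _ _
      fun y => ?_
    simp only [hB, hQ, map_add, C.comm _ u, hθ, Equiv.coe_addRight, Submodule.coe_add, wedge_apply,
      map_sub, map_smul, smul_eq_mul, Submodule.coe_sub, Submodule.coe_smul]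
    congr 2
    · ring
    · simp
    · module
  · have hw' : ∀ a : E, C.Φ.B a w = 0 := fun a => hw a a.2
    simp only [map_sum, map_smul, mem_Wt.1 (H.mem (hp _)) w (hw' e), Finset.smul_sum, map_add,
      LinearMap.add_apply, hw', add_zero, smul_comm (C.ψ (C.Φ.B u w))]

theorem Vv.main (hN : Fintype.card F ^ (finrank F V - 1) ≤ C.N 0) {E D : Submodule F V}
    (hE : C.Φ.TotSing E) (hn : finrank F E + 3 ≤ finrank F V) (hD : D ≤ C.Φ.perp E)
    (hD' : ∀ d ∈ D, (∀ w ∈ D, C.Φ.B d w = 0) → d = 0) :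
    (Fintype.card F ^ finrank F E - 1) * (Fintype.card F ^ finrank F E - Fintype.card F) *
      Fintype.card F ^ finrank F D + (Fintype.card F ^ finrank F E - 1) *
      ((Fintype.card F + 1) * Fintype.card F) ≤
      (Fintype.card F ^ 2 - 1) * Fintype.card F * finrank ℂ W := by
  have := Fintype.ofFinite (ℙ F E)
  have := finite_of_fd F (Dual F E)
  have := Fintype.ofFinite (Dual F E)
  let s : Finset (Dual F E × Dual F E) := {p | p.1 ≠ 0 ∧ p.2 ∉ F ∙ p.1}
  have hs : ∀ p ∈ s, p.1 ≠ 0 ∧ p.2 ∉ F ∙ p.1 := fun p hp => by simpa [s] using hp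
  have h1 := card_wedge s hs
  have h2 : s.card = (Fintype.card F ^ finrank F E - 1) *
      (Fintype.card F ^ finrank F E - Fintype.card F) := by
    rw [← Subspace.dual_finrank_eq, ← ncard_pairs, Set.ncard_eq_toFinset_card']
    simp [s]
  let T : E × E → End ℂ W := fun i => ρ (C.S i.1 i.2)
  let χ : (E →ₗ[F] Dual F E) → E × E → ℂ := fun M i => C.ψ (M i.1 i.2)
  have h3 := sum_eig_le T χ (insert 0 (s.image wedge)) fun M _ M' _ e =>
    LinearMap.ext fun a => LinearMap.ext fun b => shift_inj C.hψ fun t => by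
      simpa [χ, mul_comm t] using congrFun e (a, t • b)
  rw [Finset.sum_insert fun h0 => ?_] at h3
  · have h4 : Fintype.card (ℙ F E) ≤ finrank ℂ (eig T (χ 0)) :=
      card_le_of_li (H.li hN hE hn) fun p i => by
        simp only [T, χ, H.dl_map, LinearMap.zero_apply, AddChar.map_zero_eq_one, one_smul]
        exact congrArg _ (sg_apply_of_perp _ _ (hE.1 _ i.1.2 _ p.rep.2) (hE.1 _ i.2.2 _ p.rep.2))
    have h5 : (s.image wedge).card * Fintype.card F ^ finrank F D ≤
        ∑ M ∈ s.image wedge, finrank ℂ (eig T (χ M)) := by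
      rw [← smul_eq_mul, ← Finset.sum_const]
      refine Finset.sum_le_sum fun M hM => ?_
      obtain ⟨⟨θ, φ⟩, hp, rfl⟩ := Finset.mem_image.1 hM
      obtain ⟨e, e1, e2⟩ := exists_eval2 (hs _ hp).1 (hs _ hp).2
      obtain ⟨a, ha⟩ := exists_eval (hs _ hp).1
      obtain ⟨θ', h6⟩ := LinearMap.exists_extend θ
      obtain ⟨u, hu⟩ := C.hΦ.exists_repr θ'
      have h7 : ∀ b : E, C.Φ.B u b = θ b := fun b => by rw [hu, ← h6]; rfl
      have h8 : ∀ (d : D) (b : E), C.Φ.B b d = 0 := fun d b => hD d.2 b b.2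
      choose x x0 x1 x2 using fun d : D => H.exists_x hE e1 e2 ha
        (u := u + d + (-C.Φ.Q (u + d)) • a.1) (by
          rw [C.Qadd, C.Φ.Q_smul, hE.2 _ a.2]
          simp [h7, C.comm d.1, h8, show θ a = 1 from ha])
        fun b => by simp [h7, C.comm d.1, h8, hE.1 _ a.2 _ b.2]
      rw [← card_submodule, Nat.card_eq_fintype_card]
      refine card_le_of_li (li_of_eig (fun w : D => ρ (C.S e w))
        (χ := fun (d : D) w => C.ψ (C.Φ.B (u + d + (-C.Φ.Q (u + d)) • a.1) w)) (fun d d' h9 => ?_)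
        (fun d w => x2 d w (hD w.2)) x0) fun d i => x1 d i.1 i.2
      refine Subtype.ext (sub_eq_zero.1 (hD' _ (sub_mem d.2 d'.2) fun w hw => ?_))
      have := shift_inj C.hψ (a := C.Φ.B u w + C.Φ.B d w) (b := C.Φ.B u w + C.Φ.B d' w) fun t => by
        simpa [h8 ⟨w, hw⟩, mul_comm t, add_mul] using congrFun h9 (t • ⟨w, hw⟩)
      simpa [sub_eq_zero] using this
    have h6 := Projectivization.card F E
    rw [card_submodule, Nat.card_eq_fintype_card, Nat.card_eq_fintype_card] at h6
    have h7 : Fintype.card F ^ 2 - 1 = (Fintype.card F + 1) * (Fintype.card F - 1) := by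
      simpa using Nat.sq_sub_sq (Fintype.card F) 1
    rw [← h2, h6]
    refine le_trans ?_ (Nat.mul_le_mul_left _ ((add_le_add h4 h5).trans h3))
    rw [mul_add, add_comm, ← mul_assoc _ (Finset.card _)]
    exact add_le_add (le_of_eq (by rw [h7]; ring)) (Nat.mul_le_mul_right _ h1)
  · obtain ⟨p, hp, h0⟩ := Finset.mem_image.1 h0
    obtain ⟨e, e1, e2⟩ := exists_eval2 (hs _ hp).1 (hs _ hp).2
    obtain ⟨a, ha⟩ := exists_eval (hs _ hp).1
    simpa [wedge_apply, e1, e2, ha] using congrArg (fun M => M e a) h0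

omit H in
theorem omega_bound {W : Type*} [AddCommGroup W] [Module ℂ W] [FiniteDimensional ℂ W]
    {ρ : Representation ℂ C.G W} (hρ : ρ.IsIrreducible) (h2 : 2 ≤ finrank ℂ W)
    (h7 : 7 ≤ finrank F V) (hq : 3 < Fintype.card F)
    (hN : Fintype.card F ^ (finrank F V - 1) ≤ C.N 0) {E D : Submodule F V}
    (hE : C.Φ.TotSing E) (hn : finrank F E + 3 ≤ finrank F V) (hD : D ≤ C.Φ.perp E)
    (hD' : ∀ d ∈ D, (∀ w ∈ D, C.Φ.B d w = 0) → d = 0) :
    2 * ((Fintype.card F - 1) * Fintype.card F ^ (finrank F V - 4)) ≤ finrank ℂ W ∨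
    (Fintype.card F ^ finrank F E - 1) * (Fintype.card F ^ finrank F E - Fintype.card F) *
      Fintype.card F ^ finrank F D + (Fintype.card F ^ finrank F E - 1) *
      ((Fintype.card F + 1) * Fintype.card F) ≤
      (Fintype.card F ^ 2 - 1) * Fintype.card F * finrank ℂ W := by
  have : Finite C.G := Finite.of_injective (fun g : C.G => (g.1.1 : V → V)) fun _ _ e =>
    Subtype.ext (O_ext _ (congrFun e))
  obtain ⟨c, hb⟩ := exists_core ρ
  letI : NormedAddCommGroup W := c.toNormedAddCommGroup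
  letI : InnerProductSpace ℂ W := InnerProductSpace.ofCore c.toCore
  obtain ⟨r, hr⟩ : ∃ r : F, r ∉ ({0, 1, -1} : Finset F) := by
    by_contra! hc
    have := (Finset.card_le_card fun x _ => hc x : Finset.univ.card ≤ _).trans Finset.card_le_three
    rw [Finset.card_univ] at this
    omega
  simp only [Finset.mem_insert, Finset.mem_singleton, not_or] at hr
  have r1 : r ^ 2 ≠ 1 := by simpa [sq_eq_one_iff, not_or] using hr.2
  refine (red (ρ := ρ) h7 hr.1 r1 (not_forall.1 (ne_one_of_irr hρ h2))).imp id fun h => ?_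
  obtain ⟨v, hv⟩ := Hy.exists_v (ρ := ρ) ⟨h7, ⟨r, hr.1, r1⟩, hb, h.1, h.2, fun x hx => by
    rcases ((H17.isIrreducible_iff ρ).1 hρ).2 (ℂ ∙ x) (fun g y hy => by
      obtain ⟨t, rfl⟩ := Submodule.mem_span_singleton.1 hy
      simpa [hx] using hy) with e | e
    · simpa using e
    · have := finrank_span_le_card (R := ℂ) ({x} : Set W)
      rw [e, finrank_top] at this
      simp at this
      omega⟩
  exact hv.main hN hE hn hD hD'

end H22.OC
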