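import Cfsg.Agent.H22.OmE

/-!
Representations of `Ω` of non-maximal Witt index: stabilisers of weight vectors.
-/

set_option autoImplicit false
set_option linter.unusedSectionVars false

namespace H22.OC

open Module H23 H23.Form H22.Ls
open scoped Classical InnerProductSpace ComplexConjugate

variable {F V : Type*} [Field F] [AddCommGroup V] [Module F V] [FiniteDimensional F V]
  {C : OC F V} [Fintype F] [Fintype V]

variable (C) in
/-- small Witt index -/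
def Wi : Prop := ∀ T, C.Φ.TotSing T → 2 * finrank F T + 2 ≤ finrank F V

theorem Wi.exists_ns (hW : C.Wi) {T : Submodule F V} (hT : C.Φ.TotSing T) :
    ∃ a ∈ C.Φ.perp T, C.Φ.Q a ≠ 0 :=
  exists_Q_ne_zero_of_finrank C.hκ C.hΦ (by
    have := hW T hT
    have := Submodule.finrank_mono (inf_le_left (a := T) (b := C.Φ.perp T))
    omega)

theorem ts_four {a b c d : V} (h1 : C.Φ.Q a = 0) (h2 : C.Φ.Q b = 0) (h3 : C.Φ.Q c = 0)
    (h4 : C.Φ.Q d = 0) (ab : C.Φ.B a b = 0) (ac : C.Φ.B a c = 0) (ad : C.Φ.B a d = 0)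
    (bc : C.Φ.B b c = 0) (bd : C.Φ.B b d = 0) (cd : C.Φ.B c d = 0) :
    C.Φ.TotSing (Submodule.span F {a, b, c, d}) :=
  totSing_span (by simp [C.self, *, C.comm b a, C.comm c a, C.comm d a, C.comm c b, C.comm d b,
    C.comm d c]) (by simp [*])

theorem Wi.four (hW : C.Wi) {a b c d : V} (h1 : C.Φ.Q a = 0) (h2 : C.Φ.Q b = 0) (h3 : C.Φ.Q c = 0)
    (h4 : C.Φ.Q d = 0) (ab : C.Φ.B a b = 0) (ac : C.Φ.B a c = 0) (ad : C.Φ.B a d = 0)
    (bc : C.Φ.B b c = 0) (bd : C.Φ.B b d = 0) (cd : C.Φ.B c d = 0) :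
    ∃ z, C.Φ.Q z ≠ 0 ∧ C.Φ.B a z = 0 ∧ C.Φ.B b z = 0 ∧ C.Φ.B c z = 0 ∧ C.Φ.B d z = 0 := by
  obtain ⟨z, hz, h⟩ := hW.exists_ns (ts_four h1 h2 h3 h4 ab ac ad bc bd cd)
  exact ⟨z, h, mem_perp_four.1 hz⟩

theorem exists_sing_notMem {T Y : Submodule F V} (h : finrank F T + 3 ≤ finrank F Y) :
    ∃ z ∈ Y, C.Φ.Q z = 0 ∧ z ∉ T := by
  obtain ⟨T', hT⟩ := T.exists_isCompl
  obtain ⟨z, hz, h1, h2⟩ := H23.Nd.exists_sing C.hκ (D := Y ⊓ T') (by
    have h1 := Submodule.finrank_sup_add_finrank_inf_eq Y T'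
    have h2 := Submodule.finrank_add_eq_of_isCompl hT
    have h3 := Submodule.finrank_le (Y ⊔ T')
    omega)
  exact ⟨z, hz.1, h1, fun hm => h2 (Submodule.disjoint_def.1 hT.disjoint z hm hz.2)⟩

theorem exists_notMem_two {U A B : Submodule F V} (hA : ¬ U ≤ A) (hB : ¬ U ≤ B) :
    ∃ z ∈ U, z ∉ A ∧ z ∉ B := by
  obtain ⟨x, x1, x2⟩ := SetLike.not_le_iff_exists.1 hA
  obtain ⟨y, y1, y2⟩ := SetLike.not_le_iff_exists.1 hB
  by_cases h1 : x ∈ B
  · by_cases h2 : y ∈ A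
    · exact ⟨x + y, add_mem x1 y1, fun h => x2 (by simpa using sub_mem h h2),
        fun h => y2 (by simpa using sub_mem h h1)⟩
    · exact ⟨y, y1, h2, y2⟩
  · exact ⟨x, x1, x2, h1⟩

theorem Wi.exists_b (hW : C.Wi) {T : Submodule F V} (hT : C.Φ.TotSing T) {a : V}
    (ha : a ∈ C.Φ.perp T) (a0 : C.Φ.Q a ≠ 0) :
    ∃ b ∈ C.Φ.perp T, C.Φ.Q b = C.Φ.Q a ∧ a ∉ T ⊔ F ∙ b := by
  have a1 : a ≠ 0 := fun e => a0 (by simp [e])
  have h1 := Submodule.finrank_add_le_finrank_add_finrank T (F ∙ a)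
  rw [finrank_span_singleton a1] at h1
  have h2 := hW T hT
  by_cases h : 2 * finrank F T + 4 ≤ finrank F V
  · obtain ⟨z, z1, z2, z3⟩ := exists_sing_notMem (C := C) (T := T) (Y := C.Φ.perp (T ⊔ F ∙ a)) (by
      rw [C.hΦ.finrank_perp]
      omega)
    rw [perp_sup, Submodule.mem_inf, mem_perp_span_singleton] at z1
    refine ⟨a + z, add_mem ha z1.1, by simp [C.Qadd, z1.2, z2], fun hm => ?_⟩
    obtain ⟨t, ht, _, h3, h4⟩ := Submodule.mem_sup.1 hm
    obtain ⟨s, rfl⟩ := Submodule.mem_span_singleton.1 h3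
    have h5 : C.Φ.Q ((1 - s) • a) = 0 := by
      rw [show (1 - s) • a = t + s • z by linear_combination (norm := module) -h4]
      simp [C.Qadd, C.Φ.Q_smul, hT.2 t ht, z2, z1.1 t ht]
    obtain rfl : 1 = s := by simpa [C.Φ.Q_smul, a0, sub_eq_zero] using h5
    exact z3 (by rw [show z = -t by linear_combination (norm := module) h4]; exact neg_mem ht)
  · obtain ⟨c, c1, c2, c3⟩ := exists_notMem_two (U := C.Φ.perp T) (A := C.Φ.perp (F ∙ a))
      (B := T ⊔ F ∙ a) (fun hle => a0 (hT.2 a (by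
        have := C.Φ.perp_anti hle
        rw [C.hΦ.perp_perp, C.hΦ.perp_perp] at this
        exact this (Submodule.mem_span_singleton_self a)))) (fun hle => by
        have := Submodule.finrank_mono hle
        rw [C.hΦ.finrank_perp] at this
        omega)
    rw [mem_perp_span_singleton] at c2
    have c0 : C.Φ.Q c ≠ 0 := fun hc => by
      have h3 := hW _ (hT.sup (totSing_span_singleton (by simp [C.self, hc]) hc)
        ((Submodule.span_singleton_le_iff_mem _ _).2 c1))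
      rw [Submodule.finrank_sup_span_singleton fun hm => c3 (Submodule.mem_sup_left hm)] at h3
      omega
    refine ⟨(refl C.hκ c).1 a, ?_, O_Q _ _ _, fun hm => ?_⟩
    · rw [refl_apply]
      exact sub_mem ha (Submodule.smul_mem _ _ c1)
    · obtain ⟨t, ht, _, h3, h4⟩ := Submodule.mem_sup.1 hm
      obtain ⟨s, rfl⟩ := Submodule.mem_span_singleton.1 h3
      rw [refl_apply] at h4
      by_cases hs : s = 0
      · exact a0 (hT.2 a (by rw [hs, zero_smul, add_zero] at h4; exact h4 ▸ ht))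
      · have h5 : s * ((C.Φ.Q c)⁻¹ * C.Φ.B c a) ≠ 0 := by simp [hs, c0, C.comm c, c2]
        refine c3 ((Submodule.smul_mem_iff _ h5).1 ?_)
        rw [show (s * ((C.Φ.Q c)⁻¹ * C.Φ.B c a)) • c = t + (s - 1) • a by
          linear_combination (norm := module) -h4]
        exact Submodule.add_mem_sup ht (Submodule.smul_mem _ _ (Submodule.mem_span_singleton_self a))

theorem Pr.gen' (h7 : 7 ≤ finrank F V) {e u : V} (h : C.Pr e u) (hW : C.Wi)
    (H : Subgroup C.Φ.O) (hH : ∀ x w, C.Φ.Q x = 0 → C.Φ.B x w = 0 → C.Φ.B e x = 0 → C.Φ.B u x = 0 →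
      C.Φ.B e w = 0 → C.Φ.B u w = 0 → C.s x w ∈ H) {g : C.Φ.O} (hg : g ∈ C.G) (he : g.1 e = e)
    (hu : g.1 u = u) : g ∈ H := by
  obtain ⟨f, u', f1, g1, f3, g2, g3⟩ := h.frame
  have a1 := exists_sg_map C.hΦ C.hκ h.l (y := g.1 f) (y' := f) (by rw [O_Q, f1.right.2])
    f1.right.2 (by rw [← he, O_B, f1.one]) f1.one
  have a2 : C.Φ.B u (g.1 f - f) = 0 := by
    rw [map_sub, C.comm u f, f3, ← hu, O_B, C.comm, f3, sub_zero]
  have m1 := hH e _ h.l a1.1 (by simp [C.self, h.l]) h.symm.b a1.1 a2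
  refine (H.mul_mem_cancel_left m1).1 ?_
  have hg' := mul_mem (C.s_mem e (g.1 f - f)) hg
  have he' : (C.s e (g.1 f - f) * g).1 e = e := by rw [O_mul_apply, he, C.s_apply_self h.l a1.1]
  have hu' : (C.s e (g.1 f - f) * g).1 u = u := by
    rw [O_mul_apply, hu, sg_apply_of_perp _ _ h.b (by rw [C.comm, a2])]
  have hf' : (C.s e (g.1 f - f) * g).1 f = f := a1.2
  generalize C.s e (g.1 f - f) * g = g at *
  have b1 := exists_sg_map C.hΦ C.hκ h.r (y := g.1 u') (y' := u') (by rw [O_Q, g1.right.2])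
    g1.right.2 (by rw [← hu', O_B, g1.one]) g1.one
  have b2 : C.Φ.B e (g.1 u' - u') = 0 := by
    rw [map_sub, C.comm e u', g2, ← he', O_B, C.comm, g2, sub_zero]
  have b3 : C.Φ.B f (g.1 u' - u') = 0 := by
    rw [map_sub, C.comm f u', g3, ← hf', O_B, C.comm, g3, sub_zero]
  have m2 := hH u _ h.r b1.1 h.b (by simp [C.self, h.r]) b2 b1.1
  refine (H.mul_mem_cancel_left m2).1 ?_
  have hg'' := mul_mem (C.s_mem u (g.1 u' - u')) hg'
  have c1 : (C.s u (g.1 u' - u') * g).1 e = e := by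
    rw [O_mul_apply, he', sg_apply_of_perp _ _ h.symm.b (by rw [C.comm, b2])]
  have c2 : (C.s u (g.1 u' - u') * g).1 u = u := by rw [O_mul_apply, hu', C.s_apply_self h.r b1.1]
  have c3 : (C.s u (g.1 u' - u') * g).1 f = f := by
    rw [O_mul_apply, hf', sg_apply_of_perp _ _ (by rw [C.comm, f3]) (by rw [C.comm, b3])]
  have c4 : (C.s u (g.1 u' - u') * g).1 u' = u' := b1.2
  generalize C.s u (g.1 u' - u') * g = g at *
  have hd : Disjoint (Submodule.span F {e, f, u, u'}) (C.Φ.perp (Submodule.span F {e, f, u, u'})) := by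
    rw [Submodule.disjoint_def]
    intro x hx hx'
    simp only [Submodule.mem_span_insert, Submodule.mem_span_singleton] at hx
    obtain ⟨a, _, ⟨b, _, ⟨c, _, ⟨d, rfl⟩, rfl⟩, rfl⟩, rfl⟩ := hx
    simp [mem_perp_four, C.self, h.l, h.r, h.b, h.symm.b, f1.one, g1.one, f1.right.2, g1.right.2, f3,
      g2, g3, C.comm e u', C.comm f e, C.comm f u', C.comm u f, C.comm u' u] at hx'
    simp [hx']
  have hU := C.hΦ.isCompl_perp hd
  have hn := C.hΦ.nondeg_restrict_perp hd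
  have h3 : 3 ≤ finrank F (C.Φ.perp (Submodule.span F {e, f, u, u'})) := by
    have := finrank_span_four_le (F := F) e f u u'
    rw [C.hΦ.finrank_perp]
    omega
  obtain ⟨k, rfl⟩ := (mem_range_extendPerp hU (g := g)).2 fun x hx => by
    simp only [Submodule.mem_span_insert, Submodule.mem_span_singleton] at hx
    obtain ⟨a, _, ⟨b, _, ⟨c, _, ⟨d, rfl⟩, rfl⟩, rfl⟩, rfl⟩ := hx
    simp [c1, c2, c3, c4]
  have hκ' : (C.Φ.restrict (C.Φ.perp (Submodule.span F {e, f, u, u'}))).κ = 1 := C.hκ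
  have hgen := genHyp_of C.hΦ C.hκ (.inr (by omega))
  have hgen' : GenHyp (C.Φ.restrict (C.Φ.perp (Submodule.span F {e, f, u, u'}))) := by
    intro x y hx hy hxy _ _
    have x1 := mem_perp_four.1 x.2
    have y1 := mem_perp_four.1 y.2
    obtain ⟨a, ha, a0, a1, a2, a3⟩ := hW.four (c := x.1) (d := y.1) h.l h.r hx hy h.b x1.1 y1.1 x1.2.2.1 y1.2.2.1 hxy
    have hQ : C.Φ.Q (a - (C.Φ.B f a • e + C.Φ.B u' a • u)) = C.Φ.Q a := by
      simp [C.Qsub, C.Qadd, C.Φ.Q_smul, h.l, h.r, h.b, C.comm a, a0, a1]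
    refine ⟨⟨a - (C.Φ.B f a • e + C.Φ.B u' a • u), mem_perp_four.2 (by
      simp [a0, a1, C.self, h.l, h.r, h.b, h.symm.b, f3, g2, C.comm f e, f1.one, C.comm u' u,
        g1.one])⟩, ?_, hQ ▸ ha, ?_⟩
    · change C.Φ.B x (a - _) = 0
      simp [a2, C.comm x.1 e, C.comm x.1 u, x1.1, x1.2.2.1]
    · change C.Φ.Q (y + (a - _)) ≠ 0
      rw [C.Qadd, hQ, show C.Φ.Q y = 0 from hy]
      simpa [a3, C.comm y.1 e, C.comm y.1 u, y1.1, y1.2.2.1] using ha
  have h4 := mem_omega_iff_of_hom C.hΦ C.hκ hn hκ' hgen hgen' (extendPerp hU) (fun w _ =>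
    ⟨w, rfl, O_ext _ fun x => by
      obtain ⟨y, z, rfl⟩ := exists_add_perp hU x
      rw [extendPerp_apply, refl_apply, refl_apply, map_add, C.Φ.B_eq_zero_symm (w.2 y y.2),
        zero_add, add_sub_assoc]
      rfl⟩) k
  have h5 := (mem_omega_iff C.hΦ C.hκ hgen).1 hg''
  have h6 := (mem_omega_iff hn hκ' hgen').2 ⟨h4.1 ▸ h5.1, h4.2 ▸ h5.2⟩
  rw [commutator_eq_eichGrp hn hκ' hgen' (exists_sing_of_three_le hn hκ' h3) h3] at h6
  refine (Subgroup.closure_le (H.comap (extendPerp hU))).2 (fun k hk => ?_) h6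
  obtain ⟨x, w, hx, hw, rfl⟩ := (mem_eichSet_iff hn hκ').1 hk
  have x1 := mem_perp_four.1 x.2
  have w1 := mem_perp_four.1 w.2
  change extendPerp hU _ ∈ H
  convert hH x w hx hw x1.1 x1.2.2.1 w1.1 w1.2.2.1
  refine O_ext _ fun y => ?_
  obtain ⟨y, z, rfl⟩ := exists_add_perp hU y
  rw [extendPerp_apply, sieg_apply, sg_apply C.hΦ C.hκ (c := x.1) (u := w.1) hx hw, map_add, map_add,
    C.Φ.B_eq_zero_symm (w.2 y y.2), C.Φ.B_eq_zero_symm (x.2 y y.2), zero_add, zero_add,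
    add_assoc y.1, add_sub_assoc y.1]
  rfl

variable {W : Type*} [NormedAddCommGroup W] [InnerProductSpace ℂ W] [FiniteDimensional ℂ W]
  {ρ : Representation ℂ C.G W}

theorem exists_smul1 {U : Submodule ℂ W} (h : finrank ℂ U = 1) {x y : W} (hx : x ∈ U)
    (hy : y ∈ U) (x0 : x ≠ 0) : ∃ c : ℂ, y = c • x := by
  obtain ⟨c, hc⟩ := (finrank_eq_one_iff_of_nonzero' (⟨x, hx⟩ : U) (by simpa using x0)).1 h ⟨y, hy⟩
  exact ⟨c, (congrArg Subtype.val hc).symm⟩

theorem comm1 {e u : V} (h : finrank ℂ (C.Wt ρ e u) = 1) {t k : C.G}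
    (te : t.1.1 e = e) (tu : t.1.1 u = u) (ke : k.1.1 e = e) (ku : k.1.1 u = u) {x : W}
    (hx : x ∈ C.Wt ρ e u) : ρ (t * k * t⁻¹) x = ρ k x := by
  by_cases x0 : x = 0
  · simp [x0]
  obtain ⟨c, hc⟩ := exists_smul1 h hx (y := ρ t x) (by simpa [te, tu] using Wt_conj hx t) x0
  obtain ⟨d, hd⟩ := exists_smul1 h hx (y := ρ k x) (by simpa [ke, ku] using Wt_conj hx k) x0
  have c0 : c ≠ 0 := fun e => x0 (rep_inj (ρ := ρ) t (by simp [hc, e]))
  refine smul_right_injective W c0 ?_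
  simp only
  rw [← map_smul, ← hc, rep_mul, inv_mul_cancel_right, ← rep_mul, hd, map_smul, hc, smul_comm]

theorem S_fix {c w x : V} (h1 : C.Φ.B x c = 0) (h2 : C.Φ.B x w = 0) : (C.S c w).1.1 x = x :=
  sg_apply_of_perp _ _ (by rw [C.comm, h1]) (by rw [C.comm, h2])

theorem Wi.fix_S (hW : C.Wi) {e u : V} (h : C.Pr e u) (H : finrank ℂ (C.Wt ρ e u) = 1)
    {x w : V} (h1 : C.Φ.Q x = 0) (h2 : C.Φ.B x w = 0) (h3 : C.Φ.B e x = 0) (h4 : C.Φ.B u x = 0)
    (h5 : C.Φ.B e w = 0) (h6 : C.Φ.B u w = 0) {v : W} (hv : v ∈ C.Wt ρ e u) :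
    ρ (C.S x w) v = v := by
  have hT := ts_four h.l h.r h1 h1 h.b h3 h3 h4 h4 (by simp [C.self, h1])
  have key : ∀ a, C.Φ.Q a ≠ 0 → C.Φ.B e a = 0 → C.Φ.B u a = 0 → C.Φ.B x a = 0 →
      ρ (C.S x a) v = v := fun a a0 a1 a2 a3 => by
    obtain ⟨b, b1, b2, b3⟩ := hW.exists_b hT (mem_perp_four.2 ⟨a1, a2, a3, a3⟩) a0
    obtain ⟨y, y1, y2⟩ := C.hΦ.exists_perp_eq_one b3
    rw [← mem_perp', perp_sup, Submodule.mem_inf, mem_perp_span_singleton, mem_perp_four] at y1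
    rw [mem_perp_four] at b1
    let k : C.G := ⟨_, refl_mul_refl_mem_commutator C.hΦ C.hκ (t := 1) a0 (by rw [b2]; simp)⟩
    have hk : ∀ z, C.Φ.B z a = 0 → C.Φ.B z b = 0 → k.1.1 z = z := fun z z1 z2 => by
      simp only [k, O_mul_apply]
      rw [refl_apply_of_perp (v := b) _ (by rw [C.comm, z2]),
        refl_apply_of_perp _ (by rw [C.comm, z1])]
    have h7 := comm1 H (hk e a1 b1.1) (hk u a2 b1.2.1) (k := C.S x (-C.Φ.Q a • y))
      (S_fix h3 (by simp [y1.1.1])) (S_fix h4 (by simp [y1.1.2.1])) hv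
    have h8 : k.1.1 (-C.Φ.Q a • y) = -C.Φ.Q a • y + a := by
      simp only [k, O_mul_apply]
      rw [refl_apply_of_perp (v := b) _ (by simp [y1.2]), refl_apply, map_smul, C.comm a, y2,
        smul_eq_mul]
      match_scalars <;> field_simp
    rw [S_conj, hk x a3 b1.2.2.1, h8, C.S_add x (by simp [y1.1.2.2.1]) a3, ← rep_mul] at h7
    exact rep_inj _ h7
  by_cases hw : C.Φ.Q w = 0
  · obtain ⟨a, a0, a1, a2, a3, a4⟩ := hW.four h.l h.r h1 hw h.b h3 h5 h4 h6 h2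
    have := key (w + a) (by simpa [C.Qadd, hw, a4] using a0) (by simp [h5, a1]) (by simp [h6, a2])
      (by simp [h2, a3])
    rwa [C.S_add x h2 a3, ← rep_mul, key a a0 a1 a2 a3] at this
  · exact key w hw h5 h6 h2

theorem Wi.fix (hW : C.Wi) (h7 : 7 ≤ finrank F V) {e u : V} (h : C.Pr e u)
    (H : finrank ℂ (C.Wt ρ e u) = 1) {g : C.G} (he : g.1.1 e = e)
    (hu : g.1.1 u = u) {v : W} (hv : v ∈ C.Wt ρ e u) : ρ g v = v := by
  let K : Subgroup C.G :=
    { carrier := {k | ρ k v = v}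
      one_mem' := by simp
      mul_mem' := fun {a b} ha hb => by
        change ρ (a * b) v = v
        rw [← rep_mul, hb, ha]
      inv_mem' := fun {a} ha => rep_inj a (by rw [rep_mul, mul_inv_cancel, ha]; simp) }
  obtain ⟨k, hk, e1⟩ := h.gen' h7 hW (K.map C.G.subtype)
    (fun x w h1 h2 h3 h4 h5 h6 => ⟨C.S x w, hW.fix_S h H h1 h2 h3 h4 h5 h6 hv, rfl⟩) g.2 he hu
  exact Subtype.ext e1 ▸ hk

theorem fix_ns (h10 : 10 ≤ finrank F V) {e u : V} (he : C.Φ.Q e = 0) (hu : C.Φ.Q u ≠ 0)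
    (H : finrank ℂ (C.Wt ρ e u) = 1) {b c : V} (h1 : C.Φ.Q b = 0) (h2 : C.Φ.Q c = 0)
    (h3 : C.Φ.B b c = 0) (h4 : C.Φ.B e b = 0) (h5 : C.Φ.B u b = 0) (h6 : C.Φ.B e c = 0)
    (h7 : C.Φ.B u c = 0) (h8 : C.Φ.B e u = 0) {v : W} (hv : v ∈ C.Wt ρ e u) :
    ρ (C.S b c) v = v := by
  obtain ⟨a, a1, a2, a3⟩ := exists_sing_notMem (C := C) (T := Submodule.span F {e, b, c})
    (Y := C.Φ.perp (Submodule.span F {e, b, c, u})) (by
      have := finrank_span_triple_le (F := F) e b c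
      have := finrank_span_four_le (F := F) e b c u
      rw [C.hΦ.finrank_perp]
      omega)
  rw [mem_perp_four] at a1
  obtain ⟨w, w1, w2⟩ := C.hΦ.exists_perp_eq_one (W := Submodule.span F {e, b, c, u}) (x := a)
    fun hm => by
      simp only [Submodule.mem_span_insert, Submodule.mem_span_singleton] at hm
      obtain ⟨p, _, ⟨q, _, ⟨r, _, ⟨s, rfl⟩, rfl⟩, rfl⟩, rfl⟩ := hm
      have : s = 0 := by
        simpa [C.Qadd, C.Φ.Q_smul, he, h1, h2, h3, h4, h6, h8, C.comm b u, C.comm c u, h5, h7, hu]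
          using a2
      exact a3 (Submodule.mem_span_triple.2 ⟨p, q, r, by simp [this, add_assoc]⟩)
  rw [← mem_perp', mem_perp_four] at w1
  have h9 := comm1 H (t := C.S c w) (S_fix h6 w1.1) (S_fix h7 w1.2.2.2) (k := C.S b a)
    (S_fix h4 a1.1) (S_fix h5 a1.2.2.2) hv
  rw [S_conj, S_fix h3 w1.2.1, C.S_apply' h2 w1.2.2.1 a1.2.2.1, C.comm a, w2, one_smul,
    C.S_add b a1.2.1 h3, ← rep_mul] at h9
  exact rep_inj _ h9

end H22.OC
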