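import Cfsg.Agent.H22.OmF

/-!
Representations of `Ω` with one-dimensional singular weight spaces, arbitrary field: vectors
attached to the points of a totally singular subspace.
-/

set_option autoImplicit false
set_option linter.unusedSectionVars false

namespace H22.OC

open Module H23 H23.Form H22.Ls
open scoped Classical InnerProductSpace ComplexConjugate LinearAlgebra.Projectivization

variable {F V : Type*} [Field F] [AddCommGroup V] [Module F V] [FiniteDimensional F V]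
  {C : OC F V} [Fintype F] [Fintype V]
  {W : Type*} [NormedAddCommGroup W] [InnerProductSpace ℂ W] [FiniteDimensional ℂ W]
  {ρ : Representation ℂ C.G W}

variable (C ρ) in
/-- the standing hypotheses -/
structure Hz : Prop where
  h7 : 7 ≤ finrank F V
  inv : ∀ g x y, ⟪ρ g x, ρ g y⟫_ℂ = ⟪x, y⟫_ℂ
  m1 : C.M1 ρ
  fix : ∀ {e u : V}, C.Pr e u → ∀ {g : C.G}, g.1.1 e = e → g.1.1 u = u → ∀ {v : W},
    v ∈ C.Wt ρ e u → ρ g v = v

variable (C ρ) in
/-- equivariant unit weight vectors -/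
structure Vw (v : V → V → W) : Prop extends C.Hz ρ where
  mem : ∀ {e u}, C.Pr e u → v e u ∈ C.Wt ρ e u
  one : ∀ {e u}, C.Pr e u → ⟪v e u, v e u⟫_ℂ = 1
  map : ∀ {e u}, C.Pr e u → ∀ g, ρ g (v e u) = v (g.1.1 e) (g.1.1 u)

theorem Hz.exists_v (H : C.Hz ρ) : ∃ v, C.Vw ρ v := by
  obtain ⟨e0, u0, h0⟩ := exists_pr (C := C) H.h7
  obtain ⟨x, hx, x0⟩ := Submodule.exists_mem_ne_zero_of_ne_bot (p := C.Wt ρ e0 u0)
    (Submodule.one_le_finrank_iff.1 (H.m1 e0 u0 h0).ge)
  have hy := Submodule.smul_mem _ ((‖x‖ : ℂ)⁻¹) hx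
  have y1 : ⟪(‖x‖ : ℂ)⁻¹ • x, (‖x‖ : ℂ)⁻¹ • x⟫_ℂ = 1 := by
    rw [inner_self_eq_norm_sq_to_K, norm_smul]
    simp [x0]
  generalize (‖x‖ : ℂ)⁻¹ • x = y at hy y1
  choose! g g1 g2 using fun e u (h : C.Pr e u) => h0.trans h
  refine ⟨fun e u => ρ (g e u) y, H, fun {e u} h => ?_, fun h => by rw [H.inv, y1],
    fun {e u} h k => ?_⟩
  · simpa [g1 e u h, g2 e u h] using Wt_conj hy (g e u)
  · have h1 := h.map k.1
    refine rep_inj (ρ := ρ) (g (k.1.1 e) (k.1.1 u))⁻¹ ?_
    rw [rep_mul, rep_mul, rep_mul, inv_mul_cancel, map_one, End.one_apply]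
    refine H.fix h0 ?_ ?_ hy
    all_goals refine (g (k.1.1 e) (k.1.1 u)).1.1.injective ((O_apply_inv_apply _ _ _).trans ?_)
    · exact (congrArg k.1.1 (g1 e u h)).trans (g1 _ _ h1).symm
    · exact (congrArg k.1.1 (g2 e u h)).trans (g2 _ _ h1).symm

theorem Hz.orth (H : C.Hz ρ) {e u u' : V} (h0 : e ≠ 0) (h : u - u' ∉ F ∙ e) {x y : W}
    (hx : x ∈ C.Wt ρ e u) (hy : y ∈ C.Wt ρ e u') : ⟪x, y⟫_ℂ = 0 := by
  obtain ⟨w, hw, h1⟩ := C.exists_sep h0 h
  have := H.inv (C.S e w) x y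
  rw [mem_Wt.1 hx w hw, mem_Wt.1 hy w hw, inner_smul_left, inner_smul_right, ← mul_assoc, psi_conj,
    psi_mul] at this
  refine (mul_left_eq_self₀.1 this).resolve_left fun e1 => h1 ?_
  rw [← mul_one (C.ψ _), ← e1, psi_mul, add_neg_cancel_left]

variable {v : V → V → W} (H : C.Vw ρ v)
include H

theorem Vw.ne {e u : V} (h : C.Pr e u) : v e u ≠ 0 := fun e1 => by simpa [e1] using H.one h

theorem Vw.add {e u : V} (h : C.Pr e u) (β : F) : v e (u + β • e) = C.ψ β • v e u := by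
  obtain ⟨w, w1, w2⟩ := h.exists_B 0 β
  have := H.map h (C.S e w)
  rw [mem_Wt.1 (H.mem h) w w1, C.S_apply' h.l w1 h.b, C.S_apply' h.l w1 (by simp [C.self, h.l]),
    w1, w2] at this
  simpa using this.symm

theorem Vw.smul {e u e' u' : V} (h : C.Pr e u) (h' : C.Pr e' u') {s : F} (hs : s ≠ 0) :
    ⟪v (s • e) (s • u), v (s • e') (s • u')⟫_ℂ = ⟪v e u, v e' u'⟫_ℂ := by
  have h1 : C.Pr (s • e) (s • u) := by
    simpa using h.comb (a := s) (b := 0) (c := 0) (d := s) (by simpa using hs)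
  obtain ⟨c, hc⟩ := H.m1.exists_smul h (H.mem h) (Wt_smul (ρ := ρ) hs e u ▸ H.mem h1) (H.ne h)
  obtain ⟨g, rfl, rfl⟩ := h.trans h'
  have h2 := H.one h1
  rw [hc, inner_smul_left, inner_smul_right, H.one h, mul_one] at h2
  rw [← map_smul, ← map_smul, ← H.map h1, hc, map_smul, H.map h, inner_smul_left, inner_smul_right,
    ← mul_assoc, h2, one_mul]

theorem Vw.tr {e e' z a a' b : V} (h : C.Tr e e' z) (h' : C.Tr a a' b) :
    ⟪v e z, v e' z⟫_ℂ = ⟪v a b, v a' b⟫_ℂ := by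
  obtain ⟨g, s, hs, g1, g2, g3⟩ := h.trans H.h7 h'
  rw [← H.inv g, H.map h.p13, H.map h.p23, g1, g2, g3, H.smul h'.p13 h'.p23 hs]

theorem Vw.shift {e e' z x y w : V} (h : C.Tr e e' z) (h' : C.Tr x y w) (α γ : F) :
    ⟪v x w, v y (w + α • x + γ • y)⟫_ℂ = C.ψ (α + γ) * ⟪v e z, v e' z⟫_ℂ := by
  have h1 : C.Tr x y (w + α • x) := by
    simpa using h'.comb (a := 1) (b := 0) (c := 0) (d := 1) (s := 1) α 0
  rw [H.add h1.p23, H.tr h h1, H.add h'.p13, inner_smul_left, inner_smul_right, ← mul_assoc, psi_conj,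
    psi_mul, add_comm α, add_neg_cancel_right]

theorem Vw.pair {e e' z : V} (h : C.Tr e e' z) (x : W) :
    ∑ t : F, ∑ β : F, C.ψ (-β) * ⟪x, v (e' + t • e) (z + β • e)⟫_ℂ =
      (Fintype.card F : ℂ) ^ 2 * ⟪v e z, v e' z⟫_ℂ * ⟪x, v e z⟫_ℂ := by
  have h1 : ∀ t β : F, C.Tr e (e' + t • e) (z + β • e) := fun t β => by
    simpa [add_comm] using h.comb (a := 1) (b := 0) (c := t) (d := 1) (s := 1) β 0
  let m := ∑ p : F × F, C.ψ (-p.2) • v (e' + p.1 • e) (z + p.2 • e)
  have h2 : ∀ x, ⟪x, m⟫_ℂ = ∑ t : F, ∑ β : F, C.ψ (-β) * ⟪x, v (e' + t • e) (z + β • e)⟫_ℂ :=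
    fun x => by simp only [m, inner_sum, inner_smul_right, Fintype.sum_prod_type]
  obtain ⟨c, hc⟩ := H.m1.exists_smul h.p13 (H.mem h.p13) (y := m) (mem_Wt.2 fun w hw => by
    simp only [m, map_sum, map_smul, H.map (h1 _ _).p23, C.S_apply' h.q1 hw (h1 _ 0).b12,
      C.S_apply' h.q1 hw (h1 0 _).b13, Finset.smul_sum, smul_smul, psi_mul]
    refine Fintype.sum_equiv (Equiv.addRight (C.Φ.B e' w, C.Φ.B z w)) _ _ fun p => ?_
    simp [hw, add_smul, add_assoc]) (H.ne h.p13)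
  have h3 := h2 (v e z)
  rw [hc, inner_smul_right, H.one h.p13, mul_one] at h3
  rw [← h2, hc, inner_smul_right, h3]
  congr 1
  have h4 : ∀ t β : F, C.ψ (-β) * ⟪v e z, v (e' + t • e) (z + β • e)⟫_ℂ = ⟪v e z, v e' z⟫_ℂ :=
    fun t β => by
      have := H.shift h (h1 t 0) β 0
      simp only [zero_smul, add_zero] at this
      rw [this, ← mul_assoc, psi_mul]
      simp
  simp [h4, sq, mul_assoc]

theorem Vw.sq_tr {e e' z : V} (h : C.Tr e e' z) :
    (Fintype.card F : ℂ) ^ 2 * ⟪v e z, v e' z⟫_ℂ * ⟪v e z, v e' z⟫_ℂ = 1 := by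
  have h1 := H.pair h (v e' z)
  rw [← H.tr h h.swap, Finset.sum_eq_single 0 (fun t _ ht => ?_) (by simp),
    Finset.sum_eq_single 0 (fun β _ hβ => ?_) (by simp)] at h1
  · simp only [zero_smul, add_zero, H.one h.p23, neg_zero, AddChar.map_zero_eq_one, mul_one] at h1
    exact h1.symm
  · have h5 : C.Tr e e' (z + β • e) := by
      simpa using h.comb (a := 1) (b := 0) (c := 0) (d := 1) (s := 1) β 0
    rw [zero_smul, add_zero, H.orth h.p23.ne (fun hm => ?_) (H.mem h.p23) (H.mem h5.p23), mul_zero]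
    obtain ⟨c, hc⟩ := Submodule.mem_span_singleton.1 hm
    exact hβ (h.i β c 0 (by linear_combination (norm := module) hc)).1
  · have h4 : C.Tr e' (e' + t • e) z := by
      simpa [add_comm] using h.comb (a := 0) (b := 1) (c := t) (d := 1) (s := 1) 0 0
        (by simpa using ht)
    have h5 : ∀ β : F, C.ψ (-β) * ⟪v e' z, v (e' + t • e) (z + β • e)⟫_ℂ =
        C.ψ (-1 * β) * ⟪v e z, v e' z⟫_ℂ := fun β => by
      rw [show z + β • e = z + (-β / t) • e' + (β / t) • (e' + t • e) by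
        match_scalars <;> field_simp <;> ring, H.shift h h4]
      simp [neg_div]
    simp only [h5, ← Finset.sum_mul, sum_psi]
    simp

theorem Vw.norm_le {e u e' u' : V} (h : C.Pr e u) (h' : C.Pr e' u') :
    ‖⟪v e u, v e' u'⟫_ℂ‖ ≤ 1 := by
  have key : ∀ {e u}, C.Pr e u → ‖v e u‖ = 1 := fun h => by
    have := H.one h
    rw [inner_self_eq_norm_sq_to_K] at this
    exact (sq_eq_sq₀ (norm_nonneg _) zero_le_one).1 (by simpa using congrArg norm this)
  simpa [key h, key h'] using norm_inner_le_norm (𝕜 := ℂ) (v e u) (v e' u')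

theorem Vw.ne_one (h2 : Fintype.card F = 2) {e u : V} (h : C.Pr e u) :
    ⟪v e u, v (e + u) u⟫_ℂ ≠ 1 := fun h1 => by
  have hp : ∀ {a b}, C.Pr a b → C.Pr (a + b) b := fun h => by
    simpa using h.comb (a := 1) (b := 1) (c := 0) (d := 1)
  have key : ∀ {a b}, C.Pr a b → v (a + b) b = v a b := fun {a b} h' => by
    obtain ⟨g, rfl, rfl⟩ := h.trans h'
    rw [← map_add, ← H.map h, ← H.map (hp h)]
    congr 1
    rw [← sub_eq_zero, ← inner_self_eq_zero (𝕜 := ℂ), inner_sub_left, inner_sub_right,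
      inner_sub_right, H.one h, H.one (hp h), h1, ← inner_conj_symm, h1]
    simp
  have h3 : (1 : F) + 1 = 0 := by
    have := FiniteField.cast_card_eq_zero F
    rwa [h2, Nat.cast_ofNat, ← one_add_one_eq_two] at this
  have h4 : ∀ x : V, x + x = 0 := fun x => by rw [← one_smul F x, ← add_smul, h3, zero_smul]
  have h5 : ∀ {a b}, C.Pr a b → v a (b + a) = C.ψ 1 • v a b := fun h => by simpa using H.add h 1
  have h6 : ∀ {a b}, C.Pr a b → v a b = C.ψ 1 • v (a + b) a := fun {a b} h => by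
    rw [← key h, ← h5 (by simpa [add_comm] using hp h.symm), ← add_assoc, h4, zero_add]
  have h7 := h6 h
  rw [h6 (a := e + u) (by simpa [add_comm] using hp h.symm), add_right_comm, h4, zero_add,
    h6 (a := u) (by simpa using h.comb (a := 0) (b := 1) (c := 1) (d := 1)), add_left_comm, h4, add_zero,
    smul_smul, smul_smul, psi_mul, h3, AddChar.map_zero_eq_one, one_mul, eq_comm, ← sub_eq_zero,
    ← one_smul ℂ (v e u), smul_smul, mul_one, ← sub_smul, smul_eq_zero, sub_eq_zero] at h7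
  obtain ⟨a, ha⟩ := C.hψ
  have h8 : a = 1 := by
    have := FiniteField.pow_card_sub_one_eq_one a fun e => ha (by simp [e])
    simpa [h2] using this
  exact ha (h8 ▸ h7.resolve_right (H.ne h))

omit H in
variable (C) in
/-- the vector attached to a point of a totally singular subspace -/
noncomputable def dE (v : V → V → W) (E : Submodule F V) (u : V) : W :=
  ∑ e ∈ Finset.univ.filter fun e : E => C.Pr e u, v e u

theorem Vw.dE_map {E : Submodule F V} {g : C.G} (hg : ∀ x ∈ E, g.1.1 x ∈ E) (u : V) :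
    ρ g (C.dE v E u) = C.dE v E (g.1.1 u) := by
  rw [dE, map_sum]
  refine Finset.sum_bijective (fun x : E => (⟨_, hg x x.2⟩ : E))
    (Finite.injective_iff_bijective.1 fun x y e => Subtype.ext (g.1.1.injective
      (congrArg Subtype.val e))) (fun e => ?_) fun e he => H.map (by simpa using he) g
  simp only [Finset.mem_filter, Finset.mem_univ, true_and]
  exact ⟨fun h => h.map g.1, fun h => by simpa using h.map g.1⁻¹⟩

theorem Vw.kappa {E : Submodule F V} (hE : C.Φ.TotSing E) (h3 : 3 ≤ finrank F E) {e u : V}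
    (he : e ∈ E) (hu : u ∈ E) (h : C.Pr e u) : ⟪v e u, C.dE v E u⟫_ℂ ≠ 0 := by
  intro h0
  let L : Submodule F V := Submodule.span F {e, u}
  have hT : ∀ x ∈ E, x ∉ L → C.Tr e x u := fun x hx hL => tr_of h (hE.2 x hx) (hE.1 e he x hx)
    (hE.1 u hu x hx) fun a b e1 => hL (Submodule.mem_span_pair.2 ⟨a, b, e1.symm⟩)
  obtain ⟨z, z1, z2⟩ : ∃ z ∈ E, z ∉ L := SetLike.not_le_iff_exists.1 fun hle => by
    have := (Submodule.finrank_mono hle).trans (We.SC.span_pair_le e u)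
    omega
  let f : E → ℂ := fun x => if C.Pr x u then ⟪v e u, v x u⟫_ℂ else 0
  let i : F × F → E := fun p => ⟨p.1 • e + p.2 • u, add_mem (E.smul_mem _ he) (E.smul_mem _ hu)⟩
  have hi : Function.Injective i := fun p p' e1 => by
    have := h.i (p.1 - p'.1) (p.2 - p'.2) (by
      linear_combination (norm := module) congrArg Subtype.val e1)
    exact Prod.ext (sub_eq_zero.1 this.1) (sub_eq_zero.1 this.2)
  have h1 : ∑ x : E, (f x - ⟪v e u, v z u⟫_ℂ) = ∑ p, (f (i p) - ⟪v e u, v z u⟫_ℂ) := by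
    refine (Finset.sum_of_injOn i hi.injOn (by simp) (fun x _ hx => ?_) fun _ _ => rfl).symm
    have h2 := hT x x.2 fun hL => by
      obtain ⟨a, b, e1⟩ := Submodule.mem_span_pair.1 hL
      exact hx ⟨(a, b), by simp, Subtype.ext e1⟩
    simp only [f, if_pos h2.p23, H.tr h2 (hT z z1 z2), sub_self]
  have h2 : ∑ x, f x = 0 := by rw [← h0, dE, inner_sum, Finset.sum_filter]
  rw [Finset.sum_sub_distrib, Finset.sum_sub_distrib, h2, Finset.sum_const, Finset.sum_const,
    Finset.card_univ, Finset.card_univ, ← Nat.card_eq_fintype_card, card_submodule,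
    Fintype.card_prod] at h1
  have h4 := congrArg norm (H.sq_tr (hT z z1 z2))
  generalize ⟪v e u, v z u⟫_ℂ = A at h1 h4
  obtain ⟨m, hm⟩ : ∃ m, finrank F E = m + 3 := ⟨finrank F E - 3, by omega⟩
  have q2 : (2 : ℝ) ≤ Fintype.card F := by exact_mod_cast Fintype.one_lt_card
  have h5 : (Fintype.card F : ℝ) * ‖A‖ = 1 := by
    simp only [norm_mul, norm_pow, Complex.norm_natCast, norm_one] at h4
    exact (sq_eq_sq₀ (by positivity) zero_le_one).1 (by linear_combination h4)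
  have h6 : (Fintype.card F : ℝ) ^ 2 - Fintype.card F ≤ ‖∑ p, f (i p)‖ := by
    rw [show ∑ p, f (i p) = -(((Fintype.card F : ℝ) ^ (m + 3) - Fintype.card F ^ 2 : ℝ) * A) by
      simp only [hm, nsmul_eq_mul] at h1
      push_cast at h1 ⊢
      linear_combination -h1, norm_neg, norm_mul, Complex.norm_real, Real.norm_eq_abs]
    have h7 : (1 : ℝ) ≤ Fintype.card F ^ m := one_le_pow₀ (by linarith)
    refine le_trans ?_ (mul_le_mul_of_nonneg_right (le_abs_self _) (norm_nonneg A))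
    rw [show ((Fintype.card F : ℝ) ^ (m + 3) - Fintype.card F ^ 2) * ‖A‖ =
      (Fintype.card F ^ m * Fintype.card F ^ 2 - Fintype.card F) * (Fintype.card F * ‖A‖) by ring, h5]
    nlinarith
  have f0 : ∀ t, f (i (0, t)) = 0 := fun t => if_neg fun hp => by
    simpa using hp.i 1 (-t) (by simp [i])
  have f1 : ∀ s, s ≠ 0 → ∀ t, C.Pr (i (s, t)) u := fun s hs t => by
    simpa using h.comb (a := s) (b := t) (c := 0) (d := 1) (by simpa using hs)
  have f2 : ∀ s, s ≠ 1 → f (i (s, 0)) = 0 := fun s hs => by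
    by_cases s0 : s = 0
    · rw [s0, f0]
    have h7 := H.mem (f1 s s0 0)
    simp only [i, zero_smul, add_zero] at h7
    rw [← smul_inv_smul₀ s0 u, Wt_smul s0] at h7
    simp only [f, if_pos (f1 s s0 0)]
    simp only [i, zero_smul, add_zero]
    refine H.orth h.ne (fun hm => hs ?_) (H.mem h) (by rwa [smul_inv_smul₀ s0] at h7)
    obtain ⟨c, hc⟩ := Submodule.mem_span_singleton.1 hm
    simpa [sub_eq_zero] using (h.i c (s⁻¹ - 1) (by linear_combination (norm := module) hc)).2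
  have f3 : ∀ x, ‖f x‖ ≤ 1 := fun x => by
    simp only [f]
    split_ifs with hx
    exacts [H.norm_le h hx, by simp]
  by_cases q3 : Fintype.card F = 2
  · have h7 : (Finset.univ : Finset F) = {0, 1} :=
      (Finset.eq_univ_of_card _ (by rw [Finset.card_pair zero_ne_one, q3])).symm
    rw [Fintype.sum_prod_type, h7] at h6
    simp only [Finset.sum_pair zero_ne_one, f0, zero_add, q3] at h6
    have h8 := f3 (i (1, 1))
    have h9 : f (i (1, 0)) = 1 := by
      simp only [f, i, one_smul, zero_smul, add_zero, if_pos h, H.one h]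
    have h10 : f (i (1, 1)) ≠ 1 := by
      simp only [f, if_pos (f1 1 one_ne_zero 1)]
      simpa [i] using H.ne_one q3 h
    rw [h9] at h6
    generalize f (i (1, 1)) = c at h6 h8 h10
    norm_num at h6
    have h11 := sq_le_sq' (by linarith [norm_nonneg (1 + c)]) h6
    have h12 := sq_le_sq' (by linarith [norm_nonneg c]) h8
    rw [Complex.sq_norm, Complex.normSq_apply] at h11 h12
    simp only [Complex.add_re, Complex.add_im, Complex.one_re, Complex.one_im] at h11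
    norm_num at h11
    refine h10 (Complex.ext ?_ ?_) <;> simp <;> nlinarith
  · have q4 : (3 : ℝ) ≤ Fintype.card F := by
      have := Fintype.one_lt_card (α := F)
      exact_mod_cast (by omega : 3 ≤ Fintype.card F)
    have h7 : ∀ p : F × F, ‖f (i p)‖ ≤ (if p = (1, 0) then 1 else 0) +
        (if p.1 = 0 then 0 else 1) * (if p.2 = 0 then 0 else 1) := by
      rintro ⟨s, t⟩
      by_cases ht : t = 0
      · by_cases hs : s = 1
        · simpa [hs, ht] using f3 _
        · simp [hs, ht, f2 s hs]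
      · by_cases hs : s = 0
        · simp [hs, f0]
        · simpa [hs, ht] using f3 _
    have h8 := h6.trans ((norm_sum_le _ _).trans (Finset.sum_le_sum fun p _ => h7 p))
    have h9 : ∑ s : F, (if s = 0 then (0 : ℝ) else 1) = Fintype.card F - 1 := by
      simp [Finset.sum_ite, Finset.filter_ne', Nat.cast_sub Fintype.card_pos]
    rw [Finset.sum_add_distrib, Fintype.sum_prod_type' (fun s t : F => (if s = 0 then (0 : ℝ) else 1) *
      (if t = 0 then 0 else 1)), ← Finset.sum_mul_sum, h9] at h8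
    simp at h8
    nlinarith

theorem Vw.li {E : Submodule F V} (hE : C.Φ.TotSing E) (h3 : 3 ≤ finrank F E) (p0 : ℙ F E) :
    LinearIndependent ℂ fun p : {p : ℙ F E // p ≠ p0} =>
      C.dE v E p.1.rep.1 - C.dE v E p0.rep.1 := by
  have := Fintype.ofFinite (ℙ F E)
  have hS : ∀ a ∈ E, ∀ w, C.Φ.B a w = 0 → ∀ x ∈ E, (C.S a w).1.1 x ∈ E := fun a ha w hw x hx => by
    rw [C.S_apply' (hE.2 a ha) hw (hE.1 a ha x hx)]
    exact add_mem hx (E.smul_mem _ ha)
  have h1 : ∀ x ∈ E, ∀ y ∈ E, ∀ z ∈ E, C.Pr x y → z ∉ Submodule.span F {x, y} →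
      ⟪C.dE v E x, C.dE v E y⟫_ℂ = ⟪C.dE v E x, C.dE v E z⟫_ℂ := fun x hx y hy z hz h hL => by
    have h2 := tr_of h (hE.2 z hz) (hE.1 x hx z hz) (hE.1 y hy z hz) fun a b e1 =>
      hL (Submodule.mem_span_pair.2 ⟨a, b, e1.symm⟩)
    obtain ⟨w, hw⟩ := C.hΦ.exists_prescribed' h2.li ![0, 1, 1]
    have w0 : C.Φ.B x w = 0 := hw 0
    have w1 : C.Φ.B z w = 1 := hw 1
    have w2 : C.Φ.B y w = 1 := hw 2
    have h4 := sub_mem hz hy
    have h5 : C.Φ.B (z - y) w = 0 := by simp [w1, w2]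
    rw [← H.inv (C.S (z - y) w), H.dE_map (hS _ h4 w h5), H.dE_map (hS _ h4 w h5),
      C.S_apply' (hE.2 _ h4) h5 (hE.1 _ h4 x hx), C.S_apply' (hE.2 _ h4) h5 (hE.1 _ h4 y hy), w0, w2]
    simp
  have h2 : ∀ x ∈ E, ∀ y ∈ E, ∀ z ∈ E, C.Pr x y → C.Pr x z →
      ⟪C.dE v E x, C.dE v E y⟫_ℂ = ⟪C.dE v E x, C.dE v E z⟫_ℂ := fun x hx y hy z hz h h' => by
    have h4 : ∀ y, ¬ E ≤ Submodule.span F {x, y} := fun y hle => by
      have := (Submodule.finrank_mono hle).trans (We.SC.span_pair_le x y)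
      omega
    obtain ⟨t, t1, t2, t3⟩ := exists_notMem_two (h4 y) (h4 z)
    rw [h1 x hx y hy t t1 h t2, h1 x hx z hz t t1 h' t3]
  have h4 : ∀ x ∈ E, ∀ y ∈ E, C.Pr x y →
      ⟪C.dE v E x, C.dE v E x⟫_ℂ ≠ ⟪C.dE v E x, C.dE v E y⟫_ℂ := fun x hx y hy h e1 => by
    obtain ⟨a, ha⟩ := C.hψ
    have a0 : a ≠ 0 := fun e => ha (by simp [e])
    obtain ⟨w, w1, w2⟩ := h.exists_B a 0
    have h5 := H.dE_map (hS y hy w w2) x
    rw [C.S_apply' h.r w2 h.symm.b, w1] at h5
    have h6 := h2 x hx y hy (x + a • y) (add_mem hx (E.smul_mem _ hy)) h (by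
      simpa using h.comb (a := 1) (b := 0) (c := 1) (d := a) (by simpa using a0))
    rw [← h5, ← e1] at h6
    have h7 : ρ (C.S y w) (C.dE v E x) = C.dE v E x := by
      rw [← sub_eq_zero, ← inner_self_eq_zero (𝕜 := ℂ), inner_sub_left, inner_sub_right,
        inner_sub_right, H.inv, ← h6, ← inner_conj_symm (ρ _ _), ← h6, inner_conj_symm]
      simp
    have h8 := H.inv (C.S y w) (v y x) (C.dE v E x)
    rw [h7, mem_Wt.1 (H.mem h.symm) w w2, w1, inner_smul_left, psi_conj] at h8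
    refine ha ?_
    have h9 := C.psi_mul a (-a)
    rwa [(mul_left_eq_self₀.1 h8).resolve_right (H.kappa hE h3 hy hx h.symm), mul_one,
      add_neg_cancel, AddChar.map_zero_eq_one] at h9
  have h5 : ∀ i j : ℙ F E, j ≠ i → C.Pr i.rep.1 j.rep.1 := fun i j h6 =>
    pr_of (hE.2 _ i.rep.2) (hE.2 _ j.rep.2) (hE.1 _ i.rep.2 _ j.rep.2)
      (by simpa using i.rep_nonzero) fun hm => h6 (by
        obtain ⟨t, ht⟩ := Submodule.mem_span_singleton.1 hm
        rw [← j.mk_rep, ← i.mk_rep, Projectivization.mk_eq_mk_iff']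
        exact ⟨t, Subtype.ext ht⟩)
  refine Fintype.linearIndependent_iff.2 fun g hg i => ?_
  have h6 := congrArg (fun x => ⟪C.dE v E i.1.rep.1, x⟫_ℂ) hg
  simp only [inner_sum, inner_smul_right, inner_sub_right, inner_zero_right] at h6
  rw [Finset.sum_eq_single i (fun j _ hj => ?_) (by simp)] at h6
  · exact (mul_eq_zero.1 h6).resolve_right (sub_ne_zero.2 (h4 _ i.1.rep.2 _ p0.rep.2
      (h5 _ _ i.2.symm)))
  · rw [h2 _ i.1.rep.2 _ j.1.rep.2 _ p0.rep.2 (h5 _ _ (Subtype.val_injective.ne hj))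
      (h5 _ _ i.2.symm), sub_self, mul_zero]

end H22.OC
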