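import Cfsg.Agent.H22.OmG

/-!
Lower bound for the degrees of complex representations of `Ω` of minus type.
-/

set_option autoImplicit false
set_option linter.unusedSectionVars false

namespace H22.OC

open Module H23 H23.Form H22.Ls
open scoped Classical InnerProductSpace ComplexConjugate LinearAlgebra.Projectivization

variable {F V : Type*} [Field F] [AddCommGroup V] [Module F V] [FiniteDimensional F V]
  {C : OC F V} [Fintype F] [Fintype V]
  {W : Type*} [NormedAddCommGroup W] [InnerProductSpace ℂ W] [FiniteDimensional ℂ W]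
  {ρ : Representation ℂ C.G W}

theorem orth' (hinv : ∀ g x y, ⟪ρ g x, ρ g y⟫_ℂ = ⟪x, y⟫_ℂ) {e u u' : V} (h0 : e ≠ 0)
    (h : u - u' ∉ F ∙ e) {x y : W} (hx : x ∈ C.Wt ρ e u) (hy : y ∈ C.Wt ρ e u') :
    ⟪x, y⟫_ℂ = 0 := by
  obtain ⟨w, hw, h1⟩ := C.exists_sep h0 h
  have := hinv (C.S e w) x y
  rw [mem_Wt.1 hx w hw, mem_Wt.1 hy w hw, inner_smul_left, inner_smul_right, ← mul_assoc, psi_conj,
    psi_mul] at this
  refine (mul_left_eq_self₀.1 this).resolve_left fun e1 => h1 ?_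
  rw [← mul_one (C.ψ _), ← e1, psi_mul, add_neg_cancel_left]

variable (C ρ) in
/-- weight vectors fixed by long root elements -/
def LR (c : F) : Prop := ∀ e u, C.Φ.Q e = 0 → e ≠ 0 → C.Φ.B e u = 0 → u ∉ F ∙ e → C.Φ.Q u = c →
  ∃ x, x ≠ 0 ∧ x ∈ C.Wt ρ e u ∧ ∀ a b, C.Φ.Q a = 0 → C.Φ.Q b = 0 → C.Φ.B a b = 0 →
    C.Φ.B e a = 0 → C.Φ.B u a = 0 → C.Φ.B e b = 0 → C.Φ.B u b = 0 → ρ (C.S a b) x = x

theorem exists_x' (hinv : ∀ g x y, ⟪ρ g x, ρ g y⟫_ℂ = ⟪x, y⟫_ℂ) {c : F} (hc : C.LR ρ c)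
    {E : Submodule F V} (hE : C.Φ.TotSing E) {θ φ : Dual F E} {e a0 : E}
    (h1 : φ e = 1) (h2 : θ e = 0) (h3 : θ a0 = 1) {u : V} (hu : C.Φ.Q u = c)
    (hθ : ∀ a : E, C.Φ.B u a = θ a) : ∃ x, x ≠ 0 ∧
      (∀ a b : E, ρ (C.S a b) x = C.ψ (wedge (θ, φ) a b) • x) ∧
      ∀ w ∈ C.Φ.perp E, ρ (C.S e w) x = C.ψ (C.Φ.B u w) • x := by
  have hB : ∀ a b : E, C.Φ.B a b = 0 := fun a b => hE.1 _ a.2 _ b.2
  have hQ : ∀ a : E, C.Φ.Q a = 0 := fun a => hE.2 _ a.2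
  have e0 : e.1 ≠ 0 := fun h => by simp [show e = 0 from Subtype.ext h] at h1
  obtain ⟨x, x0, hx, hf⟩ := hc e u (hQ e) e0 (by rw [C.comm, hθ, h2]) (fun hm => by
    obtain ⟨t, ht⟩ := Submodule.mem_span_singleton.1 hm
    simpa [hB, hθ, h3] using congrArg (fun x => C.Φ.B x a0) ht) hu
  have hp : ∀ y : LinearMap.ker θ, ρ (C.S a0 (-y.1 : E)) x ∈ C.Wt ρ e (u + y.1.1) := fun y => by
    have := Wt_conj hx (C.S a0 (-y.1 : E))
    rw [S_fix (hB _ _) (hB _ _), C.S_apply (hQ _) (hB _ _), C.comm _ u, C.comm _ u, hθ, hθ, h3, hQ,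
      map_neg, show θ y = 0 from y.2] at this
    simpa using this
  refine ⟨∑ y : LinearMap.ker θ, C.ψ (-φ y) • ρ (C.S a0 (-y.1 : E)) x, fun h0 => ?_, fun a b => ?_,
    fun w hw => ?_⟩
  · have h4 := congrArg (fun z => ⟪x, z⟫_ℂ) h0
    have h6 : ∀ y : LinearMap.ker θ, C.ψ (-φ y) * ⟪x, ρ (C.S a0 (-y.1 : E)) x⟫_ℂ =
        (if y.1.1 ∈ F ∙ e.1 then 1 else 0) * ⟪x, x⟫_ℂ := fun y => by
      split_ifs with h7
      · obtain ⟨t, ht⟩ := Submodule.mem_span_singleton.1 h7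
        have h8 : C.S a0 (-y.1 : E) = C.S e (t • a0.1) := by
          refine Subtype.ext (Eq.trans ?_ (sg_swap C.hΦ C.hκ (hQ a0) (hQ e) (hB _ _) t).symm)
          rw [neg_smul, ht]
          rfl
        rw [h8, mem_Wt.1 hx _ (by simp [hB]), inner_smul_right, ← mul_assoc, psi_mul,
          show y.1 = t • e from Subtype.ext ht.symm]
        simp [h1, hθ, h3]
      · rw [orth' hinv e0 (by simpa using h7) hx (hp y), mul_zero, zero_mul]
    simp only [inner_sum, inner_smul_right, h6, ← Finset.sum_mul, Finset.sum_boole, inner_zero_right,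
      mul_eq_zero, inner_self_eq_zero, x0, or_false,
      Nat.cast_eq_zero, Finset.card_eq_zero, Finset.filter_eq_empty_iff] at h4
    exact h4 (Finset.mem_univ 0) (by simp)
  · simp only [map_sum, map_smul, Finset.smul_sum, smul_smul, psi_mul, rep_mul]
    refine Fintype.sum_equiv (Equiv.addRight ⟨θ b • a - θ a • b, by simp [mul_comm]⟩) _ _
      fun y => ?_
    have h4 : C.S a b * C.S a0 (-y.1 : E) = C.S a0 (-(y.1 + (θ b • a - θ a • b)) : E) *
        C.S (a - θ a • a0 : E) (b - θ b • a0 : E) := Subtype.ext (O_ext _ fun z => by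
      simp only [Subgroup.coe_mul, LinearEquiv.mul_apply, C.S_apply (hQ _) (hB _ _), hQ, map_add, map_sub,
        map_smul, hB]
      simp only [Submodule.coe_add, Submodule.coe_sub, Submodule.coe_smul, Submodule.coe_neg,
        map_add, map_sub, map_neg, LinearMap.map_smulₛₗ, LinearMap.add_apply, LinearMap.sub_apply,
        LinearMap.neg_apply, LinearMap.smul_apply, RingHom.id_apply, smul_eq_mul]
      module)
    rw [h4, ← rep_mul, hf _ _ (hQ _) (hQ _) (hB _ _) (hB _ _) (by rw [hθ]; simp [h3]) (hB _ _)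
      (by rw [hθ]; simp [h3])]
    simp only [Equiv.coe_addRight, Submodule.coe_add, wedge_apply, map_add, map_sub, map_smul,
      smul_eq_mul]
    congr 2
    ring
  · have hw' : ∀ a : E, C.Φ.B a w = 0 := fun a => hw a a.2
    simp only [map_sum, map_smul, mem_Wt.1 (hp _) w (hw' e), Finset.smul_sum, map_add,
      LinearMap.add_apply, hw', add_zero, smul_comm (C.ψ (C.Φ.B u w))]

theorem main' (hinv : ∀ g x y, ⟪ρ g x, ρ g y⟫_ℂ = ⟪x, y⟫_ℂ) {c : F} (hc : C.LR ρ c)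
    {E D : Submodule F V} (hE : C.Φ.TotSing E) (hD : D ≤ C.Φ.perp E)
    (hD' : ∀ d ∈ D, (∀ w ∈ D, C.Φ.B d w = 0) → d = 0) {r : ℕ}
    (h0 : r ≤ finrank ℂ (eig (fun i : E × E => ρ (C.S i.1 i.2)) fun _ => 1)) :
    (Fintype.card F ^ finrank F E - 1) * (Fintype.card F ^ finrank F E - Fintype.card F) *
      Fintype.card F ^ finrank F D + (Fintype.card F ^ 2 - 1) * Fintype.card F * r ≤
      (Fintype.card F ^ 2 - 1) * Fintype.card F * finrank ℂ W := by
  have := finite_of_fd F (Dual F E)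
  have := Fintype.ofFinite (Dual F E)
  let s : Finset (Dual F E × Dual F E) := {p | p.1 ≠ 0 ∧ p.2 ∉ F ∙ p.1}
  have hs : ∀ p ∈ s, p.1 ≠ 0 ∧ p.2 ∉ F ∙ p.1 := fun p hp => by simpa [s] using hp
  have h1 := card_wedge s hs
  have h2 : s.card = (Fintype.card F ^ finrank F E - 1) *
      (Fintype.card F ^ finrank F E - Fintype.card F) := by
    rw [← Subspace.dual_finrank_eq, ← ncard_pairs, Set.ncard_eq_toFinset_card']
    simp [s]
  let T : E × E → End ℂ W := fun i => ρ (C.S i.1 i.2)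
  let χ : (E →ₗ[F] Dual F E) → E × E → ℂ := fun M i => C.ψ (M i.1 i.2)
  have h3 := sum_eig_le T χ (insert 0 (s.image wedge)) fun M _ M' _ e =>
    LinearMap.ext fun a => LinearMap.ext fun b => shift_inj C.hψ fun t => by
      simpa [χ, mul_comm t] using congrFun e (a, t • b)
  rw [Finset.sum_insert fun h0 => ?_] at h3
  · have h4 : r ≤ finrank ℂ (eig T (χ 0)) := by
      rwa [show χ 0 = fun _ => 1 from funext fun _ => by simp [χ]]
    have h5 : (s.image wedge).card * Fintype.card F ^ finrank F D ≤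
        ∑ M ∈ s.image wedge, finrank ℂ (eig T (χ M)) := by
      rw [← smul_eq_mul, ← Finset.sum_const]
      refine Finset.sum_le_sum fun M hM => ?_
      obtain ⟨⟨θ, φ⟩, hp, rfl⟩ := Finset.mem_image.1 hM
      obtain ⟨e, e1, e2⟩ := exists_eval2 (hs _ hp).1 (hs _ hp).2
      obtain ⟨a, ha⟩ := exists_eval (hs _ hp).1
      obtain ⟨θ', h6⟩ := LinearMap.exists_extend θ
      obtain ⟨u, hu⟩ := C.hΦ.exists_repr θ'
      have h7 : ∀ b : E, C.Φ.B u b = θ b := fun b => by rw [hu, ← h6]; rfl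
      have h8 : ∀ (d : D) (b : E), C.Φ.B b d = 0 := fun d b => hD d.2 b b.2
      choose x x0 x1 x2 using fun d : D => exists_x' hinv hc hE e1 e2 ha
        (u := u + d + (c - C.Φ.Q (u + d)) • a.1) (by
          rw [C.Qadd, C.Φ.Q_smul, hE.2 _ a.2]
          simp [h7, C.comm d.1, h8, show θ a = 1 from ha])
        fun b => by simp [h7, C.comm d.1, h8, hE.1 _ a.2 _ b.2]
      rw [← card_submodule, Nat.card_eq_fintype_card]
      refine card_le_of_li (li_of_eig (fun w : D => ρ (C.S e w))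
        (χ := fun (d : D) w => C.ψ (C.Φ.B (u + d + (c - C.Φ.Q (u + d)) • a.1) w)) (fun d d' h9 => ?_)
        (fun d w => x2 d w (hD w.2)) x0) fun d i => x1 d i.1 i.2
      refine Subtype.ext (sub_eq_zero.1 (hD' _ (sub_mem d.2 d'.2) fun w hw => ?_))
      have := shift_inj C.hψ (a := C.Φ.B u w + C.Φ.B d w) (b := C.Φ.B u w + C.Φ.B d' w) fun t => by
        simpa [h8 ⟨w, hw⟩, mul_comm t, add_mul] using congrFun h9 (t • ⟨w, hw⟩)
      simpa [sub_eq_zero] using this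
    rw [← h2]
    refine le_trans ?_ (Nat.mul_le_mul_left _ ((add_le_add h4 h5).trans h3))
    rw [mul_add, add_comm, ← mul_assoc _ (Finset.card _)]
    exact add_le_add le_rfl (Nat.mul_le_mul_right _ h1)
  · obtain ⟨p, hp, h0⟩ := Finset.mem_image.1 h0
    obtain ⟨e, e1, e2⟩ := exists_eval2 (hs _ hp).1 (hs _ hp).2
    obtain ⟨a, ha⟩ := exists_eval (hs _ hp).1
    simpa [wedge_apply, e1, e2, ha] using congrArg (fun M => M e a) h0

theorem red' (h7 : 7 ≤ finrank F V) (hρ : ∃ g, ρ g ≠ 1) : ∃ c k t, 1 ≤ k ∧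
    C.N c ≤ (Fintype.card F - 1) * Fintype.card F ^ (finrank F V - 2) + Fintype.card F * (t + 1) ∧
    k * t ≤ finrank ℂ W ∧ ∀ e u, C.Φ.Q e = 0 → e ≠ 0 → C.Φ.B e u = 0 → u ∉ F ∙ e → C.Φ.Q u = c →
      finrank ℂ (C.Wt ρ e u) = k := by
  obtain ⟨e, u, h1, h2, h3, h4, h5⟩ : ∃ e u, C.Φ.Q e = 0 ∧ e ≠ 0 ∧ C.Φ.B e u = 0 ∧ u ∉ F ∙ e ∧
      C.Wt ρ e u ≠ ⊥ := by
    by_contra! hc
    obtain ⟨g, hg⟩ := hρ
    have h3 : ∀ c w, C.Φ.Q c = 0 → C.Φ.B c w = 0 → ρ (C.S c w) = 1 := fun c w c1 c2 => by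
      by_cases c0 : c = 0
      · rw [← map_one ρ]
        exact congrArg ρ (Subtype.ext (O_ext _ fun x => by simp [c0, C.S_apply (c0 ▸ c1) (c0 ▸ c2)]))
      refine ext1 (ρ := ρ) (fun y hy x hx => ?_) c1
      by_cases y2 : y ∈ F ∙ c
      · obtain ⟨t, rfl⟩ := Submodule.mem_span_singleton.1 y2
        simp [mem_Wt.1 hx w c2, c2]
      · rw [hc c y c1 c0 hy y2] at hx
        simp [(Submodule.mem_bot ℂ).1 hx]
    have h4 : C.G ≤ ρ.ker.map C.G.subtype := by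
      refine (commutator_eq_eichGrp_of_five_le C.hΦ C.hκ (by omega)).le.trans
        ((Subgroup.closure_le _).2 fun k hk => ?_)
      obtain ⟨c, w, c1, c2, rfl⟩ := (mem_eichSet_iff C.hΦ C.hκ).1 hk
      exact ⟨C.S c w, h3 c w c1 c2, sg_eq _ _ c1 c2⟩
    obtain ⟨k, hk, e⟩ := h4 g.2
    exact hg (Subtype.ext e ▸ hk)
  have h6 : ∀ e' u', C.Φ.Q e' = 0 → e' ≠ 0 → C.Φ.B e' u' = 0 → u' ∉ F ∙ e' → C.Φ.Q u' = C.Φ.Q u →
      finrank ℂ (C.Wt ρ e' u') = finrank ℂ (C.Wt ρ e u) := fun e' u' a1 a2 a3 a4 a5 => le_antisymm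
    (finrank_Wt_le a2 h2 a4 h4 (a1.trans h1.symm) a5 (a3.trans h3.symm))
    (finrank_Wt_le h2 a2 h4 a4 (h1.trans a1.symm) a5.symm (h3.trans a3.symm))
  obtain ⟨z, hz, -⟩ := nbr0 h7 h1 h1 h2 h2
  obtain ⟨f, -, f1, -⟩ := hz.frame
  have f2 : C.Φ.B f e = 1 := by rw [C.comm, f1.one]
  let T : Finset V := {x | C.Φ.B e x = 0 ∧ C.Φ.B f x = 0 ∧ C.Φ.Q x = C.Φ.Q u ∧ x ≠ 0}
  refine ⟨C.Φ.Q u, _, T.card, Submodule.one_le_finrank_iff.2 h5, ?_, ?_, h6⟩
  · have h8 := ncard_Q_eq_not_perp' C.hΦ C.hκ (U := ⊤) f1 trivial trivial (C.Φ.Q u)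
    rw [finrank_top] at h8
    rw [← h8, add_comm]
    refine le_trans (Set.ncard_le_ncard (t := {x | C.Φ.B e x = 0 ∧ C.Φ.Q x = C.Φ.Q u} ∪ _)
      fun x hx => ?_) ((Set.ncard_union_le _ _).trans (Nat.add_le_add_right ?_ _))
    · by_cases h3 : C.Φ.B e x = 0
      exacts [.inl ⟨h3, hx⟩, .inr ⟨trivial, hx, h3⟩]
    · rw [← Finset.card_insert_of_notMem (a := 0) (by simp [T]), ← Finset.card_univ,
        ← Finset.card_product, ← Set.ncard_coe_finset]
      refine Set.ncard_le_ncard_of_injOn (fun x => (C.Φ.B f x, x - C.Φ.B f x • e))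
        (fun x hx => ?_) fun x _ y _ e1 => ?_
      · simp [T, hx.1, C.self, h1, f2, C.Qsub, C.Φ.Q_smul, C.comm x e, hx.2, em]
      · obtain ⟨e2, e3⟩ := Prod.ext_iff.1 e1
        simp only at e2 e3
        simpa [e2] using e3
  · refine le_trans ?_ (sum_Wt_le (ρ := ρ) f1 T fun x hx => by simp_all [T])
    rw [mul_comm, ← smul_eq_mul, ← Finset.sum_const]
    refine Finset.sum_le_sum fun x hx => (h6 e x h1 h2 (by simp_all [T]) (fun hm => ?_)
      (by simp_all [T])).ge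
    obtain ⟨t, rfl⟩ := Submodule.mem_span_singleton.1 hm
    simp [T, f2] at hx
    tauto

theorem eig0_ns {c : F} (c0 : c ≠ 0) (hc : C.LR ρ c) {E D : Submodule F V} (hE : C.Φ.TotSing E)
    (h1 : 1 ≤ finrank F E) (hD : D ≤ C.Φ.perp E)
    (hD' : ∀ d ∈ D, (∀ w ∈ D, C.Φ.B d w = 0) → d = 0) {d d' : V} (hd : d ∈ D) (hd' : d' ∈ D)
    (hne : d ≠ d') (hq : C.Φ.Q d = c) (hq' : C.Φ.Q d' = c) :
    2 * Fintype.card F ^ (finrank F E - 1) ≤
      finrank ℂ (eig (fun i : E × E => ρ (C.S i.1 i.2)) fun _ => 1) := by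
  obtain ⟨e, he, e0⟩ := Submodule.exists_mem_ne_zero_of_ne_bot (Submodule.one_le_finrank_iff.1 h1)
  obtain ⟨f, hf⟩ := C.hΦ.exists_ne e0
  let u : Bool → V := fun i => if i then d else d'
  have u1 : ∀ i, u i ∈ D := fun i => by cases i <;> assumption
  have u2 : ∀ i, C.Φ.Q (u i) = c := fun i => by cases i <;> assumption
  have u3 : ∀ (i) (y : (E ⊓ C.Φ.perp (F ∙ f) : Submodule F V)), ∀ a ∈ E, C.Φ.B (u i + y) a = 0 :=
    fun i y a ha => by simp [C.comm _ a, hD (u1 i) a ha, hE.1 a ha y y.2.1]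
  have u4 : ∀ (i) (y : (E ⊓ C.Φ.perp (F ∙ f) : Submodule F V)), C.Φ.Q (u i + y) = c := fun i y => by
    simp [C.Qadd, u2, hE.2 y y.2.1, C.comm (u i), hD (u1 i) y y.2.1]
  choose x x0 x1 x2 using fun p : Bool × (E ⊓ C.Φ.perp (F ∙ f) : Submodule F V) =>
    hc e (u p.1 + p.2) (hE.2 e he) e0 (by rw [C.comm, u3 _ _ e he]) (fun hm => c0 (by
      obtain ⟨t, ht⟩ := Submodule.mem_span_singleton.1 hm
      rw [← u4 p.1 p.2, ← ht, C.Φ.Q_smul, hE.2 e he, mul_zero])) (u4 _ _)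
  refine le_trans ?_ (card_le_of_li (li_of_eig (fun w : C.pe e => ρ (C.S e w))
    (fun p p' e1 => by_contra fun hp => ?_) x1 x0) fun p i => ?_)
  · rw [Fintype.card_prod, Fintype.card_bool, ← Nat.card_eq_fintype_card (α := (_ : Submodule F V)),
      card_submodule]
    refine Nat.mul_le_mul_left _ (Nat.pow_le_pow_right Fintype.card_pos ?_)
    have h2 := Submodule.finrank_sup_add_finrank_inf_eq E (C.Φ.perp (F ∙ f))
    have h3 := Submodule.finrank_le (E ⊔ C.Φ.perp (F ∙ f))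
    rw [C.hΦ.finrank_perp, finrank_span_singleton fun h => by simp [h] at hf] at h2
    omega
  · obtain ⟨w, hw, h2⟩ := C.exists_sep (u := u p.1 + p.2) (u' := u p'.1 + p'.2) e0 fun hm => by
      obtain ⟨t, ht⟩ := Submodule.mem_span_singleton.1 hm
      have h3 : u p.1 - u p'.1 = 0 := hD' _ (sub_mem (u1 _) (u1 _)) fun w hw => by
        rw [show u p.1 - u p'.1 = t • e - p.2 + p'.2 by linear_combination (norm := module) -ht]
        exact hD hw _ (add_mem (sub_mem (E.smul_mem _ he) p.2.2.1) p'.2.2.1)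
      have h4 : p.2.1 - p'.2.1 = t • e := by linear_combination (norm := module) -ht - h3
      have h5 := congrArg (C.Φ.B f) h4
      rw [map_sub, C.Φ.mem_perp_span_singleton.1 p.2.2.2, C.Φ.mem_perp_span_singleton.1 p'.2.2.2,
        map_smul, C.comm f, hf] at h5
      refine hp (Prod.ext ?_ (Subtype.ext (by simpa [show t = 0 by simpa using h5.symm, sub_eq_zero]
        using h4)))
      revert h3
      rcases p with ⟨_ | _, _⟩ <;> rcases p' with ⟨_ | _, _⟩ <;> simp [u, sub_eq_zero, hne, hne.symm]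
    exact h2 (congrFun e1 ⟨w, C.Φ.mem_perp_span_singleton.2 hw⟩)
  · rw [one_smul]
    exact x2 p _ _ (hE.2 _ i.1.2) (hE.2 _ i.2.2) (hE.1 _ i.1.2 _ i.2.2) (hE.1 _ he _ i.1.2)
      (u3 _ _ _ i.1.2) (hE.1 _ he _ i.2.2) (u3 _ _ _ i.2.2)

theorem omega_bound' {W : Type*} [AddCommGroup W] [Module ℂ W] [FiniteDimensional ℂ W]
    {ρ : Representation ℂ C.G W} (hρ : ∃ g, ρ g ≠ 1) (h7 : 7 ≤ finrank F V) (hW : C.Wi)
    {E D : Submodule F V} (hE : C.Φ.TotSing E) (h3 : 3 ≤ finrank F E) (hD : D ≤ C.Φ.perp E)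
    (hD' : ∀ d ∈ D, (∀ w ∈ D, C.Φ.B d w = 0) → d = 0)
    (hD2 : ∀ c, c ≠ 0 → ∃ d ∈ D, ∃ d' ∈ D, d ≠ d' ∧ C.Φ.Q d = c ∧ C.Φ.Q d' = c) :
    (∃ c t, C.N c ≤ (Fintype.card F - 1) * Fintype.card F ^ (finrank F V - 2) +
      Fintype.card F * (t + 1) ∧
      (2 * t ≤ finrank ℂ W ∨ c ≠ 0 ∧ finrank F V < 10 ∧ t ≤ finrank ℂ W)) ∨
    (Fintype.card F ^ finrank F E - 1) * (Fintype.card F ^ finrank F E - Fintype.card F) *
      Fintype.card F ^ finrank F D + (Fintype.card F ^ finrank F E - Fintype.card F) *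
      ((Fintype.card F + 1) * Fintype.card F) ≤
      (Fintype.card F ^ 2 - 1) * Fintype.card F * finrank ℂ W := by
  have : Finite C.G := Finite.of_injective (fun g : C.G => (g.1.1 : V → V)) fun _ _ e =>
    Subtype.ext (O_ext _ (congrFun e))
  obtain ⟨c, hb⟩ := exists_core ρ
  letI : NormedAddCommGroup W := c.toNormedAddCommGroup
  letI : InnerProductSpace ℂ W := InnerProductSpace.ofCore c.toCore
  obtain ⟨c, k, t, k1, h1, h2, h4⟩ := red' (ρ := ρ) h7 hρ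
  by_cases k2 : 2 ≤ k
  · exact .inl ⟨c, t, h1, .inl ((Nat.mul_le_mul_right _ k2).trans h2)⟩
  obtain rfl : k = 1 := by omega
  have q1 : 1 < Fintype.card F := Fintype.one_lt_card
  have h7' : Fintype.card F ^ 2 - 1 = (Fintype.card F + 1) * (Fintype.card F - 1) := by
    simpa using Nat.sq_sub_sq (Fintype.card F) 1
  have key : ∀ r, C.LR ρ c → Fintype.card F ^ finrank F E - Fintype.card F ≤
      (Fintype.card F - 1) * r →
      r ≤ finrank ℂ (eig (fun i : E × E => ρ (C.S i.1 i.2)) fun _ => 1) → _ := fun r h5 h6 h8 =>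
    le_trans (Nat.add_le_add_left ((Nat.mul_le_mul_right ((Fintype.card F + 1) * Fintype.card F)
      h6).trans_eq (by rw [h7']; ring)) _) (main' hb h5 hE hD hD' h8)
  by_cases c0 : c = 0
  · subst c0
    have hM : C.M1 ρ := fun e u h => h4 e u h.l h.ne h.b h.notMem h.r
    obtain ⟨v, hv⟩ := Hz.exists_v (ρ := ρ) ⟨h7, hb, hM, fun h => hW.fix h7 h (hM _ _ h)⟩
    have := Fintype.ofFinite (ℙ F E)
    have h6 := Projectivization.card' F E
    rw [card_submodule, Nat.card_eq_fintype_card, Nat.card_eq_fintype_card] at h6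
    have : Nontrivial E := Module.nontrivial_of_finrank_pos (R := F) (by omega)
    obtain ⟨p0⟩ : Nonempty (ℙ F E) := inferInstance
    refine .inr (key (Fintype.card (ℙ F E) - 1) (fun e u a1 a2 a3 a4 a5 => ?_) ?_ ?_)
    · have h := pr_of a1 a5 a3 a2 a4
      exact ⟨v e u, hv.ne h, hv.mem h, fun a b _ _ _ b1 b2 b3 b4 =>
        hv.fix h (S_fix b1 b3) (S_fix b2 b4) (hv.mem h)⟩
    · rw [h6, Nat.mul_sub_one (Fintype.card F - 1), mul_comm (Fintype.card (ℙ F E))]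
      omega
    · refine le_trans (by simp) (card_le_of_li (hv.li hE h3 p0) fun p i => ?_)
      have h8 : ∀ x ∈ E, (C.S i.1.1 i.2.1).1.1 x = x := fun x hx =>
        S_fix (hE.1 _ hx _ i.1.2) (hE.1 _ hx _ i.2.2)
      have h9 : ∀ x ∈ E, (C.S i.1.1 i.2.1).1.1 x ∈ E := fun x hx => by rwa [h8 x hx]
      simp only [map_sub, hv.dE_map h9, h8 _ (Subtype.property _), one_smul]
  by_cases h10 : finrank F V < 10
  · exact .inl ⟨c, t, h1, .inr ⟨c0, h10, by omega⟩⟩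
  have h5 : C.LR ρ c := fun e u a1 a2 a3 a4 a5 => by
    have h6 := h4 e u a1 a2 a3 a4 a5
    obtain ⟨x, hx, x0⟩ := Submodule.exists_mem_ne_zero_of_ne_bot
      (Submodule.one_le_finrank_iff.1 h6.ge)
    exact ⟨x, x0, hx, fun a b b1 b2 b3 b4 b5 b6 b7 =>
      fix_ns (by omega) a1 (a5 ▸ c0) h6 b1 b2 b3 b4 b5 b6 b7 a3 hx⟩
  obtain ⟨d, hd, d', hd', hne, hq, hq'⟩ := hD2 c c0
  refine .inr (key _ h5 ?_ (eig0_ns c0 h5 hE (by omega) hD hD' hd hd' hne hq hq'))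
  obtain ⟨m, hm⟩ : ∃ m, finrank F E = m + 1 := ⟨finrank F E - 1, by omega⟩
  obtain ⟨r, hr⟩ : ∃ r, Fintype.card F = r + 2 := ⟨Fintype.card F - 2, by omega⟩
  rw [hm, hr, pow_succ, Nat.add_sub_cancel, show r + 2 - 1 = r + 1 from rfl]
  exact (Nat.sub_le _ _).trans (by nlinarith [Nat.zero_le ((r + 2) ^ m * r)])

end H22.OC
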