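import Cfsg.Agent.H9.Basic

/-! Isomorphisms of 2-groups from common polycyclic presentations. -/

set_option autoImplicit false

namespace H22.PC

open Subgroup

variable {G H : Type*} [Group G] [Group H]

/-- normal forms -/
def nfs : List G → List G
  | [] => [1]
  | x :: l => nfs l ++ (nfs l).map (x * ·)

/-- the generated subgroup -/
def cl (l : List G) : Subgroup G := closure {x | x ∈ l}

/-- polycyclic sequences -/
def Pc : List G → Prop
  | [] => True
  | x :: l => Pc l ∧ x * x ∈ cl l ∧ ∀ y ∈ l, ∃ z ∈ cl l, y * x = x * z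

/-- strictness -/
def ch [DecidableEq G] : List G → Bool
  | [] => true
  | x :: l => ch l && decide (x ∉ nfs l)

/-- evaluation of words -/
def ev (l : List G) (w : List ℕ) : G := (w.map fun i => l.getD i 1).prod

/-- checking relations -/
def chk2 (r : G → G → Bool) (x : G) (l : List G) : List G → List (List ℕ) → Bool
  | [], _ => true
  | _ :: _, [] => false
  | y :: m, c :: cs => r (y * x) (x * ev l c) && chk2 r x l m cs

/-- checking a presentation -/
def chk (r : G → G → Bool) : List G → List (List ℕ × List (List ℕ)) → Bool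
  | [], _ => true
  | _ :: _, [] => false
  | x :: l, w :: ws => r (x * x) (ev l w.1) && chk2 r x l l w.2 && chk r l ws

theorem mem_cl {l : List G} {x : G} (h : x ∈ l) : x ∈ cl l := subset_closure h

theorem cl_le_cons (x : G) (l : List G) : cl l ≤ cl (x :: l) :=
  closure_mono fun _ h => List.mem_cons_of_mem _ h

theorem getD_mem (l : List G) (i : ℕ) : l.getD i 1 ∈ cl l := by
  rw [List.getD_eq_getElem?_getD]
  cases h : l[i]? with
  | none => exact one_mem _
  | some y => exact mem_cl (List.mem_of_getElem? h)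

theorem ev_mem (l : List G) (w : List ℕ) : ev l w ∈ cl l :=
  list_prod_mem fun x hx => by
    obtain ⟨i, -, rfl⟩ := List.mem_map.1 hx
    exact getD_mem l i

theorem map_getD (f : G →* H) (l : List G) (i : ℕ) : f (l.getD i 1) = (l.map f).getD i 1 := by
  rw [← map_one f, List.getD_map]

theorem map_ev (f : G →* H) (l : List G) (w : List ℕ) : f (ev l w) = ev (l.map f) w := by
  simp only [ev, map_list_prod, List.map_map]
  congr 1
  exact List.map_congr_left fun i _ => map_getD f l i

theorem map_cl (f : G →* H) (l : List G) : (cl l).map f = cl (l.map f) := by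
  rw [cl, cl, MonoidHom.map_closure]
  congr 1
  ext y; simp

theorem mem_cl_of_nfs : ∀ {l : List G} {g : G}, g ∈ nfs l → g ∈ cl l
  | [], g, h => by rw [List.mem_singleton.1 h]; exact one_mem _
  | x :: l, g, h => by
    rcases List.mem_append.1 h with h | h
    · exact cl_le_cons x l (mem_cl_of_nfs h)
    · obtain ⟨y, hy, rfl⟩ := List.mem_map.1 h
      exact mul_mem (mem_cl (by simp)) (cl_le_cons x l (mem_cl_of_nfs hy))

theorem Pc.mem_cons {x : G} {l : List G} (h : Pc (x :: l)) {g : G} (hg : g ∈ cl (x :: l)) :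
    g ∈ cl l ∨ ∃ k ∈ cl l, g = x * k := by
  obtain ⟨-, h1, h2⟩ := h
  have cj : ∀ k ∈ cl l, ∃ z ∈ cl l, k * x = x * z := fun k hk => by
    induction hk using closure_induction with
    | mem y hy => exact h2 y hy
    | one => exact ⟨1, one_mem _, by simp⟩
    | mul a b _ _ ha hb =>
      obtain ⟨z, hz, e⟩ := ha
      obtain ⟨z', hz', e'⟩ := hb
      exact ⟨z * z', mul_mem hz hz', by rw [mul_assoc, e', ← mul_assoc, e, mul_assoc]⟩
    | inv a _ ha =>
      obtain ⟨z, hz, e⟩ := ha
      exact ⟨z⁻¹, inv_mem hz, by rw [inv_mul_eq_iff_eq_mul, ← mul_assoc, e]; group⟩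
  induction hg using closure_induction with
  | mem y hy =>
    rcases List.mem_cons.1 hy with rfl | hy
    · exact .inr ⟨1, one_mem _, by simp⟩
    · exact .inl (mem_cl hy)
  | one => exact .inl (one_mem _)
  | mul a b _ _ ha hb =>
    rcases ha with ha | ⟨k, hk, rfl⟩ <;> rcases hb with hb | ⟨k', hk', rfl⟩
    · exact .inl (mul_mem ha hb)
    · obtain ⟨z, hz, e⟩ := cj a ha
      exact .inr ⟨z * k', mul_mem hz hk', by rw [← mul_assoc, e, mul_assoc]⟩
    · exact .inr ⟨k * b, mul_mem hk hb, mul_assoc _ _ _⟩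
    · obtain ⟨z, hz, e⟩ := cj k hk
      refine .inl ?_
      rw [mul_assoc, ← mul_assoc k, e, ← mul_assoc, ← mul_assoc]
      exact mul_mem (mul_mem h1 hz) hk'
  | inv a _ ha =>
    rcases ha with ha | ⟨k, hk, rfl⟩
    · exact .inl (inv_mem ha)
    · obtain ⟨z, hz, e⟩ := cj _ (inv_mem hk)
      exact .inr ⟨z * (x * x)⁻¹, mul_mem hz (inv_mem h1), by rw [← mul_assoc, ← e]; group⟩

theorem Pc.mem_nfs : ∀ {l : List G}, Pc l → ∀ {g : G}, g ∈ cl l → g ∈ nfs l
  | [], _, g, h => by
    have : cl ([] : List G) = ⊥ := by simp [cl]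
    rw [this, mem_bot] at h
    simp [nfs, h]
  | x :: l, hp, g, h => by
    rcases hp.mem_cons h with h | ⟨k, hk, rfl⟩
    · exact List.mem_append_left _ (hp.1.mem_nfs h)
    · exact List.mem_append_right _ (List.mem_map_of_mem (hp.1.mem_nfs hk))

theorem length_nfs : ∀ l : List G, (nfs l).length = 2 ^ l.length
  | [] => rfl
  | x :: l => by simp [nfs, length_nfs l, pow_succ, mul_two]

theorem Pc.nodup [DecidableEq G] : ∀ {l : List G}, Pc l → ch l = true → (nfs l).Nodup
  | [], _, _ => by simp [nfs]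
  | x :: l, hp, hc => by
    simp only [ch, Bool.and_eq_true, decide_eq_true_eq] at hc
    have := hp.1.nodup hc.1
    refine List.Nodup.append this (this.map (mul_right_injective x)) fun g h1 h2 => hc.2 ?_
    obtain ⟨y, hy, rfl⟩ := List.mem_map.1 h2
    have := mul_mem (mem_cl_of_nfs h1) (inv_mem (mem_cl_of_nfs hy))
    rw [mul_inv_cancel_right] at this
    exact hp.1.mem_nfs this

theorem Pc.card_le {l : List G} (h : Pc l) : Finite (cl l) ∧ Nat.card (cl l) ≤ 2 ^ l.length := by
  classical
  have e : (cl l : Set G) = (nfs l).toFinset := by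
    ext g; simpa using ⟨h.mem_nfs, mem_cl_of_nfs⟩
  refine ⟨show Finite (cl l : Set G) by rw [e]; infer_instance, ?_⟩
  change Nat.card (cl l : Set G) ≤ _
  rw [e, Nat.card_coe_set_eq, Set.ncard_coe_finset, ← length_nfs]
  exact List.toFinset_card_le _

theorem Pc.card [DecidableEq G] {l : List G} (h : Pc l) (hc : ch l = true) :
    Nat.card (cl l) = 2 ^ l.length := by
  have e : (cl l : Set G) = (nfs l).toFinset := by
    ext g; simpa using ⟨h.mem_nfs, mem_cl_of_nfs⟩
  change Nat.card (cl l : Set G) = _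
  rw [e, Nat.card_coe_set_eq, Set.ncard_coe_finset, ← length_nfs,
    List.toFinset_card_of_nodup (h.nodup hc)]

theorem Pc.map (f : G →* H) : ∀ {l : List G}, Pc l → Pc (l.map f)
  | [], _ => trivial
  | x :: l, h => ⟨h.1.map f, by rw [← map_cl, ← map_mul]; exact mem_map_of_mem f h.2.1, fun y hy => by
      obtain ⟨y, hy', rfl⟩ := List.mem_map.1 hy
      obtain ⟨z, hz, e⟩ := h.2.2 y hy'
      exact ⟨f z, by rw [← map_cl]; exact mem_map_of_mem f hz, by rw [← map_mul, e, map_mul]⟩⟩

section pair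
variable {A B A' B' : Type*} [Group A] [Group B] [Group A'] [Group B'] (f : A' →* A) (g : B' →* B)
  {r : A' → A' → Bool} {s : B' → B' → Bool} (hr : ∀ a b, r a b = true → f a = f b)
  (hs : ∀ a b, s a b = true → g a = g b)
include hr hs

theorem chk2_pair (x : A' × B') (l : List (A' × B')) : ∀ (m : List (A' × B')) (cs : List (List ℕ)),
    chk2 r x.1 (l.map (MonoidHom.fst A' B')) (m.map (MonoidHom.fst A' B')) cs = true →
    chk2 s x.2 (l.map (MonoidHom.snd A' B')) (m.map (MonoidHom.snd A' B')) cs = true →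
    ∀ y ∈ m, ∃ z ∈ cl (l.map (f.prodMap g)), f.prodMap g y * f.prodMap g x = f.prodMap g x * z
  | [], _, _, _ => by simp
  | _ :: _, [], h, _ => by simp [chk2] at h
  | y :: m, c :: cs, h1, h2 => by
    simp only [List.map_cons, chk2, Bool.and_eq_true, ← map_ev] at h1 h2
    intro y' hy'
    rcases List.mem_cons.1 hy' with rfl | hy'
    · refine ⟨_, ev_mem _ c, ?_⟩
      rw [← map_ev, ← map_mul, ← map_mul]
      exact Prod.ext (hr _ _ h1.1) (hs _ _ h2.1)
    · exact chk2_pair x l m cs h1.2 h2.2 y' hy'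

theorem chk_pair : ∀ (l : List (A' × B')) (ws : List (List ℕ × List (List ℕ))),
    chk r (l.map (MonoidHom.fst A' B')) ws = true → chk s (l.map (MonoidHom.snd A' B')) ws = true →
    Pc (l.map (f.prodMap g))
  | [], _, _, _ => trivial
  | _ :: _, [], h, _ => by simp [chk] at h
  | x :: l, w :: ws, h1, h2 => by
    simp only [List.map_cons, chk, Bool.and_eq_true, ← map_ev] at h1 h2
    refine ⟨chk_pair l ws h1.2 h2.2, ?_, fun y hy => ?_⟩
    · have : f.prodMap g x * f.prodMap g x = ev (l.map (f.prodMap g)) w.1 := by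
        rw [← map_ev, ← map_mul]
        exact Prod.ext (hr _ _ h1.1.1) (hs _ _ h2.1.1)
      rw [this]; exact ev_mem _ _
    · obtain ⟨y, hy', rfl⟩ := List.mem_map.1 hy
      exact chk2_pair f g hr hs x l l w.2 h1.1.2 h2.1.2 y hy'

end pair

theorem iso_pair {A B : Type*} [Group A] [Group B] [DecidableEq A] (l : List (A × B)) (hp : Pc l)
    (hc : ch (l.map (MonoidHom.fst A B)) = true) {z : A × B} (hz : z ∈ cl l) (hz2 : z.2 ≠ 1)
    (h : ∀ a ∈ nfs (l.map (MonoidHom.fst A B)), (∀ b ∈ l.map (MonoidHom.fst A B), a * b = b * a) →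
      a = 1 ∨ a = z.1) :
    Nat.card (cl (l.map (MonoidHom.fst A B))) = 2 ^ l.length ∧
      Nonempty (cl (l.map (MonoidHom.fst A B)) ≃* cl (l.map (MonoidHom.snd A B))) := by
  have c1 := (hp.map (MonoidHom.fst A B)).card hc
  rw [List.length_map] at c1
  obtain ⟨hf, hle⟩ := hp.card_le
  refine ⟨c1, ?_⟩
  rw [← map_cl] at c1
  rw [← map_cl, ← map_cl]
  have b1 : Function.Bijective ((MonoidHom.fst A B).subgroupMap (cl l)) :=
    (MonoidHom.subgroupMap_surjective _ _).bijective_of_nat_card_le (c1 ▸ hle)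
  have c2 : Nat.card (cl l) = 2 ^ l.length := by rw [Nat.card_eq_of_bijective _ b1, c1]
  have := Fact.mk Nat.prime_two
  have := (IsPGroup.of_card c2).isNilpotent
  have b2 : Function.Injective ((MonoidHom.snd A B).subgroupMap (cl l)) := by
    rw [← MonoidHom.ker_eq_bot_iff]
    by_contra hne
    obtain ⟨x, hx, hx1, hxc⟩ := H9.exists_mem_center_ne_one hne
    have hx2 : x.1.2 = 1 := congrArg Subtype.val (MonoidHom.mem_ker.1 hx)
    rcases h x.1.1 ((hp.map _).mem_nfs (by rw [← map_cl]; exact mem_map_of_mem _ x.2)) (fun b hb => by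
      obtain ⟨y, hy, rfl⟩ := List.mem_map.1 hb
      exact (congrArg (fun t : cl l => t.1.1) (mem_center_iff.1 hxc ⟨y, mem_cl hy⟩)).symm) with e | e
    · exact hx1 (Subtype.ext (Prod.ext e hx2))
    · have : x = ⟨z, hz⟩ := b1.1 (Subtype.ext e)
      rw [this] at hx2
      exact hz2 hx2
  exact ⟨(MulEquiv.ofBijective _ b1).symm.trans
    (MulEquiv.ofBijective _ ⟨b2, MonoidHom.subgroupMap_surjective _ _⟩)⟩

theorem iso {A B B' : Type*} [Group A] [Group B] [Group B'] [DecidableEq A] (g : B' →* B)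
    {s : B' → B' → Bool} (hs : ∀ a b, s a b = true → g a = g b) (lA : List A) (lB : List B')
    (hl : lA.length = lB.length) (ws : List (List ℕ × List (List ℕ)))
    (h1 : chk (fun a b => decide (a = b)) lA ws = true) (h2 : chk s lB ws = true) (hc : ch lA = true)
    (k : ℕ) (hz : g (lB.getD k 1) ≠ 1)
    (h : ∀ a ∈ nfs lA, (∀ b ∈ lA, a * b = b * a) → a = 1 ∨ a = lA.getD k 1) :
    Nat.card (cl lA) = 2 ^ lA.length ∧ Nonempty (cl lA ≃* cl (lB.map g)) := by
  have e1 : (lA.zip lB).map (MonoidHom.fst A B') = lA := List.map_fst_zip hl.le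
  have e2 : (lA.zip lB).map (MonoidHom.snd A B') = lB := List.map_snd_zip hl.ge
  have hp := chk_pair (MonoidHom.id A) g (r := fun a b => decide (a = b))
    (fun a b e => of_decide_eq_true e) hs (lA.zip lB) ws (by rwa [e1]) (by rwa [e2])
  have e3 : ((lA.zip lB).map ((MonoidHom.id A).prodMap g)).map (MonoidHom.fst A B) = lA := by
    rw [List.map_map]; exact e1
  have e4 : ((lA.zip lB).map ((MonoidHom.id A).prodMap g)).map (MonoidHom.snd A B) = lB.map g := by
    conv_rhs => rw [← e2]
    rw [List.map_map, List.map_map]; rfl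
  have := iso_pair _ hp (by rwa [e3]) (getD_mem _ k) (by
    change MonoidHom.snd A B _ ≠ 1
    rwa [map_getD, e4, ← map_getD]) (by
    change ∀ a ∈ _, _ → a = 1 ∨ a = MonoidHom.fst A B _
    rwa [map_getD, e3])
  rwa [e3, e4, List.length_map, List.length_zip, ← hl, min_self] at this

theorem sylow_iso [Finite G] [Finite H] {p n : ℕ} [Fact p.Prime] (P : Sylow p G) (Q : Sylow p H)
    {S : Subgroup G} {T : Subgroup H} (hS : Nat.card S = p ^ n) (e : S ≃* T)
    (hG : (Nat.card G).factorization p = n) (hH : (Nat.card H).factorization p = n) :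
    Nonempty (P ≃* Q) :=
  ⟨(Sylow.equiv P (Sylow.ofCard S (by rw [hS, hG]))).trans (e.trans (Sylow.equiv (Sylow.ofCard T (by
    rw [← Nat.card_congr e.toEquiv, hS, hH])) Q))⟩

end H22.PC
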