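import Cfsg.Agent.H22.QA

/-! Additive coordinates for 2-groups of class two and Frattini length two; the case of an
automorphism of order five. -/

set_option autoImplicit false
set_option linter.unusedSectionVars false

namespace H22.QA

open Subgroup Cfsg
open scoped commutatorElement

universe u

/-- additive data -/
structure AD {P V W : Type*} [Group P] [AddCommGroup V] [AddCommGroup W]
    (π : P →* Multiplicative V) (i : Multiplicative W →* P) (s : V → W) (b : V →+ V →+ W) : Prop where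
  surj : Function.Surjective π
  inj : Function.Injective i
  ker : π.ker = i.range
  cent : ∀ w x, i w * x = x * i w
  sq : ∀ x, x * x = i (.ofAdd (s (π x).toAdd))
  comm : ∀ x y, ⁅x, y⁆ = i (.ofAdd (b (π x).toAdd (π y).toAdd))
  add : ∀ v w, s (v + w) = s v + s w + b v w
  hV : ∀ v : V, v + v = 0
  hW : ∀ w : W, w + w = 0

theorem exists_ad {Q : Type u} [Group Q] (Z : Subgroup Q) (hZ : Z ≤ center Q)
    (h2 : ∀ z ∈ Z, z * z = 1) (hs : ∀ x, x * x ∈ Z) :
    ∃ (V W : Type u) (_ : AddCommGroup V) (_ : AddCommGroup W) (π : Q →* Multiplicative V)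
      (i : Multiplicative W →* Q) (s : V → W) (b : V →+ V →+ W), AD π i s b ∧ i.range = Z := by
  have hc : ∀ z ∈ Z, ∀ x, z * x = x * z := fun z hz x => (mem_center_iff.1 (hZ hz) x).symm
  have : Z.Normal := ⟨fun z hz g => by rw [← hc z hz g]; simpa using hz⟩
  have hq : ∀ v : Q ⧸ Z, v * v = 1 := fun v => by
    obtain ⟨x, rfl⟩ := QuotientGroup.mk_surjective v
    rw [← QuotientGroup.mk_mul, QuotientGroup.eq_one_iff]; exact hs x
  have hqc : ∀ a b : Q ⧸ Z, a * b = b * a := fun a b => by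
    have h1 : ∀ v : Q ⧸ Z, v⁻¹ = v := fun v => inv_eq_of_mul_eq_one_right (hq v)
    rw [← h1 (a * b), mul_inv_rev, h1, h1]
  let _ : CommGroup (Q ⧸ Z) := { mul_comm := hqc }
  let _ : CommGroup Z := { mul_comm := fun a b => Subtype.ext (hc _ a.2 _) }
  have hcm : ∀ x y : Q, ⁅x, y⁆ ∈ Z := fun x y => by
    rw [← QuotientGroup.eq_one_iff]
    change QuotientGroup.mk' Z _ = 1
    rw [map_commutatorElement, commutatorElement_eq_one_iff_mul_comm, mul_comm]
  have c1 : ∀ x y z : Q, ⁅x * y, z⁆ = ⁅x, z⁆ * ⁅y, z⁆ := fun x y z => by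
    have : ⁅x * y, z⁆ = x * ⁅y, z⁆ * x⁻¹ * ⁅x, z⁆ := by simp only [commutatorElement_def]; group
    rw [this, ← hc _ (hcm y z), mul_inv_cancel_right, hc _ (hcm y z)]
  have c2 : ∀ x y z : Q, ⁅x, y * z⁆ = ⁅x, y⁆ * ⁅x, z⁆ := fun x y z => by
    have : ⁅x, y * z⁆ = ⁅x, y⁆ * (y * ⁅x, z⁆ * y⁻¹) := by simp only [commutatorElement_def]; group
    rw [this, ← hc _ (hcm x z), mul_inv_cancel_right]
  have c3 : ∀ x y : Q, x * y * (x * y) = x * x * (y * y) * ⁅x, y⁆ := fun x y => by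
    have e : y * x = ⁅y, x⁆ * (x * y) := by simp only [commutatorElement_def]; group
    have e2 : ⁅y, x⁆ = ⁅x, y⁆ := by
      rw [← commutatorElement_inv]; exact inv_eq_of_mul_eq_one_right (h2 _ (hcm x y))
    calc x * y * (x * y) = x * (y * x) * y := by group
      _ = x * (⁅x, y⁆ * (x * y * y)) := by rw [e, e2]; group
      _ = _ := by rw [hc _ (hcm x y)]; group
  have z1 : ∀ z ∈ Z, ∀ y : Q, ⁅z, y⁆ = 1 := fun z hz y =>
    commutatorElement_eq_one_iff_mul_comm.2 (hc z hz y)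
  have z2 : ∀ z ∈ Z, ∀ y : Q, ⁅y, z⁆ = 1 := fun z hz y =>
    commutatorElement_eq_one_iff_mul_comm.2 (hc z hz y).symm
  have ho : ∀ x : Q, ∃ z ∈ Z, (x : Q ⧸ Z).out = x * z := fun x => by
    obtain ⟨z, hz⟩ := QuotientGroup.mk_out_eq_mul Z x; exact ⟨z, z.2, hz⟩
  let s : Additive (Q ⧸ Z) → Additive Z := fun v => .ofMul ⟨v.toMul.out * v.toMul.out, hs _⟩
  have es : ∀ x : Q, s (.ofMul (x : Q ⧸ Z)) = .ofMul ⟨x * x, hs _⟩ := fun x => by
    obtain ⟨z, hz, e⟩ := ho x
    refine congrArg Additive.ofMul (Subtype.ext ?_)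
    change (x : Q ⧸ Z).out * (x : Q ⧸ Z).out = x * x
    rw [e, c3, h2 z hz, z2 z hz, mul_one, mul_one]
  let b0 : Additive (Q ⧸ Z) → Additive (Q ⧸ Z) → Additive Z := fun v w =>
    .ofMul ⟨⁅v.toMul.out, w.toMul.out⁆, hcm _ _⟩
  have eb : ∀ x y : Q, b0 (.ofMul (x : Q ⧸ Z)) (.ofMul (y : Q ⧸ Z)) = .ofMul ⟨⁅x, y⁆, hcm _ _⟩ :=
    fun x y => by
    obtain ⟨z, hz, e⟩ := ho x
    obtain ⟨z', hz', e'⟩ := ho y
    refine congrArg Additive.ofMul (Subtype.ext ?_)
    change ⁅(x : Q ⧸ Z).out, (y : Q ⧸ Z).out⁆ = ⁅x, y⁆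
    rw [e, e', c1, z1 z hz, mul_one, c2, z2 z' hz', mul_one]
  have ex : ∀ v : Additive (Q ⧸ Z), ∃ x : Q, v = .ofMul (x : Q ⧸ Z) := fun v => by
    obtain ⟨x, hx⟩ := QuotientGroup.mk_surjective v.toMul; exact ⟨x, by rw [hx]; rfl⟩
  clear_value s b0
  let b : Additive (Q ⧸ Z) →+ Additive (Q ⧸ Z) →+ Additive Z :=
    AddMonoidHom.mk' (fun v => AddMonoidHom.mk' (b0 v) fun w w' => by
      obtain ⟨x, rfl⟩ := ex v
      obtain ⟨y, rfl⟩ := ex w
      obtain ⟨y', rfl⟩ := ex w'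
      rw [← ofMul_mul, ← QuotientGroup.mk_mul, eb, eb, eb, ← ofMul_mul]
      exact congrArg Additive.ofMul (Subtype.ext (c2 _ _ _))) fun v v' => by
      refine AddMonoidHom.ext fun w => ?_
      obtain ⟨x, rfl⟩ := ex v
      obtain ⟨x', rfl⟩ := ex v'
      obtain ⟨y, rfl⟩ := ex w
      change b0 _ _ = b0 _ _ + b0 _ _
      rw [← ofMul_mul, ← QuotientGroup.mk_mul, eb, eb, eb, ← ofMul_mul]
      exact congrArg Additive.ofMul (Subtype.ext (c1 _ _ _))
  let π : Q →* Multiplicative (Additive (Q ⧸ Z)) :=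
    MonoidHom.mk' (fun x => .ofAdd (.ofMul (x : Q ⧸ Z))) fun _ _ => rfl
  let i : Multiplicative (Additive Z) →* Q :=
    MonoidHom.mk' (fun w => (w.toAdd.toMul : Q)) fun _ _ => rfl
  have hi : i.range = Z := by
    ext x
    exact ⟨by rintro ⟨w, rfl⟩; exact w.toAdd.toMul.2, fun hx => ⟨.ofAdd (.ofMul ⟨x, hx⟩), rfl⟩⟩
  refine ⟨_, _, inferInstance, inferInstance, π, i, s, b, ⟨fun v => ?_, fun a c e => ?_, ?_,
    fun w x => hc _ w.toAdd.toMul.2 x, fun x => ?_, fun x y => ?_, fun v w => ?_, fun v => hq _,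
    fun w => ?_⟩, hi⟩
  · obtain ⟨x, hx⟩ := ex v.toAdd
    exact ⟨x, congrArg Multiplicative.ofAdd hx.symm⟩
  · exact Subtype.ext e
  · rw [hi]; ext x; exact QuotientGroup.eq_one_iff x
  · change _ = ((s (.ofMul (x : Q ⧸ Z))).toMul : Q)
    rw [es]; rfl
  · change _ = ((b0 (.ofMul (x : Q ⧸ Z)) (.ofMul (y : Q ⧸ Z))).toMul : Q)
    rw [eb]; rfl
  · obtain ⟨x, rfl⟩ := ex v
    obtain ⟨y, rfl⟩ := ex w
    change _ = _ + b0 _ _
    rw [← ofMul_mul, ← QuotientGroup.mk_mul, es, es, es, eb, ← ofMul_mul, ← ofMul_mul]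
    exact congrArg Additive.ofMul (Subtype.ext (c3 _ _))
  · exact Subtype.ext (h2 _ w.toMul.2)

abbrev V0 : Type := ZMod 2 × ZMod 2 × ZMod 2 × ZMod 2
abbrev W0 : Type := ZMod 2 × ZMod 2

/-- the standard form -/
def s0 (c : V0) : W0 :=
  (c.1 + c.2.1 + c.2.2.1 + c.2.2.2 + c.1 * c.2.1 + c.2.1 * c.2.2.1 + c.2.2.1 * c.2.2.2,
   c.1 + c.2.1 + c.2.2.1 + c.2.2.2 + c.1 * c.2.2.1 + c.2.1 * c.2.2.2 + c.1 * c.2.2.2)

/-- the standard automorphism of order five -/
def M0 (c : V0) : V0 := (c.2.2.2, c.1 + c.2.2.2, c.2.1 + c.2.2.2, c.2.2.1 + c.2.2.2)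

theorem five_coord {V W : Type*} [AddCommGroup V] [AddCommGroup W] [Finite V] [Finite W]
    (cV : Nat.card V = 16) (cW : Nat.card W = 4) (hV : ∀ v : V, v + v = 0) (hW : ∀ w : W, w + w = 0)
    (s : V → W) (b : V →+ V →+ W) (hs : ∀ v w, s (v + w) = s v + s w + b v w) (A : V →+ V)
    (hA : ∀ v, s (A v) = s v) (h5 : ∀ v, A (A (A (A (A v)))) = v) (hfix : ∀ v, A v = v → v = 0)
    (hb : ∀ K : AddSubgroup W, (∀ v w, b v w ∈ K) → K = ⊤) :
    ∃ (κ : V0 ≃+ V) (ι : W0 ≃+ W), (∀ c, s (κ c) = ι (s0 c)) ∧ ∀ c, A (κ c) = κ (M0 c) := by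
  let _ : Module (ZMod 2) V := AddCommGroup.zmodModule (n := 2) fun v => by rw [two_nsmul, hV]
  let _ : Module (ZMod 2) W := AddCommGroup.zmodModule (n := 2) fun v => by rw [two_nsmul, hW]
  have h01 : ∀ c : ZMod 2, c = 0 ∨ c = 1 := by decide
  have s00 : s 0 = 0 := by
    have := hs 0 0
    simpa using this
  have ss : ∀ (c : ZMod 2) v, s (c • v) = c • s v := fun c v => by
    rcases h01 c with rfl | rfl <;> simp [s00]
  have bs : ∀ (c d : ZMod 2) v w, b (c • v) (d • w) = (c * d) • b v w := fun c d v w => by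
    rcases h01 c with rfl | rfl <;> rcases h01 d with rfl | rfl <;> simp
  have As : ∀ (c : ZMod 2) v, A (c • v) = c • A v := fun c v => by
    rcases h01 c with rfl | rfl <;> simp
  have bA : ∀ v w, b (A v) (A w) = b v w := fun v w => by
    have := hs (A v) (A w)
    rw [← map_add, hA, hA, hA, hs] at this
    exact (add_left_cancel this).symm
  have bc : ∀ v w, b v w = b w v := fun v w => by
    have := hs v w
    rw [add_comm v, hs, add_comm (s w)] at this
    exact (add_left_cancel this).symm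
  have : Nontrivial V := Finite.one_lt_card_iff_nontrivial.1 (by omega)
  obtain ⟨e, he⟩ := exists_ne (0 : V)
  have e4 : A (A (A (A e))) = e + A e + A (A e) + A (A (A e)) := by
    have := hfix (e + A e + A (A e) + A (A (A e)) + A (A (A (A e)))) (by
      simp only [map_add, h5]; abel)
    rw [add_eq_zero_iff_eq_neg] at this
    rw [this, neg_eq_of_add_eq_zero_left (hV _)]
  set β1 := b e (A e) with h1
  set β2 := b e (A (A e)) with h2
  have b12 : b (A e) (A (A e)) = β1 := bA _ _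
  have b23 : b (A (A e)) (A (A (A e))) = β1 := by rw [bA, bA]
  have b13 : b (A e) (A (A (A e))) = β2 := bA _ _
  have b03 : b e (A (A (A e))) = β2 := by
    rw [bc, h2, ← bA e, ← bA (A e), ← bA (A (A e)), h5]
  have se : s e = β1 + β2 := by
    have := hA (A (A (A e)))
    rw [e4] at this
    simp only [hs, map_add, AddMonoidHom.add_apply, hA, ← h1, ← h2, b12, b23, b13, b03] at this
    linear_combination (norm := module) this - hW (s e) - hW (β1 + β2) - hW (β1 + β2)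
  let κ : V0 →+ V := AddMonoidHom.mk' (fun c => c.1 • e + c.2.1 • A e + c.2.2.1 • A (A e) +
    c.2.2.2 • A (A (A e))) fun c d => by simp only [Prod.fst_add, Prod.snd_add]; module
  have hκ : ∀ c, κ c = c.1 • e + c.2.1 • A e + c.2.2.1 • A (A e) + c.2.2.2 • A (A (A e)) :=
    fun _ => rfl
  let ι : W0 →+ W := AddMonoidHom.mk' (fun c => c.1 • β1 + c.2 • β2) fun c d => by
    simp only [Prod.fst_add, Prod.snd_add]; module
  have hι : ∀ c, ι c = c.1 • β1 + c.2 • β2 := fun _ => rfl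
  have k1 : ∀ c, s (κ c) = ι (s0 c) := fun c => by
    simp only [hκ, hι, hs, map_add, AddMonoidHom.add_apply, ss, bs, hA, ← h1, ← h2, b12, b23, b13,
      b03, se, s0]
    module
  have k2 : ∀ c, A (κ c) = κ (M0 c) := fun c => by
    simp only [hκ, map_add, As, e4, M0]
    module
  have ki : Function.Injective κ := by
    rw [injective_iff_map_eq_zero]
    intro c hc
    by_contra h0
    have : ∀ c : V0, c ≠ 0 → ∃ x y z t : ZMod 2, x • c + y • M0 c + z • M0 (M0 c) +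
        t • M0 (M0 (M0 c)) = (1, 0, 0, 0) := by decide
    obtain ⟨x, y, z, t, hx⟩ := this c h0
    have κs : ∀ (c : ZMod 2) v, κ (c • v) = c • κ v := fun c v => by
      rcases h01 c with rfl | rfl <;> simp
    have := congrArg κ hx
    simp only [map_add, κs, ← k2, hc, map_zero, smul_zero, add_zero] at this
    apply he
    rw [hκ] at this
    simpa using this.symm
  have kb : Function.Bijective κ := ki.bijective_of_nat_card_le (by simp [cV])
  have is : Function.Surjective ι := by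
    rw [← AddMonoidHom.range_eq_top]
    refine hb _ fun v w => ?_
    obtain ⟨c, rfl⟩ := kb.2 v
    obtain ⟨d, rfl⟩ := kb.2 w
    refine ⟨s0 (c + d) - s0 c - s0 d, ?_⟩
    rw [map_sub, map_sub, ← k1, ← k1, ← k1, map_add, hs]; abel
  have ib : Function.Bijective ι := is.bijective_of_nat_card_le (by simp [cW])
  exact ⟨AddEquiv.ofBijective κ kb, AddEquiv.ofBijective ι ib, k1, k2⟩

theorem card_fix {V : Type*} [Group V] [Finite V] {p : ℕ} [Fact p.Prime] (f : V →* V)
    (hf : ∀ v, f^[p] v = v) (H : Subgroup V) (hH : ∀ v ∈ H, f v ∈ H) :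
    Nat.card H ≡ Nat.card (H ⊓ f.eqLocus (MonoidHom.id V) : Subgroup V) [MOD p] := by
  classical
  have := Fintype.ofFinite H
  let g : Function.End H := fun v => ⟨f v, hH _ v.2⟩
  have hg : ∀ k (v : H), ((g ^ k) v).1 = f^[k] v := fun k => by
    induction k with
    | zero => intro v; rfl
    | succ k ih => intro v; rw [pow_succ, Function.iterate_succ_apply]; exact ih (g v)
  have := Equiv.Perm.card_fixedPoints_modEq (f := g) (p := p) (n := 1) (by
    funext v; apply Subtype.ext; rw [pow_one, hg, hf]; rfl)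
  rw [Nat.card_eq_fintype_card]
  refine this.trans ?_
  rw [← Nat.card_eq_fintype_card, Nat.card_congr (β := (H ⊓ f.eqLocus (MonoidHom.id V) : Subgroup V))
    ⟨fun v => ⟨v.1.1, v.1.2, congrArg Subtype.val v.2⟩, fun v => ⟨⟨v.1, v.2.1⟩, Subtype.ext v.2.2⟩,
      fun _ => rfl, fun _ => rfl⟩]

namespace AD

variable {P V W : Type*} [Group P] [AddCommGroup V] [AddCommGroup W]
  {π : P →* Multiplicative V} {i : Multiplicative W →* P} {s : V → W} {b : V →+ V →+ W}
  (h : AD π i s b)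
include h

theorem ex (v : V) : ∃ x, (π x).toAdd = v := by
  obtain ⟨x, hx⟩ := h.surj (.ofAdd v); exact ⟨x, by rw [hx]; rfl⟩

theorem exists_ind (α : P →* P) (hα : ∀ x ∈ i.range, α x ∈ i.range) :
    ∃ A : V →+ V, ∀ x, A (π x).toAdd = (π (α x)).toAdd := by
  have e : ∀ x y, π x = π y → π (α x) = π (α y) := fun x y e => by
    have h1 : x⁻¹ * y ∈ π.ker := by simp [MonoidHom.mem_ker, e]
    rw [h.ker] at h1
    have h2 := hα _ h1
    rw [← h.ker, MonoidHom.mem_ker, map_mul, map_inv, map_mul, map_inv, inv_mul_eq_one] at h2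
    exact h2
  choose r hr using h.ex
  refine ⟨AddMonoidHom.mk' (fun v => (π (α (r v))).toAdd) fun a c => ?_, fun x =>
    congrArg Multiplicative.toAdd (e _ _ (Multiplicative.toAdd.injective (hr _)))⟩
  rw [e (r (a + c)) (r a * r c) (Multiplicative.toAdd.injective (by
    rw [hr, map_mul, toAdd_mul, hr, hr])), map_mul, map_mul, toAdd_mul]

theorem card_mul : Nat.card P = Nat.card V * Nat.card W := by
  rw [← π.ker.card_mul_index, index_ker, MonoidHom.range_eq_top.2 h.surj, h.ker,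
    ← Nat.card_congr (MonoidHom.ofInjective h.inj).toEquiv, card_top, mul_comm]
  rfl

theorem card_range : Nat.card i.range = Nat.card W :=
  (Nat.card_congr (MonoidHom.ofInjective h.inj).toEquiv).symm

theorem span (hc : i.range ≤ commutator P) (K : AddSubgroup W) (hK : ∀ v w, b v w ∈ K) : K = ⊤ := by
  have h1 : commutator P ≤ (K.toSubgroup).map i := by
    rw [commutator_def, commutator_le]
    intro x _ y _
    exact ⟨_, hK _ _, (h.comm x y).symm⟩
  rw [eq_top_iff]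
  intro w _
  obtain ⟨w', hw', e⟩ := h1 (hc ⟨.ofAdd w, rfl⟩)
  rw [h.inj e] at hw'
  exact hw'

end AD

theorem five_qx {Q : Type u} [Group Q] [Finite Q] (hQ : Nat.card Q = 64)
    (hZ : IsKleinFour (center Q)) (hc : center Q ≤ commutator Q) (α : MulAut Q) (h5 : α ^ 5 = 1)
    (hn : ∃ q, α q * q⁻¹ ∉ center Q) :
    ∃ (π : Q →* Multiplicative V0) (i : Multiplicative W0 →* Q), QX π i s0 ∧
      ∀ x, (π (α x)).toAdd = M0 (π x).toAdd := by
  have : Fact (Nat.Prime 5) := ⟨by norm_num⟩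
  have : Fact (Nat.Prime 2) := ⟨by norm_num⟩
  have a5 : ∀ x, α (α (α (α (α x)))) = x := fun x => MulEquiv.congr_fun h5 x
  have hZa : ∀ x ∈ center Q, α x ∈ center Q := fun x hx => by
    rw [mem_center_iff] at hx ⊢
    intro g
    obtain ⟨g, rfl⟩ := α.surjective g
    rw [← map_mul, hx, map_mul]
  have c4 : Nat.card (center Q) = 4 := hZ.card_four
  have c16 : Nat.card (Q ⧸ center Q) = 16 := by
    have := card_eq_card_quotient_mul_card_subgroup (center Q)
    rw [hQ, c4] at this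
    omega
  have zfix : ∀ z ∈ center Q, α z = z := by
    have h1 := card_fix (p := 5) α.toMonoidHom a5 (center Q) hZa
    have h2 : Nat.card (center Q ⊓ α.toMonoidHom.eqLocus (MonoidHom.id Q) : Subgroup Q) ≤ 4 :=
      c4 ▸ card_le_of_le inf_le_left
    have h3 : center Q ⊓ α.toMonoidHom.eqLocus (MonoidHom.id Q) = center Q :=
      eq_of_le_of_card_ge inf_le_left (by rw [c4] at h1 ⊢; unfold Nat.ModEq at h1; omega)
    intro z hz
    exact (h3.ge hz).2
  let f : Q ⧸ center Q →* Q ⧸ center Q := QuotientGroup.map _ _ α.toMonoidHom hZa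
  have hf : ∀ x : Q, f x = (α x : Q) := fun _ => rfl
  have f5 : ∀ v, f^[5] v = v := fun v => by
    obtain ⟨x, rfl⟩ := QuotientGroup.mk_surjective v
    exact congrArg QuotientGroup.mk (a5 x)
  have dv : ∀ H : Subgroup (Q ⧸ center Q), Nat.card H ≡ 1 [MOD 5] → H = ⊥ ∨ H = ⊤ := fun H hH => by
    have h1 : Nat.card H ∣ 2 ^ 4 := (c16 ▸ H.card_subgroup_dvd_card :)
    obtain ⟨k, hk, e⟩ := (Nat.dvd_prime_pow Nat.prime_two).1 h1
    rw [e] at hH
    interval_cases k
    · exact .inl (card_eq_one.1 e)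
    · exact absurd hH (by decide)
    · exact absurd hH (by decide)
    · exact absurd hH (by decide)
    · exact .inr ((card_eq_iff_eq_top H).1 (e.trans c16.symm))
  have ffix : f.eqLocus (MonoidHom.id _) = ⊥ := by
    have h1 := card_fix (p := 5) f f5 ⊤ (fun _ _ => trivial)
    rw [card_top, c16, top_inf_eq] at h1
    refine (dv _ (h1.symm.trans (by decide))).resolve_right fun e => ?_
    obtain ⟨q, hq⟩ := hn
    have : (q : Q ⧸ center Q) ∈ f.eqLocus (MonoidHom.id _) := e ▸ trivial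
    apply hq
    rw [← QuotientGroup.eq_one_iff, QuotientGroup.mk_mul, QuotientGroup.mk_inv, ← hf]
    exact mul_inv_eq_one.2 this
  have hsq : ∀ x : Q, x * x ∈ center Q := by
    let E : Subgroup (Q ⧸ center Q) :=
      { carrier := {v | v ∈ center _ ∧ v * v = 1}
        one_mem' := ⟨one_mem _, one_mul _⟩
        mul_mem' := fun {a c} ha hc => ⟨mul_mem ha.1 hc.1, by
          rw [mul_assoc, ← mul_assoc c, mem_center_iff.1 ha.1 c, mul_assoc, hc.2, mul_one, ha.2]⟩
        inv_mem' := fun {a} ha => ⟨inv_mem ha.1, by rw [← mul_inv_rev, ha.2, inv_one]⟩ }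
    have fs : Function.Surjective f := fun v => ⟨f^[4] v, by
      rw [← Function.iterate_succ_apply' f 4]; exact f5 v⟩
    have h1 := card_fix (p := 5) f f5 E (fun v hv => ⟨by
      rw [mem_center_iff]
      intro g
      obtain ⟨g, rfl⟩ := fs g
      rw [← map_mul, mem_center_iff.1 hv.1, map_mul], by rw [← map_mul, hv.2, map_one]⟩)
    rw [ffix, inf_bot_eq, card_bot] at h1
    have hE : E = ⊤ := by
      refine (dv _ h1).resolve_left fun e => ?_
      have hp : IsPGroup 2 (Q ⧸ center Q) := IsPGroup.of_card (n := 4) c16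
      have : Nontrivial (Q ⧸ center Q) := Finite.one_lt_card_iff_nontrivial.1 (by omega)
      have := hp.center_nontrivial
      obtain ⟨k, hk⟩ := (hp.to_subgroup (center _)).nontrivial_iff_card.1 this
      obtain ⟨z, hz⟩ := exists_prime_orderOf_dvd_card' (G := center (Q ⧸ center Q)) 2
        (by rw [hk.2]; exact dvd_pow_self 2 hk.1.ne')
      have h2 : z.1 ∈ E := ⟨z.2, by
        have := pow_orderOf_eq_one z
        rw [hz, pow_two] at this
        exact congrArg Subtype.val this⟩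
      rw [e, mem_bot] at h2
      rw [show z = 1 from Subtype.ext h2, orderOf_one] at hz
      omega
    intro x
    have : (x : Q ⧸ center Q) ∈ E := hE ▸ trivial
    rw [← QuotientGroup.eq_one_iff, QuotientGroup.mk_mul]
    exact this.2
  obtain ⟨V, W, _, _, π, i, s, b, h, hi⟩ := exists_ad (center Q) le_rfl (fun z hz =>
    congrArg Subtype.val (IsKleinFour.mul_self (⟨z, hz⟩ : center Q))) hsq
  have cW : Nat.card W = 4 := by rw [← h.card_range, hi, c4]
  have cV : Nat.card V = 16 := by have := h.card_mul; rw [hQ, cW] at this; omega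
  have : Finite V := Nat.finite_of_card_ne_zero (by omega)
  have : Finite W := Nat.finite_of_card_ne_zero (by omega)
  obtain ⟨A, hA⟩ := h.exists_ind α.toMonoidHom (hi ▸ hZa)
  have hA' : ∀ x, A (π x).toAdd = (π (α x)).toAdd := hA
  obtain ⟨κ, ι, k1, k2⟩ := five_coord cV cW h.hV h.hW s b h.add A (fun v => by
      obtain ⟨x, rfl⟩ := h.ex v
      have := zfix _ (hsq x)
      rw [map_mul, h.sq, h.sq, h.inj.eq_iff] at this
      rw [hA']; exact this)
    (fun v => by
      obtain ⟨x, rfl⟩ := h.ex v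
      simp only [hA', a5])
    (fun v hv => by
      obtain ⟨x, rfl⟩ := h.ex v
      rw [hA'] at hv
      have h1 : (α x)⁻¹ * x ∈ π.ker := by
        rw [MonoidHom.mem_ker, map_mul, map_inv, Multiplicative.toAdd.injective hv, inv_mul_cancel]
      rw [h.ker, hi, ← QuotientGroup.eq] at h1
      have h2 : (x : Q ⧸ center Q) ∈ f.eqLocus (MonoidHom.id _) := h1
      rw [ffix, mem_bot, QuotientGroup.eq_one_iff, ← hi, ← h.ker] at h2
      exact congrArg Multiplicative.toAdd h2)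
    (h.span (hi ▸ hc))
  refine ⟨κ.symm.toAddMonoidHom.toMultiplicative.comp π, i.comp ι.toAddMonoidHom.toMultiplicative,
    ⟨(show Function.Surjective κ.symm.toAddMonoidHom.toMultiplicative from κ.symm.surjective).comp h.surj,
      h.inj.comp ι.injective, ?_, fun w x => h.cent _ x, fun x => ?_, by decide, by decide⟩,
    fun x => ?_⟩
  · rw [MonoidHom.range_comp, MonoidHom.range_eq_top.2
      (show Function.Surjective ι.toAddMonoidHom.toMultiplicative from ι.surjective),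
      ← MonoidHom.range_eq_map, ← h.ker]
    ext x
    simp only [MonoidHom.mem_ker, MonoidHom.comp_apply]
    exact map_eq_one_iff _ (show Function.Injective κ.symm.toAddMonoidHom.toMultiplicative from
      κ.symm.injective)
  · rw [h.sq]
    change _ = i (.ofAdd (ι (s0 (κ.symm (π x).toAdd))))
    rw [← k1, κ.apply_symm_apply]
  · change κ.symm (π (α x)).toAdd = M0 (κ.symm (π x).toAdd)
    rw [κ.symm_apply_eq, ← k2, κ.apply_symm_apply, hA']

theorem five_conj {Q₁ Q₂ : Type*} [Group Q₁] [Group Q₂] [Finite Q₁] [Finite Q₂]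
    {π₁ : Q₁ →* Multiplicative V0} {i₁ : Multiplicative W0 →* Q₁} (h₁ : QX π₁ i₁ s0)
    {π₂ : Q₂ →* Multiplicative V0} {i₂ : Multiplicative W0 →* Q₂} (h₂ : QX π₂ i₂ s0)
    {α₁ : MulAut Q₁} {α₂ : MulAut Q₂} (a₁ : ∀ x, (π₁ (α₁ x)).toAdd = M0 (π₁ x).toAdd)
    (a₂ : ∀ x, (π₂ (α₂ x)).toAdd = M0 (π₂ x).toAdd) :
    ∃ e : Q₁ ≃* Q₂, ∀ x, e (α₁ x) = α₂ (e x) := by
  obtain ⟨φ, h1, -⟩ := iso_quad π₁ π₂ h₁.surj h₂.surj i₁ i₂ h₁.inj h₂.inj h₁.ker h₂.ker h₁.cent
    (fun x x' e => ⟨_, h₁.sq x, by rw [h₂.sq, e]⟩)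
  obtain ⟨Φ, hΦ⟩ := h₂.exists_phi
  have hk : α₂⁻¹ * MulAut.congr φ α₁ ∈ Φ.ker := by
    rw [MonoidHom.mem_ker, map_mul, map_inv, inv_mul_eq_one]
    refine Equiv.ext fun v => ?_
    obtain ⟨x, rfl⟩ := h₂.ex v
    obtain ⟨x, rfl⟩ := φ.surjective x
    rw [hΦ, hΦ, a₂, h1, ← a₁, ← h1]
    simp
  obtain ⟨t, ht⟩ := (h₂.mem_ker hΦ).1 hk
  have e1 : ∀ x, φ (α₁ x) = α₂ (h₂.cen t (φ x)) := fun x => by
    rw [← ht]; simp
  have fx : ∀ w, α₂ (i₂ w) = i₂ w := fun w => by
    obtain ⟨v, hv⟩ := h₂.Qsurj w.toAdd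
    obtain ⟨x, rfl⟩ := h₂.ex v
    have : i₂ w = x * x := by rw [h₂.sq, hv]; rfl
    have hs : ∀ c, s0 (M0 c) = s0 c := by decide
    rw [this, map_mul, h₂.sq, a₂, hs, h₂.sq]
  let N : V0 →+ V0 := AddMonoidHom.mk' (fun c => M0 c + M0 (M0 (M0 c))) (by decide)
  have hN : ∀ c, N (M0 c) + c = N c := by decide
  refine ⟨φ.trans (h₂.cen (t.comp N)), fun x => ?_⟩
  have e2 : ∀ y w, α₂ (y * i₂ w) = α₂ y * i₂ w := fun y w => by rw [map_mul, fx]
  have e3 : ∀ y w, π₂ (y * i₂ w) = π₂ y := fun y w => by rw [map_mul, h₂.πi, mul_one]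
  simp only [MulEquiv.trans_apply, e1, QX.cen_apply, e2, e3, a₂, AddMonoidHom.comp_apply]
  rw [mul_assoc, ← map_mul i₂, ← ofAdd_add, ← map_add t, add_comm, hN]

theorem iso_of_cyc {G₁ G₂ : Type*} [Group G₁] [Group G₂] {H₁ : Subgroup G₁} [H₁.Normal]
    {H₂ : Subgroup G₂} [H₂.Normal] {x₁ : G₁} {x₂ : G₂} (ho : orderOf x₁ = orderOf x₂)
    (c₁ : H₁.IsComplement' (zpowers x₁)) (c₂ : H₂.IsComplement' (zpowers x₂)) (e : H₁ ≃* H₂)
    (he : ∀ q, e (MulAut.conjNormal x₁ q) = MulAut.conjNormal x₂ (e q)) : Nonempty (G₁ ≃* G₂) := by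
  have g₁ : ∀ y : zpowers x₁, y ∈ zpowers (⟨x₁, mem_zpowers _⟩ : zpowers x₁) := fun y => by
    obtain ⟨k, hk⟩ := y.2; exact ⟨k, Subtype.ext hk⟩
  have g₂ : ∀ y : zpowers x₂, y ∈ zpowers (⟨x₂, mem_zpowers _⟩ : zpowers x₂) := fun y => by
    obtain ⟨k, hk⟩ := y.2; exact ⟨k, Subtype.ext hk⟩
  let fg := mulEquivOfOrderOfEq g₁ g₂ (by rw [← orderOf_coe, ← orderOf_coe]; exact ho)
  refine ⟨(SemidirectProduct.mulEquivSubgroup c₁).symm.trans
    ((SemidirectProduct.congr e fg fun g => ?_).trans (SemidirectProduct.mulEquivSubgroup c₂))⟩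
  have := (MonoidHom.eq_iff_eq_on_generator g₁
    ((MulAut.congr e).toMonoidHom.comp (MulAut.conjNormal.comp (zpowers x₁).subtype))
    ((MulAut.conjNormal.comp (zpowers x₂).subtype).comp fg.toMonoidHom)).2 (by
      ext q
      obtain ⟨q, rfl⟩ := e.surjective q
      simp [fg, he])
  ext q
  have h2 := congrArg (fun f : H₂ => (f : G₂)) (MulEquiv.congr_fun (DFunLike.congr_fun this g) (e q))
  simp only [MonoidHom.comp_apply, MulEquiv.coe_toMonoidHom, MulAut.congr_apply,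
    MulEquiv.trans_apply, MulEquiv.symm_apply_apply] at h2
  exact h2

/-- the shape `2^{2+4} : 5` -/
def H320 (G : Type*) [Group G] : Prop :=
  Nat.card G = 320 ∧ ∃ (Q : Subgroup G) (_ : Q.Normal) (x : G), orderOf x = 5 ∧ Nat.card Q = 64 ∧
    IsKleinFour (center Q) ∧ center Q ≤ commutator Q ∧
      ∃ q : Q, MulAut.conjNormal x q * q⁻¹ ∉ center Q

theorem H320.iso {G₁ G₂ : Type*} [Group G₁] [Group G₂] (h₁ : H320 G₁) (h₂ : H320 G₂) :
    Nonempty (G₁ ≃* G₂) := by
  obtain ⟨c₁, Q₁, _, x₁, o₁, d₁, z₁, k₁, n₁⟩ := h₁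
  obtain ⟨c₂, Q₂, _, x₂, o₂, d₂, z₂, k₂, n₂⟩ := h₂
  have : Finite G₁ := Nat.finite_of_card_ne_zero (by omega)
  have : Finite G₂ := Nat.finite_of_card_ne_zero (by omega)
  obtain ⟨π₁, i₁, h₁, a₁⟩ := five_qx d₁ z₁ k₁ _ (by rw [← map_pow, ← o₁, pow_orderOf_eq_one, map_one]) n₁
  obtain ⟨π₂, i₂, h₂, a₂⟩ := five_qx d₂ z₂ k₂ _ (by rw [← map_pow, ← o₂, pow_orderOf_eq_one, map_one]) n₂
  obtain ⟨e, he⟩ := five_conj h₁ h₂ a₁ a₂
  exact iso_of_cyc (o₁.trans o₂.symm)
    (isComplement'_of_coprime (by rw [d₁, Nat.card_zpowers, o₁, c₁])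
      (by rw [d₁, Nat.card_zpowers, o₁]; norm_num))
    (isComplement'_of_coprime (by rw [d₂, Nat.card_zpowers, o₂, c₂])
      (by rw [d₂, Nat.card_zpowers, o₂]; norm_num)) e he

end H22.QA
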