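import Cfsg.Agent.H22.LsC

/-! Involutions of `SU₃(q)`, `q` odd. -/

set_option autoImplicit false

namespace H22.SuI

open Module H23 H23.Form H22.Ls

attribute [-simp] conj_apply

theorem ncard_eq_mul {α β : Type*} [Finite α] [Finite β] {S : Set α} {T : Set β} (R : α → β → Prop)
    (h1 : ∀ a ∈ S, ∃! b, b ∈ T ∧ R a b) {k : ℕ} (h2 : ∀ b ∈ T, {a | a ∈ S ∧ R a b}.ncard = k) :
    S.ncard = T.ncard * k := by
  classical
  have := Fintype.ofFinite α
  have := Fintype.ofFinite β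
  have h := Finset.sum_card_bipartiteAbove_eq_sum_card_bipartiteBelow (s := S.toFinset) (t := T.toFinset) R
  rw [Finset.sum_congr (s₁ := S.toFinset) rfl (g := fun _ => 1) fun a ha => ?_,
    Finset.sum_congr (s₁ := T.toFinset) rfl (g := fun _ => k) fun b hb => ?_] at h
  · simpa [Set.ncard_eq_toFinset_card'] using h
  · rw [← h2 b (by simpa using hb), ← Set.ncard_coe_finset]
    congr 1; ext; simp
  · obtain ⟨b, hb, hu⟩ := h1 a (by simpa using ha)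
    refine Finset.card_eq_one.2 ⟨b, Finset.eq_singleton_iff_unique_mem.2 ⟨by simpa using hb, fun c hc => ?_⟩⟩
    exact hu c (by simpa using hc)

variable {F V : Type*} [Field F] [Fintype F] {q : ℕ} {hF : Fintype.card F = q ^ 2} [AddCommGroup V]
  [Module F V] [FiniteDimensional F V] {Φ : Form (conj hF) V}

/-- `t` is the involution with axis `v` -/
def Ax (t : SO Φ) (v : V) : Prop :=
  Φ.B v v ≠ 0 ∧ ∀ x, t.1.1 x = -x + (2 * Φ.B v x / Φ.B v v) • v

/-- involutions -/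
def Inv (t : SO Φ) : Prop := t ≠ 1 ∧ t * t = 1

theorem ext' {s t : SO Φ} (h : ∀ x, s.1.1 x = t.1.1 x) : s = t := Subtype.ext (O_ext _ h)

theorem mul_ap (s t : SO Φ) (x : V) : (s * t).1.1 x = s.1.1 (t.1.1 x) := rfl

namespace Ax

variable {t s : SO Φ} {v w : V}

theorem ne (h : Ax t v) : v ≠ 0 := fun e => h.1 (by simp [e])

theorem fix (h : Ax t v) : t.1.1 v = v := by
  rw [h.2, mul_div_cancel_right₀ _ h.1]; module

theorem uniq (h : Ax t v) (h' : Ax s v) : t = s := ext' fun x => by rw [h.2, h'.2]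

theorem smul (h : Ax t v) {c : F} (hc : c ≠ 0) : Ax t (c • v) := by
  have h1 := h.1
  have : conj hF c ≠ 0 := (map_ne_zero _).2 hc
  refine ⟨by simp [B_smul_left, *], fun x => ?_⟩
  rw [h.2, smul_smul]
  congr 2
  simp only [B_smul_left, map_smul, smul_eq_mul]
  field_simp

theorem mem (h2 : (2 : F) ≠ 0) (h : Ax t v) {x : V} (hx : t.1.1 x = x) : x ∈ F ∙ v := by
  rw [h.2, neg_add_eq_iff_eq_add, ← two_smul F] at hx
  have := (F ∙ v).smul_mem (2 : F)⁻¹ (hx ▸ Submodule.smul_mem _ _ (Submodule.mem_span_singleton_self v))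
  rwa [inv_smul_smul₀ h2] at this

theorem eq_iff (h2 : (2 : F) ≠ 0) (h : Ax t v) (h' : Ax s w) : t = s ↔ w ∈ F ∙ v := by
  refine ⟨fun e => h.mem h2 (e ▸ h'.fix), fun e => ?_⟩
  obtain ⟨c, rfl⟩ := Submodule.mem_span_singleton.1 e
  exact (h.smul fun e => h'.ne (by simp [e])).uniq h'

theorem sq (h : Ax t v) : t * t = 1 := ext' fun x => by
  rw [mul_ap, h.2 x, map_add, map_neg, map_smul, h.fix, h.2]; simp

theorem inv (h2 : (2 : F) ≠ 0) (h3 : finrank F V = 3) (h : Ax t v) : Inv t := by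
  refine ⟨fun e => ?_, h.sq⟩
  have : (F ∙ v) = ⊤ := eq_top_iff.2 fun x _ => h.mem h2 (by rw [e]; rfl)
  have h1 := finrank_span_singleton (K := F) h.ne
  rw [this, finrank_top] at h1
  omega

theorem cj (h : Ax t v) (g : SO Φ) : Ax (g * t * g⁻¹) (g.1.1 v) := by
  refine ⟨by rw [(g.1.2).1]; exact h.1, fun x => ?_⟩
  rw [mul_ap, mul_ap, h.2, map_add, map_neg, map_smul, (g.1.2).1, ← (g.1.2).1 v]
  simp [← mul_ap]

theorem comm_iff (h2 : (2 : F) ≠ 0) (h : Ax t v) (h' : Ax s w) :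
    Commute t s ↔ t = s ∨ Φ.B v w = 0 := by
  refine ⟨fun e => ?_, ?_⟩
  · have h0 : s.1.1 (t.1.1 w) = t.1.1 w := by rw [← mul_ap, ← e.eq, mul_ap, h'.fix]
    have h1 := h'.mem h2 h0
    refine or_iff_not_imp_right.2 fun hb : Φ.B v w ≠ 0 => ((h'.eq_iff h2 h).2 ?_).symm
    have h4 := (F ∙ w).add_mem (Submodule.mem_span_singleton_self w) h1
    rw [h.2, add_neg_cancel_left] at h4
    exact (Submodule.smul_mem_iff _ (div_ne_zero (mul_ne_zero h2 hb) h.1)).1 h4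
  · rintro (rfl | e)
    · exact Commute.refl _
    · refine ext' fun x => ?_
      simp only [mul_ap, h.2, h'.2, map_add, map_neg, map_smul, e, Φ.B_eq_zero_symm e, smul_eq_mul,
        mul_zero, add_zero, mul_neg, neg_div]
      module

end Ax

variable (hΦ : Φ.Nondeg) (hε : Φ.ε = 1) (hκ : Φ.κ = 0) (h2 : (2 : F) ≠ 0) (h3 : finrank F V = 3)

include hε in
theorem conj_self (v : V) : conj hF (Φ.B v v) = Φ.B v v := by
  simpa [hε] using (Φ.symm v v).symm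

include hΦ hε hκ in
theorem exists_refl {v : V} (hv : Φ.B v v ≠ 0) : ∃ g : Φ.O, LinearMap.det g.1.toLinearMap = -1 ∧
    ∀ x, g.1 x = x - (2 * Φ.B v x / Φ.B v v) • v := by
  obtain ⟨g, hg, h1, h4⟩ := hΦ.exists_qrefl hκ (d := v) (c := -2 / Φ.B v v) (by
    simp only [hε, map_div₀, map_neg, map_ofNat, conj_self hε]; field_simp; ring)
  refine ⟨⟨g, hg⟩, by rw [h1]; field_simp; ring, fun x => ?_⟩
  rw [h4, sub_eq_add_neg, ← neg_smul]; congr 2; ring

include hΦ hε hκ h3 in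
theorem exists_ax {v : V} (hv : Φ.B v v ≠ 0) : ∃ t : SO Φ, Ax t v := by
  obtain ⟨g, h1, h4⟩ := exists_refl hΦ hε hκ hv
  refine ⟨⟨scal Φ (-1) (by simp) * g, mem_SO.2 ?_⟩, hv, fun x => ?_⟩
  · rw [← coe_oDet, map_mul, Units.val_mul, coe_oDet, coe_oDet, det_scal, h1, h3]; ring
  · change (-1 : F) • g.1 x = _
    rw [h4]; module

include hΦ h2 in
theorem aux (s : Φ.O) (hs : s * s = 1) {e : F} (he : e = 1 ∨ e = -1) {U : Submodule F V}
    (hU : finrank F U = 1) (h1 : ∀ x, x + e • s.1 x ∈ U) (h4 : ∀ u ∈ U, s.1 u = e • u) :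
    ∃ v, Φ.B v v ≠ 0 ∧ ∀ x, e • s.1 x = -x + (2 * Φ.B v x / Φ.B v v) • v := by
  obtain ⟨⟨v, hv⟩, h0, h5⟩ := finrank_eq_one_iff'.1 hU
  have key : ∀ x, ∃ a : F, a • v = x + e • s.1 x ∧ a * Φ.B v v = 2 * Φ.B v x := fun x => by
    obtain ⟨a, ha⟩ := h5 ⟨_, h1 x⟩
    have ha' : a • v = x + e • s.1 x := congrArg Subtype.val ha
    refine ⟨a, ha', ?_⟩
    have : Φ.B v (s.1 x) = e * Φ.B v x := by
      rw [← s.2.1, ← O_mul_apply, hs, h4 v hv, B_smul_left]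
      rcases he with rfl | rfl <;> simp
    rw [← smul_eq_mul, ← map_smul, ha', map_add, map_smul, this]
    rcases he with rfl | rfl <;> simp [two_mul]
  have hvv : Φ.B v v ≠ 0 := fun e => h0 (Subtype.ext (hΦ v fun x => by
    obtain ⟨a, -, ha⟩ := key x
    simpa [e, h2] using ha))
  refine ⟨v, hvv, fun x => ?_⟩
  obtain ⟨a, ha, hb⟩ := key x
  rw [← hb, mul_div_cancel_right₀ _ hvv, ha, neg_add_cancel_left]

include hΦ hε hκ h2 h3 in
theorem Inv.exists_ax {t : SO Φ} (h : Inv t) : ∃ v, Ax t v := by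
  have hs : t.1 * t.1 = 1 := congrArg Subtype.val h.2
  have hss : ∀ x, t.1.1 (t.1.1 x) = x := fun x => by rw [← O_mul_apply, hs]; rfl
  have hd := mem_SO.1 t.2
  have hm : (-1 : F) ≠ 1 := fun e => h2 (by linear_combination -e)
  let A : V →ₗ[F] V := LinearMap.id + t.1.1.toLinearMap
  have hA : ∀ x, A x = x + t.1.1 x := fun _ => rfl
  have h1 := A.finrank_range_add_finrank_ker
  have h4 : finrank F (LinearMap.range A) ≠ 0 := fun e => by
    rw [Submodule.finrank_eq_zero, LinearMap.range_eq_bot] at e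
    rw [show t.1 = scal Φ (-1) (by simp) from O_ext _ fun x => (eq_neg_of_add_eq_zero_right
      ((hA x).symm.trans (by rw [e]; rfl))).trans (neg_one_smul F x).symm, det_scal, h3] at hd
    exact hm (by linear_combination hd)
  have h5 : ∀ x, x + (-1 : F) • t.1.1 x ∈ LinearMap.ker A := fun x => by simp [hA, hss]
  have h6 : finrank F (LinearMap.ker A) ≠ 0 := fun e => by
    rw [Submodule.finrank_eq_zero] at e
    refine h.1 (ext' fun x => ?_)
    have := h5 x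
    rw [e, Submodule.mem_bot, neg_one_smul, add_neg_eq_zero] at this
    exact this.symm
  by_cases h7 : finrank F (LinearMap.range A) = 1
  · obtain ⟨v, hv, h8⟩ := aux hΦ h2 t.1 hs (.inl rfl) h7 (fun x => ⟨x, by simp [hA]⟩) (by
      rintro _ ⟨x, rfl⟩; simp [hA, hss, add_comm])
    exact ⟨v, hv, fun x => by rw [← h8, one_smul]⟩
  · obtain ⟨v, hv, h8⟩ := aux hΦ h2 t.1 hs (.inr rfl) (show finrank F (LinearMap.ker A) = 1 by omega) h5
      fun u hu => (eq_neg_of_add_eq_zero_right hu).trans (neg_one_smul F u).symm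
    obtain ⟨g, h9, h10⟩ := exists_refl hΦ hε hκ hv
    rw [show t.1 = g from O_ext _ fun x => by
      rw [h10, ← neg_inj, ← neg_one_smul F (t.1.1 x), h8]; module, h9] at hd
    exact (hm hd).elim

include hΦ h3 in
theorem exists_perp (u w : V) : ∃ p, p ≠ 0 ∧ Φ.B u p = 0 ∧ Φ.B w p = 0 := by
  classical
  have h1 := hΦ.finrank_perp_add (Submodule.span F (({u, w} : Finset V) : Set V))
  have h4 := (finrank_span_finset_le_card (R := F) ({u, w} : Finset V)).trans Finset.card_le_two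
  obtain ⟨p, hp, h0⟩ := Submodule.exists_mem_ne_zero_of_ne_bot
    (p := Φ.perp (Submodule.span F (({u, w} : Finset V) : Set V))) fun e => by
      rw [e, finrank_bot] at h1
      unfold Set.finrank at h4
      omega
  rw [mem_perp_span] at hp
  exact ⟨p, h0, hp u (by simp), hp w (by simp)⟩

include hΦ h3 in
theorem perp_uniq {u w p p' : V} (hu : u ≠ 0) (hw : w ∉ F ∙ u) (hp : p ≠ 0) (h1 : Φ.B u p = 0)
    (h4 : Φ.B w p = 0) (h5 : Φ.B u p' = 0) (h6 : Φ.B w p' = 0) : p' ∈ F ∙ p := by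
  have h7 := hΦ.finrank_perp_add (Submodule.span F {u, w})
  rw [LC.finrank_span_two hu hw, h3] at h7
  obtain ⟨c, hc⟩ := (finrank_eq_one_iff_of_nonzero' (K := F) (⟨p, by simp [mem_perp_span, *]⟩ :
    Φ.perp (Submodule.span F {u, w})) (by simpa)).1 (by omega) ⟨p', by simp [mem_perp_span, *]⟩
  exact Submodule.mem_span_singleton.2 ⟨c, congrArg Subtype.val hc⟩

omit [FiniteDimensional F V] in
theorem ncard_line (hF : Fintype.card F = q ^ 2) {v : V} (hv : v ≠ 0) : {w | w ≠ 0 ∧ w ∈ F ∙ v}.ncard = q ^ 2 - 1 := by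
  have := ncard_ne_zero (F := F) (E := F)
  rw [finrank_self, pow_one] at this
  rw [← hF, ← this, ← Set.ncard_image_of_injective _ (smul_left_injective F hv)]
  congr 1
  ext w
  simp only [Submodule.mem_span_singleton, Set.mem_ofPred_eq, Set.mem_image]
  exact ⟨fun ⟨h, c, e⟩ => ⟨c, by rintro rfl; simp [← e] at h, e⟩,
    fun ⟨c, h, e⟩ => ⟨e ▸ smul_ne_zero h hv, c, e⟩⟩

include hΦ hε hκ h2 h3 in
theorem count (U : Submodule F V) :
    {w | w ∈ U ∧ Φ.B w w ≠ 0}.ncard = {t : SO Φ | ∃ w ∈ U, Ax t w}.ncard * (q ^ 2 - 1) := by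
  have := finite_of_fd F V
  have := finite_O (Φ := Φ)
  refine ncard_eq_mul (fun w t => Ax t w) (fun w hw => ?_) ?_
  · obtain ⟨t, ht⟩ := exists_ax hΦ hε hκ h3 hw.2
    exact ⟨t, ⟨⟨w, hw.1, ht⟩, ht⟩, fun s hs => hs.2.uniq ht⟩
  · rintro t ⟨v, hv, ht⟩
    rw [← ncard_line hF ht.ne]
    congr 1
    ext w
    refine ⟨fun h => ⟨h.2.ne, (ht.eq_iff h2 h.2).1 rfl⟩, fun ⟨h0, h⟩ => ?_⟩
    obtain ⟨c, rfl⟩ := Submodule.mem_span_singleton.1 h
    have := ht.smul (c := c) fun e => h0 (by simp [e])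
    exact ⟨⟨U.smul_mem _ hv, this.1⟩, this⟩

include hε hκ in
theorem ncard_iso {U : Submodule F V} (hU : Disjoint U (Φ.perp U)) :
    {w | w ∈ U ∧ Φ.B w w = 0}.ncard = (if Even (finrank F U) then
      (q ^ finrank F U - 1) * (q ^ (finrank F U - 1) + 1)
      else (q ^ finrank F U + 1) * (q ^ (finrank F U - 1) - 1)) + 1 := by
  rw [← nsing_herm hF (Φ.restrict U) (Φ.nondeg_restrict_iff.2 hU) hε hκ rfl, nsing]
  change _ = {v : U | Sing (Φ.restrict U) v}.ncard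
  rw [← Set.ncard_image_of_injective _ U.subtype_injective]
  congr 1
  ext w
  exact ⟨fun h => ⟨⟨w, h.1⟩, ⟨h.2, Q_of_κ hκ _⟩, rfl⟩, by rintro ⟨w, h, rfl⟩; exact ⟨w.2, h.1⟩⟩

theorem ncard_split (U : Submodule F V) : {w | w ∈ U ∧ Φ.B w w ≠ 0}.ncard +
    {w | w ∈ U ∧ Φ.B w w = 0}.ncard = q ^ (2 * finrank F U) := by
  have := finite_of_fd F V
  rw [pow_mul, ← hF, ← ncard_submodule, ← Set.ncard_union_eq (Set.disjoint_left.2 fun _ h h' => h.2 h'.2)]
  congr 1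
  ext w
  simp only [Set.mem_union, Set.mem_ofPred_eq, SetLike.mem_coe]
  tauto

include hΦ h3 in
theorem perp_one {v : V} (hv : Φ.B v v ≠ 0) : finrank F (Φ.perp (F ∙ v)) = 2 ∧
    Disjoint (Φ.perp (F ∙ v)) (Φ.perp (Φ.perp (F ∙ v))) := by
  have h0 : v ≠ 0 := fun e => hv (by simp [e])
  refine ⟨by rw [hΦ.finrank_perp, finrank_span_singleton h0, h3], ?_⟩
  rw [hΦ.perp_perp, Submodule.disjoint_span_singleton' h0, mem_perp_span_singleton]
  exact hv

include hΦ hε hκ h2 h3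

theorem ncard_inv : {t : SO Φ | Inv t}.ncard = q ^ 2 * (q ^ 2 - q + 1) := by
  have h1 := count hΦ hε hκ h2 h3 ⊤
  have h4 := ncard_iso hε hκ (U := ⊤) (by simp [Φ.perp_top hΦ])
  have h5 := ncard_split (Φ := Φ) ⊤
  rw [finrank_top, h3] at h4 h5
  rw [h1, h4, if_neg (by decide), show {t : SO Φ | ∃ w ∈ (⊤ : Submodule F V), Ax t w} = {t | Inv t} from
    Set.ext fun t => ⟨fun ⟨w, _, h⟩ => h.inv h2 h3, fun h => (h.exists_ax hΦ hε hκ h2 h3).imp
      fun _ h => ⟨trivial, h⟩⟩] at h5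
  have hq := two_le_of_card_eq_sq hF
  have : 1 < q ^ 2 := Nat.one_lt_pow two_ne_zero hq
  refine Nat.eq_of_mul_eq_mul_right (m := q ^ 2 - 1) (by omega) ?_
  zify [this.le, show q ≤ q ^ 2 from Nat.le_self_pow two_ne_zero q] at h5 ⊢
  linear_combination h5

theorem ncard_D {t : SO Φ} (ht : Inv t) :
    {x : SO Φ | Inv x ∧ x ≠ t ∧ Commute t x}.ncard = q * (q - 1) := by
  obtain ⟨v, hv⟩ := ht.exists_ax hΦ hε hκ h2 h3
  obtain ⟨h6, h7⟩ := perp_one hΦ h3 hv.1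
  have h1 := count hΦ hε hκ h2 h3 (Φ.perp (F ∙ v))
  have h4 := ncard_iso hε hκ h7
  have h5 := ncard_split (Φ := Φ) (Φ.perp (F ∙ v))
  rw [h6] at h4 h5
  rw [h1, h4, if_pos (by decide), show {t : SO Φ | ∃ w ∈ Φ.perp (F ∙ v), Ax t w} =
    {x | Inv x ∧ x ≠ t ∧ Commute t x} from Set.ext fun x => ⟨fun ⟨w, hw, h⟩ => by
      rw [mem_perp_span_singleton] at hw
      refine ⟨h.inv h2 h3, fun e => ?_, (hv.comm_iff h2 h).2 (.inr hw)⟩
      obtain ⟨c, rfl⟩ := Submodule.mem_span_singleton.1 ((hv.eq_iff h2 h).1 e.symm)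
      simp only [map_smul, smul_eq_mul, mul_eq_zero, hv.1, or_false] at hw
      exact h.ne (by simp [hw]), fun h => by
      obtain ⟨w, hw⟩ := h.1.exists_ax hΦ hε hκ h2 h3
      exact ⟨w, (mem_perp_span_singleton _).2
        (((hv.comm_iff h2 hw).1 h.2.2).resolve_left h.2.1.symm), hw⟩⟩] at h5
  have hq := two_le_of_card_eq_sq hF
  have : 1 < q ^ 2 := Nat.one_lt_pow two_ne_zero hq
  refine Nat.eq_of_mul_eq_mul_right (m := q ^ 2 - 1) (by omega) ?_
  zify [this.le, show 1 ≤ q by omega] at h5 ⊢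
  linear_combination h5

theorem third_uniq {t x y z : SO Φ} (ht : Inv t) (hx : Inv x) (hy : Inv y) (hz : Inv z) (h : x ≠ t)
    (y1 : y ≠ t) (y2 : y ≠ x) (y3 : Commute t y) (y4 : Commute x y)
    (z1 : z ≠ t) (z2 : z ≠ x) (z3 : Commute t z) (z4 : Commute x z) : y = z := by
  obtain ⟨v, hv⟩ := ht.exists_ax hΦ hε hκ h2 h3
  obtain ⟨w, hw⟩ := hx.exists_ax hΦ hε hκ h2 h3
  obtain ⟨a, ha⟩ := hy.exists_ax hΦ hε hκ h2 h3
  obtain ⟨b, hb⟩ := hz.exists_ax hΦ hε hκ h2 h3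
  exact (ha.eq_iff h2 hb).2 (perp_uniq hΦ h3 hv.ne (fun e => h ((hv.eq_iff h2 hw).2 e).symm) ha.ne
    (((hv.comm_iff h2 ha).1 y3).resolve_left y1.symm) (((hw.comm_iff h2 ha).1 y4).resolve_left y2.symm)
    (((hv.comm_iff h2 hb).1 z3).resolve_left z1.symm) (((hw.comm_iff h2 hb).1 z4).resolve_left z2.symm))

theorem third {t x : SO Φ} (ht : Inv t) (hx : Inv x) (h : x ≠ t) (hc : Commute t x) :
    {y : SO Φ | Inv y ∧ y ≠ t ∧ y ≠ x ∧ Commute t y ∧ Commute x y} = {t * x} := by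
  have h1 : Inv (t * x) ∧ t * x ≠ t ∧ t * x ≠ x ∧ Commute t (t * x) ∧ Commute x (t * x) :=
    ⟨⟨fun e => h (mul_left_cancel (e.trans ht.2.symm)), by
      rw [mul_assoc, ← mul_assoc x, ← hc.eq, mul_assoc, hx.2, mul_one, ht.2]⟩, by simpa using hx.1,
      by simpa using ht.1, (Commute.refl t).mul_right hc, hc.symm.mul_right (Commute.refl x)⟩
  exact Set.eq_singleton_iff_unique_mem.2 ⟨h1, fun y hy => third_uniq hΦ hε hκ h2 h3 ht hx hy.1 h1.1 h
    hy.2.1 hy.2.2.1 hy.2.2.2.1 hy.2.2.2.2 h1.2.1 h1.2.2.1 h1.2.2.2.1 h1.2.2.2.2⟩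

theorem exists_conj {t x : SO Φ} (ht : Inv t) (hx : Inv x) : ∃ g, g * t * g⁻¹ = x := by
  obtain ⟨v, hv⟩ := ht.exists_ax hΦ hε hκ h2 h3
  obtain ⟨w, hw⟩ := hx.exists_ax hΦ hε hκ h2 h3
  obtain ⟨c, hc⟩ := exists_norm_eq_of_invol (conj_ne_id hF) Φ.invol (μ := Φ.B v v / Φ.B w w)
    (by rw [map_div₀, conj_self hε, conj_self hε])
  have hc0 : c ≠ 0 := by
    rintro rfl
    exact div_ne_zero hv.1 hw.1 (by simpa using hc.symm)
  have hw' := hw.smul hc0
  obtain ⟨g, hg, e⟩ := hΦ.witt_one hv.ne hw'.ne (by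
    rw [B_smul_left, map_smul, smul_eq_mul, ← mul_assoc, hc, div_mul_cancel₀ _ hw.1])
    (by rw [Q_of_κ hκ, Q_of_κ hκ])
  have hn := norm_det_eq_one hΦ (⟨g, hg⟩ : Φ.O)⁻¹
  obtain ⟨k, hk, h1, h4⟩ := hΦ.exists_qrefl hκ (d := v)
    (c := (LinearMap.det ((⟨g, hg⟩ : Φ.O)⁻¹).1.toLinearMap - 1) / Φ.B v v) (by
      have := hv.1
      simp only [hε, map_div₀, map_sub, map_one, conj_self hε]; field_simp; linear_combination hn)
  rw [div_mul_cancel₀ _ hv.1, add_sub_cancel] at h1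
  have h5 : (⟨g, hg⟩ * ⟨k, hk⟩ : Φ.O) ∈ SO Φ := by
    rw [mem_SO, ← coe_oDet, map_mul, Units.val_mul, coe_oDet ⟨k, hk⟩, h1, ← coe_oDet, ← Units.val_mul,
      ← map_mul, mul_inv_cancel, map_one, Units.val_one]
  have h6 := hv.cj ⟨_, h5⟩
  refine ⟨⟨_, h5⟩, ((hw'.eq_iff h2 h6).2 ?_).symm⟩
  change g (k v) ∈ _
  rw [h4, map_add, map_smul, e]
  exact add_mem (Submodule.mem_span_singleton_self _) (Submodule.smul_mem _ _ (Submodule.mem_span_singleton_self _))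

theorem ncard_two {t : SO Φ} (ht : Inv t) : {x : SO Φ | Inv x ∧ ¬ Commute t x ∧
    ∃ y, Inv y ∧ Commute t y ∧ Commute y x}.ncard = q * (q - 1) * (q * (q - 1) - 2) := by
  have := finite_O (Φ := Φ)
  rw [← ncard_D hΦ hε hκ h2 h3 ht]
  refine ncard_eq_mul (fun x y => Commute y x) ?_ fun y hy => ?_
  · rintro x ⟨hx, h1, y, hy, h4, h5⟩
    have k : ∀ z, Commute t z → Commute z x → z ≠ x := fun z h _ e => h1 (e ▸ h)
    have k' : y ≠ t := fun e => h1 (e ▸ h5)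
    exact ⟨y, ⟨⟨hy, k', h4⟩, h5⟩, fun z hz => third_uniq hΦ hε hκ h2 h3 ht hx hz.1.1 hy
      (fun e => h1 (e ▸ Commute.refl _)) hz.1.2.1 (k z hz.1.2.2 hz.2) hz.1.2.2 hz.2.symm k' (k y h4 h5) h4
      h5.symm⟩
  · have h1 := third hΦ hε hκ h2 h3 ht hy.1 hy.2.1 hy.2.2
    have h4 := Set.mem_singleton (t * y)
    rw [← h1] at h4
    rw [ncard_D hΦ hε hκ h2 h3 ht, ← ncard_D hΦ hε hκ h2 h3 hy.1, ← Set.ncard_pair h4.2.1.symm,
      ← Set.ncard_sdiff (by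
        rintro _ (rfl | rfl)
        exacts [⟨ht, hy.2.1.symm, hy.2.2.symm⟩, ⟨h4.1, h4.2.2.1, h4.2.2.2.2⟩])]
    congr 1
    ext x
    refine ⟨fun h => ⟨⟨h.1.1, fun e => h.1.2.1 (e ▸ hy.2.2), h.2⟩, ?_⟩, fun h => ⟨⟨h.1.1, fun e => ?_,
      y, hy.1, hy.2.2, h.1.2.2⟩, h.1.2.2⟩⟩
    · rintro (rfl | rfl)
      exacts [h.1.2.1 (Commute.refl _), h.1.2.1 h4.2.2.2.1]
    · refine h.2 (or_iff_not_imp_left.2 fun e' => ?_)
      rw [← h1]
      exact ⟨h.1.1, e', h.1.2.1, e, h.1.2.2⟩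

theorem exists_path (hq : 3 ≤ q) {t x : SO Φ} (ht : Inv t) (hx : Inv x) :
    ∃ y z, Inv y ∧ Inv z ∧ Commute t y ∧ Commute y z ∧ Commute z x := by
  have := finite_of_fd F V
  obtain ⟨v, hv⟩ := ht.exists_ax hΦ hε hκ h2 h3
  obtain ⟨w, hw⟩ := hx.exists_ax hΦ hε hκ h2 h3
  by_contra hc
  obtain ⟨h6, h7⟩ := perp_one hΦ h3 hv.1
  obtain ⟨h8, h9⟩ := perp_one hΦ h3 hw.1
  have h4 := ncard_iso hε hκ h7
  have h5 := ncard_split (Φ := Φ) (Φ.perp (F ∙ v))
  have h10 := ncard_iso hε hκ h9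
  rw [h6] at h4 h5
  rw [h8, if_pos (by decide)] at h10
  rw [h4, if_pos (by decide)] at h5
  have h := ncard_le_mul_of_cover (Set.toFinite {w | w ∈ Φ.perp (F ∙ v) ∧ Φ.B w w ≠ 0})
    (Set.toFinite ({p | p ∈ Φ.perp (F ∙ w) ∧ Φ.B p p = 0} \ {0})).toFinset (fun p u => Φ.B u p = 0)
    (q ^ 2 - 1) (q ^ 2 - 1) (fun u hu => by
      obtain ⟨p, h0, p1, p2⟩ := exists_perp hΦ h3 u w
      have p3 : Φ.B p p = 0 := by
        by_contra p3
        obtain ⟨y, hy⟩ := exists_ax hΦ hε hκ h3 hu.2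
        obtain ⟨z, hz⟩ := exists_ax hΦ hε hκ h3 p3
        exact hc ⟨y, z, hy.inv h2 h3, hz.inv h2 h3, (hv.comm_iff h2 hy).2
          (.inr ((mem_perp_span_singleton _).1 hu.1)), (hy.comm_iff h2 hz).2 (.inr p1),
          ((hw.comm_iff h2 hz).2 (.inr p2)).symm⟩
      rw [← ncard_line hF h0]
      refine Set.ncard_le_ncard ?_
      rintro a ⟨a0, ha⟩
      obtain ⟨c, rfl⟩ := Submodule.mem_span_singleton.1 ha
      simpa [mem_perp_span_singleton, p1, p2, p3, B_smul_left] using a0) fun p hp => by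
      simp only [Set.Finite.mem_toFinset, Set.mem_sdiff, Set.mem_ofPred_eq, Set.mem_singleton_iff] at hp
      obtain ⟨a, a0, a1, a2⟩ := exists_perp hΦ h3 v p
      rw [← ncard_line hF a0]
      refine Set.ncard_le_ncard fun u hu => ⟨fun e => hu.1.2 (by simp [e]), perp_uniq hΦ h3 hv.ne (fun e => ?_)
        a0 a1 a2 ((mem_perp_span_singleton _).1 hu.1.1) (Φ.B_eq_zero_symm hu.2)⟩
      obtain ⟨c, rfl⟩ := Submodule.mem_span_singleton.1 e
      have := hp.1.2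
      simp only [B_smul_left, map_smul, smul_eq_mul, mul_eq_zero, map_eq_zero, hv.1, or_false, or_self] at this
      exact hp.2 (by simp [this])
  rw [← Set.ncard_eq_toFinset_card _, Set.ncard_sdiff_singleton_of_mem (by simp), h10, Nat.add_sub_cancel,
    mul_comm] at h
  have : 1 < q ^ 2 := Nat.one_lt_pow two_ne_zero (by omega)
  replace h := Nat.le_of_mul_le_mul_right h (by omega)
  zify [this.le] at h h5
  have h11 : (3 : ℤ) ≤ q := by exact_mod_cast hq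
  norm_num at h h5
  nlinarith [mul_pos (show (0 : ℤ) < q ^ 2 - 1 by nlinarith) (show (0 : ℤ) < q ^ 2 - 2 * q - 1 by nlinarith)]

end H22.SuI
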