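import Cfsg.Agent.H22.WeB

/-!
Representations of symplectic groups all of whose weights have rank at most one.
-/

set_option autoImplicit false
set_option linter.unusedSectionVars false

namespace H22.We.SC

open Module H23 H23.Form H22.Ls

variable {F V : Type*} [Field F] [AddCommGroup V] [Module F V] [FiniteDimensional F V] {C : SC F V}
  [Fintype F] {W : Type*} [AddCommGroup W] [Module ℂ W] {ρ : Representation ℂ C.Φ.O W}

local notation "ψ" => LC.ψ0 F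

theorem R1.elim (H : C.R1 ρ) {u v : V} (h : C.Φ.B u v = 0) {S T : End ℂ W}
    (k : ∀ w a β b, w ≠ 0 → β ^ 2 = 4 * a * b → w ∈ C.Ev ρ u a → w ∈ C.Ev ρ v b →
      (∀ t : F, w ∈ C.Ev ρ (u + t • v) (a + β * t + b * t ^ 2)) → S w = T w) : S = T :=
  H u v h S T fun w a β b h0 h1 h2 => k w a β b h0 h1 (by simpa using h2 1 0)
    (by simpa using h2 0 1) fun t => by simpa using h2 1 t

theorem h_ev' {c u : V} {a β b : F} {w : W} (h1 : w ∈ C.Ev ρ c a) (h2 : w ∈ C.Ev ρ u b)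
    (h3 : ∀ t : F, w ∈ C.Ev ρ (c + t • u) (a + β * t + b * t ^ 2)) (x : F) :
    ρ (C.h c (x • u)) w = ψ (β * x) • w := by
  rw [h_ev h1 (Ev_smul h2 x) (h3 x)]
  congr 2
  ring

theorem fixA (H : C.R1 ρ) {c u : V} (h : C.Φ.B c u = 0) {w : W} (hw : w ∈ C.Ev ρ c 0) :
    ρ (C.h c u) w = w := by
  classical
  have : ρ (C.h c u) * C.p ρ c 0 = C.p ρ c 0 := H.elim h fun w a β b _ h1 h2 h3 h4 => by
    rw [End.mul_apply, p_apply h2]
    split_ifs with e
    · subst e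
      have := h_ev' h2 h3 h4 1
      rw [show β = 0 by simpa using h1] at this
      simpa using this
    · simp
  have h1 := LinearMap.congr_fun this w
  rwa [End.mul_apply, p_self hw] at h1

variable (C ρ) in
def NoFix : Prop := ∀ w, (∀ g, ρ g w = w) → w = 0

theorem fixB (H : C.R1 ρ) (H' : C.NoFix ρ) {c d : V} (h : C.Φ.B c d ≠ 0) {w : W}
    (hc : w ∈ C.Ev ρ c 0) (hd : w ∈ C.Ev ρ d 0) : w = 0 := by
  have step : ∀ c d z, C.Φ.B c d ≠ 0 → C.Φ.B c z ≠ 0 → w ∈ C.Ev ρ c 0 → w ∈ C.Ev ρ d 0 →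
      w ∈ C.Ev ρ z 0 := by
    intro c d z h1 h2 hc hd
    have h3 := Ev_smul hd (C.Φ.B c z / C.Φ.B c d)
    rw [zero_mul] at h3
    have h4 : C.Φ.B c ((C.Φ.B c z / C.Φ.B c d) • d) = C.Φ.B c z := by
      rw [map_smul, smul_eq_mul, div_mul_cancel₀ _ h1]
    generalize (C.Φ.B c z / C.Φ.B c d) • d = d' at h3 h4
    have h5 : C.Φ.B c ((C.Φ.B c z)⁻¹ • (z - d')) = 0 := by simp [h4]
    have h6 := Ev_conj h3 (C.h c ((C.Φ.B c z)⁻¹ • (z - d')))
    rw [fixA H h5 hc, C.h_apply h5, h4, smul_inv_smul₀ h2, add_sub_cancel] at h6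
    generalize C.Φ.B ((C.Φ.B c z)⁻¹ • (z - d')) d' = r at h6
    have h7 := Ev_conj h6 (C.T c (-r / C.Φ.B c z))
    rw [hc, T_apply, map_add, map_smul, C.alt, smul_zero, add_zero, div_mul_cancel₀ _ h2] at h7
    simpa using h7
  have all : ∀ z, w ∈ C.Ev ρ z 0 := fun z => by
    by_cases hz : z = 0
    · exact hz ▸ Ev_zero w
    obtain ⟨e, e1, e2⟩ : ∃ e, C.Φ.B c e ≠ 0 ∧ C.Φ.B z e ≠ 0 := by
      obtain ⟨y, hy⟩ := C.hΦ.exists_ne hz
      by_cases a1 : C.Φ.B z d = 0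
      · by_cases a2 : C.Φ.B c y = 0
        · exact ⟨d + y, by simpa [a2] using h, by simp [a1, hy]⟩
        · exact ⟨y, a2, by simp [hy]⟩
      · exact ⟨d, h, a1⟩
    exact step e c z (by rwa [C.skew, neg_ne_zero]) (by rwa [C.skew, neg_ne_zero])
      (step c d e h e1 hc hd) hc
  refine H' w fun g => ?_
  refine Subgroup.closure_induction'' (p := fun g _ => ρ g w = w) ?_ ?_ (by simp)
    (fun x y _ _ hx hy => by rw [← rep_mul, hy, hx]) (C.closure_T ▸ Subgroup.mem_top g)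
  · rintro _ ⟨v, a, rfl⟩
    simpa using all v a
  · rintro _ ⟨v, a, rfl⟩
    simpa [T_inv] using all v (-a)

theorem kill (H : C.R1 ρ) (H' : C.NoFix ρ) (h3 : 3 ≤ finrank F V) {u v : V} (h : C.Φ.B u v ≠ 0)
    {D : End ℂ W} (hD : ∀ c, C.Φ.B c u = 0 → C.Φ.B c v = 0 → (∀ w ∈ C.Ev ρ c 0, D w ∈ C.Ev ρ c 0) ∧
      ∀ a, a ≠ 0 → ∀ w ∈ C.Ev ρ c a, D w = 0) : D = 0 := by
  have key : ∀ c, C.Φ.B c u = 0 ∧ C.Φ.B c v = 0 → ∀ w, D w ∈ C.Ev ρ c 0 := fun c hc w => by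
    rw [← sum_p (C := C) (ρ := ρ) c w, map_sum]
    refine Submodule.sum_mem _ fun a _ => ?_
    by_cases ha : a = 0
    · exact (hD c hc.1 hc.2).1 _ (ha ▸ p_mem c a w)
    · rw [(hD c hc.1 hc.2).2 a ha _ (p_mem c a w)]
      exact zero_mem _
  obtain ⟨c, d, hc, hd, hcd⟩ := C.exists_hyp h3 h
  exact LinearMap.ext fun w => fixB H H' hcd (key c hc w) (key d hd w)

theorem p_mul_p_perp (h2 : (2 : F) ≠ 0) (H : C.R1 ρ) {u v : V} (h : C.Φ.B u v = 0) {a b : F}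
    (hab : ¬ IsSquare (a * b)) : C.p ρ u a * C.p ρ v b = 0 := by
  classical
  refine H.elim h fun w a' β b' _ h1 h3 h4 _ => ?_
  rw [End.mul_apply, p_apply h4]
  split_ifs with e
  · rw [p_apply h3, if_neg]
    · rfl
    · rintro rfl
      refine hab ⟨β / 2, ?_⟩
      field_simp
      linear_combination -h1 + 4 * a * e
  · simp

theorem p_mul_p (h2 : (2 : F) ≠ 0) (H : C.R1 ρ) (H' : C.NoFix ρ) (h3 : 3 ≤ finrank F V) (u v : V)
    {a b : F} (hab : ¬ IsSquare (a * b)) : C.p ρ u a * C.p ρ v b = 0 := by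
  by_cases h : C.Φ.B u v = 0
  · exact p_mul_p_perp h2 H h hab
  refine kill H H' h3 h fun c hu hv => ⟨fun w hw => p_mem' hu _ (p_mem' hv _ hw), fun m hm w hw => ?_⟩
  by_cases hb : IsSquare (b * m)
  · have h1 := LinearMap.congr_fun (p_mul_p_perp h2 H (C.Φ.B_eq_zero_symm hu) (a := a) (b := m)
      fun ⟨r, hr⟩ => hab (by
        obtain ⟨t, ht⟩ := hb
        refine ⟨r * t / m, ?_⟩
        field_simp
        linear_combination (b * m) * hr + r * r * ht)) (C.p ρ v b w)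
    rwa [End.mul_apply, p_self (p_mem' hv _ hw)] at h1
  · have h1 := LinearMap.congr_fun (p_mul_p_perp h2 H (C.Φ.B_eq_zero_symm hv) hb) w
    rw [End.mul_apply, p_self hw] at h1
    rw [End.mul_apply, h1]
    simp

variable (C ρ) in
/-- the eigenvalues lie in the square class of `l` -/
def Ty (l : F) : Prop := ∀ v a, ∀ w ∈ C.Ev ρ v a, w ≠ 0 → ∃ y, a = l * y ^ 2

theorem exists_type (h2 : (2 : F) ≠ 0) (H : C.R1 ρ) (H' : C.NoFix ρ) (h3 : 3 ≤ finrank F V)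
    (hρ : ρ.IsIrreducible) : ∃ l, l ≠ 0 ∧ C.Ty ρ l ∧ ∃ u, C.p ρ u l ≠ 0 := by
  classical
  obtain ⟨hn, hρ⟩ := (H17.isIrreducible_iff ρ).1 hρ
  obtain ⟨u, l, hl, hp⟩ : ∃ u l, l ≠ 0 ∧ C.p ρ u l ≠ 0 := by
    by_contra! hc
    obtain ⟨w, hw⟩ := exists_ne (0 : W)
    have all : ∀ v a, ρ (C.T v a) = 1 := fun v a => ext1 (C := C) (ρ := ρ) v fun b w hw => by
      by_cases hb : b = 0
      · simpa [hb] using hw a
      · rw [← p_self hw, hc v b hb]
        simp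
    refine hw (H' w fun g => ?_)
    refine Subgroup.closure_induction'' (p := fun g _ => ρ g w = w) ?_ ?_ (by simp)
      (fun x y _ _ hx hy => by rw [← rep_mul, hy, hx]) (C.closure_T ▸ Subgroup.mem_top g)
    · rintro _ ⟨v, a, rfl⟩
      simp [all]
    · rintro _ ⟨v, a, rfl⟩
      simp [T_inv, all]
  refine ⟨l, hl, fun v a w hw h0 => ?_, u, hp⟩
  let U : Submodule ℂ W := ⨅ v, ⨅ b, ⨅ _ : ¬ IsSquare (b * l), LinearMap.ker (C.p ρ v b)
  have hU : U = ⊤ := by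
    refine (hρ U fun g x hx => ?_).resolve_left fun e => hp (LinearMap.ext fun x => ?_)
    · simp only [U, Submodule.mem_iInf, LinearMap.mem_ker] at hx ⊢
      intro v b hb
      have := LinearMap.congr_fun (p_conj (ρ := ρ) ((g⁻¹).1 v) b g) x
      rw [O_apply_inv_apply, End.mul_apply, End.mul_apply, hx _ _ hb, map_zero] at this
      exact this.symm
    · refine (Submodule.eq_bot_iff _).1 e _ ?_
      simp only [U, Submodule.mem_iInf, LinearMap.mem_ker]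
      exact fun v b hb => LinearMap.congr_fun (p_mul_p h2 H H' h3 v u hb) x
  have h1 : w ∈ U := hU ▸ Submodule.mem_top
  simp only [U, Submodule.mem_iInf, LinearMap.mem_ker] at h1
  by_contra hc
  refine h0 ((p_self hw).symm.trans (h1 v a fun ⟨r, hr⟩ => hc ⟨r / l, ?_⟩))
  field_simp
  linear_combination hr

open Classical in
noncomputable def sf (l a : F) : ℂ :=
  if h : ∃ y, a = l * y ^ 2 then ψ h.choose + ψ (-h.choose) else 0

theorem sf_eq {l : F} (hl : l ≠ 0) (y : F) : sf l (l * y ^ 2) = ψ y + ψ (-y) := by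
  have h : ∃ z, l * y ^ 2 = l * z ^ 2 := ⟨y, rfl⟩
  rw [sf, dif_pos h]
  rcases sq_eq_sq_iff_eq_or_eq_neg.1 (mul_left_cancel₀ hl h.choose_spec) with e | e
  · rw [← e]
  · rw [neg_eq_iff_eq_neg.1 e.symm, neg_neg, add_comm]

variable (C ρ) in
/-- the operators `w(v) + w(-v)` -/
noncomputable def s (l : F) (v : V) : End ℂ W := C.fc ρ v (sf l)

theorem s_apply {l : F} (hl : l ≠ 0) {v : V} {y : F} {w : W} (hw : w ∈ C.Ev ρ v (l * y ^ 2)) :
    C.s ρ l v w = (ψ y + ψ (-y)) • w := by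
  rw [s, fc_apply hw, sf_eq hl]

theorem s_on (h2 : (2 : F) ≠ 0) (H : C.R1 ρ) {l m : F} (hl : l ≠ 0) (hm : m ≠ 0) {c u : V}
    (h : C.Φ.B c u = 0) {w : W} (hw : w ∈ C.Ev ρ c (l * m ^ 2)) : C.s ρ l u w =
      ρ (C.h c ((2 * l * m)⁻¹ • u)) w + ρ (C.h c (-((2 * l * m)⁻¹ • u))) w := by
  classical
  have : C.s ρ l u * C.p ρ c (l * m ^ 2) = (ρ (C.h c ((2 * l * m)⁻¹ • u)) +
      ρ (C.h c (-((2 * l * m)⁻¹ • u)))) * C.p ρ c (l * m ^ 2) :=
    H.elim h fun w a β b _ h1 h3 h4 h5 => by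
      rw [End.mul_apply, End.mul_apply, p_apply h3]
      split_ifs with e
      · subst e
        rw [LinearMap.add_apply, ← neg_smul, h_ev' h3 h4 h5, h_ev' h3 h4 h5, ← add_smul, mul_neg,
          s_apply hl]
        convert h4
        field_simp
        linear_combination h1
      · simp
  have h1 := LinearMap.congr_fun this w
  rwa [End.mul_apply, End.mul_apply, p_self hw] at h1

theorem h_h {c u v : V} (hu : C.Φ.B c u = 0) (hv : C.Φ.B c v = 0) {a : F} {w : W}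
    (hw : w ∈ C.Ev ρ c a) :
    ρ (C.h c u) (ρ (C.h c v) w) = ψ (a * C.Φ.B u v) • ρ (C.h c (u + v)) w := by
  rw [rep_mul, C.h_mul hu hv, ← rep_mul, hw, map_smul]

theorem s_mul (h2 : (2 : F) ≠ 0) (H : C.R1 ρ) (H' : C.NoFix ρ) (h3 : 3 ≤ finrank F V) {l : F}
    (hl : l ≠ 0) (hT : C.Ty ρ l) (u v : V) : C.s ρ l u * C.s ρ l v =
      ψ (C.Φ.B u v / (4 * l)) • C.s ρ l (u + v) + ψ (-(C.Φ.B u v / (4 * l))) • C.s ρ l (u - v) := by
  by_cases h : C.Φ.B u v = 0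
  · refine H.elim h fun w a β b h0 h1 h4 h5 h6 => ?_
    obtain ⟨y, rfl⟩ := hT _ _ w h4 h0
    obtain ⟨z, hz, rfl⟩ : ∃ z, b = l * z ^ 2 ∧ β = 2 * l * y * z := by
      obtain ⟨z, rfl⟩ := hT _ _ w h5 h0
      rcases sq_eq_sq_iff_eq_or_eq_neg.1 (show β ^ 2 = (2 * l * y * z) ^ 2 by
        linear_combination h1) with e | e
      · exact ⟨z, rfl, e⟩
      · exact ⟨-z, by ring, by rw [e]; ring⟩
    subst hz
    have a1 : w ∈ C.Ev ρ (u + v) (l * (y + z) ^ 2) := by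
      convert h6 1 using 2
      · simp
      · ring
    have a2 : w ∈ C.Ev ρ (u - v) (l * (y - z) ^ 2) := by
      convert h6 (-1) using 2
      · simp [sub_eq_add_neg]
      · ring
    simp only [End.mul_apply, LinearMap.add_apply, LinearMap.smul_apply, s_apply hl h5, map_smul,
      s_apply hl h4, s_apply hl a1, s_apply hl a2, h, zero_div, neg_zero, AddChar.map_zero_eq_one,
      one_smul, smul_smul, ← add_smul]
    simp only [sub_eq_add_neg, neg_add, neg_neg, AddChar.map_add_eq_mul]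
    congr 1
    ring
  refine sub_eq_zero.1 (kill H H' h3 h fun c hu hv => ⟨fun w hw => sub_mem
    (fc_mem hu _ (fc_mem hv _ hw)) (add_mem (Submodule.smul_mem _ _ (fc_mem (by simp [hu, hv]) _ hw))
      (Submodule.smul_mem _ _ (fc_mem (by simp [hu, hv]) _ hw))), fun a ha w hw => ?_⟩)
  by_cases h0 : w = 0
  · simp [h0]
  obtain ⟨m, rfl⟩ := hT _ _ w hw h0
  have hm : m ≠ 0 := by rintro rfl; simp at ha
  have e1 : C.Φ.B c ((2 * l * m)⁻¹ • u) = 0 := by simp [hu]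
  have e2 : C.Φ.B c ((2 * l * m)⁻¹ • v) = 0 := by simp [hv]
  have e3 : l * m ^ 2 * C.Φ.B ((2 * l * m)⁻¹ • u) ((2 * l * m)⁻¹ • v) = C.Φ.B u v / (4 * l) := by
    have : (4 : F) ≠ 0 := by rw [show (4 : F) = 2 * 2 by norm_num]; exact mul_ne_zero h2 h2
    rw [B_smul_left, B_smul_right, RingHom.id_apply]
    field_simp
    ring
  rw [LinearMap.sub_apply, End.mul_apply, LinearMap.add_apply, LinearMap.smul_apply,
    LinearMap.smul_apply, s_on h2 H hl hm hu (w := C.s ρ l v w) (fc_mem hv _ hw),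
    s_on h2 H hl hm hv hw, s_on h2 H hl hm (u := u + v) (by simp [hu, hv]) hw,
    s_on h2 H hl hm (u := u - v) (by simp [hu, hv]) hw, smul_add _ u, smul_sub _ u]
  generalize (2 * l * m)⁻¹ • u = u' at *
  generalize (2 * l * m)⁻¹ • v = v' at *
  have e4 : C.Φ.B c (-u') = 0 := by simp [e1]
  have e5 : C.Φ.B c (-v') = 0 := by simp [e2]
  rw [map_add, map_add, h_h e1 e2 hw, h_h e1 e5 hw, h_h e4 e2 hw, h_h e4 e5 hw]
  simp only [map_neg, LinearMap.neg_apply, mul_neg, neg_neg, e3, smul_add, neg_add, neg_sub,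
    sub_eq_add_neg]
  abel

end H22.We.SC
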