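import Cfsg.Agent.H22.WeC
import Cfsg.Agent.H17.Ortho

/-!
At most two irreducible characters of each rank-one type.
-/

set_option autoImplicit false
set_option linter.unusedSectionVars false

namespace H22.We.SC

open Module H23 H23.Form H22.Ls Cfsg

variable {F V : Type*} [Field F] [AddCommGroup V] [Module F V] [FiniteDimensional F V] {C : SC F V}
  [Fintype F]

local notation "ψ" => LC.ψ0 F

theorem fourier (g : F → ℂ) (y : F) :
    ∑ a, (∑ z, g z * ψ (-(a * z))) * ψ (a * y) = Fintype.card F * g y := by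
  classical
  simp only [Finset.sum_mul, mul_assoc, ← AddChar.map_add_eq_mul]
  rw [Finset.sum_comm]
  have : ∀ z, ∑ a, ψ (-(a * z) + a * y) = if z = y then (Fintype.card F : ℂ) else 0 := fun z => by
    simp only [show ∀ a, -(a * z) + a * y = (y - z) * a from fun a => by ring, sum_psi, sub_eq_zero,
      eq_comm]
  simp only [← Finset.mul_sum, this]
  simp [mul_comm]

theorem exists_kappa (l c : F) : ∃ κ : F → ℂ, ∀ y,
    ∑ a, κ a * (ψ (a * y) + ψ (-(a * y))) = ψ (l * y ^ 2 * c) := by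
  refine ⟨fun a => (2 * Fintype.card F : ℂ)⁻¹ * ∑ z, ψ (l * z ^ 2 * c) * ψ (-(a * z)), fun y => ?_⟩
  have h1 := fourier (fun z => ψ (l * z ^ 2 * c)) y
  have h2 := fourier (fun z => ψ (l * z ^ 2 * c)) (-y)
  simp only [mul_neg, neg_sq] at h2
  simp only [mul_assoc _ (∑ _, _), ← Finset.mul_sum, mul_add, Finset.sum_add_distrib, h1, h2]
  have : (Fintype.card F : ℂ) ≠ 0 := Nat.cast_ne_zero.2 Fintype.card_ne_zero
  field_simp
  ring

section

variable {W : Type*} [AddCommGroup W] [Module ℂ W] {ρ : Representation ℂ C.Φ.O W}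

theorem T_eq {l : F} (hl : l ≠ 0) (hT : C.Ty ρ l) {c : F} {κ : F → ℂ}
    (hκ : ∀ y, ∑ a, κ a * (ψ (a * y) + ψ (-(a * y))) = ψ (l * y ^ 2 * c)) (v : V) :
    ρ (C.T v c) = ∑ a, κ a • C.s ρ l (a • v) := ext1 (C := C) (ρ := ρ) v fun b w hw => by
  by_cases h0 : w = 0
  · simp [h0]
  obtain ⟨y, rfl⟩ := hT _ _ w hw h0
  rw [hw, ← hκ, Finset.sum_smul, LinearMap.sum_apply]
  refine Finset.sum_congr rfl fun a _ => ?_
  rw [LinearMap.smul_apply, s_apply hl (y := a * y) (by convert Ev_smul hw a using 2; ring),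
    smul_smul]

theorem s_zero {l : F} (hl : l ≠ 0) : C.s ρ l 0 = (2 : ℂ) • 1 := LinearMap.ext fun w => by
  rw [s_apply hl (y := 0) (by simpa using Ev_zero w)]
  simp [one_add_one_eq_two]

theorem tr_s [FiniteDimensional ℂ W] (l : F) {u v : V} (hu : u ≠ 0) (hv : v ≠ 0) :
    LinearMap.trace ℂ W (C.s ρ l u) = LinearMap.trace ℂ W (C.s ρ l v) := by
  obtain ⟨g, hg, rfl⟩ := C.hΦ.witt_one hu hv (by rw [C.alt, C.alt])
    (by rw [Q_of_κ C.hκ, Q_of_κ C.hκ])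
  have h := fc_conj (ρ := ρ) u (sf l) ⟨g, hg⟩
  have h1 : C.s ρ l u = ρ (⟨g, hg⟩ : C.Φ.O)⁻¹ * (C.s ρ l (g u) * ρ ⟨g, hg⟩) := by
    rw [s, s, ← h, ← mul_assoc, ← map_mul, inv_mul_cancel, map_one, one_mul]
  rw [h1, LinearMap.trace_mul_comm, mul_assoc, ← map_mul, mul_inv_cancel, map_one, mul_one]

theorem noFix_of_irr [FiniteDimensional ℂ W] (h : ρ.IsIrreducible) (h2 : 2 ≤ finrank ℂ W) :
    C.NoFix ρ := fun w hw => by
  by_contra h0
  rcases ((H17.isIrreducible_iff ρ).1 h).2 (ℂ ∙ w) (fun g v hv => by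
    obtain ⟨t, rfl⟩ := Submodule.mem_span_singleton.1 hv
    rwa [map_smul, hw]) with e | e
  · exact h0 (by simpa using e)
  · have := finrank_span_singleton (K := ℂ) h0
    rw [e, finrank_top] at this
    omega

theorem tr_p_ne [FiniteDimensional ℂ W] {u : V} {a : F} (h : C.p ρ u a ≠ 0) :
    LinearMap.trace ℂ W (C.p ρ u a) ≠ 0 := by
  rw [(show LinearMap.IsProj (C.Ev ρ u a) (C.p ρ u a) from ⟨p_mem u a, fun _ => p_self⟩).trace,
    Nat.cast_ne_zero, Ne, Submodule.finrank_eq_zero]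
  exact fun e => h (LinearMap.ext fun w => (Submodule.eq_bot_iff _).1 e _ (p_mem u a w))

theorem tr_p [FiniteDimensional ℂ W] (u : V) (a : F) : LinearMap.trace ℂ W (C.p ρ u a) =
    (Fintype.card F : ℂ)⁻¹ * ∑ c, ψ (-(a * c)) * ρ.character (C.T u c) := by
  simp [p, Representation.character]

end

variable (C) in
def Good (l : F) (χ : C.Φ.O → ℂ) : Prop := ∃ (k : ℕ) (ρ : Representation ℂ C.Φ.O (Fin k → ℂ)),
  (C.R1 ρ ∧ C.NoFix ρ ∧ C.Ty ρ l) ∧ ρ.character = χ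

theorem card_type (h2 : (2 : F) ≠ 0) (h3 : 3 ≤ finrank F V) {l : F} (hl : l ≠ 0) :
    {χ : IrrCharacter C.Φ.O | C.Good l χ}.ncard ≤ 2 := by
  have := finite_O (Φ := C.Φ)
  have : Nontrivial V := Module.nontrivial_of_finrank_pos (R := F) (by omega)
  obtain ⟨v0, hv0⟩ := exists_ne (0 : V)
  let ι := Σ k : ℕ, {ρ : Representation ℂ C.Φ.O (Fin k → ℂ) // C.R1 ρ ∧ C.NoFix ρ ∧ C.Ty ρ l}
  let S : V → ∀ i : ι, End ℂ (Fin i.1 → ℂ) := fun v i => C.s i.2.1 l v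
  let M := Submodule.span ℂ (Set.range S)
  have hS : ∀ v, S v ∈ M := fun v => Submodule.subset_span ⟨v, rfl⟩
  have hmul : M * M ≤ M := by
    rw [Submodule.span_mul_span, Submodule.span_le]
    rintro _ ⟨_, ⟨u, rfl⟩, _, ⟨v, rfl⟩, rfl⟩
    have : S u * S v = ψ (C.Φ.B u v / (4 * l)) • S (u + v) +
        ψ (-(C.Φ.B u v / (4 * l))) • S (u - v) :=
      funext fun i => s_mul h2 i.2.2.1 i.2.2.2.1 h3 hl i.2.2.2.2 u v
    change S u * S v ∈ M
    exact this ▸ add_mem (M.smul_mem _ (hS _)) (M.smul_mem _ (hS _))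
  have hT : ∀ v c, (fun i : ι => i.2.1 (C.T v c)) ∈ M := fun v c => by
    obtain ⟨κ, hκ⟩ := exists_kappa l c
    have : (fun i : ι => i.2.1 (C.T v c)) = ∑ a, κ a • S (a • v) := funext fun i => by
      rw [T_eq hl i.2.2.2.2 hκ, Finset.sum_apply]
      rfl
    exact this ▸ M.sum_mem fun a _ => M.smul_mem _ (hS _)
  have hΓ : ∀ g, (fun i : ι => i.2.1 g) ∈ M := fun g => by
    refine Subgroup.closure_induction'' (p := fun g _ => (fun i : ι => i.2.1 g) ∈ M) ?_ ?_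
      (C.T_zero 0 ▸ hT 0 0) (fun x y _ _ hx hy => ?_) (C.closure_T ▸ Subgroup.mem_top g)
    · rintro _ ⟨v, a, rfl⟩
      exact hT v a
    · rintro _ ⟨v, a, rfl⟩
      exact C.T_inv v a ▸ hT v (-a)
    · convert hmul (Submodule.mul_mem_mul hx hy) using 1
      exact funext fun i => map_mul _ _ _
  have hN : ∀ x ∈ M, ∃ α β : ℂ, ∀ i, LinearMap.trace ℂ _ (x i) =
      LinearMap.trace ℂ _ (S 0 i) * α + LinearMap.trace ℂ _ (S v0 i) * β := fun x hx => by
    induction hx using Submodule.span_induction with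
    | mem x hx =>
      obtain ⟨v, rfl⟩ := hx
      by_cases hv : v = 0
      · exact ⟨1, 0, fun i => by simp [hv]⟩
      · exact ⟨0, 1, fun i => by simpa using tr_s l hv hv0⟩
    | zero => exact ⟨0, 0, fun i => by simp⟩
    | add x y _ _ hx hy =>
      obtain ⟨a, b, h⟩ := hx
      obtain ⟨a', b', h'⟩ := hy
      exact ⟨a + a', b + b', fun i => by rw [Pi.add_apply, map_add, h, h']; ring⟩
    | smul c x _ hx =>
      obtain ⟨a, b, h⟩ := hx
      exact ⟨c * a, c * b, fun i => by rw [Pi.smul_apply, map_smul, h, smul_eq_mul]; ring⟩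
  choose α β hαβ using fun g => hN _ (hΓ g)
  have hm : ∀ χ : {χ : IrrCharacter C.Φ.O | C.Good l χ},
      (χ.1 : C.Φ.O → ℂ) ∈ Submodule.span ℂ {α, β} := fun ⟨χ, k, ρ, h, e⟩ =>
    Submodule.mem_span_pair.2 ⟨_, _, funext fun g => (hαβ g ⟨k, ρ, h⟩).symm.trans (congrFun e g)⟩
  have hli : LinearIndependent ℂ fun χ => (⟨_, hm χ⟩ : Submodule.span ℂ {α, β}) :=
    LinearIndependent.of_comp (Submodule.subtype _)
      (H17.linearIndependent_irr.comp _ Subtype.val_injective)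
  have := hli.finite
  have := Fintype.ofFinite {χ : IrrCharacter C.Φ.O | C.Good l χ}
  have h4 := hli.fintype_card_le_finrank.trans (span_pair_le α β)
  rwa [← Nat.card_eq_fintype_card, Nat.card_coe_set_eq] at h4

/-- conjugation by a similitude -/
noncomputable def sim (D : V ≃ₗ[F] V) {e : F} (he : e ≠ 0)
    (hD : ∀ x y, C.Φ.B (D x) (D y) = e * C.Φ.B x y) : C.Φ.O →* C.Φ.O where
  toFun g := ⟨D⁻¹ * g.1 * D, fun x y => mul_left_cancel₀ he (by
    rw [← hD, ← hD]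
    simpa using g.2.1 (D x) (D y)), fun x => by rw [Q_of_κ C.hκ, Q_of_κ C.hκ]⟩
  map_one' := Subtype.ext (by simp)
  map_mul' g h := Subtype.ext (by simp [mul_assoc])

theorem sim_T (D : V ≃ₗ[F] V) {e : F} (he : e ≠ 0)
    (hD : ∀ x y, C.Φ.B (D x) (D y) = e * C.Φ.B x y) (v : V) (c : F) :
    sim D he hD (C.T (D v) c) = C.T v (e * c) := O_ext _ fun x => by
  change D.symm ((C.T (D v) c).1 (D x)) = _
  simp only [T_apply, hD, map_add, map_smul, LinearEquiv.symm_apply_apply]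
  congr 2
  ring

theorem sim_surj (D : V ≃ₗ[F] V) {e : F} (he : e ≠ 0)
    (hD : ∀ x y, C.Φ.B (D x) (D y) = e * C.Φ.B x y) : Function.Surjective (sim D he hD) := by
  have := finite_O (Φ := C.Φ)
  refine Finite.surjective_of_injective fun g h e => Subtype.ext ?_
  simpa [sim] using congrArg Subtype.val e

theorem twist_ne (D : V ≃ₗ[F] V) {e : F} (he : ¬ IsSquare e)
    (hD : ∀ x y, C.Φ.B (D x) (D y) = e * C.Φ.B x y) (he0 : e ≠ 0) {W : Type*} [AddCommGroup W]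
    [Module ℂ W] [FiniteDimensional ℂ W] {ρ : Representation ℂ C.Φ.O W} {l : F} (hl : l ≠ 0)
    (hT : C.Ty ρ l) {u : V} (hu : C.p ρ u l ≠ 0) :
    ρ.character ∘ sim D he0 hD ≠ ρ.character := fun h => by
  have h1 : LinearMap.trace ℂ W (C.p ρ (D u) (l * e)) = LinearMap.trace ℂ W (C.p ρ u l) := by
    rw [tr_p, tr_p]
    congr 1
    refine Fintype.sum_equiv (Equiv.mulLeft₀ e he0) _ _ fun c => ?_
    rw [← congrFun h, Function.comp_apply, sim_T, mul_assoc]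
    rfl
  refine tr_p_ne hu (h1.symm.trans ?_)
  rw [show C.p ρ (D u) (l * e) = 0 from LinearMap.ext fun w => by_contra fun h0 => ?_, map_zero]
  obtain ⟨y, hy⟩ := hT _ _ _ (p_mem _ _ w) h0
  exact he ⟨y, by rw [mul_left_cancel₀ hl hy, sq]⟩

theorem Ty.of_sq {W : Type*} [AddCommGroup W] [Module ℂ W] {ρ : Representation ℂ C.Φ.O W}
    {l m r : F} (h : C.Ty ρ l) (e : l = m * r ^ 2) : C.Ty ρ m := fun v a w hw h0 => by
  obtain ⟨y, rfl⟩ := h v a w hw h0
  exact ⟨r * y, by rw [e]; ring⟩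

theorem num {q n : ℕ} (hq : 3 ≤ q) (hn : 2 ≤ n) :
    9 ≤ q ^ n ∧ (q + 1) * (q ^ n + 1) < (q ^ n - 1) * (q ^ n - q) := by
  have h1 : q ^ 2 ≤ q ^ n := Nat.pow_le_pow_right (by omega) hn
  obtain ⟨m, hm⟩ := Nat.exists_eq_add_of_le (show q ≤ q ^ n by nlinarith)
  rw [hm] at h1 ⊢
  obtain ⟨r, rfl⟩ := Nat.exists_eq_add_of_le hq
  rw [Nat.add_sub_cancel_left, show 3 + r + m - 1 = 2 + r + m by omega]
  obtain ⟨k, rfl⟩ := Nat.exists_eq_add_of_le (show r + 6 ≤ m by nlinarith)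
  constructor <;> nlinarith [Nat.zero_le (r * k), Nat.zero_le (k * k)]

theorem main (h2 : (2 : F) ≠ 0) {L : Submodule F V} (hL : ∀ u ∈ L, ∀ v ∈ L, C.Φ.B u v = 0) {n : ℕ}
    (hn : 2 ≤ n) (hd : finrank F L = n) (h3 : 3 ≤ finrank F V) (D : V ≃ₗ[F] V) {e : F}
    (he : ¬ IsSquare e) (hD : ∀ x y, C.Φ.B (D x) (D y) = e * C.Φ.B x y) {a b : ℕ}
    (ha : 2 * a = Fintype.card F ^ n + 1) (hb : 2 * b + 1 = Fintype.card F ^ n)
    (hq : 3 ≤ Fintype.card F) (ea : ∃ ρ : Representation ℂ C.Φ.O (Fin a → ℂ), ρ.IsIrreducible)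
    (eb : ∃ ρ : Representation ℂ C.Φ.O (Fin b → ℂ), ρ.IsIrreducible) :
    {χ : IrrCharacter C.Φ.O | χ.1 1 = a}.ncard = 2 ∧ {χ : IrrCharacter C.Φ.O | χ.1 1 = b}.ncard = 2 ∧
    ∀ χ : IrrCharacter C.Φ.O, χ.1 1 ≠ 1 → χ.1 1 ≠ a → χ.1 1 ≠ b → ∃ k : ℕ, χ.1 1 = k ∧
      (Fintype.card F ^ n - 1) * (Fintype.card F ^ n - Fintype.card F) ≤
        2 * (Fintype.card F + 1) * k := by
  have := finite_O (Φ := C.Φ)
  have he0 : e ≠ 0 := by rintro rfl; simp at he
  obtain ⟨n1, n2⟩ := num hq hn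
  have key : ∀ (k : ℕ) (ρ : Representation ℂ C.Φ.O (Fin k → ℂ)), ρ.IsIrreducible → 2 ≤ k →
      2 * (Fintype.card F + 1) * k <
        (Fintype.card F ^ n - 1) * (Fintype.card F ^ n - Fintype.card F) →
      C.R1 ρ ∧ C.NoFix ρ ∧ ∃ l, l ≠ 0 ∧ C.Ty ρ l ∧ ∃ u, C.p ρ u l ≠ 0 := fun k ρ hρ hk h => by
    have h1 := (R1_or (ρ := ρ) h2 hL (by omega)).resolve_right (by simpa [hd] using h)
    have h4 := noFix_of_irr hρ (by simpa using hk)
    exact ⟨h1, h4, exists_type h2 h1 h4 h3 hρ⟩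
  let X := {χ : IrrCharacter C.Φ.O | ∃ k : ℕ, χ.1 1 = k ∧ 2 ≤ k ∧ 2 * (Fintype.card F + 1) * k <
    (Fintype.card F ^ n - 1) * (Fintype.card F ^ n - Fintype.card F)}
  have hX : X.ncard ≤ 4 := by
    refine le_trans (Set.ncard_le_ncard (t := {χ | C.Good 1 χ.1} ∪ {χ | C.Good e χ.1}) ?_)
      ((Set.ncard_union_le _ _).trans (Nat.add_le_add (card_type h2 h3 one_ne_zero)
        (card_type h2 h3 he0)))
    rintro ⟨_, k, ρ, hρ, rfl⟩ ⟨k', h1, h4⟩
    obtain rfl : k = k' := by simpa using h1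
    obtain ⟨a1, a2, l, hl, a3, -⟩ := key k ρ hρ h4.1 h4.2
    by_cases hs : IsSquare l
    · obtain ⟨r, hr⟩ := hs
      exact Or.inl ⟨k, ρ, ⟨a1, a2, a3.of_sq (r := r) (by rw [hr]; ring)⟩, rfl⟩
    · obtain ⟨r, hr⟩ := isSquare_mul_of_not_isSquare hs he
      exact Or.inr ⟨k, ρ, ⟨a1, a2, a3.of_sq (r := r / e) (by field_simp; linear_combination hr)⟩,
        rfl⟩
  have two : ∀ k : ℕ, 2 ≤ k → 2 * (Fintype.card F + 1) * k <
      (Fintype.card F ^ n - 1) * (Fintype.card F ^ n - Fintype.card F) →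
      (∃ ρ : Representation ℂ C.Φ.O (Fin k → ℂ), ρ.IsIrreducible) →
      2 ≤ {χ : IrrCharacter C.Φ.O | χ.1 1 = k}.ncard := fun k hk h ⟨ρ, hρ⟩ => by
    obtain ⟨-, -, l, hl, a3, u, hu⟩ := key k ρ hρ hk h
    exact (Set.one_lt_ncard_iff (Set.toFinite _)).2 ⟨⟨_, k, _, H17.isIrreducible_comp_of_surjective
      ρ _ (sim_surj D he0 hD) hρ, rfl⟩, ⟨_, k, ρ, hρ, rfl⟩, by simp, by simp,
      fun e => twist_ne D he hD he0 hl a3 hu (congrArg Subtype.val e)⟩
  have la : 2 * (Fintype.card F + 1) * a <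
      (Fintype.card F ^ n - 1) * (Fintype.card F ^ n - Fintype.card F) := by
    rw [← ha] at n2
    linarith
  have lb : 2 * (Fintype.card F + 1) * b <
      (Fintype.card F ^ n - 1) * (Fintype.card F ^ n - Fintype.card F) :=
    lt_of_le_of_lt (Nat.mul_le_mul_left _ (by omega)) la
  have ta := two a (by omega) la ea
  have tb := two b (by omega) lb eb
  have hsub : {χ : IrrCharacter C.Φ.O | χ.1 1 = a} ∪ {χ | χ.1 1 = b} ⊆ X := by
    rintro χ (h | h)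
    · exact ⟨a, h, by omega, la⟩
    · exact ⟨b, h, by omega, lb⟩
  have hu := Set.ncard_union_eq (s := {χ : IrrCharacter C.Φ.O | χ.1 1 = a}) (t := {χ | χ.1 1 = b})
    (Set.disjoint_left.2 fun χ h h' => by
      have : a = b := Nat.cast_injective (R := ℂ) (h.symm.trans h')
      omega)
  have hle := Set.ncard_le_ncard hsub
  refine ⟨by omega, by omega, fun χ h1 h4 h5 => ?_⟩
  have hX' := Set.eq_of_subset_of_ncard_le hsub (by omega)
  obtain ⟨k, ρ, hρ, hχ⟩ := χ.2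
  have hk : χ.1 1 = k := by simp [← hχ]
  refine ⟨k, hk, not_lt.1 fun h => ?_⟩
  have h0 := H17.finrank_pos_of_isIrreducible ρ
  have h6 : k ≠ 1 := by rintro rfl; exact h1 (by simpa using hk)
  have : χ ∈ X := ⟨k, hk, by simp at h0; omega, h⟩
  rw [← hX'] at this
  exact this.elim h4 h5

end H22.We.SC
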